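import Mathlib
import Cfsg.Agent.Lib.Helper8.AbIdx

set_option autoImplicit false
set_option linter.style.haveILetI false
set_option linter.unusedSectionVars false
universe u

namespace Cfsg.Agent.Lib.Helper8

open scoped commutatorElement

section
variable {S : Type u} [Group S]

/-- `S` finite, `A` abelian normal of prime index `p`, `x ∉ A`:
`|S : S'| = p * |C_A(x)|` -/
theorem h8_abidx_index [Finite S] {p : ℕ} (hp : p.Prime) (A : Subgroup S) [A.Normal]
    (hAc : ∀ a ∈ A, ∀ b ∈ A, a * b = b * a) (hAi : A.index = p) {x : S} (hx : x ∉ A) :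
    (commutator S).index =
      p * Nat.card (A ⊓ Subgroup.centralizer ({x} : Set S) : Subgroup S) := by
  have hSA := Subgroup.card_mul_index A
  rw [hAi] at hSA
  have hSC := Subgroup.card_mul_index (commutator S)
  have hcpos : 0 < Nat.card (commutator S) := Nat.card_pos
  by_cases hna : ∃ a b : S, a * b ≠ b * a
  · obtain ⟨hZA, hcard⟩ := h8_abidx_card hp A hAc hAi hna
    have heq : A ⊓ Subgroup.centralizer ({x} : Set S) = Subgroup.center S := by
      apply le_antisymm
      · intro z hz
        obtain ⟨hzA, hzc⟩ := Subgroup.mem_inf.mp hz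
        rw [Subgroup.mem_centralizer_singleton_iff] at hzc
        exact h8_center_of_comm hp hAi hx (fun a ha => hAc a ha z hzA) hzc.symm
      · intro z hz
        refine Subgroup.mem_inf.mpr ⟨hZA hz, ?_⟩
        rw [Subgroup.mem_centralizer_singleton_iff]
        exact (Subgroup.mem_center_iff.mp hz x).symm
    rw [heq]
    have : Nat.card (commutator S) * (commutator S).index =
        Nat.card (commutator S) * (p * Nat.card (Subgroup.center S)) := by
      rw [hSC, ← hSA, hcard]; ring
    exact Nat.eq_of_mul_eq_mul_left hcpos this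
  · push Not at hna
    have hbot : commutator S = ⊥ := by
      rw [eq_bot_iff, commutator_def, Subgroup.commutator_le]
      intro a _ b _
      rw [Subgroup.mem_bot, commutatorElement_def, hna a b]; group
    have heq : A ⊓ Subgroup.centralizer ({x} : Set S) = A := by
      apply inf_eq_left.mpr
      intro z _
      rw [Subgroup.mem_centralizer_singleton_iff]
      exact hna z x
    rw [heq, hbot, Subgroup.index_bot, ← hSA]; ring

end

section
variable {P : Type u} [Group P] [Finite P]

theorem h8_s4586_key {p : ℕ} (hp : p.Prime) (N : Subgroup P) [N.Normal]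
    (hN : N.index = p) (x : P) (hx : x ∉ N) :
    ((commutator P).index = p ^ 2 ↔
      Nat.card {n : N // x * n * x⁻¹ * (n : P)⁻¹ ∈ (commutator N).map N.subtype} =
        p * Nat.card (commutator N)) := by
  have hcM : Nat.card (commutator N) = Nat.card (⁅N, N⁆ : Subgroup P) := by
    rw [← Subgroup.map_subtype_commutator]
    exact (Subgroup.card_map_of_injective N.subtype_injective).symm
  rw [Subgroup.map_subtype_commutator, hcM]
  generalize hM : (⁅N, N⁆ : Subgroup P) = M
  haveI : M.Normal := by rw [← hM]; infer_instance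
  have hMN : M ≤ N := by rw [← hM]; exact Subgroup.commutator_le_self N
  have hπs : Function.Surjective (QuotientGroup.mk' M) := QuotientGroup.mk'_surjective M
  have hker : (QuotientGroup.mk' M).ker = M := QuotientGroup.ker_mk' M
  generalize hA : N.map (QuotientGroup.mk' M) = A
  haveI : A.Normal := by
    rw [← hA]; exact Subgroup.Normal.map inferInstance (QuotientGroup.mk' M) hπs
  have hAi : A.index = p := by
    rw [← hA, Subgroup.index_map_eq N hπs (hker.le.trans hMN)]; exact hN
  have hcomap : A.comap (QuotientGroup.mk' M) = N := by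
    rw [← hA]; exact Subgroup.comap_map_eq_self (hker.le.trans hMN)
  have hAc : ∀ a ∈ A, ∀ b ∈ A, a * b = b * a := by
    rw [← hA]
    rintro _ ⟨a, ha, rfl⟩ _ ⟨b, hb, rfl⟩
    rw [← map_mul, ← map_mul]
    apply (QuotientGroup.eq).mpr
    have : (a * b)⁻¹ * (b * a) = ⁅b⁻¹, a⁻¹⁆ := by rw [commutatorElement_def]; group
    rw [this, ← hM]
    exact Subgroup.commutator_mem_commutator (N.inv_mem hb) (N.inv_mem ha)
  have hmemA : ∀ g : P, QuotientGroup.mk' M g ∈ A ↔ g ∈ N := by
    intro g
    constructor
    · intro h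
      have : g ∈ A.comap (QuotientGroup.mk' M) := h
      rwa [hcomap] at this
    · intro h
      rw [← hA]; exact Subgroup.mem_map_of_mem _ h
  have hxA : QuotientGroup.mk' M x ∉ A := fun h => hx ((hmemA x).mp h)
  have h1 := h8_abidx_index hp A hAc hAi hxA
  have hci : (commutator (P ⧸ M)).index = (commutator P).index := by
    have hmap : (commutator P).map (QuotientGroup.mk' M) = commutator (P ⧸ M) := by
      rw [commutator_def, commutator_def, Subgroup.map_commutator,
        Subgroup.map_top_of_surjective _ hπs]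
    rw [← hmap]
    apply Subgroup.index_map_eq _ hπs
    rw [hker, commutator_def, ← hM]
    exact Subgroup.commutator_mono le_top le_top
  rw [hci] at h1
  generalize hK : (A ⊓ Subgroup.centralizer
    ({QuotientGroup.mk' M x} : Set (P ⧸ M))).comap (QuotientGroup.mk' M) = K
  generalize hB : (A ⊓ Subgroup.centralizer ({QuotientGroup.mk' M x} : Set (P ⧸ M))) = B
    at h1 hK
  have hcount : Nat.card {n : N // x * n * x⁻¹ * (n : P)⁻¹ ∈ M} = Nat.card K := by
    refine Nat.card_congr ((Equiv.subtypeSubtypeEquivSubtypeInter (fun g : P => g ∈ N)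
      (fun g : P => x * g * x⁻¹ * g⁻¹ ∈ M)).trans (Equiv.subtypeEquivRight ?_))
    intro g
    show (g ∈ N ∧ x * g * x⁻¹ * g⁻¹ ∈ M) ↔ g ∈ K
    rw [← hK, Subgroup.mem_comap, ← hB, Subgroup.mem_inf,
      Subgroup.mem_centralizer_singleton_iff, hmemA]
    have e2 : (x * g * x⁻¹ * g⁻¹ ∈ M) ↔
        QuotientGroup.mk' M g * QuotientGroup.mk' M x =
          QuotientGroup.mk' M x * QuotientGroup.mk' M g := by
      rw [← QuotientGroup.eq_one_iff (N := M)]
      show QuotientGroup.mk' M (x * g * x⁻¹ * g⁻¹) = 1 ↔ _
      rw [map_mul, map_mul, map_mul, map_inv, map_inv]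
      constructor
      · intro h
        have h2 := mul_inv_eq_one.mp h
        have h3 := mul_inv_eq_iff_eq_mul.mp h2
        exact h3.symm
      · intro h
        rw [← h]; group
    rw [e2]
  have hKc : Nat.card K = Nat.card B * Nat.card M := by
    have hKi : K.index = B.index := by
      rw [← hK]; exact Subgroup.index_comap_of_surjective _ hπs
    have e1 := Subgroup.card_mul_index K
    have e2 := Subgroup.card_mul_index B
    have e3 := Subgroup.card_eq_card_quotient_mul_card_subgroup M
    have hpos : 0 < B.index := Nat.pos_of_ne_zero Subgroup.index_ne_zero_of_finite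
    rw [hKi] at e1
    have : Nat.card K * B.index = Nat.card B * Nat.card M * B.index := by
      rw [e1, e3, ← e2]; ring
    exact Nat.eq_of_mul_eq_mul_right hpos this
  rw [hcount, hKc, h1]
  have hMpos : 0 < Nat.card M := Nat.card_pos
  constructor
  · intro h
    have : p * Nat.card B = p * p := by rw [h]; ring
    rw [Nat.eq_of_mul_eq_mul_left hp.pos this]
  · intro h
    rw [Nat.eq_of_mul_eq_mul_right hMpos h]; ring

theorem h8_s4586 (p : ℕ) [Fact p.Prime] (N : Subgroup P) [N.Normal] (hN : N.index = p) :
    ((commutator P).index = p ^ 2 ↔ ∀ x : P, x ∉ N →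
        Nat.card {n : N // x * n * x⁻¹ * (n : P)⁻¹ ∈ (commutator N).map N.subtype} =
          p * Nat.card (commutator N)) ∧
    ((commutator P).index = p ^ 2 ↔ ∃ x : P, x ∉ N ∧
        Nat.card {n : N // x * n * x⁻¹ * (n : P)⁻¹ ∈ (commutator N).map N.subtype} =
          p * Nat.card (commutator N)) := by
  have hp : p.Prime := Fact.out
  obtain ⟨x₀, hx₀⟩ : ∃ x : P, x ∉ N := by
    by_contra h
    push Not at h
    have htop : N = ⊤ := eq_top_iff.mpr fun g _ => h g
    rw [htop, Subgroup.index_top] at hN
    exact hp.ne_one hN.symm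
  refine ⟨⟨fun h x hx => (h8_s4586_key hp N hN x hx).mp h,
    fun h => (h8_s4586_key hp N hN x₀ hx₀).mpr (h x₀ hx₀)⟩,
    ⟨fun h => ⟨x₀, hx₀, (h8_s4586_key hp N hN x₀ hx₀).mp h⟩, ?_⟩⟩
  rintro ⟨x, hx, h⟩
  exact (h8_s4586_key hp N hN x hx).mpr h

end

end Cfsg.Agent.Lib.Helper8
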