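import Mathlib
import Cfsg.Prelude.Def_Local
import Cfsg.Agent.Lib.Helper8.PSolvOfSolv
import Cfsg.Agent.Lib.Helper8.PCompl
import Cfsg.Agent.Lib.Helper8.PElem
import Cfsg.Agent.Lib.Helper8.Frattini
import Cfsg.Agent.Lib.Helper8.ConjClass
import Cfsg.Agent.Lib.Helper7.PCore
import Cfsg.Agent.Lib.Lead.CharBurnside
import Cfsg.Agent.S0581

set_option autoImplicit false

namespace Cfsg.Agent.Lib.Helper8

open scoped Pointwise
open scoped commutatorElement
open Cfsg.Agent.Lib.Helper7

universe u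

/-- every `p`-regular element has centralizer of `p`-power index -/
def h8_PRegClass (p : ℕ) (G : Type u) [Group G] : Prop :=
  ∀ x : G, (orderOf x).Coprime p → ∃ k : ℕ, (Subgroup.centralizer ({x} : Set G)).index = p ^ k

theorem h8_pRegClass_subgroup {G : Type u} [Group G] [Finite G] {p : ℕ} [Fact p.Prime]
    (h : h8_PRegClass p G) (N : Subgroup G) [N.Normal] : h8_PRegClass p N := by
  intro x hx
  obtain ⟨k, hk⟩ := h (x : G) (by rw [Subgroup.orderOf_coe]; exact hx)
  have e1 : Subgroup.centralizer ({x} : Set N) =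
      (Subgroup.centralizer ({(x : G)} : Set G)).subgroupOf N := by
    ext y
    rw [Subgroup.mem_centralizer_singleton_iff, Subgroup.mem_subgroupOf,
      Subgroup.mem_centralizer_singleton_iff]
    constructor
    · intro hy
      have := congrArg Subtype.val hy
      simpa using this
    · intro hy
      exact Subtype.ext (by simpa using hy)
  have e2 : (Subgroup.centralizer ({x} : Set N)).index =
      (Subgroup.centralizer ({(x : G)} : Set G)).relIndex N := by
    rw [e1]; rfl
  have h1 := Cfsg.Agent.Lib.Helper3.card_sup_mul_card_inf (Subgroup.centralizer ({(x : G)} : Set G)) N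
    (by rw [Subgroup.normalizer_eq_top]; exact le_top)
  have h2 := card_mul_relIndex_of_le (inf_le_right :
    Subgroup.centralizer ({(x : G)} : Set G) ⊓ N ≤ N)
  rw [Subgroup.inf_relIndex_right] at h2
  have h3 : (Subgroup.centralizer ({(x : G)} : Set G)).relIndex N *
      Nat.card (Subgroup.centralizer ({(x : G)} : Set G)) =
      Nat.card ↥(Subgroup.centralizer ({(x : G)} : Set G) ⊔ N) := by
    have hpos : 0 < Nat.card ↥(Subgroup.centralizer ({(x : G)} : Set G) ⊓ N) := Nat.card_pos
    apply Nat.eq_of_mul_eq_mul_right hpos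
    rw [h1, ← h2]; ring
  have h4 : (Subgroup.centralizer ({(x : G)} : Set G)).relIndex N ∣ p ^ k := by
    have h5 : Nat.card ↥(Subgroup.centralizer ({(x : G)} : Set G) ⊔ N) ∣ Nat.card G :=
      Subgroup.card_subgroup_dvd_card _
    rw [← h3, ← Subgroup.card_mul_index (Subgroup.centralizer ({(x : G)} : Set G)), hk,
      mul_comm] at h5
    exact Nat.dvd_of_mul_dvd_mul_left Nat.card_pos h5
  obtain ⟨j, _, hj⟩ := (Nat.dvd_prime_pow Fact.out).1 h4
  exact ⟨j, by rw [e2, hj]⟩

/-- lifting an element of order prime to `p` to an element of order prime to `p` -/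
theorem h8_exists_lift_coprime {G : Type u} [Group G] [Finite G] {p : ℕ} [Fact p.Prime]
    (N : Subgroup G) [N.Normal] (y : G ⧸ N) (hy : (orderOf y).Coprime p) :
    ∃ x : G, (QuotientGroup.mk x : G ⧸ N) = y ∧ (orderOf x).Coprime p := by
  obtain ⟨x₀, rfl⟩ := QuotientGroup.mk_surjective y
  obtain ⟨a, n', hn', hn⟩ := Nat.exists_eq_pow_mul_and_not_dvd (orderOf_pos x₀).ne' p
    (Fact.out : p.Prime).ne_one
  set m := orderOf (QuotientGroup.mk x₀ : G ⧸ N) with hm
  have hcop : Nat.Coprime (p ^ a) m := (Nat.Coprime.pow_left a hy.symm)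
  obtain ⟨s, t, hst⟩ : ∃ s t : ℤ, s * ((p ^ a : ℕ) : ℤ) + t * (m : ℤ) = 1 := by
    have h := Nat.gcd_eq_gcd_ab (p ^ a) m
    rw [hcop.gcd_eq_one] at h
    refine ⟨Nat.gcdA (p ^ a) m, Nat.gcdB (p ^ a) m, ?_⟩
    rw [mul_comm, mul_comm (Nat.gcdB (p ^ a) m)]
    exact_mod_cast h.symm
  refine ⟨x₀ ^ (s * ((p ^ a : ℕ) : ℤ)), ?_, ?_⟩
  · rw [QuotientGroup.mk_zpow]
    have h1 : s * ((p ^ a : ℕ) : ℤ) = 1 - t * (m : ℤ) := by linarith
    rw [h1, zpow_sub, zpow_one, mul_comm t, zpow_mul, zpow_natCast, hm, pow_orderOf_eq_one,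
      one_zpow, inv_one, mul_one]
  · have h1 : (x₀ ^ (s * ((p ^ a : ℕ) : ℤ))) ^ n' = 1 := by
      rw [← zpow_natCast, ← zpow_mul,
        show s * ((p ^ a : ℕ) : ℤ) * (n' : ℤ) = ((p ^ a * n' : ℕ) : ℤ) * s by push_cast; ring,
        zpow_mul, zpow_natCast, ← hn, pow_orderOf_eq_one, one_zpow]
    exact Nat.Coprime.coprime_dvd_left (orderOf_dvd_of_pow_eq_one h1)
      ((Nat.Prime.coprime_iff_not_dvd Fact.out).2 hn').symm

theorem h8_pRegClass_quotient {G : Type u} [Group G] [Finite G] {p : ℕ} [Fact p.Prime]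
    (h : h8_PRegClass p G) (N : Subgroup G) [N.Normal] : h8_PRegClass p (G ⧸ N) := by
  intro y hy
  obtain ⟨x, rfl, hx⟩ := h8_exists_lift_coprime N y hy
  obtain ⟨k, hk⟩ := h x hx
  have h1 : (Subgroup.centralizer ({x} : Set G)).map (QuotientGroup.mk' N) ≤
      Subgroup.centralizer ({(QuotientGroup.mk x : G ⧸ N)} : Set (G ⧸ N)) := by
    rintro _ ⟨c, hc, rfl⟩
    rw [Subgroup.mem_centralizer_singleton_iff]
    have h2 := Subgroup.mem_centralizer_singleton_iff.1 hc
    show (QuotientGroup.mk c : G ⧸ N) * QuotientGroup.mk x = QuotientGroup.mk x * QuotientGroup.mk c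
    rw [← QuotientGroup.mk_mul, ← QuotientGroup.mk_mul, h2]
  have h3 := (Subgroup.index_dvd_of_le h1).trans
    (Subgroup.index_map_dvd (H := Subgroup.centralizer ({x} : Set G))
      (QuotientGroup.mk'_surjective N))
  rw [hk] at h3
  obtain ⟨j, _, hj⟩ := (Nat.dvd_prime_pow Fact.out).1 h3
  exact ⟨j, hj⟩

/-- A group in which `p`-regular classes have `p`-power size is solvable (via Burnside). -/
theorem h8_pRegClass_solvable_aux (p : ℕ) [Fact p.Prime] :
    ∀ (n : ℕ) (G : Type u) [Group G] [Finite G], Nat.card G = n → h8_PRegClass p G →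
      Group.IsSolvable G := by
  intro n
  induction n using Nat.strong_induction_on with
  | _ n IH =>
  intro G _ _ hcard hG
  rcases subsingleton_or_nontrivial G with hsub | hnt
  · infer_instance
  by_cases hsimple : IsSimpleGroup G
  · by_cases hx : ∃ x : G, x ≠ 1 ∧ (orderOf x).Coprime p
    · obtain ⟨x, hx1, hxp⟩ := hx
      obtain ⟨k, hk⟩ := hG x hxp
      have : Fintype G := Fintype.ofFinite G
      have hprime := Cfsg.Agent.Lib.Lead.prime_card_of_prime_power_class p k Fact.out x hx1 hk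
      exact Cfsg.Agent.Lib.Lead.isSolvable_of_card_prime_pow hprime (n := 1) (pow_one _).symm
    · have hpg : IsPGroup p G := by
        intro g
        obtain ⟨a, n', hn', hn⟩ := Nat.exists_eq_pow_mul_and_not_dvd (orderOf_pos g).ne' p
          (Fact.out : p.Prime).ne_one
        refine ⟨a, ?_⟩
        by_contra hne
        apply hx
        refine ⟨g ^ p ^ a, hne, ?_⟩
        have h1 : (g ^ p ^ a) ^ n' = 1 := by rw [← pow_mul, ← hn, pow_orderOf_eq_one]
        exact Nat.Coprime.coprime_dvd_left (orderOf_dvd_of_pow_eq_one h1)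
          ((Nat.Prime.coprime_iff_not_dvd Fact.out).2 hn').symm
      have := hpg.isNilpotent
      infer_instance
  · have hex : ∃ N : Subgroup G, N.Normal ∧ N ≠ ⊥ ∧ N ≠ ⊤ := by
      by_contra hcon
      apply hsimple
      refine ⟨fun N hN => ?_⟩
      by_contra h2
      rw [not_or] at h2
      exact hcon ⟨N, hN, h2.1, h2.2⟩
    obtain ⟨N, hNn, hNbot, hNtop⟩ := hex
    have h1 := Subgroup.card_eq_card_quotient_mul_card_subgroup N
    have h2 : 1 < Nat.card N := by
      by_contra hle
      exact hNbot (Subgroup.eq_bot_of_card_le (H := N) (by omega))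
    have h3 : 1 < Nat.card (G ⧸ N) := by
      by_contra hle
      have h4 : Nat.card (G ⧸ N) = 1 := by
        have : 0 < Nat.card (G ⧸ N) := Nat.card_pos
        omega
      rw [h4, one_mul] at h1
      exact hNtop (Subgroup.eq_top_of_card_eq N h1.symm)
    rw [hcard] at h1
    have hltN : Nat.card N < n := by nlinarith
    have hltQ : Nat.card (G ⧸ N) < n := by nlinarith
    have s1 : Group.IsSolvable N := IH _ hltN N rfl (h8_pRegClass_subgroup hG N)
    have s2 : Group.IsSolvable (G ⧸ N) := IH _ hltQ (G ⧸ N) rfl (h8_pRegClass_quotient hG N)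
    exact Group.isSolvable_of_ker_le_range N.subtype (QuotientGroup.mk' N) (by simp)

/-- In a finite solvable group with `O_p(G) = 1`, `O_{p'}(G)` contains its centralizer. -/
theorem h8_centralizer_pPrimeCore_le {G : Type u} [Group G] [Finite G] {p : ℕ} [Fact p.Prime]
    (hsolv : Group.IsSolvable G) (hp : Cfsg.pCore p G = ⊥) :
    Subgroup.centralizer (Cfsg.pPrimeCore p G : Set G) ≤ Cfsg.pPrimeCore p G := by
  classical
  have hRn : (Cfsg.pPrimeCore p G).Normal := pPrimeCore_normal p G
  have hCn : (Subgroup.centralizer (Cfsg.pPrimeCore p G : Set G)).Normal := inferInstance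
  by_contra hCR
  obtain ⟨n, hn⟩ := hsolv.solvable
  have hex : ∃ i, Subgroup.centralizer (Cfsg.pPrimeCore p G : Set G) ⊓ derivedSeries G i ≤
      Cfsg.pPrimeCore p G := ⟨n, by rw [hn, inf_bot_eq]; exact bot_le⟩
  have h0 : Nat.find hex ≠ 0 := by
    intro h
    have h1 := Nat.find_spec hex
    rw [h, derivedSeries_zero, inf_top_eq] at h1
    exact hCR h1
  obtain ⟨j, hj⟩ := Nat.exists_eq_succ_of_ne_zero h0
  have hAnle : ¬ Subgroup.centralizer (Cfsg.pPrimeCore p G : Set G) ⊓ derivedSeries G j ≤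
      Cfsg.pPrimeCore p G := Nat.find_min hex (by omega)
  have hA1 : Subgroup.centralizer (Cfsg.pPrimeCore p G : Set G) ⊓ derivedSeries G (j + 1) ≤
      Cfsg.pPrimeCore p G := by
    have := Nat.find_spec hex
    rwa [hj] at this
  have hDn : (derivedSeries G j).Normal := derivedSeries_normal G j
  have hAn : (Subgroup.centralizer (Cfsg.pPrimeCore p G : Set G) ⊓ derivedSeries G j).Normal :=
    inferInstance
  have hAA : ⁅Subgroup.centralizer (Cfsg.pPrimeCore p G : Set G) ⊓ derivedSeries G j,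
      Subgroup.centralizer (Cfsg.pPrimeCore p G : Set G) ⊓ derivedSeries G j⁆ ≤
      Cfsg.pPrimeCore p G := by
    refine le_trans (le_inf ?_ ?_) hA1
    · rw [Subgroup.commutator_le]
      intro a ha b hb
      rw [commutatorElement_def]
      exact Subgroup.mul_mem _ (Subgroup.mul_mem _ (Subgroup.mul_mem _ ha.1 hb.1)
        (Subgroup.inv_mem _ ha.1)) (Subgroup.inv_mem _ hb.1)
    · rw [derivedSeries_succ]
      exact Subgroup.commutator_mono inf_le_right inf_le_right
  have hAnil : Group.IsNilpotent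
      ↥(Subgroup.centralizer (Cfsg.pPrimeCore p G : Set G) ⊓ derivedSeries G j) := by
    rw [Subgroup.isNilpotent_iff_lowerCentralSeries]
    refine ⟨2, ?_⟩
    rw [Subgroup.lowerCentralSeries_succ, Subgroup.lowerCentralSeries_succ,
      Subgroup.lowerCentralSeries_zero, Subgroup.commutator_eq_bot_iff_le_centralizer]
    intro x hx
    rw [Subgroup.mem_centralizer_iff]
    intro a ha
    have hxR := hAA hx
    have haC : a ∈ Subgroup.centralizer (Cfsg.pPrimeCore p G : Set G) := ha.1
    rw [Subgroup.mem_centralizer_iff] at haC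
    exact (haC x hxR).symm
  have hAcop : (Nat.card
      ↥(Subgroup.centralizer (Cfsg.pPrimeCore p G : Set G) ⊓ derivedSeries G j)).Coprime p := by
    rw [Nat.coprime_comm, Nat.Prime.coprime_iff_not_dvd Fact.out]
    intro hdvd
    obtain ⟨a, ha⟩ := exists_prime_orderOf_dvd_card'
      (G := ↥(Subgroup.centralizer (Cfsg.pPrimeCore p G : Set G) ⊓ derivedSeries G j)) p hdvd
    obtain ⟨P⟩ := (Sylow.nonempty : Nonempty (Sylow p
      ↥(Subgroup.centralizer (Cfsg.pPrimeCore p G : Set G) ⊓ derivedSeries G j)))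
    have hPn : (P : Subgroup
      ↥(Subgroup.centralizer (Cfsg.pPrimeCore p G : Set G) ⊓ derivedSeries G j)).Normal :=
      inferInstance
    have hTn : ((P : Subgroup
        ↥(Subgroup.centralizer (Cfsg.pPrimeCore p G : Set G) ⊓ derivedSeries G j)).map
        (Subgroup.subtype _)).Normal := by
      constructor
      rintro _ ⟨y, hy, rfl⟩ g
      have hyA : g * (y : G) * g⁻¹ ∈
          Subgroup.centralizer (Cfsg.pPrimeCore p G : Set G) ⊓ derivedSeries G j :=
        hAn.conj_mem _ y.2 g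
      obtain ⟨k, hk⟩ := h8_exists_orderOf_eq_pow P.isPGroup' hy
      refine ⟨⟨g * (y : G) * g⁻¹, hyA⟩, ?_, rfl⟩
      apply h8_mem_of_normal_sylow P hPn (k := k)
      rw [Subgroup.orderOf_mk, h8_orderOf_conj, Subgroup.orderOf_coe, hk]
    have hTp : IsPGroup p ((P : Subgroup
        ↥(Subgroup.centralizer (Cfsg.pPrimeCore p G : Set G) ⊓ derivedSeries G j)).map
        (Subgroup.subtype _)) := P.isPGroup'.map _
    have hT := le_pCore hTn hTp
    rw [hp] at hT
    have haP : a ∈ (P : Subgroup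
        ↥(Subgroup.centralizer (Cfsg.pPrimeCore p G : Set G) ⊓ derivedSeries G j)) :=
      h8_mem_of_normal_sylow P hPn (k := 1) (by rw [ha, pow_one])
    have h1 : (a : G) ∈ (⊥ : Subgroup G) := hT ⟨a, haP, rfl⟩
    rw [Subgroup.mem_bot] at h1
    have ha1 : a = 1 := Subtype.ext h1
    rw [ha1, orderOf_one] at ha
    exact (Fact.out : p.Prime).one_lt.ne ha
  exact hAnle (le_pPrimeCore hAn hAcop)

/-- If all `p`-regular classes have `p`-power size, every `p`-complement is abelian. -/
theorem h8_pRegClass_abelian_aux (p : ℕ) [Fact p.Prime] :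
    ∀ (n : ℕ) (G : Type u) [Group G] [Finite G], Nat.card G = n → h8_PRegClass p G →
      ∀ H : Subgroup G, h8_IsPCompl p H → ∀ a ∈ H, ∀ b ∈ H, a * b = b * a := by
  intro n
  induction n using Nat.strong_induction_on with
  | _ n IH =>
  intro G _ _ hcard hG H hH
  have hsolv : Group.IsSolvable G := h8_pRegClass_solvable_aux p _ G rfl hG
  by_cases hO : Cfsg.pCore p G = ⊥
  · have hZ := h8_centralizer_pPrimeCore_le hsolv hO
    have hRn : (Cfsg.pPrimeCore p G).Normal := pPrimeCore_normal p G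
    have hRcop := pPrimeCore_coprime p G
    have key : ∀ x ∈ H, ∃ H₁ : Subgroup G, h8_IsPCompl p H₁ ∧ ∀ h ∈ H₁, h * x = x * h := by
      intro x hx
      have hxo : (orderOf x).Coprime p :=
        Nat.Coprime.coprime_dvd_left (Subgroup.orderOf_dvd_natCard H hx) hH.1
      obtain ⟨k, hk⟩ := hG x hxo
      have hCsolv : Group.IsSolvable (Subgroup.centralizer ({x} : Set G)) := inferInstance
      obtain ⟨⟨H', hH'c, m, hH'i⟩, _, _⟩ := h8_pCompl_aux p _
        (Subgroup.centralizer ({x} : Set G)) rfl (h8_isPSolvable_of_isSolvable p hCsolv)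
      refine ⟨H'.map (Subgroup.subtype _), ⟨?_, m + k, ?_⟩, ?_⟩
      · rw [Subgroup.card_map_of_injective (Subgroup.subtype_injective _)]; exact hH'c
      · rw [Subgroup.index_map_subtype, hH'i, hk, ← pow_add]
      · rintro _ ⟨c, _, rfl⟩
        exact Subgroup.mem_centralizer_singleton_iff.1 c.2
    have hHR : H ≤ Cfsg.pPrimeCore p G := by
      intro x hx
      obtain ⟨H₁, hH₁, hcomm⟩ := key x hx
      apply hZ
      rw [Subgroup.mem_centralizer_iff]
      intro r hr
      exact hcomm r (h8_le_of_isPCompl _ hRcop hH₁ hr)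
    intro a ha b hb
    obtain ⟨H₁, hH₁, hcomm⟩ := key b hb
    exact hcomm a (h8_le_of_isPCompl _ hRcop hH₁ (hHR ha))
  · have hNn : (Cfsg.pCore p G).Normal := pCore_normal p G
    have hNp := pCore_isPGroup p G
    have hlt : Nat.card (G ⧸ Cfsg.pCore p G) < n := by
      have h1 := Subgroup.card_eq_card_quotient_mul_card_subgroup (Cfsg.pCore p G)
      have h2 : 1 < Nat.card (Cfsg.pCore p G) := by
        by_contra hle
        exact hO (Subgroup.eq_bot_of_card_le (H := Cfsg.pCore p G) (by omega))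
      have h3 : 0 < Nat.card (G ⧸ Cfsg.pCore p G) := Nat.card_pos
      rw [hcard] at h1
      nlinarith
    have hQ := IH _ hlt (G ⧸ Cfsg.pCore p G) rfl (h8_pRegClass_quotient hG _)
      (H.map (QuotientGroup.mk' _)) (h8_isPCompl_map (QuotientGroup.mk'_surjective _) hH)
    intro a ha b hb
    have h1 := hQ _ (Subgroup.mem_map_of_mem _ ha) _ (Subgroup.mem_map_of_mem _ hb)
    have h2 : (a * b)⁻¹ * (b * a) ∈ Cfsg.pCore p G := by
      apply QuotientGroup.eq.1
      show (QuotientGroup.mk' (Cfsg.pCore p G)) (a * b) = (QuotientGroup.mk' (Cfsg.pCore p G)) (b * a)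
      rw [map_mul, map_mul, h1]
    have h3 : (a * b)⁻¹ * (b * a) ∈ H :=
      H.mul_mem (H.inv_mem (H.mul_mem ha hb)) (H.mul_mem hb ha)
    have h4 := h8_inf_eq_bot_of_coprime hNp hH.1
    have h5 : (a * b)⁻¹ * (b * a) ∈ Cfsg.pCore p G ⊓ H := ⟨h2, h3⟩
    rw [h4, Subgroup.mem_bot] at h5
    exact inv_mul_eq_one.1 h5

/-- Every `p`-regular class has `p`-power size iff `G` has an abelian `p`-complement. -/
theorem h8_abelian_pCompl_iff {G : Type u} [Group G] [Finite G] {p : ℕ} (hp : p.Prime) :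
    (∀ x : G, (orderOf x).Coprime p → ∃ k : ℕ, (ConjClasses.mk x).carrier.ncard = p ^ k) ↔
    (∃ H : Subgroup G, IsMulCommutative H ∧ ¬ p ∣ Nat.card H ∧ ∃ k : ℕ, H.index = p ^ k) := by
  have : Fact p.Prime := ⟨hp⟩
  constructor
  · intro h
    have hG : h8_PRegClass p G := by
      intro x hx
      obtain ⟨k, hk⟩ := h x hx
      exact ⟨k, by rw [← h8_ncard_carrier_eq_index]; exact hk⟩
    have hsolv := h8_pRegClass_solvable_aux p _ G rfl hG
    obtain ⟨⟨H, hH⟩, _, _⟩ := h8_pCompl_aux p _ G rfl (h8_isPSolvable_of_isSolvable p hsolv)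
    have hab := h8_pRegClass_abelian_aux p _ G rfl hG H hH
    exact ⟨H, ⟨⟨fun a b => Subtype.ext (hab a a.2 b b.2)⟩⟩,
      (Nat.Prime.coprime_iff_not_dvd hp).1 hH.1.symm, hH.2⟩
  · rintro ⟨H, hab, hpH, k, hk⟩ x hx
    have hnil : Group.IsNilpotent H := by
      let _ : CommGroup H :=
        { (inferInstance : Group H) with mul_comm := fun a b => hab.is_comm.comm a b }
      infer_instance
    have hHall : (Nat.card H).Coprime H.index := by
      rw [hk]
      exact Nat.Coprime.pow_right k ((Nat.Prime.coprime_iff_not_dvd hp).2 hpH).symm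
    obtain ⟨g, hg⟩ := Cfsg.Agent.S0581.result H (Subgroup.zpowers x) hnil hHall (by
      intro q hq hqx
      rw [Nat.card_zpowers] at hqx
      have hqG : q ∣ Nat.card H * p ^ k := by
        rw [← hk, Subgroup.card_mul_index]
        exact hqx.trans (orderOf_dvd_natCard x)
      rcases (Nat.Prime.dvd_mul hq).1 hqG with h1 | h1
      · exact h1
      · exfalso
        have h2 := (Nat.prime_dvd_prime_iff_eq hq hp).1 (hq.dvd_of_dvd_pow h1)
        rw [h2] at hqx
        exact (Nat.Prime.coprime_iff_not_dvd hp).1 hx.symm hqx)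
    have hxg : g⁻¹ * x * g ∈ H := mem_conj_smul_iff.1 (hg (Subgroup.mem_zpowers x))
    have hle : H ≤ Subgroup.centralizer ({g⁻¹ * x * g} : Set G) := by
      intro h hh
      rw [Subgroup.mem_centralizer_singleton_iff]
      have := hab.is_comm.comm ⟨h, hh⟩ ⟨_, hxg⟩
      exact congrArg Subtype.val this
    have hdvd := Subgroup.index_dvd_of_le hle
    rw [hk] at hdvd
    obtain ⟨j, _, hj⟩ := (Nat.dvd_prime_pow hp).1 hdvd
    refine ⟨j, ?_⟩
    have hconj : ConjClasses.mk x = ConjClasses.mk (g⁻¹ * x * g) := by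
      rw [ConjClasses.mk_eq_mk_iff_isConj, isConj_iff]
      exact ⟨g⁻¹, by group⟩
    rw [hconj, h8_ncard_carrier_eq_index, hj]

end Cfsg.Agent.Lib.Helper8
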