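import Mathlib
import Cfsg.Agent.Lib.Helper2.FPF
import Cfsg.Agent.Lib.Helper8.Invol
import Cfsg.Agent.Lib.Helper8.CoprimeSylow
import Cfsg.Agent.Lib.Helper8.ThreePrimes
import Cfsg.Agent.Lib.Helper8.UniqueSub
import Cfsg.Agent.Lib.Helper8.OrderCube

set_option autoImplicit false

namespace Cfsg.Agent.Lib.Helper8

universe u

/-- norm argument: `C_p × C_p = ⟨z⟩ × ⟨y⟩` cannot act fixed-point-freely on an abelian group
unless it has exponent `p` -/
theorem h8_elab_norm {F V : Type*} [Group F] [CommGroup V] (φ : F →* MulAut V)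
    (z y : F) (p : ℕ) (hp : p.Prime) (hz : z ^ p = 1) (hy : y ^ p = 1) (hzy : Commute z y)
    (hzV : ∀ v : V, φ z v = v → v = 1)
    (hyV : ∀ (j : ℕ) (v : V), φ (y * z ^ j) v = v → v = 1)
    (v : V) : v ^ p = 1 := by
  have hnorm : ∀ (e : F), e ^ p = 1 → (∀ u : V, φ e u = u → u = 1) →
      ∀ u : V, ∏ i ∈ Finset.range p, φ (e ^ i) u = 1 := by
    intro e he hfix u
    apply hfix
    rw [map_prod]
    have h3 : ∀ i, φ e (φ (e ^ i) u) = φ (e ^ (i + 1)) u := by
      intro i; rw [pow_succ', map_mul]; rfl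
    simp_rw [h3]
    have h4 := Finset.prod_range_succ (fun i => φ (e ^ i) u) p
    have h5 := Finset.prod_range_succ' (fun i => φ (e ^ i) u) p
    rw [h4] at h5
    simp only [he, pow_zero] at h5
    exact (mul_right_cancel h5).symm
  have hT : ∏ j ∈ Finset.range p, ∏ i ∈ Finset.range p, φ ((y * z ^ j) ^ i) v = 1 := by
    apply Finset.prod_eq_one
    intro j _
    refine hnorm (y * z ^ j) ?_ (hyV j) v
    rw [(hzy.symm.pow_right j).mul_pow, hy, ← pow_mul, mul_comm j p, pow_mul, hz, one_pow, mul_one]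
  rw [Finset.prod_comm] at hT
  rw [Finset.prod_eq_single 0] at hT
  · simpa using hT
  · intro i hi hi0
    have hlt : i < p := Finset.mem_range.1 hi
    have h1 : ∀ j, φ ((y * z ^ j) ^ i) v = φ (y ^ i) (φ ((z ^ i) ^ j) v) := by
      intro j
      rw [(hzy.symm.pow_right j).mul_pow, map_mul, ← pow_mul, ← pow_mul, mul_comm j i]; rfl
    simp_rw [h1]
    rw [← map_prod]
    have h2 : ∏ j ∈ Finset.range p, φ ((z ^ i) ^ j) v = 1 := by
      refine hnorm (z ^ i) ?_ ?_ v
      · rw [← pow_mul, mul_comm, pow_mul, hz, one_pow]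
      · intro u hu
        apply hzV
        have hcop : Nat.Coprime i (orderOf z) := by
          have h1 : Nat.Coprime p i :=
            (Nat.Prime.coprime_iff_not_dvd hp).2
              (Nat.not_dvd_of_pos_of_lt (Nat.pos_of_ne_zero hi0) hlt)
          exact Nat.Coprime.coprime_dvd_right (orderOf_dvd_of_pow_eq_one hz) h1.symm
        obtain ⟨m, hm⟩ := exists_pow_eq_self_of_coprime hcop
        have h3 : ∀ m : ℕ, φ ((z ^ i) ^ m) u = u := by
          intro m
          induction m with
          | zero => simp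
          | succ m ih =>
            rw [pow_succ, map_mul]
            show φ ((z ^ i) ^ m) (φ (z ^ i) u) = u
            rw [hu, ih]
        have := h3 m
        rwa [hm] at this
    rw [h2, map_one]
  · intro h0
    exact absurd (Finset.mem_range.2 hp.pos) h0

/-- an automorphism of order prime to `r` of an abelian `r`-group which is trivial on the
elements of order dividing `r` is trivial -/
theorem h8_fc_centralizes_of_omega {G : Type u} [Group G] (r m : ℕ) (hm : Nat.Coprime m r)
    (R : Subgroup G) (hR : IsPGroup r R) (hRab : ∀ a ∈ R, ∀ b ∈ R, a * b = b * a)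
    (x : G) (hx : x ^ m = 1) (hxR : ∀ g ∈ R, x * g * x⁻¹ ∈ R)
    (hom : ∀ g ∈ R, g ^ r = 1 → x * g = g * x) :
    ∀ g ∈ R, x * g = g * x := by
  have key : ∀ k : ℕ, ∀ g ∈ R, g ^ r ^ k = 1 → x * g = g * x := by
    intro k
    induction k with
    | zero =>
      intro g _ hg
      rw [pow_zero, pow_one] at hg
      rw [hg, mul_one, one_mul]
    | succ k ih =>
      intro g hg hgk
      have hgr : x * g ^ r = g ^ r * x := by
        apply ih _ (R.pow_mem hg r)
        rw [← pow_mul, ← pow_succ']; exact hgk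
      obtain ⟨c, hc⟩ : ∃ c, c = x * g * x⁻¹ * g⁻¹ := ⟨_, rfl⟩
      have hcR : c ∈ R := by rw [hc]; exact R.mul_mem (hxR g hg) (R.inv_mem hg)
      have hcr : c ^ r = 1 := by
        have h1 : Commute (x * g * x⁻¹) g⁻¹ := hRab _ (hxR g hg) _ (R.inv_mem hg)
        rw [hc, h1.mul_pow, conj_pow, inv_pow]
        have h2 : x * g ^ r * x⁻¹ = g ^ r := by rw [hgr]; group
        rw [h2, mul_inv_cancel]
      have hxc : x * c = c * x := hom c hcR hcr
      have hxg : x * g * x⁻¹ = c * g := by rw [hc]; group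
      have hj : ∀ j : ℕ, x ^ j * g * (x ^ j)⁻¹ = c ^ j * g := by
        intro j
        induction j with
        | zero => simp
        | succ j ihj =>
          have hxcj : x * c ^ j = c ^ j * x := ((show Commute x c from hxc).pow_right j).eq
          calc x ^ (j + 1) * g * (x ^ (j + 1))⁻¹ = x * (x ^ j * g * (x ^ j)⁻¹) * x⁻¹ := by
                rw [pow_succ']; group
            _ = x * (c ^ j * g) * x⁻¹ := by rw [ihj]
            _ = (x * c ^ j) * x⁻¹ * (x * g * x⁻¹) := by group
            _ = (c ^ j * x) * x⁻¹ * (c * g) := by rw [hxcj, hxg]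
            _ = c ^ (j + 1) * g := by rw [pow_succ]; group
      have hcm : c ^ m = 1 := by
        have h1 := hj m
        rw [hx] at h1
        have h2 : g = c ^ m * g := by simpa using h1
        calc c ^ m = c ^ m * g * g⁻¹ := by group
          _ = g * g⁻¹ := by rw [← h2]
          _ = 1 := mul_inv_cancel g
      have hc1 : c = 1 := by
        have h1 : orderOf c ∣ m := orderOf_dvd_of_pow_eq_one hcm
        have h2 : orderOf c ∣ r := orderOf_dvd_of_pow_eq_one hcr
        exact orderOf_eq_one_iff.mp (Nat.eq_one_of_dvd_coprimes hm h1 h2)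
      calc x * g = (x * g * x⁻¹) * x := by group
        _ = c * g * x := by rw [hxg]
        _ = g * x := by rw [hc1, one_mul]
  intro g hg
  obtain ⟨k, hk⟩ := hR ⟨g, hg⟩
  have hk' : g ^ r ^ k = 1 := by
    have := congrArg Subtype.val hk
    simpa using this
  exact key k g hg hk'

theorem h8_mem_centralizer_singleton {G : Type u} [Group G] (h n : G) :
    n ∈ Subgroup.centralizer ({h} : Set G) ↔ h * n = n * h := by
  rw [Subgroup.mem_centralizer_iff]
  constructor
  · intro hh; exact hh h rfl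
  · intro hh g hg
    rw [Set.mem_singleton_iff.1 hg]; exact hh

/-- fixed-point-free action by conjugation forces coprime orders -/
theorem h8_frob_coprime {G : Type u} [Group G] [Finite G] (K H : Subgroup G) [K.Normal]
    (hfpf : ∀ h ∈ H, h ≠ 1 → K ⊓ Subgroup.centralizer {h} = ⊥) :
    (Nat.card H).Coprime (Nat.card K) := by
  by_contra hcon
  obtain ⟨p, hp, hpH, hpK⟩ := Nat.Prime.not_coprime_iff_dvd.1 hcon
  have hpf : Fact p.Prime := ⟨hp⟩
  obtain ⟨x, hx⟩ := exists_prime_orderOf_dvd_card' p hpH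
  have hx' : orderOf (x : G) = p := by rw [Subgroup.orderOf_coe]; exact hx
  have hx1 : (x : G) ≠ 1 := by
    intro h
    rw [h, orderOf_one] at hx'
    exact hp.one_lt.ne hx'
  have hP : IsPGroup p (Subgroup.zpowers (x : G)) := by
    apply IsPGroup.of_card (n := 1)
    rw [Nat.card_zpowers, hx', pow_one]
  have hPK : Subgroup.zpowers (x : G) ≤ Subgroup.normalizer (K : Set G) := by
    rw [Subgroup.normalizer_eq_top]; exact le_top
  have h1 := h8_inf_centralizer_ne_bot_of_dvd hP hPK hpK
  apply h1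
  rw [eq_bot_iff, ← hfpf (x : G) x.2 hx1]
  refine inf_le_inf_left K (Subgroup.centralizer_le ?_)
  intro g hg
  rw [Set.mem_singleton_iff.1 hg]
  exact Subgroup.mem_zpowers _

/-- even case: an involution of a fixed-point-free group of automorphisms is central -/
theorem h8_frob_center_even {G : Type u} [Group G] [Finite G] (K H : Subgroup G) [hKn : K.Normal]
    (hK : K ≠ ⊥) (hfpf : ∀ h ∈ H, h ≠ 1 → K ⊓ Subgroup.centralizer {h} = ⊥)
    (t : G) (htH : t ∈ H) (ht : orderOf t = 2) : ∀ g ∈ H, g * t = t * g := by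
  have htt : t * t = 1 := by
    have := pow_orderOf_eq_one t
    rwa [ht, pow_two] at this
  have ht1 : t ≠ 1 := by
    intro h
    rw [h, orderOf_one] at ht
    omega
  have hinv : ∀ s ∈ H, s * s = 1 → s ≠ 1 → ∀ n ∈ K, s * n * s⁻¹ = n⁻¹ := by
    intro s hs hss hs1
    apply Cfsg.Agent.Lib.Helper2.inv_of_fpf_involution K hKn s hss
    intro n hn hcomm
    have h1 : n ∈ K ⊓ Subgroup.centralizer ({s} : Set G) :=
      ⟨hn, (h8_mem_centralizer_singleton s n).2 hcomm⟩
    rw [hfpf s hs hs1, Subgroup.mem_bot] at h1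
    exact h1
  intro g hg
  obtain ⟨s, hsdef⟩ : ∃ s, s = g * t * g⁻¹ := ⟨_, rfl⟩
  have hsH : s ∈ H := by rw [hsdef]; exact H.mul_mem (H.mul_mem hg htH) (H.inv_mem hg)
  have hss : s * s = 1 := by
    rw [hsdef]
    calc g * t * g⁻¹ * (g * t * g⁻¹) = g * (t * t) * g⁻¹ := by group
      _ = 1 := by rw [htt]; group
  have hs1 : s ≠ 1 := by
    intro h
    apply ht1
    have : t = g⁻¹ * s * g := by rw [hsdef]; group
    rw [this, h]; group
  have h1 := hinv t htH htt ht1
  have h2 := hinv s hsH hss hs1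
  have hst : s * t = 1 := by
    by_contra hne
    have h3 := hfpf (s * t) (H.mul_mem hsH htH) hne
    apply hK
    rw [eq_bot_iff, ← h3]
    intro n hn
    refine ⟨hn, (h8_mem_centralizer_singleton _ n).2 ?_⟩
    have h4 : s * (t * n * t⁻¹) * s⁻¹ = n := by
      rw [h1 n hn, h2 n⁻¹ (K.inv_mem hn), inv_inv]
    calc s * t * n = s * (t * n * t⁻¹) * s⁻¹ * (s * t) := by group
      _ = n * (s * t) := by rw [h4]
  have hst' : s = t := by
    calc s = s * (t * t) := by rw [htt, mul_one]
      _ = (s * t) * t := by group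
      _ = t := by rw [hst, one_mul]
  calc g * t = (g * t * g⁻¹) * g := by group
    _ = t * g := by rw [← hsdef, hst']

theorem h8_center_sub_ne_bot {G : Type u} [Group G] [Finite G] {p : ℕ} [Fact p.Prime]
    (S : Subgroup G) (hS : IsPGroup p S) (hS1 : S ≠ ⊥) :
    S ⊓ Subgroup.centralizer (S : Set G) ≠ ⊥ := by
  have hnt : Nontrivial S := (Subgroup.nontrivial_iff_ne_bot S).2 hS1
  have hcn := IsPGroup.center_nontrivial hS
  obtain ⟨c, hc⟩ := exists_ne (1 : Subgroup.center S)
  intro hbot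
  have h1 : (c.1.1 : G) ∈ S ⊓ Subgroup.centralizer (S : Set G) := by
    refine Subgroup.mem_inf.2 ⟨c.1.2, ?_⟩
    rw [Subgroup.mem_centralizer_iff]
    intro h hh
    have := Subgroup.mem_center_iff.1 c.2 ⟨h, hh⟩
    exact congrArg Subtype.val this
  rw [hbot, Subgroup.mem_bot] at h1
  apply hc
  apply Subtype.ext
  apply Subtype.ext
  simpa using h1

theorem h8_normalizer_le_normalizer_center {G : Type u} [Group G] [Finite G] (S : Subgroup G) :
    Subgroup.normalizer (S : Set G) ≤
      Subgroup.normalizer ((S ⊓ Subgroup.centralizer (S : Set G) : Subgroup G) : Set G) := by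
  intro g hg
  apply h8_mem_normalizer_of_conj_mem
  intro v hv
  have hvS : v ∈ S := hv.1
  have hvC := Subgroup.mem_centralizer_iff.1 hv.2
  refine Subgroup.mem_inf.2 ⟨(Subgroup.mem_normalizer_iff.1 hg v).1 hvS, ?_⟩
  rw [Subgroup.mem_centralizer_iff]
  intro s hs
  have hs' : g⁻¹ * s * g ∈ S := by
    have h1 := (Subgroup.mem_normalizer_iff.1 (Subgroup.inv_mem _ hg) s).1 hs
    rwa [inv_inv] at h1
  have h2 := hvC _ hs'
  calc s * (g * v * g⁻¹) = g * ((g⁻¹ * s * g) * v) * g⁻¹ := by group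
    _ = g * (v * (g⁻¹ * s * g)) * g⁻¹ := by rw [h2]
    _ = g * v * g⁻¹ * s := by group

/-- an abelian nontrivial subgroup of `K` invariant under `x` and `y` -/
theorem h8_frob_inv_center {G : Type u} [Group G] [Finite G] (K : Subgroup G) [K.Normal]
    (hK : K ≠ ⊥) (r : ℕ) (hr : r.Prime) (hKr : (Nat.card K).Coprime r)
    (y : G) (hy : orderOf y = r) (hyK : K ⊓ Subgroup.centralizer {y} = ⊥)
    (x : G) (hx : x * y * x⁻¹ ∈ Subgroup.zpowers y) :
    ∃ V : Subgroup G, V ≤ K ∧ V ≠ ⊥ ∧ (∀ a ∈ V, ∀ b ∈ V, a * b = b * a) ∧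
      x ∈ Subgroup.normalizer (V : Set G) ∧ y ∈ Subgroup.normalizer (V : Set G) := by
  have hrf : Fact r.Prime := ⟨hr⟩
  have hK1 : Nat.card K ≠ 1 := by
    intro h
    exact hK (Subgroup.card_eq_one.1 h)
  obtain ⟨s, hs, hsK⟩ := Nat.exists_prime_and_dvd hK1
  have hsf : Fact s.Prime := ⟨hs⟩
  have hP : IsPGroup r (Subgroup.zpowers y) := by
    apply IsPGroup.of_card (n := 1)
    rw [Nat.card_zpowers, hy, pow_one]
  have hxP : x ∈ Subgroup.normalizer ((Subgroup.zpowers y : Subgroup G) : Set G) := by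
    apply h8_mem_normalizer_of_conj_mem
    intro u hu
    obtain ⟨k, rfl⟩ := Subgroup.mem_zpowers_iff.1 hu
    rw [← conj_zpow]
    exact Subgroup.zpow_mem _ hx k
  obtain ⟨Q, hQ⟩ := h8_exists_invariant_sylow K hKr (Subgroup.zpowers y) hP s
  obtain ⟨S, hSdef⟩ : ∃ S : Subgroup G, S = (Q : Subgroup K).map K.subtype := ⟨_, rfl⟩
  rw [← hSdef] at hQ
  have hyS : y ∈ Subgroup.normalizer (S : Set G) := hQ (Subgroup.mem_zpowers y)
  have h2 := h8_sylow_conjNormal_map K x Q
  rw [← hSdef] at h2
  have hQ2 : Subgroup.zpowers y ≤ Subgroup.normalizer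
      (((((MulAut.conjNormal x : MulAut K) • Q : Sylow s K) : Subgroup K).map K.subtype :
        Subgroup G) : Set G) := by
    rw [h2]
    intro y' hy'
    apply h8_mem_normalizer_of_conj_mem
    intro u hu
    rw [h8_mem_map_conj] at hu ⊢
    have hw : x⁻¹ * y' * x ∈ Subgroup.zpowers y := by
      have h3 := (Subgroup.mem_normalizer_iff.1 (Subgroup.inv_mem _ hxP) y').1 hy'
      rwa [inv_inv] at h3
    have h4 := (Subgroup.mem_normalizer_iff.1 (hQ hw) _).1 hu
    have h5 : x⁻¹ * (y' * u * y'⁻¹) * x = x⁻¹ * y' * x * (x⁻¹ * u * x) * (x⁻¹ * y' * x)⁻¹ := by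
      group
    rw [h5]; exact h4
  obtain ⟨c, hc, hc2⟩ := h8_invariant_sylow_conj K hKr (Subgroup.zpowers y) hP s Q
    ((MulAut.conjNormal x : MulAut K) • Q) (by rw [← hSdef]; exact hQ) hQ2
  have hc1 : c = 1 := by
    have h3 : c ∈ K ⊓ Subgroup.centralizer ({y} : Set G) := by
      refine ⟨hc.1, Subgroup.centralizer_le ?_ hc.2⟩
      intro g hg
      rw [Set.mem_singleton_iff.1 hg]
      exact Subgroup.mem_zpowers _
    rw [hyK, Subgroup.mem_bot] at h3
    exact h3
  rw [h2, ← hSdef, hc1, h8_map_conj_one] at hc2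
  have hxS : x ∈ Subgroup.normalizer (S : Set G) := h8_mem_normalizer_of_map_conj_eq hc2
  have hS : IsPGroup s S := by rw [hSdef]; exact Q.2.map _
  have hS1 : S ≠ ⊥ := by
    have h3 : (Q : Subgroup K) ≠ ⊥ := Sylow.ne_bot_of_dvd_card Q hsK
    intro h
    apply h3
    rw [hSdef] at h
    exact (Subgroup.map_eq_bot_iff_of_injective _ K.subtype_injective).1 h
  refine ⟨S ⊓ Subgroup.centralizer (S : Set G), ?_, h8_center_sub_ne_bot S hS hS1, ?_,
    h8_normalizer_le_normalizer_center S hxS, h8_normalizer_le_normalizer_center S hyS⟩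
  · refine inf_le_left.trans ?_
    rw [hSdef]; exact Subgroup.map_subtype_le _
  · intro a ha b hb
    exact (Subgroup.mem_centralizer_iff.1 hb.2 a ha.1)

theorem h8_fpf_fix {G : Type u} [Group G] (K H : Subgroup G)
    (hfpf : ∀ h ∈ H, h ≠ 1 → K ⊓ Subgroup.centralizer {h} = ⊥) (h : G) (hh : h ∈ H)
    (h1 : h ≠ 1) (v : G) (hv : v ∈ K) (hfix : h * v * h⁻¹ = v) : v = 1 := by
  have h2 : v ∈ K ⊓ Subgroup.centralizer ({h} : Set G) := by
    refine ⟨hv, (h8_mem_centralizer_singleton h v).2 ?_⟩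
    calc h * v = h * v * h⁻¹ * h := by group
      _ = v * h := by rw [hfix]
  rw [hfpf h hh h1, Subgroup.mem_bot] at h2
  exact h2

/-- commuting elements of order `p` of a fixed-point-free group generate the same subgroup -/
theorem h8_frob_no_elab {G : Type u} [Group G] [Finite G] (K H : Subgroup G) [K.Normal]
    (hK : K ≠ ⊥) (hfpf : ∀ h ∈ H, h ≠ 1 → K ⊓ Subgroup.centralizer {h} = ⊥)
    (p : ℕ) (hp : p.Prime) (x y : G) (hxH : x ∈ H) (hyH : y ∈ H) (hx : orderOf x = p)
    (hy : orderOf y = p) (hxy : x * y = y * x) : y ∈ Subgroup.zpowers x := by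
  by_contra hny
  have hcop := h8_frob_coprime K H hfpf
  have hx1 : x ≠ 1 := by
    intro h
    rw [h, orderOf_one] at hx
    exact hp.one_lt.ne hx
  have hpH : p ∣ Nat.card H := by
    have h1 : orderOf (⟨x, hxH⟩ : H) ∣ Nat.card H := orderOf_dvd_natCard _
    rwa [← Subgroup.orderOf_coe, hx] at h1
  have hKp : (Nat.card K).Coprime p := Nat.Coprime.coprime_dvd_right hpH hcop.symm
  obtain ⟨V, hVK, hV1, hVab, hyV, hxV⟩ := h8_frob_inv_center K hK p hp hKp x hx
    (hfpf x hxH hx1) y (by
      have : y * x * y⁻¹ = x := by rw [← hxy]; group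
      rw [this]; exact Subgroup.mem_zpowers x)
  let cg : CommGroup V :=
    { (inferInstance : Group V) with mul_comm := fun a b => Subtype.ext (hVab a.1 a.2 b.1 b.2) }
  have hφ : ∀ (g : Subgroup.normalizer (V : Set G)) (v : V),
      ((V.normalizerMonoidHom g v : V) : G) = g * v * (g : G)⁻¹ := fun g v => rfl
  have hxp : x ^ p = 1 := by rw [← hx]; exact pow_orderOf_eq_one x
  have hyp : y ^ p = 1 := by rw [← hy]; exact pow_orderOf_eq_one y
  have key : ∀ v : V, v ^ p = 1 := by
    intro v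
    refine @h8_elab_norm (Subgroup.normalizer (V : Set G)) V _ cg V.normalizerMonoidHom
      ⟨x, hxV⟩ ⟨y, hyV⟩ p hp ?_ ?_ ?_ ?_ ?_ v
    · apply Subtype.ext; simpa using hxp
    · apply Subtype.ext; simpa using hyp
    · exact Subtype.ext hxy
    · intro v hv
      have h1 : x * (v : G) * x⁻¹ = (v : G) := by
        have := congrArg Subtype.val hv
        rwa [hφ] at this
      exact Subtype.ext (h8_fpf_fix K H hfpf x hxH hx1 v (hVK v.2) h1)
    · intro j v hv
      have h1 : (y * x ^ j) * (v : G) * (y * x ^ j)⁻¹ = (v : G) := by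
        have := congrArg Subtype.val hv
        rw [hφ] at this
        simpa using this
      have hne : y * x ^ j ≠ 1 := by
        intro h
        apply hny
        have : y = (x ^ j)⁻¹ := eq_inv_of_mul_eq_one_left h
        rw [this]
        exact Subgroup.inv_mem _ (Subgroup.pow_mem _ (Subgroup.mem_zpowers x) j)
      exact Subtype.ext (h8_fpf_fix K H hfpf _ (H.mul_mem hyH (H.pow_mem hxH j)) hne v
        (hVK v.2) h1)
  obtain ⟨c, hcV, hc1⟩ : ∃ c ∈ V, c ≠ 1 := by
    by_contra hno
    push Not at hno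
    exact hV1 ((Subgroup.eq_bot_iff_forall V).2 hno)
  have h1 : c ^ p = 1 := by
    have := congrArg Subtype.val (key ⟨c, hcV⟩)
    simpa using this
  have h2 : orderOf c ∣ p := orderOf_dvd_of_pow_eq_one h1
  have h3 : orderOf c ∣ Nat.card K := by
    have h4 : orderOf (⟨c, hVK hcV⟩ : K) ∣ Nat.card K := orderOf_dvd_natCard _
    rwa [← Subgroup.orderOf_coe] at h4
  exact hc1 (orderOf_eq_one_iff.mp (Nat.eq_one_of_dvd_coprimes hKp h3 h2))

/-- an element of prime order `p` normalizing a subgroup of prime order `r ≠ p` of a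
fixed-point-free group centralizes it -/
theorem h8_frob_pq {G : Type u} [Group G] [Finite G] (K H : Subgroup G) [K.Normal]
    (hK : K ≠ ⊥) (hfpf : ∀ h ∈ H, h ≠ 1 → K ⊓ Subgroup.centralizer {h} = ⊥)
    (p r : ℕ) (hp : p.Prime) (hr : r.Prime) (x y : G) (hxH : x ∈ H) (hyH : y ∈ H)
    (hx : orderOf x = p) (hy : orderOf y = r) (hxy : x * y * x⁻¹ ∈ Subgroup.zpowers y) :
    x * y = y * x := by
  by_contra hne
  have hcop := h8_frob_coprime K H hfpf
  have hx1 : x ≠ 1 := by
    intro h
    rw [h, orderOf_one] at hx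
    exact hp.one_lt.ne hx
  have hy1 : y ≠ 1 := by
    intro h
    rw [h, orderOf_one] at hy
    exact hr.one_lt.ne hy
  have hrH : r ∣ Nat.card H := by
    have h1 : orderOf (⟨y, hyH⟩ : H) ∣ Nat.card H := orderOf_dvd_natCard _
    rwa [← Subgroup.orderOf_coe, hy] at h1
  have hKr : (Nat.card K).Coprime r := Nat.Coprime.coprime_dvd_right hrH hcop.symm
  obtain ⟨V, hVK, hV1, hVab, hxV, hyV⟩ := h8_frob_inv_center K hK r hr hKr y hy
    (hfpf y hyH hy1) x hxy
  let cg : CommGroup V :=
    { (inferInstance : Group V) with mul_comm := fun a b => Subtype.ext (hVab a.1 a.2 b.1 b.2) }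
  have hφ : ∀ (g : Subgroup.normalizer (V : Set G)) (v : V),
      ((V.normalizerMonoidHom g v : V) : G) = g * v * (g : G)⁻¹ := fun g v => rfl
  have hxp : x ^ p = 1 := by rw [← hx]; exact pow_orderOf_eq_one x
  have hQfin : Finite (Subgroup.zpowers (⟨y, hyV⟩ : Subgroup.normalizer (V : Set G))) :=
    inferInstance
  have hoy : orderOf (⟨y, hyV⟩ : Subgroup.normalizer (V : Set G)) = r := by
    rw [← Subgroup.orderOf_coe]; exact hy
  have key : ∀ v : V,
      v ^ Nat.card (Subgroup.zpowers (⟨y, hyV⟩ : Subgroup.normalizer (V : Set G))) = 1 := by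
    intro v
    refine @h8_frob_norm (Subgroup.normalizer (V : Set G)) V _ cg V.normalizerMonoidHom
      (Subgroup.zpowers ⟨y, hyV⟩) hQfin ⟨x, hxV⟩ p hp ?_ ?_ ?_ ?_ ?_ v
    · apply Subtype.ext; simpa using hxp
    · intro q hq
      obtain ⟨k, rfl⟩ := Subgroup.mem_zpowers_iff.1 hq
      rw [← conj_zpow]
      apply Subgroup.zpow_mem
      obtain ⟨j, hj⟩ := Subgroup.mem_zpowers_iff.1 hxy
      rw [Subgroup.mem_zpowers_iff]
      exact ⟨j, Subtype.ext (by simpa using hj)⟩
    · intro q hq hcomm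
      by_contra hq1
      obtain ⟨n, hn⟩ : q ∈ Submonoid.powers (⟨y, hyV⟩ : Subgroup.normalizer (V : Set G)) :=
        mem_powers_iff_mem_zpowers.2 hq
      have hn' : (⟨y, hyV⟩ : Subgroup.normalizer (V : Set G)) ^ n = q := hn
      have hrn : ¬ r ∣ n := by
        intro hd
        apply hq1
        rw [← hn']
        exact orderOf_dvd_iff_pow_eq_one.1 (hoy ▸ hd)
      have hcop' : Nat.Coprime n (orderOf (⟨y, hyV⟩ : Subgroup.normalizer (V : Set G))) := by
        rw [hoy]
        exact ((Nat.Prime.coprime_iff_not_dvd hr).2 hrn).symm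
      obtain ⟨m, hm⟩ := exists_pow_eq_self_of_coprime hcop'
      rw [hn'] at hm
      have h1 : Commute (⟨x, hxV⟩ : Subgroup.normalizer (V : Set G)) (q ^ m) :=
        (show Commute (⟨x, hxV⟩ : Subgroup.normalizer (V : Set G)) q from hcomm).pow_right m
      rw [hm] at h1
      exact hne (congrArg Subtype.val h1.eq)
    · intro v hv
      have h1 : x * (v : G) * x⁻¹ = (v : G) := by
        have := congrArg Subtype.val hv
        rwa [hφ] at this
      exact Subtype.ext (h8_fpf_fix K H hfpf x hxH hx1 v (hVK v.2) h1)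
    · intro v hv
      have h0 := hv ⟨y, hyV⟩ (Subgroup.mem_zpowers _)
      have h1 : y * (v : G) * y⁻¹ = (v : G) := by
        have := congrArg Subtype.val h0
        rwa [hφ] at this
      exact Subtype.ext (h8_fpf_fix K H hfpf y hyH hy1 v (hVK v.2) h1)
  rw [Nat.card_zpowers, hoy] at key
  obtain ⟨c, hcV, hc1⟩ : ∃ c ∈ V, c ≠ 1 := by
    by_contra hno
    push Not at hno
    exact hV1 ((Subgroup.eq_bot_iff_forall V).2 hno)
  have h1 : c ^ r = 1 := by
    have := congrArg Subtype.val (key ⟨c, hcV⟩)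
    simpa using this
  have h2 : orderOf c ∣ r := orderOf_dvd_of_pow_eq_one h1
  have h3 : orderOf c ∣ Nat.card K := by
    have h4 : orderOf (⟨c, hVK hcV⟩ : K) ∣ Nat.card K := orderOf_dvd_natCard _
    rwa [← Subgroup.orderOf_coe] at h4
  exact hc1 (orderOf_eq_one_iff.mp (Nat.eq_one_of_dvd_coprimes hKr h3 h2))

/-- abstract form: an odd-order group in which commuting elements of equal prime order generate
the same subgroup and elements of prime order centralize the subgroups of prime order they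
normalize has nontrivial centre -/
theorem h8_center_odd {H : Type u} [Group H] [Finite H] [Nontrivial H]
    (hodd : Odd (Nat.card H))
    (ha : ∀ p : ℕ, p.Prime → ∀ x y : H, orderOf x = p → orderOf y = p → x * y = y * x →
      y ∈ Subgroup.zpowers x)
    (hb : ∀ p r : ℕ, p.Prime → r.Prime → ∀ x y : H, orderOf x = p → orderOf y = r →
      x * y * x⁻¹ ∈ Subgroup.zpowers y → x * y = y * x) :
    Subgroup.center H ≠ ⊥ := by
  classical
  have hcyc : ∀ (q : ℕ) [Fact q.Prime], q ≠ 2 → ∀ R : Subgroup H, IsPGroup q R →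
      IsCyclic R := by
    intro q hqf hq2 R hR
    have hq : q.Prime := Fact.out
    obtain ⟨n, hn⟩ := IsPGroup.iff_card.mp hR
    refine h8_cyclic_of_unique_small q n ↥R hn ?_ (fun h2 => absurd h2 hq2)
    intro A B hA hB
    have hRnt : Nontrivial R := by
      rw [← Finite.one_lt_card_iff_nontrivial]
      have h1 : q ∣ Nat.card R := hA ▸ Subgroup.card_subgroup_dvd_card A
      exact lt_of_lt_of_le hq.one_lt (Nat.le_of_dvd Nat.card_pos h1)
    have hcn : Nontrivial (Subgroup.center R) := IsPGroup.center_nontrivial hR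
    obtain ⟨z, hzc, hz⟩ := h8_exists_orderOf_eq_prime hR (Subgroup.center R)
      ((Subgroup.nontrivial_iff_ne_bot _).1 hcn)
    have hAll : ∀ A : Subgroup R, Nat.card A = q → A = Subgroup.zpowers z := by
      intro A hA
      apply Subgroup.eq_of_le_of_card_ge
      · intro a haA
        by_cases ha1 : a = 1
        · rw [ha1]; exact Subgroup.one_mem _
        · have hoa : orderOf a = q := by
            have h1 : orderOf (⟨a, haA⟩ : A) ∣ Nat.card A := orderOf_dvd_natCard _
            rw [hA, ← Subgroup.orderOf_coe] at h1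
            rcases (Nat.dvd_prime hq).1 h1 with h | h
            · exact absurd (orderOf_eq_one_iff.1 h) ha1
            · exact h
          have hcomm : (z : H) * (a : H) = (a : H) * (z : H) := by
            have := Subgroup.mem_center_iff.1 hzc a
            exact (congrArg Subtype.val this).symm
          have h2 := ha q hq (z : H) (a : H) (by rw [Subgroup.orderOf_coe]; exact hz)
            (by rw [Subgroup.orderOf_coe]; exact hoa) hcomm
          obtain ⟨k, hk⟩ := Subgroup.mem_zpowers_iff.1 h2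
          rw [Subgroup.mem_zpowers_iff]
          exact ⟨k, Subtype.ext (by simpa using hk)⟩
      · rw [Nat.card_zpowers, hz, hA]
    rw [hAll A hA, hAll B hB]
  have hab_of_cyc : ∀ R : Subgroup H, IsCyclic R → ∀ a ∈ R, ∀ b ∈ R, a * b = b * a := by
    intro R hRc a ha b hb
    obtain ⟨c, hc⟩ := IsCyclic.exists_generator (α := R)
    obtain ⟨m, hm⟩ := Subgroup.mem_zpowers_iff.1 (hc ⟨a, ha⟩)
    obtain ⟨n, hn⟩ := Subgroup.mem_zpowers_iff.1 (hc ⟨b, hb⟩)
    have : (⟨a, ha⟩ : R) * ⟨b, hb⟩ = ⟨b, hb⟩ * ⟨a, ha⟩ := by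
      rw [← hm, ← hn, ← zpow_add, ← zpow_add, add_comm]
    exact congrArg Subtype.val this
  obtain ⟨p, hpdef⟩ : ∃ p, (Nat.card H).minFac = p := ⟨_, rfl⟩
  have hcard1 : Nat.card H ≠ 1 := (Finite.one_lt_card (α := H)).ne'
  have hp : p.Prime := hpdef ▸ Nat.minFac_prime hcard1
  have hpf : Fact p.Prime := ⟨hp⟩
  have hpH : p ∣ Nat.card H := hpdef ▸ Nat.minFac_dvd _
  have hp2 : p ≠ 2 := by
    rintro rfl
    exact (Nat.not_even_iff_odd.2 hodd) (even_iff_two_dvd.2 hpH)
  obtain ⟨P⟩ : Nonempty (Sylow p H) := inferInstance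
  have hPc : IsCyclic (P : Subgroup H) := hcyc p hp2 P P.2
  have hcompl := IsCyclic.isComplement' hpdef hPc
  obtain ⟨N, hNdef⟩ : ∃ N : Subgroup H,
      N = (MonoidHom.transferSylow P (hPc.normalizer_le_centralizer hpdef)).ker := ⟨_, rfl⟩
  rw [← hNdef] at hcompl
  have hNn : N.Normal := by rw [hNdef]; exact MonoidHom.normal_ker _
  have hNcop : (Nat.card N).Coprime p := by
    rw [← hcompl.index_eq_card]
    exact ((Nat.Prime.coprime_iff_not_dvd hp).2 P.not_dvd_index).symm
  have hP1 : (P : Subgroup H) ≠ ⊥ := Sylow.ne_bot_of_dvd_card P hpH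
  have hdvdP : p ∣ Nat.card (P : Subgroup H) := by
    obtain ⟨k, hk⟩ := IsPGroup.iff_card.mp P.2
    have hk0 : k ≠ 0 := by
      rintro rfl
      rw [pow_zero] at hk
      exact hP1 (Subgroup.card_eq_one.1 hk)
    rw [hk]; exact dvd_pow_self p hk0
  obtain ⟨x', hx'⟩ := exists_prime_orderOf_dvd_card' p hdvdP
  obtain ⟨x, hxdef⟩ : ∃ x : H, x = (x' : H) := ⟨_, rfl⟩
  have hxP : x ∈ (P : Subgroup H) := by rw [hxdef]; exact x'.2
  have hx : orderOf x = p := by rw [hxdef, Subgroup.orderOf_coe]; exact hx'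
  have hx1 : x ≠ 1 := by
    intro h
    rw [h, orderOf_one] at hx
    exact hp.one_lt.ne hx
  have hxp : x ^ p = 1 := by rw [← hx]; exact pow_orderOf_eq_one x
  have hxPc : ∀ g ∈ (P : Subgroup H), x * g = g * x :=
    fun g hg => hab_of_cyc P hPc x hxP g hg
  have hcent : ∀ (r : ℕ) [Fact r.Prime], ∀ R : Subgroup H, IsPGroup r R → R ≤ N →
      x ∈ Subgroup.normalizer (R : Set H) → ∀ g ∈ R, x * g = g * x := by
    intro r hrf R hR hRN hxR
    have hr : r.Prime := Fact.out
    by_cases hR1 : R = ⊥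
    · intro g hg
      rw [hR1, Subgroup.mem_bot] at hg
      rw [hg, mul_one, one_mul]
    have hrR : r ∣ Nat.card R := by
      obtain ⟨k, hk⟩ := IsPGroup.iff_card.mp hR
      have hk0 : k ≠ 0 := by
        rintro rfl
        rw [pow_zero] at hk
        exact hR1 (Subgroup.card_eq_one.1 hk)
      rw [hk]; exact dvd_pow_self r hk0
    have hrH : r ∣ Nat.card H := hrR.trans (Subgroup.card_subgroup_dvd_card R)
    have hr2 : r ≠ 2 := by
      rintro rfl
      exact (Nat.not_even_iff_odd.2 hodd) (even_iff_two_dvd.2 hrH)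
    have hrN : r ∣ Nat.card N := hrR.trans (Subgroup.card_dvd_of_le hRN)
    have hpr : Nat.Coprime p r := (Nat.Coprime.coprime_dvd_left hrN hNcop).symm
    have hRc : IsCyclic R := hcyc r hr2 R hR
    have hRab : ∀ a ∈ R, ∀ b ∈ R, a * b = b * a := hab_of_cyc R hRc
    have hxR' : ∀ g ∈ R, x * g * x⁻¹ ∈ R :=
      fun g hg => (Subgroup.mem_normalizer_iff.1 hxR g).1 hg
    apply h8_fc_centralizes_of_omega r p hpr R hR hRab x hxp hxR'
    intro g hg hgr
    by_cases hg1 : g = 1
    · rw [hg1, mul_one, one_mul]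
    have hog : orderOf g = r := orderOf_eq_prime hgr hg1
    have hog' : orderOf (x * g * x⁻¹) = r := by rw [h8_orderOf_conj]; exact hog
    have h2 := ha r hr g (x * g * x⁻¹) hog hog' (hRab g hg _ (hxR' g hg))
    exact hb p r hp hr x g hx hog h2
  obtain ⟨C, hCdef⟩ : ∃ C : Subgroup H, C = N ⊓ Subgroup.centralizer ({x} : Set H) := ⟨_, rfl⟩
  have hXp : IsPGroup p (Subgroup.zpowers x) := by
    apply IsPGroup.of_card (n := 1)
    rw [Nat.card_zpowers, hx, pow_one]
  have hdvd : Nat.card N ∣ Nat.card C := by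
    rw [← Nat.factorization_le_iff_dvd Nat.card_pos.ne' Nat.card_pos.ne', Finsupp.le_def]
    intro r
    by_cases hr : r.Prime
    · have hrf : Fact r.Prime := ⟨hr⟩
      obtain ⟨Q, hQ⟩ := h8_exists_invariant_sylow N hNcop (Subgroup.zpowers x) hXp r
      obtain ⟨R, hRdef⟩ : ∃ R : Subgroup H, R = (Q : Subgroup N).map N.subtype := ⟨_, rfl⟩
      rw [← hRdef] at hQ
      have hRN : R ≤ N := by rw [hRdef]; exact Subgroup.map_subtype_le _
      have hR : IsPGroup r R := by rw [hRdef]; exact Q.2.map _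
      have hRC : R ≤ C := by
        intro g hg
        rw [hCdef]
        exact ⟨hRN hg, (h8_mem_centralizer_singleton x g).2
          (hcent r R hR hRN (hQ (Subgroup.mem_zpowers x)) g hg)⟩
      have hcardR : Nat.card R = r ^ (Nat.card N).factorization r := by
        rw [hRdef, Subgroup.card_map_of_injective N.subtype_injective, Q.card_eq_multiplicity]
      have h1 : r ^ (Nat.card N).factorization r ∣ Nat.card C :=
        hcardR ▸ Subgroup.card_dvd_of_le hRC
      exact (Nat.Prime.pow_dvd_iff_le_factorization hr Nat.card_pos.ne').1 h1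
    · rw [Nat.factorization_eq_zero_of_not_prime _ hr]; exact Nat.zero_le _
  have hNC : N ≤ Subgroup.centralizer ({x} : Set H) := by
    have hCN : C ≤ N := by rw [hCdef]; exact inf_le_left
    have h1 : C = N := Subgroup.eq_of_le_of_card_ge hCN (Nat.le_of_dvd Nat.card_pos hdvd)
    rw [← h1, hCdef]; exact inf_le_right
  have hxc : x ∈ Subgroup.center H := by
    rw [Subgroup.mem_center_iff]
    intro g
    obtain ⟨⟨n, q⟩, hnq⟩ := (Subgroup.isComplement_iff_existsUnique.1 hcompl g).exists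
    have hn : x * (n : H) = (n : H) * x := (h8_mem_centralizer_singleton x n).1 (hNC n.2)
    have hq : x * (q : H) = (q : H) * x := hxPc q q.2
    have hg : g = (n : H) * (q : H) := hnq.symm
    rw [hg]
    calc (n : H) * (q : H) * x = (n : H) * ((q : H) * x) := by group
      _ = (n : H) * (x * (q : H)) := by rw [hq]
      _ = ((n : H) * x) * (q : H) := by group
      _ = (x * (n : H)) * (q : H) := by rw [hn]
      _ = x * ((n : H) * (q : H)) := by group
  intro hbot
  rw [hbot, Subgroup.mem_bot] at hxc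
  exact hx1 hxc

theorem h8_s0069 {G : Type u} [Group G] [Finite G] (K H : Subgroup G) [K.Normal]
    (hK : K ≠ ⊥) (hH : H ≠ ⊥) (hfpf : ∀ h ∈ H, h ≠ 1 → K ⊓ Subgroup.centralizer {h} = ⊥) :
    Subgroup.center H ≠ ⊥ := by
  by_cases heven : 2 ∣ Nat.card H
  · have : Fact (Nat.Prime 2) := ⟨Nat.prime_two⟩
    obtain ⟨t, ht⟩ := exists_prime_orderOf_dvd_card' 2 heven
    have ht' : orderOf (t : G) = 2 := by rw [Subgroup.orderOf_coe]; exact ht
    have hc := h8_frob_center_even K H hK hfpf (t : G) t.2 ht'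
    have htc : t ∈ Subgroup.center H := by
      rw [Subgroup.mem_center_iff]
      intro g
      exact Subtype.ext (hc g g.2)
    intro hbot
    rw [hbot, Subgroup.mem_bot] at htc
    rw [htc, orderOf_one] at ht
    omega
  · have hnt : Nontrivial H := (Subgroup.nontrivial_iff_ne_bot H).2 hH
    have hodd : Odd (Nat.card H) := by
      rw [← Nat.not_even_iff_odd, even_iff_two_dvd]; exact heven
    apply h8_center_odd hodd
    · intro p hp x y hx hy hxy
      have h1 := h8_frob_no_elab K H hK hfpf p hp (x : G) (y : G) x.2 y.2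
        (by rw [Subgroup.orderOf_coe]; exact hx) (by rw [Subgroup.orderOf_coe]; exact hy)
        (congrArg Subtype.val hxy)
      obtain ⟨k, hk⟩ := Subgroup.mem_zpowers_iff.1 h1
      rw [Subgroup.mem_zpowers_iff]
      exact ⟨k, Subtype.ext (by simpa using hk)⟩
    · intro p r hp hr x y hx hy hxy
      obtain ⟨k, hk⟩ := Subgroup.mem_zpowers_iff.1 hxy
      have h1 := h8_frob_pq K H hK hfpf p r hp hr (x : G) (y : G) x.2 y.2
        (by rw [Subgroup.orderOf_coe]; exact hx) (by rw [Subgroup.orderOf_coe]; exact hy) (by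
          rw [Subgroup.mem_zpowers_iff]
          exact ⟨k, by have := congrArg Subtype.val hk; simpa using this⟩)
      exact Subtype.ext h1

end Cfsg.Agent.Lib.Helper8
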