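import Mathlib
import Cfsg.Prelude.Def_LieExceptional
import Cfsg.Agent.Lib.Helper8.Basic
import Cfsg.Agent.Lib.Helper8.Invol
import Cfsg.Agent.Lib.Helper8.PGroupNormal
import Cfsg.Agent.Lib.Helper8.FrobCenter

set_option autoImplicit false
set_option linter.style.haveILetI false
universe u

namespace Cfsg.Agent.Lib.Helper8

/-- a subgroup containing a Sylow `q`-subgroup for every prime `q` is everything -/
theorem h8_eq_top_of_sylows {K : Type u} [Group K] [Finite K] (C : Subgroup K)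
    (h : ∀ (q : ℕ) [Fact q.Prime], ∃ Q : Sylow q K, (Q : Subgroup K) ≤ C) : C = ⊤ := by
  rw [← Subgroup.index_eq_one]
  by_contra hne
  obtain ⟨q, hq, hdvd⟩ := Nat.exists_prime_and_dvd hne
  haveI : Fact q.Prime := ⟨hq⟩
  obtain ⟨Q, hQ⟩ := h q
  exact Q.not_dvd_index (hdvd.trans (Subgroup.index_dvd_of_le hQ))

/-- in a finite nilpotent group, distinct Sylow subgroups commute elementwise -/
theorem h8_nilp_sylow_commute {K : Type u} [Group K] [Finite K] (hK : Group.IsNilpotent K)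
    (p q : ℕ) [Fact p.Prime] [Fact q.Prime] (hqp : q ≠ p) (P : Sylow p K) (Q : Sylow q K)
    (x y : K) (hx : x ∈ Q) (hy : y ∈ P) : x * y = y * x := by
  haveI := hK
  have hPn : (P : Subgroup K).Normal := inferInstance
  have hQn : (Q : Subgroup K).Normal := inferInstance
  have hdis : Disjoint (Q : Subgroup K) (P : Subgroup K) :=
    IsPGroup.disjoint_of_ne q p hqp _ _ Q.isPGroup' P.isPGroup'
  have h1 : x * y * x⁻¹ * y⁻¹ ∈ (P : Subgroup K) :=
    Subgroup.mul_mem _ (hPn.conj_mem y hy x) (Subgroup.inv_mem _ hy)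
  have h2 : x * y * x⁻¹ * y⁻¹ ∈ (Q : Subgroup K) := by
    have h3 := Subgroup.mul_mem _ hx (hQn.conj_mem x⁻¹ (Subgroup.inv_mem _ hx) y)
    have e : x * (y * x⁻¹ * y⁻¹) = x * y * x⁻¹ * y⁻¹ := by group
    rw [← e]; exact h3
  have h4 : x * y * x⁻¹ * y⁻¹ = 1 := Subgroup.disjoint_def.1 hdis h2 h1
  calc x * y = (x * y * x⁻¹ * y⁻¹) * (y * x) := by group
    _ = y * x := by rw [h4, one_mul]

/-- in a finite nilpotent group, the centre of a Sylow subgroup is central -/
theorem h8_nilp_sylow_center {K : Type u} [Group K] [Finite K] (hK : Group.IsNilpotent K)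
    (p : ℕ) [Fact p.Prime] (P : Sylow p K) (y : K) (hy : y ∈ P)
    (hc : ∀ x ∈ P, x * y = y * x) (k : K) : k * y = y * k := by
  have hC : Subgroup.centralizer ({y} : Set K) = ⊤ := by
    apply h8_eq_top_of_sylows
    intro q _
    by_cases hqp : q = p
    · subst hqp
      refine ⟨P, fun x hx => ?_⟩
      rw [h8_mem_centralizer_singleton]
      exact (hc x hx).symm
    · obtain ⟨Q⟩ := (inferInstance : Nonempty (Sylow q K))
      refine ⟨Q, fun x hx => ?_⟩
      rw [h8_mem_centralizer_singleton]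
      exact (h8_nilp_sylow_commute hK p q hqp P Q x y hx hy).symm
  have hk : k ∈ Subgroup.centralizer ({y} : Set K) := by rw [hC]; exact Subgroup.mem_top k
  exact ((h8_mem_centralizer_singleton y k).1 hk).symm

/-- in a finite nilpotent group, elements of order prime to `p` centralise the Sylow
`p`-subgroup -/
theorem h8_nilp_commute_coprime {K : Type u} [Group K] [Finite K] (hK : Group.IsNilpotent K)
    (p : ℕ) [Fact p.Prime] (P : Sylow p K) (c : K) (hc : (orderOf c).Coprime p)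
    (x : K) (hx : x ∈ P) : c * x = x * c := by
  haveI := hK
  have hp := (Fact.out : p.Prime)
  have hPn : (P : Subgroup K).Normal := inferInstance
  obtain ⟨D, hD⟩ : ∃ D : Subgroup K, D = Subgroup.centralizer ((P : Subgroup K) : Set K) :=
    ⟨_, rfl⟩
  haveI hDn : D.Normal := by rw [hD]; infer_instance
  have hcop : (D.index).Coprime (orderOf c) := by
    by_contra hnc
    obtain ⟨q, hq, hq1, hq2⟩ := Nat.Prime.not_coprime_iff_dvd.1 hnc
    haveI : Fact q.Prime := ⟨hq⟩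
    have hqp : q ≠ p := by
      rintro rfl
      exact (Nat.Prime.coprime_iff_not_dvd hq).1 hc.symm hq2
    obtain ⟨Q⟩ := (inferInstance : Nonempty (Sylow q K))
    have hQD : (Q : Subgroup K) ≤ D := by
      intro y hy
      rw [hD, Subgroup.mem_centralizer_iff]
      intro z hz
      exact (h8_nilp_sylow_commute hK p q hqp P Q y z hy hz).symm
    exact Q.not_dvd_index (hq1.trans (Subgroup.index_dvd_of_le hQD))
  obtain ⟨m, hm⟩ := exists_pow_eq_self_of_coprime hcop
  have hcD : c ∈ D := by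
    rw [← hm]
    exact Subgroup.pow_mem _ (Subgroup.pow_index_mem D c) m
  rw [hD] at hcD
  exact (Subgroup.mem_centralizer_iff.1 hcD x hx).symm

/-- in a finite nilpotent group, a `p`-element commutes with a `p'`-element -/
theorem h8_nilp_commute_coprime' {K : Type u} [Group K] [Finite K] (hK : Group.IsNilpotent K)
    (p : ℕ) [Fact p.Prime] (c a : K) (hc : (orderOf c).Coprime p) (k : ℕ)
    (ha : a ^ (p ^ k) = 1) : c * a = a * c := by
  have hp := (Fact.out : p.Prime)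
  have hpg : IsPGroup p (Subgroup.zpowers a) := by
    obtain ⟨j, -, hj⟩ := (Nat.dvd_prime_pow hp).1 (orderOf_dvd_of_pow_eq_one ha)
    exact IsPGroup.of_card (n := j) (by rw [Nat.card_zpowers, hj])
  obtain ⟨R, hR⟩ := hpg.exists_le_sylow
  exact h8_nilp_commute_coprime hK p R c hc a (hR (Subgroup.mem_zpowers a))

/-- a nontrivial Sylow subgroup has a nontrivial central element -/
theorem h8_sylow_center_elt {K : Type u} [Group K] [Finite K] (q : ℕ) [Fact q.Prime]
    (Q : Sylow q K) (hq : q ∣ Nat.card K) :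
    ∃ z : K, z ∈ Q ∧ z ≠ 1 ∧ ∀ x ∈ Q, x * z = z * x := by
  have hne : (Q : Subgroup K) ≠ ⊥ := Q.ne_bot_of_dvd_card hq
  have h := h8_center_sub_ne_bot (Q : Subgroup K) Q.isPGroup' hne
  obtain ⟨⟨z, hz⟩, hz1⟩ := (Subgroup.ne_bot_iff_exists_ne_one).1 h
  refine ⟨z, hz.1, fun h1 => hz1 (Subtype.ext h1), fun x hx => ?_⟩
  exact Subgroup.mem_centralizer_iff.1 hz.2 x hx

section CN

variable {G : Type u} [Group G] [Finite G]

/-- the centraliser of a nontrivial central element of a Sylow subgroup of a maximal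
nilpotent subgroup `H` of a CN-group is `H` -/
theorem h8_cn_star (hCN : Cfsg.IsCNGroup G) (H : Subgroup G) (hH : Group.IsNilpotent H)
    (hmax : ∀ L : Subgroup G, Group.IsNilpotent L → H ≤ L → L = H)
    (q : ℕ) [Fact q.Prime] (Q : Sylow q H) (z : H) (hzQ : z ∈ Q) (hz1 : z ≠ 1)
    (hzc : ∀ x ∈ Q, x * z = z * x) :
    Subgroup.centralizer ({(z : G)} : Set G) = H := by
  apply hmax _ (hCN _ (fun h => hz1 (Subtype.ext h)))
  intro h hh
  rw [h8_mem_centralizer_singleton]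
  have h1 := h8_nilp_sylow_center hH q Q z hzQ hzc ⟨h, hh⟩
  exact (congrArg Subtype.val h1).symm

theorem h8_cn_coprime (hCN : Cfsg.IsCNGroup G) (H : Subgroup G) (hH : Group.IsNilpotent H)
    (hmax : ∀ L : Subgroup G, Group.IsNilpotent L → H ≤ L → L = H) :
    (Nat.card H).Coprime H.index := by
  by_contra hnc
  obtain ⟨p, hp, hpH, hpI⟩ := Nat.Prime.not_coprime_iff_dvd.1 hnc
  haveI : Fact p.Prime := ⟨hp⟩
  obtain ⟨P⟩ := (inferInstance : Nonempty (Sylow p H))
  obtain ⟨Pg, hPg⟩ : ∃ Pg : Subgroup G, Pg = (P : Subgroup H).map H.subtype := ⟨_, rfl⟩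
  have hPgmem : ∀ y : G, y ∈ Pg ↔ ∃ hy : y ∈ H, (⟨y, hy⟩ : H) ∈ P := by
    intro y
    rw [hPg]
    constructor
    · rintro ⟨w, hw, rfl⟩
      exact ⟨w.2, hw⟩
    · rintro ⟨hy, hw⟩
      exact ⟨⟨y, hy⟩, hw, rfl⟩
  have hPgH : Pg ≤ H := fun y hy => ((hPgmem y).1 hy).1
  have hPgp : IsPGroup p Pg := by
    rw [hPg]; exact P.isPGroup'.map H.subtype
  obtain ⟨S, hS⟩ := hPgp.exists_le_sylow
  obtain ⟨M, hM⟩ : ∃ M : Subgroup G, M = (S : Subgroup G) ⊓ Subgroup.normalizer (Pg : Set G) :=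
    ⟨_, rfl⟩
  have hPgM : Pg ≤ M := by rw [hM]; exact le_inf hS Subgroup.le_normalizer
  have hMp : IsPGroup p M := by rw [hM]; exact S.isPGroup'.to_le inf_le_left
  haveI hN : (Pg.subgroupOf M).Normal :=
    Subgroup.normal_subgroupOf_of_le_normalizer (by rw [hM]; exact inf_le_right)
  obtain ⟨z0, hz0P, hz01, -⟩ := h8_sylow_center_elt p P hpH
  have hNne : Pg.subgroupOf M ≠ ⊥ := by
    intro hbot
    have hz0Pg : (z0 : G) ∈ Pg := (hPgmem _).2 ⟨z0.2, hz0P⟩
    have h1 : (⟨(z0 : G), hPgM hz0Pg⟩ : M) ∈ Pg.subgroupOf M := Subgroup.mem_subgroupOf.2 hz0Pg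
    rw [hbot, Subgroup.mem_bot] at h1
    have h2 : (z0 : G) = 1 := congrArg Subtype.val h1
    exact hz01 (Subtype.ext h2)
  have hcen := h8_normal_inf_center_ne_bot hMp (Pg.subgroupOf M) hNne
  obtain ⟨⟨⟨y, hyM⟩, hy⟩, hy1⟩ := (Subgroup.ne_bot_iff_exists_ne_one).1 hcen
  have hyPg : y ∈ Pg := Subgroup.mem_subgroupOf.1 hy.1
  have hyc : ∀ m ∈ M, m * y = y * m := by
    intro m hm
    have := Subgroup.mem_center_iff.1 hy.2 ⟨m, hm⟩
    exact congrArg Subtype.val this
  have hy1' : y ≠ 1 := fun h => hy1 (Subtype.ext (Subtype.ext h))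
  obtain ⟨hyH, hyP⟩ := (hPgmem y).1 hyPg
  have hstar := h8_cn_star hCN H hH hmax p P ⟨y, hyH⟩ hyP (fun h => hy1' (congrArg Subtype.val h))
    (fun x hx => Subtype.ext (hyc _ (hPgM ((hPgmem _).2 ⟨x.2, hx⟩))))
  have hMH : M ≤ H := by
    intro m hm
    rw [← hstar, h8_mem_centralizer_singleton]
    exact (hyc m hm).symm
  have hMPg : M ≤ Pg := by
    have h1 : M.subgroupOf H = (P : Subgroup H) := by
      apply P.is_maximal' (hMp.comap_of_injective H.subtype H.subtype_injective)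
      intro w hw
      exact Subgroup.mem_subgroupOf.2 (hPgM ((hPgmem _).2 ⟨w.2, hw⟩))
    intro m hm
    refine (hPgmem m).2 ⟨hMH hm, ?_⟩
    have h2 : (⟨m, hMH hm⟩ : H) ∈ M.subgroupOf H := Subgroup.mem_subgroupOf.2 hm
    rw [h1] at h2
    exact h2
  -- normaliser condition in S
  have hSPg : (S : Subgroup G) ≤ Pg := by
    have hnil : Group.IsNilpotent (S : Subgroup G) := S.isPGroup'.isNilpotent
    have hnc := @Group.normalizerCondition_of_isNilpotent _ _ hnil
    have htop : Pg.subgroupOf (S : Subgroup G) = ⊤ := by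
      by_contra hne
      have hlt := hnc _ (lt_top_iff_ne_top.2 hne)
      obtain ⟨s, hs, hs'⟩ := SetLike.exists_of_lt hlt
      apply hs'
      rw [Subgroup.mem_subgroupOf]
      apply hMPg
      rw [hM]
      refine Subgroup.mem_inf.2 ⟨s.2, ?_⟩
      apply h8_mem_normalizer_of_conj_mem
      intro x hx
      have hx' : (⟨x, hS hx⟩ : (S : Subgroup G)) ∈ Pg.subgroupOf (S : Subgroup G) :=
        Subgroup.mem_subgroupOf.2 hx
      have h3 := (Subgroup.mem_normalizer_iff.1 hs ⟨x, hS hx⟩).1 hx'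
      exact Subgroup.mem_subgroupOf.1 h3
    intro s hs
    have h4 : (⟨s, hs⟩ : (S : Subgroup G)) ∈ Pg.subgroupOf (S : Subgroup G) := by
      rw [htop]; exact Subgroup.mem_top _
    exact Subgroup.mem_subgroupOf.1 h4
  have hSH : (S : Subgroup G) ≤ H := hSPg.trans hPgH
  exact S.not_dvd_index (hpI.trans (Subgroup.index_dvd_of_le hSH))

/-- a Sylow subgroup of a maximal nilpotent subgroup of a CN-group is a maximal `q`-subgroup -/
theorem h8_cn_sylow_max (hCN : Cfsg.IsCNGroup G) (H : Subgroup G) (hH : Group.IsNilpotent H)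
    (hmax : ∀ L : Subgroup G, Group.IsNilpotent L → H ≤ L → L = H)
    (q : ℕ) [Fact q.Prime] (Q : Sylow q H) (hqH : q ∣ Nat.card H) (T : Subgroup G)
    (hT : IsPGroup q T) (hQT : (Q : Subgroup H).map H.subtype ≤ T) :
    T = (Q : Subgroup H).map H.subtype := by
  have hq := (Fact.out : q.Prime)
  have hcop := h8_cn_coprime hCN H hH hmax
  obtain ⟨S, hS⟩ := hT.exists_le_sylow
  have hc1 : Nat.card ((Q : Subgroup H).map H.subtype) = Nat.card (Q : Subgroup H) :=
    Subgroup.card_map_of_injective H.subtype_injective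
  have hc2 : Nat.card (Q : Subgroup H) = q ^ (Nat.card H).factorization q := Q.card_eq_multiplicity
  have hc3 : Nat.card (S : Subgroup G) = q ^ (Nat.card G).factorization q := S.card_eq_multiplicity
  have hqI : ¬ q ∣ H.index := by
    intro hd
    have := Nat.Coprime.eq_one_of_dvd (Nat.Coprime.coprime_dvd_left hqH hcop) hd
    exact hq.one_lt.ne' this
  have hfac : (Nat.card G).factorization q = (Nat.card H).factorization q := by
    rw [← Subgroup.card_mul_index H, Nat.factorization_mul Nat.card_pos.ne'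
      (fun h0 => hqI (by rw [h0]; exact dvd_zero q)), Finsupp.add_apply,
      Nat.factorization_eq_zero_of_not_dvd hqI, add_zero]
  have hQS : (Q : Subgroup H).map H.subtype = (S : Subgroup G) := by
    apply Subgroup.eq_of_le_of_card_ge (hQT.trans hS)
    rw [hc1, hc2, hc3, hfac]
  exact le_antisymm (hS.trans hQS.ge) hQT

theorem h8_cn_ti (hCN : Cfsg.IsCNGroup G) (H : Subgroup G) (hH : Group.IsNilpotent H)
    (hmax : ∀ L : Subgroup G, Group.IsNilpotent L → H ≤ L → L = H)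
    (hnpp : ¬ IsPrimePow (Nat.card H)) (g : G)
    (hg : H.map (MulAut.conj g).toMonoidHom ≠ H) :
    H ⊓ H.map (MulAut.conj g).toMonoidHom = ⊥ := by
  by_contra hne
  obtain ⟨⟨x, hx⟩, hx1⟩ := (Subgroup.ne_bot_iff_exists_ne_one).1 hne
  have hx1' : x ≠ 1 := fun h => hx1 (Subtype.ext h)
  have hox : orderOf x ≠ 1 := fun h => hx1' (orderOf_eq_one_iff.1 h)
  obtain ⟨p, hp, hpd⟩ := Nat.exists_prime_and_dvd hox
  haveI : Fact p.Prime := ⟨hp⟩
  obtain ⟨x₁, hx₁⟩ : ∃ x₁ : G, x₁ = x ^ (orderOf x / p) := ⟨_, rfl⟩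
  have hox₁ : orderOf x₁ = p := by
    rw [hx₁]; exact orderOf_pow_orderOf_div (orderOf_pos x).ne' hpd
  have hx₁H : x₁ ∈ H := by rw [hx₁]; exact H.pow_mem hx.1 _
  have hx₁Hg : g⁻¹ * x₁ * g ∈ H := by
    rw [← h8_mem_map_conj, hx₁]; exact Subgroup.pow_mem _ hx.2 _
  have hx₁1 : x₁ ≠ 1 := by
    intro h
    rw [h, orderOf_one] at hox₁
    exact hp.one_lt.ne hox₁
  have hpH : p ∣ Nat.card H := by
    have h1 : orderOf (⟨x₁, hx₁H⟩ : H) = p := by rw [Subgroup.orderOf_mk]; exact hox₁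
    rw [← h1]; exact orderOf_dvd_natCard _
  obtain ⟨q, hq, hqH, hqp⟩ : ∃ q, q.Prime ∧ q ∣ Nat.card H ∧ q ≠ p := by
    by_contra hcon
    push Not at hcon
    exact hnpp (isPrimePow_iff_unique_prime_dvd.2 ⟨p, ⟨hp, hpH⟩, fun q hq => hcon q hq.1 hq.2⟩)
  haveI : Fact q.Prime := ⟨hq⟩
  obtain ⟨Q⟩ := (inferInstance : Nonempty (Sylow q H))
  obtain ⟨z, hzQ, hz1, hzc⟩ := h8_sylow_center_elt q Q hqH
  have hCz := h8_cn_star hCN H hH hmax q Q z hzQ hz1 hzc
  obtain ⟨Qg, hQg⟩ : ∃ Qg : Subgroup G, Qg = (Q : Subgroup H).map H.subtype := ⟨_, rfl⟩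
  have hQgmem : ∀ y : G, y ∈ Qg ↔ ∃ hy : y ∈ H, (⟨y, hy⟩ : H) ∈ Q := by
    intro y
    rw [hQg]
    constructor
    · rintro ⟨w, hw, rfl⟩
      exact ⟨w.2, hw⟩
    · rintro ⟨hy, hw⟩
      exact ⟨⟨y, hy⟩, hw, rfl⟩
  have hQgq : IsPGroup q Qg := by rw [hQg]; exact Q.isPGroup'.map H.subtype
  have hcopq : ∀ w : H, orderOf w = p → (orderOf w).Coprime q := by
    intro w hw
    rw [hw]; exact (Nat.coprime_primes hp hq).2 hqp.symm
  -- Q centralises x₁ and g⁻¹ x₁ g
  have hQx : ∀ y ∈ Qg, ∀ w : G, w ∈ H → orderOf w = p → w * y = y * w := by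
    intro y hy w hw how
    obtain ⟨hyH, hyQ⟩ := (hQgmem y).1 hy
    have h1 := h8_nilp_commute_coprime hH q Q ⟨w, hw⟩
      (hcopq _ (by rw [Subgroup.orderOf_mk]; exact how)) ⟨y, hyH⟩ hyQ
    exact congrArg Subtype.val h1
  have hQx1 : ∀ y ∈ Qg, x₁ * y = y * x₁ := fun y hy => hQx y hy x₁ hx₁H hox₁
  have hQx2 : ∀ y ∈ Qg, x₁ * (g * y * g⁻¹) = (g * y * g⁻¹) * x₁ := by
    intro y hy
    have h1 := hQx y hy (g⁻¹ * x₁ * g) hx₁Hg (by
      have := h8_orderOf_conj g⁻¹ x₁
      rw [inv_inv] at this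
      rw [this]; exact hox₁)
    calc x₁ * (g * y * g⁻¹) = g * ((g⁻¹ * x₁ * g) * y) * g⁻¹ := by group
      _ = g * (y * (g⁻¹ * x₁ * g)) * g⁻¹ := by rw [h1]
      _ = (g * y * g⁻¹) * x₁ := by group
  -- the centraliser of x₁
  have hCnil := hCN x₁ hx₁1
  obtain ⟨C, hC⟩ : ∃ C : Subgroup G, C = Subgroup.centralizer ({x₁} : Set G) := ⟨_, rfl⟩
  rw [← hC] at hCnil
  have hCmem : ∀ y : G, y ∈ C ↔ x₁ * y = y * x₁ := by
    intro y; rw [hC]; exact h8_mem_centralizer_singleton x₁ y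
  haveI := hCnil
  obtain ⟨R⟩ := (inferInstance : Nonempty (Sylow q C))
  have hRn : (R : Subgroup C).Normal := inferInstance
  have hRall : ∀ T : Subgroup G, IsPGroup q T → T ≤ C → T ≤ (R : Subgroup C).map C.subtype := by
    intro T hT hTC
    obtain ⟨R', hR'⟩ := (hT.comap_of_injective C.subtype C.subtype_injective).exists_le_sylow
    haveI := Sylow.unique_of_normal R hRn
    have hRR : R' = R := Subsingleton.elim _ _
    intro t ht
    refine ⟨⟨t, hTC ht⟩, ?_, rfl⟩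
    rw [← hRR]
    exact hR' (Subgroup.mem_subgroupOf.2 ht)
  have hQR : Qg ≤ (R : Subgroup C).map C.subtype :=
    hRall Qg hQgq (fun y hy => (hCmem y).2 (hQx1 y hy))
  have hRQ : (R : Subgroup C).map C.subtype = Qg := by
    rw [hQg]
    apply h8_cn_sylow_max hCN H hH hmax q Q hqH _ (R.isPGroup'.map C.subtype)
    rw [← hQg]; exact hQR
  have hQgg : Qg.map (MulAut.conj g).toMonoidHom ≤ Qg := by
    have h7 := hRall (Qg.map (MulAut.conj g).toMonoidHom) (hQgq.map _) (by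
      rintro _ ⟨y, hy, rfl⟩
      rw [hCmem]
      have := hQx2 y hy
      simpa using this)
    rw [hRQ] at h7
    exact h7
  have hQgeq : Qg.map (MulAut.conj g).toMonoidHom = Qg := by
    apply Subgroup.eq_of_le_of_card_ge hQgg
    rw [Subgroup.card_map_of_injective (MulAut.conj g).injective]
  -- z' = g z g⁻¹
  have hzQg : (z : G) ∈ Qg := (hQgmem _).2 ⟨z.2, hzQ⟩
  have hz'Qg : g * (z : G) * g⁻¹ ∈ Qg := by
    rw [← hQgeq, h8_mem_map_conj]
    have e : g⁻¹ * (g * (z : G) * g⁻¹) * g = z := by group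
    rw [e]; exact hzQg
  obtain ⟨hz'H, hz'Q⟩ := (hQgmem _).1 hz'Qg
  have hzcG : ∀ y ∈ Qg, y * (z : G) = z * y := by
    intro y hy
    obtain ⟨hyH, hyQ⟩ := (hQgmem y).1 hy
    exact congrArg Subtype.val (hzc ⟨y, hyH⟩ hyQ)
  have hCz' := h8_cn_star hCN H hH hmax q Q ⟨g * (z : G) * g⁻¹, hz'H⟩ hz'Q
    (fun h => hz1 (by
      have h1 : g * (z : G) * g⁻¹ = 1 := congrArg Subtype.val h
      have h2 : (z : G) = 1 := by
        calc (z : G) = g⁻¹ * (g * (z : G) * g⁻¹) * g := by group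
          _ = 1 := by rw [h1]; group
      exact Subtype.ext h2))
    (fun w hw => by
      apply Subtype.ext
      have hwQg : (w : G) ∈ Qg := (hQgmem _).2 ⟨w.2, hw⟩
      have hw2 : g⁻¹ * (w : G) * g ∈ Qg := by
        rw [← h8_mem_map_conj, hQgeq]; exact hwQg
      have h3 := hzcG _ hw2
      show (w : G) * (g * (z : G) * g⁻¹) = (g * (z : G) * g⁻¹) * (w : G)
      calc (w : G) * (g * (z : G) * g⁻¹) = g * ((g⁻¹ * (w : G) * g) * z) * g⁻¹ := by group
        _ = g * (z * (g⁻¹ * (w : G) * g)) * g⁻¹ := by rw [h3]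
        _ = (g * (z : G) * g⁻¹) * (w : G) := by group)
  -- H^g ≤ H
  apply hg
  apply Subgroup.eq_of_le_of_card_ge
  · rintro _ ⟨h, hh, rfl⟩
    have hh' : h ∈ Subgroup.centralizer ({(z : G)} : Set G) := by rw [hCz]; exact hh
    rw [h8_mem_centralizer_singleton] at hh'
    have h5 : (MulAut.conj g).toMonoidHom h ∈
        Subgroup.centralizer ({g * (z : G) * g⁻¹} : Set G) := by
      rw [h8_mem_centralizer_singleton]
      show g * (z : G) * g⁻¹ * (g * h * g⁻¹) = (g * h * g⁻¹) * (g * (z : G) * g⁻¹)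
      calc g * (z : G) * g⁻¹ * (g * h * g⁻¹) = g * ((z : G) * h) * g⁻¹ := by group
        _ = g * (h * (z : G)) * g⁻¹ := by rw [hh']
        _ = (g * h * g⁻¹) * (g * (z : G) * g⁻¹) := by group
    rw [hCz'] at h5
    exact h5
  · rw [Subgroup.card_map_of_injective (MulAut.conj g).injective]

theorem h8_cn_cent (hCN : Cfsg.IsCNGroup G) (H : Subgroup G) (hH : Group.IsNilpotent H)
    (hmax : ∀ L : Subgroup G, Group.IsNilpotent L → H ≤ L → L = H)
    (hTI : ∀ g : G, H.map (MulAut.conj g).toMonoidHom ≠ H →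
      H ⊓ H.map (MulAut.conj g).toMonoidHom = ⊥)
    (x : G) (hx : x ∈ H) (hx1 : x ≠ 1) : Subgroup.centralizer ({x} : Set G) ≤ H := by
  have hcop := h8_cn_coprime hCN H hH hmax
  have hCnil := hCN x hx1
  obtain ⟨C, hC⟩ : ∃ C : Subgroup G, C = Subgroup.centralizer ({x} : Set G) := ⟨_, rfl⟩
  rw [← hC] at hCnil ⊢
  have hCmem : ∀ y : G, y ∈ C ↔ x * y = y * x := by
    intro y; rw [hC]; exact h8_mem_centralizer_singleton x y
  have hCN' : C ≤ Subgroup.normalizer (H : Set G) := by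
    intro c hc
    apply h8_mem_normalizer_of_map_conj_eq
    by_contra hne
    have h1 := hTI c hne
    have hxmem : x ∈ H ⊓ H.map (MulAut.conj c).toMonoidHom := by
      refine Subgroup.mem_inf.2 ⟨hx, (h8_mem_map_conj c H x).2 ?_⟩
      have h2 := (hCmem c).1 hc
      have e : c⁻¹ * x * c = x := by
        calc c⁻¹ * x * c = c⁻¹ * (x * c) := by group
          _ = c⁻¹ * (c * x) := by rw [h2]
          _ = x := by group
      rw [e]; exact hx
    rw [h1] at hxmem
    exact hx1 (Subgroup.mem_bot.1 hxmem)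
  have hH1 : Nat.card H ≠ 1 := by
    intro h1
    have := Subgroup.card_eq_one.1 h1
    rw [this] at hx
    exact hx1 (Subgroup.mem_bot.1 hx)
  obtain ⟨p, hp, hpH⟩ := Nat.exists_prime_and_dvd hH1
  haveI : Fact p.Prime := ⟨hp⟩
  obtain ⟨P⟩ := (inferInstance : Nonempty (Sylow p H))
  obtain ⟨z, hzP, hz1, hzc⟩ := h8_sylow_center_elt p P hpH
  have hCz := h8_cn_star hCN H hH hmax p P z hzP hz1 hzc
  have hzx : x * (z : G) = z * x := by
    have : x ∈ Subgroup.centralizer ({(z : G)} : Set G) := by rw [hCz]; exact hx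
    exact ((h8_mem_centralizer_singleton _ _).1 this).symm
  have hzC : (z : G) ∈ C := (hCmem _).2 hzx
  obtain ⟨kz, hkz⟩ : ∃ k : ℕ, (z : G) ^ (p ^ k) = 1 := by
    obtain ⟨k, hk⟩ := P.isPGroup' ⟨z, hzP⟩
    refine ⟨k, ?_⟩
    have := congrArg (fun w : (P : Subgroup H) => ((w : H) : G)) hk
    simpa using this
  have hpI : (H.index).Coprime p := by
    have := Nat.Coprime.coprime_dvd_left hpH hcop
    exact this.symm
  intro c hc
  obtain ⟨k, m, hpm, hkm⟩ := Nat.exists_eq_pow_mul_and_not_dvd (orderOf_pos c).ne' p hp.ne_one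
  have hcopkm : Nat.Coprime (p ^ k) m :=
    Nat.Coprime.pow_left k ((Nat.Prime.coprime_iff_not_dvd hp).2 hpm)
  -- the p'-part
  have h1 : c ^ (p ^ k) ∈ H := by
    have hc1 : c ^ (p ^ k) ∈ C := C.pow_mem hc _
    have hord : (orderOf (⟨c ^ (p ^ k), hc1⟩ : C)).Coprime p := by
      rw [Subgroup.orderOf_mk]
      have hd : orderOf (c ^ (p ^ k)) ∣ m := by
        apply orderOf_dvd_of_pow_eq_one
        rw [← pow_mul, ← hkm, pow_orderOf_eq_one]
      exact Nat.Coprime.coprime_dvd_left hd ((Nat.Prime.coprime_iff_not_dvd hp).2 hpm).symm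
    have h2 := h8_nilp_commute_coprime' hCnil p ⟨c ^ (p ^ k), hc1⟩ ⟨(z : G), hzC⟩ hord kz
      (Subtype.ext (by simpa using hkz))
    have h3 : c ^ (p ^ k) * (z : G) = z * c ^ (p ^ k) := congrArg Subtype.val h2
    rw [← hCz, h8_mem_centralizer_singleton]
    exact h3.symm
  -- the p-part
  have h2 : c ^ m ∈ H := by
    have hcN : c ^ m ∈ Subgroup.normalizer (H : Set G) := Subgroup.pow_mem _ (hCN' hc) _
    haveI hHn : (H.subgroupOf (Subgroup.normalizer (H : Set G))).Normal :=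
      Subgroup.normal_subgroupOf_of_le_normalizer le_rfl
    have hidx : ((H.subgroupOf (Subgroup.normalizer (H : Set G))).index).Coprime
        (orderOf (⟨c ^ m, hcN⟩ : Subgroup.normalizer (H : Set G))) := by
      have hd1 : (H.subgroupOf (Subgroup.normalizer (H : Set G))).index ∣ H.index :=
        Subgroup.relIndex_dvd_index_of_le Subgroup.le_normalizer
      have hd2 : orderOf (⟨c ^ m, hcN⟩ : Subgroup.normalizer (H : Set G)) ∣ p ^ k := by
        rw [Subgroup.orderOf_mk]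
        apply orderOf_dvd_of_pow_eq_one
        rw [← pow_mul, mul_comm, ← hkm, pow_orderOf_eq_one]
      exact Nat.Coprime.coprime_dvd_left hd1 (Nat.Coprime.coprime_dvd_right hd2
        (Nat.Coprime.pow_right k hpI))
    obtain ⟨j, hj⟩ := exists_pow_eq_self_of_coprime hidx
    have h4 : (⟨c ^ m, hcN⟩ : Subgroup.normalizer (H : Set G)) ∈
        H.subgroupOf (Subgroup.normalizer (H : Set G)) := by
      rw [← hj]
      exact Subgroup.pow_mem _ (Subgroup.pow_index_mem _ _) j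
    exact Subgroup.mem_subgroupOf.1 h4
  obtain ⟨u, v, huv⟩ := Nat.isCoprime_iff_coprime.2 hcopkm
  have hcdec : c = (c ^ (p ^ k)) ^ u * (c ^ m) ^ v := by
    rw [← zpow_natCast c (p ^ k), ← zpow_natCast c m, ← zpow_mul, ← zpow_mul, ← zpow_add]
    have e : ((p ^ k : ℕ) : ℤ) * u + (m : ℤ) * v = 1 := by
      rw [← huv]; push_cast; ring
    rw [e, zpow_one]
  rw [hcdec]
  exact H.mul_mem (H.zpow_mem h1 u) (H.zpow_mem h2 v)

theorem h8_s1477 (hCN : Cfsg.IsCNGroup G) (H : Subgroup G) (hH : Group.IsNilpotent H)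
    (hmax : ∀ L : Subgroup G, Group.IsNilpotent L → H ≤ L → L = H) :
    (Nat.card H).Coprime H.index ∧
      (¬ IsPrimePow (Nat.card H) → Nat.card H ≠ 1 → ∀ g : G,
        H.map (MulAut.conj g).toMonoidHom ≠ H → H ⊓ H.map (MulAut.conj g).toMonoidHom = ⊥) ∧
      ((∀ g : G, H.map (MulAut.conj g).toMonoidHom ≠ H →
        H ⊓ H.map (MulAut.conj g).toMonoidHom = ⊥) →
        ∀ x ∈ H, x ≠ 1 → Subgroup.centralizer ({x} : Set G) ≤ H) :=
  ⟨h8_cn_coprime hCN H hH hmax, fun hnpp _ g hg => h8_cn_ti hCN H hH hmax hnpp g hg,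
    fun hTI x hx hx1 => h8_cn_cent hCN H hH hmax hTI x hx hx1⟩

end CN

end Cfsg.Agent.Lib.Helper8
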