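import Mathlib

set_option autoImplicit false
set_option linter.style.haveILetI false
set_option linter.unusedSectionVars false
universe u

namespace Cfsg.Agent.Lib.Helper8

open DihedralGroup

theorem h8_dih_isCyclic_of_le {G : Type u} [Group G] {H K : Subgroup G} (h : H ≤ K) [IsCyclic K] :
    IsCyclic H := by
  haveI : IsCyclic (H.subgroupOf K) := inferInstance
  exact isCyclic_of_surjective (Subgroup.subgroupOfEquivOfLe h).toMonoidHom
    (Subgroup.subgroupOfEquivOfLe h).surjective

theorem h8_zmod_two_mul {n : ℕ} [NeZero n] {x : ZMod n} (h : 2 * x = 0) (hx : x ≠ 0) :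
    2 * x.val = n := by
  have h1 : ((2 * x.val : ℕ) : ZMod n) = 0 := by
    rw [Nat.cast_mul, ZMod.natCast_zmod_val]; exact_mod_cast h
  rw [ZMod.natCast_eq_zero_iff] at h1
  have h2 : x.val < n := ZMod.val_lt x
  have h3 : 0 < x.val := Nat.pos_of_ne_zero (by rwa [Ne, ZMod.val_eq_zero])
  obtain ⟨c, hc⟩ := h1
  have hc2 : c < 2 := by
    by_contra hge
    push Not at hge
    have : n * 2 ≤ n * c := Nat.mul_le_mul_left n hge
    omega
  have hc0 : c ≠ 0 := by
    rintro rfl
    rw [mul_zero] at hc
    omega
  have hc1 : c = 1 := by omega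
  rw [hc, hc1, mul_one]

def h8DIdx {n : ℕ} : DihedralGroup n → ZMod n
  | .r i => i
  | .sr i => i

theorem h8_s3920 (n : ℕ) (hn : 3 ≤ n) :
    (∀ H : Subgroup (DihedralGroup n), ¬ IsCyclic ↥H →
      Subgroup.centralizer (H : Set (DihedralGroup n)) ≤ H) ↔
    (Odd n ∨ ∃ k : ℕ, n = 2 ^ k) := by
  haveI : NeZero n := ⟨by omega⟩
  constructor
  · intro hall
    by_contra hcon
    push Not at hcon
    obtain ⟨hnodd, hnpow⟩ := hcon
    obtain ⟨v, m, hmodd, hnm⟩ := Nat.exists_eq_two_pow_mul_odd (show n ≠ 0 by omega)
    have hv : v ≠ 0 := by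
      rintro rfl
      rw [pow_zero, one_mul] at hnm
      exact hnodd (by rw [hnm]; exact hmodd)
    have hm3 : 3 ≤ m := by
      obtain ⟨c, hc⟩ := hmodd
      by_contra hlt
      have : m = 1 := by omega
      rw [this, mul_one] at hnm
      exact hnpow v hnm
    have hdvd : 2 ^ v ∣ n := Dvd.intro _ hnm.symm
    have h2n : 2 ∣ n := dvd_trans (dvd_pow_self 2 hv) hdvd
    let H : Subgroup (DihedralGroup n) :=
      { carrier := {g | ZMod.castHom hdvd (ZMod (2 ^ v)) (h8DIdx g) = 0}
        one_mem' := by
          show ZMod.castHom hdvd (ZMod (2 ^ v)) (h8DIdx (r 0)) = 0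
          exact map_zero _
        mul_mem' := by
          rintro (i | i) (j | j) hi hj
          · show ZMod.castHom hdvd (ZMod (2 ^ v)) (i + j) = 0
            have hi' : ZMod.castHom hdvd (ZMod (2 ^ v)) i = 0 := hi
            have hj' : ZMod.castHom hdvd (ZMod (2 ^ v)) j = 0 := hj
            rw [map_add, hi', hj', add_zero]
          · show ZMod.castHom hdvd (ZMod (2 ^ v)) (j - i) = 0
            have hi' : ZMod.castHom hdvd (ZMod (2 ^ v)) i = 0 := hi
            have hj' : ZMod.castHom hdvd (ZMod (2 ^ v)) j = 0 := hj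
            rw [map_sub, hi', hj', sub_zero]
          · show ZMod.castHom hdvd (ZMod (2 ^ v)) (i + j) = 0
            have hi' : ZMod.castHom hdvd (ZMod (2 ^ v)) i = 0 := hi
            have hj' : ZMod.castHom hdvd (ZMod (2 ^ v)) j = 0 := hj
            rw [map_add, hi', hj', add_zero]
          · show ZMod.castHom hdvd (ZMod (2 ^ v)) (j - i) = 0
            have hi' : ZMod.castHom hdvd (ZMod (2 ^ v)) i = 0 := hi
            have hj' : ZMod.castHom hdvd (ZMod (2 ^ v)) j = 0 := hj
            rw [map_sub, hi', hj', sub_zero]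
        inv_mem' := by
          rintro (i | i) hi
          · show ZMod.castHom hdvd (ZMod (2 ^ v)) (-i) = 0
            have hi' : ZMod.castHom hdvd (ZMod (2 ^ v)) i = 0 := hi
            rw [map_neg, hi', neg_zero]
          · exact hi }
    have hHmem : ∀ g : DihedralGroup n, g ∈ H ↔
        ZMod.castHom hdvd (ZMod (2 ^ v)) (h8DIdx g) = 0 := fun _ => Iff.rfl
    have hs0 : (sr 0 : DihedralGroup n) ∈ H := by
      rw [hHmem]; exact map_zero _
    have hrv : (r ((2 ^ v : ℕ) : ZMod n) : DihedralGroup n) ∈ H := by
      rw [hHmem]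
      show ZMod.castHom hdvd (ZMod (2 ^ v)) ((2 ^ v : ℕ) : ZMod n) = 0
      rw [map_natCast, ZMod.natCast_self]
    have hnc : ¬ IsCyclic ↥H := by
      intro hcyc
      have hcomm := (IsCyclic.isMulCommutative (α := H)).is_comm.comm
        ⟨sr 0, hs0⟩ ⟨r ((2 ^ v : ℕ) : ZMod n), hrv⟩
      have h1 : (sr 0 : DihedralGroup n) * r ((2 ^ v : ℕ) : ZMod n) =
          r ((2 ^ v : ℕ) : ZMod n) * sr 0 := congrArg Subtype.val hcomm
      rw [sr_mul_r, r_mul_sr] at h1
      have h2 := sr.inj h1
      have h3 : ((2 ^ (v + 1) : ℕ) : ZMod n) = 0 := by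
        rw [pow_succ, Nat.cast_mul, Nat.cast_ofNat]
        linear_combination h2
      rw [ZMod.natCast_eq_zero_iff, hnm, pow_succ] at h3
      have h4 : m ∣ 2 := by
        have := Nat.dvd_of_mul_dvd_mul_left (pow_pos (by norm_num : 0 < 2) v) h3
        exact this
      have := Nat.le_of_dvd (by norm_num) h4
      omega
    have hz2 : ((n / 2 : ℕ) : ZMod n) + ((n / 2 : ℕ) : ZMod n) = 0 := by
      rw [← Nat.cast_add]
      have : n / 2 + n / 2 = n := by omega
      rw [this, ZMod.natCast_self]
    have hzc : r ((n / 2 : ℕ) : ZMod n) ∈ Subgroup.centralizer (H : Set (DihedralGroup n)) := by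
      rw [Subgroup.mem_centralizer_iff]
      rintro (i | i) -
      · rw [r_mul_r, r_mul_r, add_comm]
      · rw [sr_mul_r, r_mul_sr]
        congr 1
        linear_combination hz2
    have hzH := hall H hnc hzc
    rw [hHmem] at hzH
    have hzH' : ZMod.castHom hdvd (ZMod (2 ^ v)) ((n / 2 : ℕ) : ZMod n) = 0 := hzH
    rw [map_natCast, ZMod.natCast_eq_zero_iff] at hzH'
    obtain ⟨c, hc⟩ := hzH'
    have hn2 : n = 2 * (n / 2) := by omega
    have : 2 ^ v * m = 2 ^ v * (2 * c) := by
      rw [← hnm, hn2, hc]; ring
    have hm2 : m = 2 * c := Nat.eq_of_mul_eq_mul_left (pow_pos (by norm_num) v) this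
    obtain ⟨c', hc'⟩ := hmodd
    omega
  · intro hn2 H hH g hg
    have hA : ∃ j, sr j ∈ H := by
      by_contra hno
      push Not at hno
      apply hH
      have hle : H ≤ Subgroup.zpowers (r (1 : ZMod n)) := by
        intro x hx
        cases x with
        | r i =>
          rw [Subgroup.mem_zpowers_iff]
          refine ⟨(i.val : ℤ), ?_⟩
          rw [zpow_natCast, r_one_pow, ZMod.natCast_zmod_val]
        | sr i => exact absurd hx (hno i)
      exact h8_dih_isCyclic_of_le hle
    obtain ⟨j, hj⟩ := hA
    have hB : ∃ a : ZMod n, a ≠ 0 ∧ r a ∈ H := by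
      by_contra hno
      push Not at hno
      apply hH
      have hle : H ≤ Subgroup.zpowers (sr j) := by
        intro x hx
        cases x with
        | r i =>
          have : i = 0 := by
            by_contra h0; exact hno i h0 hx
          rw [this, ← one_def]; exact one_mem _
        | sr i =>
          have hmem : sr j * sr i ∈ H := H.mul_mem hj hx
          rw [sr_mul_sr] at hmem
          have : i - j = 0 := by
            by_contra h0; exact hno _ h0 hmem
          have hij : i = j := sub_eq_zero.mp this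
          rw [hij]; exact Subgroup.mem_zpowers _
      exact h8_dih_isCyclic_of_le hle
    obtain ⟨a, ha0, ha⟩ := hB
    have hclaim : ∀ i : ZMod n, 2 * i = 0 → r i ∈ H := by
      intro i hi
      by_cases hi0 : i = 0
      · rw [hi0, ← one_def]; exact one_mem _
      have h2i := h8_zmod_two_mul hi hi0
      rcases hn2 with hodd | ⟨k, hk⟩
      · exfalso
        obtain ⟨m, hm⟩ := hodd
        omega
      · have hcard : Nat.card (DihedralGroup n) = 2 ^ (k + 1) := by
          rw [DihedralGroup.nat_card, hk]; ring
        have hdvd : orderOf (r a) ∣ 2 ^ (k + 1) := by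
          rw [← hcard]; exact orderOf_dvd_natCard _
        obtain ⟨e, -, he⟩ := (Nat.dvd_prime_pow Nat.prime_two).mp hdvd
        have hra1 : r a ≠ (1 : DihedralGroup n) := by
          rw [one_def]; intro h; exact ha0 (r.inj h)
        have he1 : e ≠ 0 := by
          rintro rfl
          rw [pow_zero, orderOf_eq_one_iff] at he
          exact hra1 he
        have hpow : ∀ c : ℕ, (r a) ^ c = r (c • a) := by
          intro c
          induction c with
          | zero => rw [pow_zero, zero_smul, one_def]
          | succ c ih => rw [pow_succ, ih, r_mul_r, succ_nsmul]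
        have hy1 : (r a) ^ (2 ^ (e - 1)) ≠ 1 := by
          apply pow_ne_one_of_lt_orderOf (by positivity)
          rw [he]; exact Nat.pow_lt_pow_right (by norm_num) (by omega)
        have hyy : (r a) ^ (2 ^ (e - 1)) * (r a) ^ (2 ^ (e - 1)) = 1 := by
          rw [← pow_add, ← two_mul, ← pow_succ', Nat.sub_add_cancel (by omega), ← he,
            pow_orderOf_eq_one]
        rw [hpow] at hy1 hyy
        have hi'0 : (2 ^ (e - 1)) • a ≠ 0 := by
          intro h; rw [h, ← one_def] at hy1; exact hy1 rfl
        have h2i' : 2 * ((2 ^ (e - 1)) • a) = 0 := by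
          rw [r_mul_r, one_def] at hyy
          have := r.inj hyy
          rw [two_mul]; exact this
        have h3 := h8_zmod_two_mul h2i' hi'0
        have hval : i.val = ((2 ^ (e - 1)) • a).val := by omega
        have hii : i = (2 ^ (e - 1)) • a := ZMod.val_injective n hval
        rw [hii, ← hpow]
        exact H.pow_mem ha _
    have hgj := (Subgroup.mem_centralizer_iff.mp hg) (sr j) hj
    cases g with
    | r i =>
      apply hclaim
      rw [sr_mul_r, r_mul_sr] at hgj
      have := sr.inj hgj
      linear_combination this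
    | sr c =>
      rw [sr_mul_sr, sr_mul_sr] at hgj
      have h1 := r.inj hgj
      have h2 : 2 * (c - j) = 0 := by linear_combination h1
      have := H.mul_mem hj (hclaim _ h2)
      rw [sr_mul_r] at this
      have e : j + (c - j) = c := by ring
      rwa [e] at this

end Cfsg.Agent.Lib.Helper8
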