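import Mathlib

set_option autoImplicit false

namespace Cfsg.Agent.Lib.Helper8

universe u

/-- exponent `r` case: an elementary abelian `r`-group (`r` odd) with endomorphisms `a, b`,
`a² = b² = -1`, `ab = -ba`, has square order -/
theorem h8_sq_add_exp {V : Type u} [AddCommGroup V] [Finite V] (r : ℕ) [Fact r.Prime]
    (hr2 : r ≠ 2) (hVr : ∀ v : V, r • v = 0) (a b : V →+ V)
    (haa : ∀ v, a (a v) = -v) (hbb : ∀ v, b (b v) = -v) (hab : ∀ v, a (b v) = -(b (a v))) :
    IsSquare (Nat.card V) := by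
  have hr : r.Prime := Fact.out
  obtain ⟨x, y, hxy⟩ := ZMod.sq_add_sq r (-1 : ZMod r)
  obtain ⟨X, hX⟩ : ∃ X : ℕ, X = x.val := ⟨_, rfl⟩
  obtain ⟨Y, hY⟩ : ∃ Y : ℕ, Y = y.val := ⟨_, rfl⟩
  have hdvd : r ∣ X ^ 2 + Y ^ 2 + 1 := by
    rw [← ZMod.natCast_eq_zero_iff]
    push_cast
    rw [hX, hY, ZMod.natCast_zmod_val, ZMod.natCast_zmod_val, hxy]; ring
  obtain ⟨U, hU⟩ : ∃ U : V →+ V, ∀ v, U v = X • a v + Y • b v :=
    ⟨X • a + Y • b, fun v => rfl⟩
  have hUU : ∀ v, U (U v) = v := by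
    intro v
    have h1 : U (U v) + (X ^ 2 + Y ^ 2) • v = 0 := by
      rw [hU, hU]
      simp only [map_add, map_nsmul, haa, hbb, hab]
      module
    have h2 : (X ^ 2 + Y ^ 2) • v + v = 0 := by
      obtain ⟨k, hk⟩ := hdvd
      have h3 : (X ^ 2 + Y ^ 2 + 1) • v = 0 := by
        rw [hk, mul_nsmul, hVr, nsmul_zero]
      rw [add_nsmul, one_nsmul] at h3
      exact h3
    rw [eq_neg_of_add_eq_zero_left h1]
    exact (eq_neg_of_add_eq_zero_right h2).symm
  have h2tor : ∀ v : V, 2 • v = 0 → v = 0 := by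
    intro v hv
    obtain ⟨k, hk⟩ := hr.eq_two_or_odd'.resolve_left hr2
    have h1 := hVr v
    rw [hk, add_nsmul, one_nsmul, mul_nsmul, hv, nsmul_zero, zero_add] at h1
    exact h1
  obtain ⟨Vp, hVp⟩ : ∃ Vp : AddSubgroup V, ∀ v, v ∈ Vp ↔ U v = v :=
    ⟨{ carrier := {v | U v = v}
       add_mem' := by
         intro a b ha hb
         simp only [Set.mem_ofPred_eq] at *
         rw [map_add, ha, hb]
       zero_mem' := map_zero U
       neg_mem' := by
         intro a ha
         simp only [Set.mem_ofPred_eq] at *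
         rw [map_neg, ha] }, fun v => Iff.rfl⟩
  obtain ⟨Vm, hVm⟩ : ∃ Vm : AddSubgroup V, ∀ v, v ∈ Vm ↔ U v = -v :=
    ⟨{ carrier := {v | U v = -v}
       add_mem' := by
         intro a b ha hb
         simp only [Set.mem_ofPred_eq] at *
         rw [map_add, ha, hb, neg_add]
       zero_mem' := by
         simp only [Set.mem_ofPred_eq]
         rw [map_zero, neg_zero]
       neg_mem' := by
         intro a ha
         simp only [Set.mem_ofPred_eq] at *
         rw [map_neg, ha] }, fun v => Iff.rfl⟩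
  -- |V| = |Vp| * |Vm|
  have hcard : Nat.card V = Nat.card Vp * Nat.card Vm := by
    rw [← Nat.card_prod]
    apply le_antisymm
    · refine Nat.card_le_card_of_injective
        (fun v : V => ((⟨v + U v, (hVp _).2 (by rw [map_add, hUU, add_comm])⟩ : Vp),
          (⟨v - U v, (hVm _).2 (by rw [map_sub, hUU, neg_sub])⟩ : Vm))) ?_
      intro v w hvw
      have h1 : v + U v = w + U w := congrArg (fun z : Vp × Vm => (z.1 : V)) hvw
      have h2 : v - U v = w - U w := congrArg (fun z : Vp × Vm => (z.2 : V)) hvw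
      have h3 : 2 • (v - w) = 0 := by
        have : 2 • (v - w) = (v + U v) + (v - U v) - ((w + U w) + (w - U w)) := by abel
        rw [this, h1, h2, sub_self]
      exact sub_eq_zero.1 (h2tor _ h3)
    · refine Nat.card_le_card_of_injective (fun z : Vp × Vm => (z.1 : V) + (z.2 : V)) ?_
      rintro ⟨⟨p, hp⟩, ⟨m, hm⟩⟩ ⟨⟨p', hp'⟩, ⟨m', hm'⟩⟩ h
      have h1 : p + m = p' + m' := h
      have hd : p - p' = m' - m := by
        have : p - p' = (p + m) - (p' + m) := by abel
        rw [this, h1]; abel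
      have hUp : U (p - p') = p - p' := by
        rw [map_sub, (hVp p).1 hp, (hVp p').1 hp']
      have hUm : U (p - p') = -(p - p') := by
        rw [hd, map_sub, (hVm m).1 hm, (hVm m').1 hm']; abel
      have h3 : 2 • (p - p') = 0 := by
        have h4 : p - p' = -(p - p') := hUp.symm.trans hUm
        have : 2 • (p - p') = (p - p') + (p - p') := two_nsmul _
        rw [this]
        nth_rewrite 2 [h4]
        exact add_neg_cancel _
      have h5 : p = p' := sub_eq_zero.1 (h2tor _ h3)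
      have h6 : m = m' := by
        rw [h5] at h1
        exact add_left_cancel h1
      subst h5; subst h6; rfl
  -- the swap
  have e1 : ∀ v, b (a (b v)) = a v := by
    intro v
    have h := hab (b v)
    rw [hbb, map_neg] at h
    exact (neg_inj.1 h).symm
  have e2 : ∀ v, a (b (a v)) = b v := by
    intro v
    rw [hab, haa, map_neg, neg_neg]
  have hcU : ∀ v, U (a (b v)) = -(a (b (U v))) := by
    intro v
    rw [hU, hU]
    simp only [map_add, map_nsmul, haa, e1, e2, hbb, map_neg]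
    module
  have hcc : ∀ v, a (b (a (b v))) = -v := by
    intro v
    rw [e1, haa]
  have hcinj : Function.Injective (fun v : V => a (b v)) := by
    intro v w h
    have h1 : a (b (a (b v))) = a (b (a (b w))) := by
      have h' : a (b v) = a (b w) := h
      rw [h']
    rw [hcc, hcc] at h1
    exact neg_inj.1 h1
  have hle1 : Nat.card Vp ≤ Nat.card Vm := by
    refine Nat.card_le_card_of_injective
      (fun v : Vp => (⟨a (b (v : V)), (hVm _).2 (by rw [hcU, (hVp _).1 v.2])⟩ : Vm)) ?_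
    intro v w h
    have h1 : a (b (v : V)) = a (b (w : V)) := congrArg Subtype.val h
    exact Subtype.ext (hcinj h1)
  have hle2 : Nat.card Vm ≤ Nat.card Vp := by
    refine Nat.card_le_card_of_injective
      (fun v : Vm => (⟨a (b (v : V)), (hVp _).2 (by
        rw [hcU, (hVm _).1 v.2, map_neg, map_neg, neg_neg])⟩ : Vp)) ?_
    intro v w h
    have h1 : a (b (v : V)) = a (b (w : V)) := congrArg Subtype.val h
    exact Subtype.ext (hcinj h1)
  rw [hcard, le_antisymm hle2 hle1]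
  exact ⟨Nat.card Vp, rfl⟩

theorem h8_sq_restrict {V : Type u} [AddCommGroup V] (W : AddSubgroup V) (a b : V →+ V)
    (hWa : ∀ w ∈ W, a w ∈ W) (hWb : ∀ w ∈ W, b w ∈ W)
    (haa : ∀ v, a (a v) = -v) (hbb : ∀ v, b (b v) = -v) (hab : ∀ v, a (b v) = -(b (a v))) :
    ∃ a' b' : W →+ W, (∀ v, a' (a' v) = -v) ∧ (∀ v, b' (b' v) = -v) ∧
      (∀ v, a' (b' v) = -(b' (a' v))) :=
  ⟨(a.comp W.subtype).codRestrict W (fun w => hWa w w.2),
   (b.comp W.subtype).codRestrict W (fun w => hWb w w.2),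
   fun v => Subtype.ext (haa v.1), fun v => Subtype.ext (hbb v.1), fun v => Subtype.ext (hab v.1)⟩

/-- a finite abelian group of odd order with endomorphisms `a, b`, `a² = b² = -1`, `ab = -ba`,
has square order -/
theorem h8_sq_add : ∀ (n : ℕ) (V : Type u) [AddCommGroup V] [Finite V], Nat.card V = n → Odd n →
    ∀ (a b : V →+ V), (∀ v, a (a v) = -v) → (∀ v, b (b v) = -v) →
    (∀ v, a (b v) = -(b (a v))) → IsSquare n := by
  intro n
  induction n using Nat.strong_induction_on with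
  | _ n ih =>
  intro V _ _ hn hodd a b haa hbb hab
  by_cases h1 : n = 1
  · rw [h1]; exact ⟨1, rfl⟩
  obtain ⟨r, hr, hrn⟩ := Nat.exists_prime_and_dvd h1
  have hrf : Fact r.Prime := ⟨hr⟩
  have hr2 : r ≠ 2 := by
    rintro rfl
    exact (Nat.not_even_iff_odd.2 hodd) (even_iff_two_dvd.2 hrn)
  obtain ⟨f, hf⟩ : ∃ f : V →+ V, ∀ v, f v = r • v := ⟨nsmulAddMonoidHom r, fun v => rfl⟩
  have hcard : Nat.card f.ker * Nat.card f.range = Nat.card V := by
    rw [← Nat.card_congr (QuotientAddGroup.quotientKerEquivRange f).toEquiv, mul_comm]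
    exact (AddSubgroup.card_eq_card_quotient_mul_card_addSubgroup f.ker).symm
  -- kernel
  obtain ⟨a₁, b₁, haa₁, hbb₁, hab₁⟩ := h8_sq_restrict f.ker a b
    (by
      intro w hw
      rw [AddMonoidHom.mem_ker, hf] at hw ⊢
      rw [← map_nsmul, hw, map_zero])
    (by
      intro w hw
      rw [AddMonoidHom.mem_ker, hf] at hw ⊢
      rw [← map_nsmul, hw, map_zero]) haa hbb hab
  have hker : IsSquare (Nat.card f.ker) := by
    apply h8_sq_add_exp r hr2 _ a₁ b₁ haa₁ hbb₁ hab₁
    intro v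
    apply Subtype.ext
    have := v.2
    rw [AddMonoidHom.mem_ker, hf] at this
    simpa using this
  -- range
  obtain ⟨a₂, b₂, haa₂, hbb₂, hab₂⟩ := h8_sq_restrict f.range a b
    (by
      rintro w ⟨v, rfl⟩
      exact ⟨a v, by rw [hf, hf, map_nsmul]⟩)
    (by
      rintro w ⟨v, rfl⟩
      exact ⟨b v, by rw [hf, hf, map_nsmul]⟩) haa hbb hab
  have hkergt : 2 ≤ Nat.card f.ker := by
    rw [← hn] at hrn
    obtain ⟨x, hx⟩ := exists_prime_addOrderOf_dvd_card' r hrn
    have hxk : x ∈ f.ker := by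
      rw [AddMonoidHom.mem_ker, hf, ← hx]
      exact addOrderOf_nsmul_eq_zero x
    have hx0 : x ≠ 0 := by
      intro h
      rw [h, addOrderOf_zero] at hx
      exact hr.one_lt.ne hx
    have hnt : Nontrivial f.ker := ⟨⟨⟨x, hxk⟩, 0, fun h => hx0 (congrArg Subtype.val h)⟩⟩
    exact Finite.one_lt_card
  have hrpos : 0 < Nat.card f.range := Nat.card_pos
  have hlt : Nat.card f.range < n := by
    rw [← hn, ← hcard]
    nlinarith
  have hoddR : Odd (Nat.card f.range) := by
    apply Odd.of_dvd_nat hodd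
    rw [← hn, ← hcard]
    exact Dvd.intro_left _ rfl
  have hrange : IsSquare (Nat.card f.range) :=
    ih (Nat.card f.range) hlt ↥f.range rfl hoddR a₂ b₂ haa₂ hbb₂ hab₂
  rw [← hn, ← hcard]
  exact hker.mul hrange

/-- multiplicative form -/
theorem h8_sq_mul {A : Type u} [CommGroup A] [Finite A] (hodd : Odd (Nat.card A)) (a b : A →* A)
    (haa : ∀ v, a (a v) = v⁻¹) (hbb : ∀ v, b (b v) = v⁻¹) (hab : ∀ v, a (b v) = (b (a v))⁻¹) :
    IsSquare (Nat.card A) :=
  h8_sq_add (Nat.card A) (Additive A) rfl hodd (MonoidHom.toAdditive a) (MonoidHom.toAdditive b)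
    haa hbb hab

/-- a normal subgroup of odd order inverted by `i² = j²` where `j i j⁻¹ = i⁻¹` has square
order -/
theorem h8_sq_of_q8 {G : Type u} [Group G] [Finite G] (i j : G) (hij : i * i = j * j)
    (hji : j * i * j⁻¹ = i⁻¹) (N : Subgroup G) [N.Normal] (hodd : Odd (Nat.card N))
    (hinv : ∀ n ∈ N, (i * i) * n * (i * i)⁻¹ = n⁻¹) : IsSquare (Nat.card N) := by
  have hNab : ∀ x ∈ N, ∀ y ∈ N, x * y = y * x := by
    intro x hx y hy
    have h1 := hinv (x * y) (N.mul_mem hx hy)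
    have h2 : (i * i) * (x * y) * (i * i)⁻¹
        = ((i * i) * x * (i * i)⁻¹) * ((i * i) * y * (i * i)⁻¹) := by group
    rw [h2, hinv x hx, hinv y hy, mul_inv_rev] at h1
    have h3 := congrArg (fun z => z⁻¹) h1
    simp only [mul_inv_rev, inv_inv] at h3
    exact h3.symm
  let cg : CommGroup N :=
    { (inferInstance : Group N) with mul_comm := fun a b => Subtype.ext (hNab a.1 a.2 b.1 b.2) }
  have hinv' : ∀ n ∈ N, (i * i)⁻¹ * n * (i * i) = n⁻¹ := by
    intro n hn
    have h1 := hinv n⁻¹ (N.inv_mem hn)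
    rw [inv_inv] at h1
    calc (i * i)⁻¹ * n * (i * i) = (i * i)⁻¹ * ((i * i) * n⁻¹ * (i * i)⁻¹) * (i * i) := by rw [h1]
      _ = n⁻¹ := by group
  refine @h8_sq_mul N cg _ hodd (MulAut.conjNormal i : MulAut N).toMonoidHom
    (MulAut.conjNormal j : MulAut N).toMonoidHom ?_ ?_ ?_
  · intro v
    apply Subtype.ext
    show i * (i * (v : G) * i⁻¹) * i⁻¹ = (v : G)⁻¹
    rw [← hinv v v.2]; group
  · intro v
    apply Subtype.ext
    show j * (j * (v : G) * j⁻¹) * j⁻¹ = (v : G)⁻¹
    rw [← hinv v v.2, hij]; group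
  · intro v
    apply Subtype.ext
    show i * (j * (v : G) * j⁻¹) * i⁻¹ = (j * (i * (v : G) * i⁻¹) * j⁻¹)⁻¹
    have h1 : i * j = j * i * (i * i)⁻¹ := by
      have h2 : j * i⁻¹ * j⁻¹ = i := by
        calc j * i⁻¹ * j⁻¹ = (j * i * j⁻¹)⁻¹ := by group
          _ = i := by rw [hji, inv_inv]
      calc i * j = (j * i⁻¹ * j⁻¹) * j := by rw [h2]
        _ = j * i * (i * i)⁻¹ := by group
    calc i * (j * (v : G) * j⁻¹) * i⁻¹ = (i * j) * (v : G) * (i * j)⁻¹ := by group
      _ = (j * i * (i * i)⁻¹) * (v : G) * (j * i * (i * i)⁻¹)⁻¹ := by rw [h1]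
      _ = (j * i) * ((i * i)⁻¹ * (v : G) * (i * i)) * (j * i)⁻¹ := by group
      _ = (j * i) * (v : G)⁻¹ * (j * i)⁻¹ := by rw [hinv' v v.2]
      _ = (j * (i * (v : G) * i⁻¹) * j⁻¹)⁻¹ := by group

end Cfsg.Agent.Lib.Helper8
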