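import Mathlib
import Cfsg.Prelude.Def_Solvable
import Cfsg.Agent.Lib.Helper9.FrobThm
import Cfsg.Agent.Lib.Helper7.FrobCount
import Cfsg.Agent.Lib.Helper1.UniqueInv
import Cfsg.Agent.Lib.Helper8.FrobCenter
import Cfsg.Agent.Lib.Helper8.QuatSquare

set_option autoImplicit false

namespace Cfsg.Agent.Lib.Helper8

universe u

/-- in a group where commuting elements of equal prime order generate the same subgroup,
`q`-subgroups are cyclic for odd `q` -/
theorem h8_cyclic_of_no_elab {H : Type u} [Group H] [Finite H]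
    (ha : ∀ p : ℕ, p.Prime → ∀ x y : H, orderOf x = p → orderOf y = p → x * y = y * x →
      y ∈ Subgroup.zpowers x)
    (q : ℕ) [Fact q.Prime] (hq2 : q ≠ 2) (R : Subgroup H) (hR : IsPGroup q R) : IsCyclic R := by
  have hq : q.Prime := Fact.out
  obtain ⟨n, hn⟩ := IsPGroup.iff_card.mp hR
  refine h8_cyclic_of_unique_small q n ↥R hn ?_ (fun h2 => absurd h2 hq2)
  intro A B hA hB
  have hRnt : Nontrivial R := by
    rw [← Finite.one_lt_card_iff_nontrivial]
    have h1 : q ∣ Nat.card R := hA ▸ Subgroup.card_subgroup_dvd_card A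
    exact lt_of_lt_of_le hq.one_lt (Nat.le_of_dvd Nat.card_pos h1)
  have hcn : Nontrivial (Subgroup.center R) := IsPGroup.center_nontrivial hR
  obtain ⟨z, hzc, hz⟩ := h8_exists_orderOf_eq_prime hR (Subgroup.center R)
    ((Subgroup.nontrivial_iff_ne_bot _).1 hcn)
  have hAll : ∀ A : Subgroup R, Nat.card A = q → A = Subgroup.zpowers z := by
    intro A hA
    apply Subgroup.eq_of_le_of_card_ge
    · intro a haA
      by_cases ha1 : a = 1
      · rw [ha1]; exact Subgroup.one_mem _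
      · have hoa : orderOf a = q := by
          have h1 : orderOf (⟨a, haA⟩ : A) ∣ Nat.card A := orderOf_dvd_natCard _
          rw [hA, ← Subgroup.orderOf_coe] at h1
          rcases (Nat.dvd_prime hq).1 h1 with h | h
          · exact absurd (orderOf_eq_one_iff.1 h) ha1
          · exact h
        have hcomm : (z : H) * (a : H) = (a : H) * (z : H) := by
          have := Subgroup.mem_center_iff.1 hzc a
          exact (congrArg Subtype.val this).symm
        have h2 := ha q hq (z : H) (a : H) (by rw [Subgroup.orderOf_coe]; exact hz)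
          (by rw [Subgroup.orderOf_coe]; exact hoa) hcomm
        obtain ⟨k, hk⟩ := Subgroup.mem_zpowers_iff.1 h2
        rw [Subgroup.mem_zpowers_iff]
        exact ⟨k, Subtype.ext (by simpa using hk)⟩
    · rw [Nat.card_zpowers, hz, hA]
  rw [hAll A hA, hAll B hB]

theorem h8_frob_ha {G : Type u} [Group G] [Finite G] (K H : Subgroup G) [K.Normal]
    (hK : K ≠ ⊥) (hfpf : ∀ h ∈ H, h ≠ 1 → K ⊓ Subgroup.centralizer {h} = ⊥) :
    ∀ p : ℕ, p.Prime → ∀ x y : H, orderOf x = p → orderOf y = p → x * y = y * x →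
      y ∈ Subgroup.zpowers x := by
  intro p hp x y hx hy hxy
  have h1 := h8_frob_no_elab K H hK hfpf p hp (x : G) (y : G) x.2 y.2
    (by rw [Subgroup.orderOf_coe]; exact hx) (by rw [Subgroup.orderOf_coe]; exact hy)
    (congrArg Subtype.val hxy)
  obtain ⟨k, hk⟩ := Subgroup.mem_zpowers_iff.1 h1
  rw [Subgroup.mem_zpowers_iff]
  exact ⟨k, Subtype.ext (by simpa using hk)⟩

/-- a fixed-point-free group of automorphisms has at most one involution -/
theorem h8_frob_unique_invol {G : Type u} [Group G] [Finite G] (K H : Subgroup G)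
    [hKn : K.Normal] (hK : K ≠ ⊥) (hfpf : ∀ h ∈ H, h ≠ 1 → K ⊓ Subgroup.centralizer {h} = ⊥)
    (s t : G) (hsH : s ∈ H) (htH : t ∈ H) (hs : orderOf s = 2) (ht : orderOf t = 2) : s = t := by
  have hsq : ∀ u : G, orderOf u = 2 → u * u = 1 ∧ u ≠ 1 := by
    intro u hu
    constructor
    · have := pow_orderOf_eq_one u
      rwa [hu, pow_two] at this
    · intro h
      rw [h, orderOf_one] at hu
      omega
  obtain ⟨hss, hs1⟩ := hsq s hs
  obtain ⟨htt, ht1⟩ := hsq t ht
  have hinv : ∀ s ∈ H, s * s = 1 → s ≠ 1 → ∀ n ∈ K, s * n * s⁻¹ = n⁻¹ := by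
    intro s hs hss hs1
    apply Cfsg.Agent.Lib.Helper2.inv_of_fpf_involution K hKn s hss
    intro n hn hcomm
    have h1 : n ∈ K ⊓ Subgroup.centralizer ({s} : Set G) :=
      ⟨hn, (h8_mem_centralizer_singleton s n).2 hcomm⟩
    rw [hfpf s hs hs1, Subgroup.mem_bot] at h1
    exact h1
  have h1 := hinv t htH htt ht1
  have h2 := hinv s hsH hss hs1
  have hst : s * t = 1 := by
    by_contra hne
    have h3 := hfpf (s * t) (H.mul_mem hsH htH) hne
    apply hK
    rw [eq_bot_iff, ← h3]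
    intro n hn
    refine ⟨hn, (h8_mem_centralizer_singleton _ n).2 ?_⟩
    have h4 : s * (t * n * t⁻¹) * s⁻¹ = n := by
      rw [h1 n hn, h2 n⁻¹ (K.inv_mem hn), inv_inv]
    calc s * t * n = s * (t * n * t⁻¹) * s⁻¹ * (s * t) := by group
      _ = n * (s * t) := by rw [h4]
  calc s = s * (t * t) := by rw [htt, mul_one]
    _ = (s * t) * t := by group
    _ = t := by rw [hst, one_mul]

theorem h8_quat_elts (m : ℕ) (hm : ∃ k, 1 ≤ k ∧ m = 2 * k) : ∃ I J : QuaternionGroup m,
    I * I = J * J ∧ J * I * J⁻¹ = I⁻¹ ∧ I * I ≠ 1 ∧ (I * I) * (I * I) = 1 := by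
  obtain ⟨k, hk, rfl⟩ := hm
  refine ⟨QuaternionGroup.a (k : ZMod (2 * (2 * k))), QuaternionGroup.xa 0, ?_, ?_, ?_, ?_⟩
  · rw [QuaternionGroup.a_mul_a, QuaternionGroup.xa_mul_xa]
    congr 1
    push_cast; ring
  · have h1 : QuaternionGroup.a (k : ZMod (2 * (2 * k))) *
        (QuaternionGroup.xa 0 * QuaternionGroup.a (k : ZMod (2 * (2 * k)))) =
        QuaternionGroup.xa 0 := by
      rw [QuaternionGroup.xa_mul_a, QuaternionGroup.a_mul_xa]; congr 1; ring
    apply eq_inv_of_mul_eq_one_right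
    calc QuaternionGroup.a (k : ZMod (2 * (2 * k))) *
          (QuaternionGroup.xa 0 * QuaternionGroup.a (k : ZMod (2 * (2 * k))) *
            (QuaternionGroup.xa 0)⁻¹)
        = (QuaternionGroup.a (k : ZMod (2 * (2 * k))) *
          (QuaternionGroup.xa 0 * QuaternionGroup.a (k : ZMod (2 * (2 * k))))) *
            (QuaternionGroup.xa 0)⁻¹ := by group
      _ = 1 := by rw [h1, mul_inv_cancel]
  · rw [QuaternionGroup.a_mul_a, QuaternionGroup.one_def]
    intro h
    have h2 := QuaternionGroup.a.inj h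
    have h3 : ((2 * k : ℕ) : ZMod (2 * (2 * k))) = 0 := by
      have h6 : ((2 * k : ℕ) : ZMod (2 * (2 * k))) = (k : ZMod (2 * (2 * k))) + k := by
        push_cast; ring
      rw [h6]; exact h2
    rw [ZMod.natCast_eq_zero_iff] at h3
    have := Nat.le_of_dvd (by omega) h3
    omega
  · rw [QuaternionGroup.a_mul_a, QuaternionGroup.a_mul_a, QuaternionGroup.one_def]
    congr 1
    have h5 : ((2 * (2 * k) : ℕ) : ZMod (2 * (2 * k))) = 0 := ZMod.natCast_self _
    push_cast at h5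
    rw [← h5]; ring

theorem h8_s4296 {L : Type u} [Group L] [Finite L] (H : Subgroup L)
    (hF : Cfsg.IsFrobeniusComplement H)
    (hZ : ∃ (p : ℕ) (_ : Fact p.Prime) (P : Sylow p H), ¬ IsCyclic P) :
    Odd (Nat.card (Cfsg.frobeniusKernel H)) ∧ IsSquare (Nat.card (Cfsg.frobeniusKernel H)) := by
  obtain ⟨N, hNK, hNn, hc⟩ := Cfsg.Agent.Lib.Helper9.frobenius_kernel_subgroup H hF
  have hcard : Nat.card (Cfsg.frobeniusKernel H) = Nat.card N := by rw [← hNK]; rfl
  rw [hcard]
  have hfpf : ∀ h ∈ H, h ≠ 1 → N ⊓ Subgroup.centralizer {h} = ⊥ := by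
    intro h hh h1
    rw [eq_bot_iff]
    rintro n ⟨hn, hnc⟩
    have hcomm : h * n = n * h := (h8_mem_centralizer_singleton h n).1 hnc
    have h2 : n⁻¹ * h * n ∈ H := by
      have : n⁻¹ * h * n = h := by rw [mul_assoc, hcomm]; group
      rw [this]; exact hh
    have hnH : n ∈ H := Cfsg.Agent.Lib.Helper7.fc_mal H hF n h hh h1 h2
    have h3 : n ∈ N ⊓ H := ⟨hn, hnH⟩
    rw [hc.disjoint.eq_bot] at h3
    exact h3
  have hN1 : N ≠ ⊥ := by
    intro h
    apply hF.2.1
    have h1 := hc.card_mul_card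
    rw [h, Subgroup.card_bot, one_mul] at h1
    exact (Subgroup.card_eq_iff_eq_top H).1 h1
  obtain ⟨p, hpf, P, hPnc⟩ := hZ
  have ha := h8_frob_ha N H hN1 hfpf
  have hp2 : p = 2 := by
    by_contra hp2
    exact hPnc (h8_cyclic_of_no_elab ha p hp2 (P : Subgroup H) P.2)
  subst hp2
  have hPnt : (P : Subgroup H) ≠ ⊥ := by
    intro h
    apply hPnc
    have : Subsingleton (P : Subgroup H) := by rw [h]; infer_instance
    exact isCyclic_of_subsingleton
  have h2P : 2 ∣ Nat.card (P : Subgroup H) := by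
    obtain ⟨k, hk⟩ := IsPGroup.iff_card.mp P.2
    have hk0 : k ≠ 0 := by
      rintro rfl
      rw [pow_zero] at hk
      exact hPnt (Subgroup.card_eq_one.1 hk)
    rw [hk]; exact dvd_pow_self 2 hk0
  obtain ⟨z, hz⟩ := exists_prime_orderOf_dvd_card' 2 h2P
  have huniq : ∀ y : (P : Subgroup H), orderOf y = 2 → y = z := by
    intro y hy
    apply Subtype.ext
    apply Subtype.ext
    exact h8_frob_unique_invol N H hN1 hfpf ((y : H) : L) ((z : H) : L) (y : H).2 (z : H).2
      (by rw [Subgroup.orderOf_coe, Subgroup.orderOf_coe]; exact hy)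
      (by rw [Subgroup.orderOf_coe, Subgroup.orderOf_coe]; exact hz)
  rcases Cfsg.Agent.Lib.Helper1.ui_cyclic_or_quat P.2 z hz huniq with hcyc | ⟨n, hn, ⟨e⟩⟩
  · exact absurd hcyc hPnc
  obtain ⟨I, J, h1, h2, h3, h4⟩ := h8_quat_elts (2 ^ n)
    ⟨2 ^ (n - 1), Nat.one_le_two_pow, by
      obtain ⟨n', rfl⟩ : ∃ n', n = n' + 1 := ⟨n - 1, by omega⟩
      rw [pow_succ']; simp⟩
  obtain ⟨i₀, hi₀⟩ := e.surjective I
  obtain ⟨j₀, hj₀⟩ := e.surjective J
  have r1 : i₀ * i₀ = j₀ * j₀ := e.injective (by rw [map_mul, map_mul, hi₀, hj₀]; exact h1)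
  have r2 : j₀ * i₀ * j₀⁻¹ = i₀⁻¹ :=
    e.injective (by rw [map_mul, map_mul, map_inv, map_inv, hi₀, hj₀]; exact h2)
  have r3 : i₀ * i₀ ≠ 1 := by
    intro h
    apply h3
    rw [← hi₀, ← map_mul, h, map_one]
  have r4 : (i₀ * i₀) * (i₀ * i₀) = 1 :=
    e.injective (by rw [map_mul, map_mul, hi₀, map_one]; exact h4)
  obtain ⟨i, hi⟩ : ∃ i : L, i = ((i₀ : H) : L) := ⟨_, rfl⟩
  obtain ⟨j, hj⟩ : ∃ j : L, j = ((j₀ : H) : L) := ⟨_, rfl⟩
  have q1 : i * i = j * j := by
    have := congrArg (fun x : (P : Subgroup H) => ((x : H) : L)) r1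
    rw [hi, hj]; simpa using this
  have q2 : j * i * j⁻¹ = i⁻¹ := by
    have := congrArg (fun x : (P : Subgroup H) => ((x : H) : L)) r2
    rw [hi, hj]; simpa using this
  have q3 : i * i ≠ 1 := by
    intro h
    apply r3
    apply Subtype.ext
    apply Subtype.ext
    rw [hi] at h
    simpa using h
  have q4 : (i * i) * (i * i) = 1 := by
    have := congrArg (fun x : (P : Subgroup H) => ((x : H) : L)) r4
    rw [hi]; simpa using this
  have htH : i * i ∈ H := by rw [hi]; exact H.mul_mem (i₀ : H).2 (i₀ : H).2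
  have hinv : ∀ n ∈ N, (i * i) * n * (i * i)⁻¹ = n⁻¹ := by
    apply Cfsg.Agent.Lib.Helper2.inv_of_fpf_involution N hNn (i * i) q4
    intro n hn hcomm
    have h5 : n ∈ N ⊓ Subgroup.centralizer ({i * i} : Set L) :=
      ⟨hn, (h8_mem_centralizer_singleton _ n).2 hcomm⟩
    rw [hfpf (i * i) htH q3, Subgroup.mem_bot] at h5
    exact h5
  have hodd : Odd (Nat.card N) := by
    have hcop := h8_frob_coprime N H hfpf
    have h2H : 2 ∣ Nat.card H := h2P.trans (Subgroup.card_subgroup_dvd_card _)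
    rw [← Nat.not_even_iff_odd, even_iff_two_dvd]
    intro h2N
    have := Nat.eq_one_of_dvd_coprimes hcop h2H h2N
    omega
  exact ⟨hodd, h8_sq_of_q8 i j q1 q2 N hodd hinv⟩

end Cfsg.Agent.Lib.Helper8
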