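import Mathlib
import Cfsg.Prelude.Def_Solvable
import Cfsg.Agent.Lib.Helper7.FrobAff
import Cfsg.Agent.Lib.Helper8.FrobKernelSq

set_option autoImplicit false

namespace Cfsg.Agent.Lib.Helper8

universe u

/-- homomorphisms out of `Q₈` from the relations -/
theorem h8_quat2_lift {Γ : Type u} [Group Γ] (A B : Γ) (hA4 : A ^ 4 = 1) (hBB : B * B = A * A)
    (hABA : A * B * A = B) :
    ∃ f : QuaternionGroup 2 →* Γ, ∀ k : QuaternionGroup 2, k ≠ 1 →
      f k * f k = A * A ∨ f k = A * A := by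
  have hpm : ∀ m : ℕ, A ^ (m % 4) = A ^ m := fun m => (pow_eq_pow_mod m hA4).symm
  -- A^s * B = B * A^(3*s)
  have hAB : ∀ s : ℕ, A ^ s * B = B * A ^ (3 * s) := by
    intro s
    induction s with
    | zero => simp
    | succ s ih =>
      have h1 : A * B = B * A ^ 3 := by
        have h2 : A * B * A * A ^ 3 = B * A ^ 3 := by rw [hABA]
        have h3 : A * B * A * A ^ 3 = A * B * A ^ 4 := by
          rw [show (4 : ℕ) = 1 + 3 from rfl, pow_add, pow_one]; group
        rw [h3, hA4, mul_one] at h2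
        exact h2
      calc A ^ (s + 1) * B = A * (A ^ s * B) := by rw [pow_succ']; group
        _ = A * (B * A ^ (3 * s)) := by rw [ih]
        _ = (A * B) * A ^ (3 * s) := by group
        _ = (B * A ^ 3) * A ^ (3 * s) := by rw [h1]
        _ = B * A ^ (3 * (s + 1)) := by rw [mul_assoc, ← pow_add]; congr 2; ring
  obtain ⟨F, hFa, hFx⟩ : ∃ F : QuaternionGroup 2 → Γ,
      (∀ i, F (QuaternionGroup.a i) = A ^ i.val) ∧
      (∀ i, F (QuaternionGroup.xa i) = B * A ^ i.val) :=
    ⟨fun k => match k with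
      | QuaternionGroup.a i => A ^ i.val
      | QuaternionGroup.xa i => B * A ^ i.val, fun i => rfl, fun i => rfl⟩
  have hmul : ∀ x y : QuaternionGroup 2, F (x * y) = F x * F y := by
    intro x y
    cases x with
    | a i =>
      cases y with
      | a j =>
        rw [QuaternionGroup.a_mul_a, hFa, hFa, hFa, ← pow_add, ← hpm (i.val + j.val), ← hpm]
        congr 1
        revert i j; decide
      | xa j =>
        rw [QuaternionGroup.a_mul_xa, hFa, hFx, hFx, ← mul_assoc, hAB, mul_assoc, ← pow_add,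
          ← hpm (3 * i.val + j.val), ← hpm]
        congr 2
        revert i j; decide
    | xa i =>
      cases y with
      | a j =>
        rw [QuaternionGroup.xa_mul_a, hFa, hFx, hFx, mul_assoc, ← pow_add,
          ← hpm (i.val + j.val), ← hpm]
        congr 2
        revert i j; decide
      | xa j =>
        rw [QuaternionGroup.xa_mul_xa, hFa, hFx, hFx]
        have h1 : B * A ^ i.val * (B * A ^ j.val) = A ^ (2 + 3 * i.val + j.val) := by
          calc B * A ^ i.val * (B * A ^ j.val) = B * (A ^ i.val * B) * A ^ j.val := by group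
            _ = B * (B * A ^ (3 * i.val)) * A ^ j.val := by rw [hAB]
            _ = (B * B) * A ^ (3 * i.val) * A ^ j.val := by group
            _ = A ^ (2 + 3 * i.val + j.val) := by
                rw [hBB, pow_add, pow_add, pow_two]
        rw [h1, ← hpm (2 + 3 * i.val + j.val), ← hpm]
        congr 1
        clear h1
        revert i j; decide
  refine ⟨MonoidHom.mk' F hmul, ?_⟩
  intro k hk
  show F k * F k = A * A ∨ F k = A * A
  cases k with
  | a i =>
    have hi : i = 0 ∨ i = 1 ∨ i = 2 ∨ i = 3 := by revert i; decide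
    rcases hi with rfl | rfl | rfl | rfl
    · exact absurd QuaternionGroup.a_zero hk
    · left
      rw [hFa]
      show A ^ 1 * A ^ 1 = A * A
      rw [pow_one]
    · right
      rw [hFa]
      show A ^ 2 = A * A
      rw [pow_two]
    · left
      rw [hFa]
      show A ^ 3 * A ^ 3 = A * A
      calc A ^ 3 * A ^ 3 = A ^ 4 * (A * A) := by group
        _ = A * A := by rw [hA4, one_mul]
  | xa i =>
    left
    rw [← hmul, QuaternionGroup.xa_mul_xa, hFa]
    have h2 : ((2 : ℕ) : ZMod (2 * 2)) + i - i = 2 := by revert i; decide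
    rw [h2]
    show A ^ 2 = A * A
    rw [pow_two]

/-- the fixed-point-free `Q₈`-module `𝔽_r²` for an odd prime `r` -/
theorem h8_q8_module_prime (r : ℕ) [Fact r.Prime] (hr2 : r ≠ 2) :
    ∃ f : QuaternionGroup 2 →* ((ZMod r × ZMod r) ≃ₗ[ℤ] (ZMod r × ZMod r)),
      ∀ k : QuaternionGroup 2, k ≠ 1 → ∀ v : ZMod r × ZMod r, f k v = v → v = 0 := by
  have hr : r.Prime := Fact.out
  obtain ⟨α, β, hαβ⟩ := ZMod.sq_add_sq r (-1 : ZMod r)
  obtain ⟨A, hA⟩ : ∃ A : (ZMod r × ZMod r) ≃ₗ[ℤ] (ZMod r × ZMod r), ∀ v, A v = (-v.2, v.1) :=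
    ⟨AddEquiv.toIntLinearEquiv
      { toFun := fun v => (-v.2, v.1)
        invFun := fun v => (v.2, -v.1)
        left_inv := fun v => by simp
        right_inv := fun v => by simp
        map_add' := fun v w => by
          apply Prod.ext
          · simp; ring
          · simp }, fun v => rfl⟩
  obtain ⟨B, hB⟩ : ∃ B : (ZMod r × ZMod r) ≃ₗ[ℤ] (ZMod r × ZMod r),
      ∀ v, B v = (α * v.1 + β * v.2, β * v.1 - α * v.2) :=
    ⟨AddEquiv.toIntLinearEquiv
      { toFun := fun v => (α * v.1 + β * v.2, β * v.1 - α * v.2)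
        invFun := fun v => (-(α * v.1 + β * v.2), -(β * v.1 - α * v.2))
        left_inv := fun v => by
          apply Prod.ext
          · simp only; linear_combination (-v.1) * hαβ
          · simp only; linear_combination (-v.2) * hαβ
        right_inv := fun v => by
          apply Prod.ext
          · simp only; linear_combination (-v.1) * hαβ
          · simp only; linear_combination (-v.2) * hαβ
        map_add' := fun v w => by
          apply Prod.ext
          · simp; ring
          · simp; ring }, fun v => rfl⟩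
  have hAA : ∀ v, (A * A) v = -v := by
    intro v
    show A (A v) = -v
    rw [hA, hA]
    apply Prod.ext <;> simp
  have hA4 : A ^ 4 = 1 := by
    apply LinearEquiv.ext
    intro v
    rw [show (4 : ℕ) = 2 + 2 from rfl, pow_add, pow_two]
    show (A * A) ((A * A) v) = v
    rw [hAA, hAA, neg_neg]
  have hBB : B * B = A * A := by
    apply LinearEquiv.ext
    intro v
    rw [hAA]
    show B (B v) = -v
    rw [hB, hB]
    apply Prod.ext
    · simp only [Prod.fst_neg]; linear_combination v.1 * hαβ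
    · simp only [Prod.snd_neg]; linear_combination v.2 * hαβ
  have hABA : A * B * A = B := by
    apply LinearEquiv.ext
    intro v
    show A (B (A v)) = B v
    rw [hA, hB, hA, hB]
    apply Prod.ext
    · simp only; ring
    · simp only; ring
  obtain ⟨f, hf⟩ := h8_quat2_lift A B hA4 hBB hABA
  refine ⟨f, ?_⟩
  intro k hk v hv
  have hAAv : (A * A) v = v := by
    rcases hf k hk with h | h
    · rw [← h]
      show f k (f k v) = v
      rw [hv, hv]
    · rw [← h]; exact hv
  rw [hAA] at hAAv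
  have h2 : (2 : ZMod r) ≠ 0 := by
    intro h
    have h3 : ((2 : ℕ) : ZMod r) = 0 := by exact_mod_cast h
    rw [ZMod.natCast_eq_zero_iff] at h3
    exact hr2 ((Nat.prime_dvd_prime_iff_eq hr Nat.prime_two).1 h3)
  have hz : ∀ x : ZMod r, -x = x → x = 0 := by
    intro x hx
    have h3 : 2 * x = 0 := by linear_combination -hx
    rcases mul_eq_zero.1 h3 with h | h
    · exact absurd h h2
    · exact h
  apply Prod.ext
  · exact hz v.1 (congrArg Prod.fst hAAv)
  · exact hz v.2 (congrArg Prod.snd hAAv)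

/-- fixed-point-free `Q₈`-modules of every odd square order -/
theorem h8_q8_module : ∀ n : ℕ, Odd n →
    ∃ (V : Type) (_ : AddCommGroup V) (_ : Finite V) (f : QuaternionGroup 2 →* (V ≃ₗ[ℤ] V)),
      Nat.card V = n ^ 2 ∧ ∀ k : QuaternionGroup 2, k ≠ 1 → ∀ v : V, f k v = v → v = 0 := by
  intro n
  induction n using Nat.strong_induction_on with
  | _ n ih =>
  intro hodd
  by_cases h1 : n = 1
  · refine ⟨PUnit, inferInstance, inferInstance, 1, ?_, ?_⟩
    · rw [h1]; simp
    · intro k _ v _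
      exact Subsingleton.elim _ _
  obtain ⟨r, hrdef⟩ : ∃ r, r = n.minFac := ⟨_, rfl⟩
  have hr : r.Prime := hrdef ▸ Nat.minFac_prime h1
  have hrf : Fact r.Prime := ⟨hr⟩
  have hrn : r ∣ n := hrdef ▸ Nat.minFac_dvd n
  have hr2 : r ≠ 2 := by
    rintro rfl
    exact (Nat.not_even_iff_odd.2 hodd) (even_iff_two_dvd.2 hrn)
  obtain ⟨n', hn'⟩ := hrn
  have hn'pos : 0 < n' := by
    rcases Nat.eq_zero_or_pos n' with h | h
    · rw [h, mul_zero] at hn'
      rw [hn'] at hodd
      exact absurd hodd (by decide)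
    · exact h
  have hlt : n' < n := by
    rw [hn']
    have := hr.two_le
    nlinarith
  have hodd' : Odd n' := by
    apply Odd.of_dvd_nat hodd
    rw [hn']; exact Dvd.intro_left _ rfl
  obtain ⟨V', iV', fV', f', hcard', hfpf'⟩ := ih n' hlt hodd'
  obtain ⟨f₁, hfpf₁⟩ := h8_q8_module_prime r hr2
  refine ⟨(ZMod r × ZMod r) × V', inferInstance, inferInstance,
    MonoidHom.mk' (fun k => LinearEquiv.prodCongr (f₁ k) (f' k)) ?_, ?_, ?_⟩
  · intro x y
    apply LinearEquiv.ext
    intro v
    apply Prod.ext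
    · show f₁ (x * y) v.1 = f₁ x (f₁ y v.1)
      rw [map_mul]; rfl
    · show f' (x * y) v.2 = f' x (f' y v.2)
      rw [map_mul]; rfl
  · rw [Nat.card_prod, Nat.card_prod, Nat.card_zmod, hcard', hn']; ring
  · intro k hk v hv
    have hv1 : f₁ k v.1 = v.1 := congrArg Prod.fst hv
    have hv2 : f' k v.2 = v.2 := congrArg Prod.snd hv
    apply Prod.ext
    · exact hfpf₁ k hk v.1 hv1
    · exact hfpf' k hk v.2 hv2

/-- variant of `Helper7.exists_frob_of_fpf` recording the order of the kernel -/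
theorem h8_exists_frob_of_fpf_card {K V : Type*} [Group K] [Finite K] [AddCommGroup V] [Finite V]
    [DistribMulAction K V] [Nontrivial K] [Nontrivial V]
    (hfpf : ∀ k : K, k ≠ 1 → ∀ v : V, k • v = v → v = 0) :
    ∃ (L : Type) (_ : Group L) (_ : Finite L) (C : Subgroup L),
      Cfsg.IsFrobeniusComplement C ∧ Nonempty (K ≃* C) ∧
        Nat.card (Cfsg.frobeniusKernel C) = Nat.card V := by
  classical
  let _ := Fintype.ofFinite V
  obtain ⟨ψ, hψ⟩ : ∃ ψ : K →* Equiv.Perm V, ∀ (k : K) (v : V), ψ k v = k • v :=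
    ⟨MulAction.toPermHom K V, fun k v => rfl⟩
  have hψinj : Function.Injective ψ := by
    rw [injective_iff_map_eq_one]
    intro k hk
    by_contra hk1
    obtain ⟨v, hv⟩ := exists_ne (0 : V)
    apply hv
    apply hfpf k hk1 v
    rw [← hψ, hk]; rfl
  obtain ⟨Lsub, hLsub⟩ : ∃ Lsub : Subgroup (Equiv.Perm V), ∀ σ, σ ∈ Lsub ↔
      ∃ k : K, ∃ b : V, ∀ v, σ v = k • v + b :=
    ⟨{ carrier := {σ | ∃ k : K, ∃ b : V, ∀ v, σ v = k • v + b}
       mul_mem' := by
        rintro σ τ ⟨k, b, hσ⟩ ⟨k', b', hτ⟩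
        refine ⟨k * k', k • b' + b, fun v => ?_⟩
        rw [Equiv.Perm.mul_apply, hτ, hσ, smul_add, mul_smul, add_assoc]
       one_mem' := ⟨1, 0, fun v => by simp⟩
       inv_mem' := by
        rintro σ ⟨k, b, hσ⟩
        refine ⟨k⁻¹, -(k⁻¹ • b), fun v => ?_⟩
        rw [Equiv.Perm.inv_eq_iff_eq, hσ, smul_add, smul_neg, smul_inv_smul, smul_inv_smul]
        abel }, fun σ => Iff.rfl⟩
  have hsmul : ∀ (g : Lsub) (v : V), g • v = (g : Equiv.Perm V) v := fun g v => rfl
  have hΩ : 1 < Fintype.card V := Fintype.one_lt_card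
  have htrans : ∀ α β : V, ∃ g : Lsub, g • α = β := by
    intro α β
    refine ⟨⟨Equiv.addRight (β - α), (hLsub _).mpr ⟨1, β - α, fun v => ?_⟩⟩, ?_⟩
    · simp
    · rw [hsmul]; simp
  have hmem : ∀ k : K, ψ k ∈ Lsub := fun k => (hLsub _).mpr ⟨k, 0, fun v => by rw [hψ, add_zero]⟩
  have hnreg : ∃ g : Lsub, g ≠ 1 ∧ ∃ α : V, g • α = α := by
    obtain ⟨k, hk⟩ := exists_ne (1 : K)
    refine ⟨⟨ψ k, hmem k⟩, ?_, 0, ?_⟩
    · intro h
      apply hk
      apply hψinj
      rw [map_one]
      exact congrArg Subtype.val h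
    · rw [hsmul]
      show ψ k 0 = 0
      rw [hψ, smul_zero]
  have hfix : ∀ g : Lsub, g ≠ 1 → ∀ α β : V, g • α = α → g • β = β → α = β := by
    intro g hg α β hα hβ
    obtain ⟨k, b, hσ⟩ := (hLsub g.1).mp g.2
    rw [hsmul, hσ] at hα hβ
    have h1 : k • (α - β) = α - β := by
      rw [smul_sub]
      have h2 : k • α = α - b := by rw [← hα]; abel_nf; rw [hα]
      have h3 : k • β = β - b := by rw [← hβ]; abel_nf; rw [hβ]
      rw [h2, h3]; abel
    by_cases hk : k = 1
    · exfalso
      apply hg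
      apply Subtype.ext
      ext v
      rw [hk, one_smul] at hα
      have hb : b = 0 := by
        have h4 : α + b = α + 0 := by rw [hα, add_zero]
        exact add_left_cancel h4
      rw [hσ, hk, hb, one_smul, add_zero]
      rfl
    · exact sub_eq_zero.mp (hfpf k hk _ h1)
  have hfrob := Cfsg.Agent.S4252.frob_of_action (G := Lsub) (Ω := V) hΩ htrans hnreg hfix 0
  obtain ⟨ψ', hψ'⟩ : ∃ ψ' : K →* Lsub, ∀ k, ((ψ' k : Lsub) : Equiv.Perm V) = ψ k :=
    ⟨ψ.codRestrict Lsub hmem, fun k => rfl⟩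
  have hψ'inj : Function.Injective ψ' := by
    intro k k' h
    apply hψinj
    rw [← hψ', ← hψ', h]
  have hstab : MulAction.stabilizer Lsub (0 : V) = ψ'.range := by
    apply le_antisymm
    · intro g hg
      rw [MulAction.mem_stabilizer_iff, hsmul] at hg
      obtain ⟨k, b, hσ⟩ := (hLsub g.1).mp g.2
      rw [hσ, smul_zero, zero_add] at hg
      refine ⟨k, ?_⟩
      apply Subtype.ext
      rw [hψ']
      ext v
      rw [hψ, hσ, hg, add_zero]
    · rintro g ⟨k, rfl⟩
      rw [MulAction.mem_stabilizer_iff, hsmul, hψ', hψ, smul_zero]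
  rw [hstab] at hfrob
  let e₀ : Lsub ≃ {i : ℕ // i < Nat.card Lsub} := (Finite.equivFin _).trans Fin.equivSubtype
  let _ : Group {i : ℕ // i < Nat.card Lsub} := e₀.symm.group
  have : Finite {i : ℕ // i < Nat.card Lsub} := Finite.of_equiv _ e₀
  let e : Lsub ≃* {i : ℕ // i < Nat.card Lsub} := (Equiv.mulEquiv e₀.symm).symm
  have hidx : ψ'.range.index = Nat.card V := by
    rw [← hstab]
    have : MulAction.IsPretransitive Lsub V := ⟨htrans⟩
    exact MulAction.index_stabilizer_of_transitive Lsub (0 : V)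
  refine ⟨{i : ℕ // i < Nat.card Lsub}, inferInstance, inferInstance, ψ'.range.map e.toMonoidHom,
    Cfsg.Agent.Lib.Helper7.frobComplement_map e _ hfrob, ⟨?_⟩, ?_⟩
  · exact (MonoidHom.ofInjective hψ'inj).trans (e.subgroupMap ψ'.range)
  · rw [Cfsg.Agent.Lib.Helper7.fc_kernel_card _ (Cfsg.Agent.Lib.Helper7.frobComplement_map e _ hfrob),
      ← hidx]
    exact Subgroup.index_map_equiv _ e


theorem h8_s4295 (m : ℕ) :
    (∃ (L : Type) (_ : Group L) (_ : Finite L) (H : Subgroup L), Cfsg.IsFrobeniusComplement H ∧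
        Nonempty (H ≃* QuaternionGroup 2) ∧ Nat.card (Cfsg.frobeniusKernel H) = m) ↔
    (Odd m ∧ IsSquare m ∧ 1 < m) := by
  constructor
  · rintro ⟨L, iL, fL, H, hF, ⟨e⟩, hm⟩
    have h2f : Fact (Nat.Prime 2) := ⟨Nat.prime_two⟩
    have hcardH : Nat.card H = 2 ^ 3 := by
      rw [Nat.card_congr e.toEquiv, Nat.card_eq_fintype_card, QuaternionGroup.card]; norm_num
    have hHp : IsPGroup 2 H := IsPGroup.of_card hcardH
    obtain ⟨P⟩ : Nonempty (Sylow 2 H) := inferInstance
    have hPtop : (⊤ : Subgroup H) = (P : Subgroup H) := P.3 (hHp.to_subgroup ⊤) le_top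
    have hnc : ¬ IsCyclic (P : Subgroup H) := by
      intro hcyc
      have hcomm : ∀ x y : H, x * y = y * x := by
        intro x y
        have hx : x ∈ (P : Subgroup H) := hPtop ▸ Subgroup.mem_top x
        have hy : y ∈ (P : Subgroup H) := hPtop ▸ Subgroup.mem_top y
        obtain ⟨c, hc⟩ := IsCyclic.exists_generator (α := (P : Subgroup H))
        obtain ⟨a, ha⟩ := Subgroup.mem_zpowers_iff.1 (hc ⟨x, hx⟩)
        obtain ⟨b, hb⟩ := Subgroup.mem_zpowers_iff.1 (hc ⟨y, hy⟩)
        have : (⟨x, hx⟩ : (P : Subgroup H)) * ⟨y, hy⟩ = ⟨y, hy⟩ * ⟨x, hx⟩ := by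
          rw [← ha, ← hb, ← zpow_add, ← zpow_add, add_comm]
        exact congrArg Subtype.val this
      have h1 := hcomm (e.symm (QuaternionGroup.a 1)) (e.symm (QuaternionGroup.xa 0))
      rw [← map_mul, ← map_mul] at h1
      have h2 := e.symm.injective h1
      rw [QuaternionGroup.a_mul_xa, QuaternionGroup.xa_mul_a] at h2
      have h3 := QuaternionGroup.xa.inj h2
      revert h3
      decide
    obtain ⟨hodd, hsq⟩ := h8_s4296 H hF ⟨2, h2f, P, hnc⟩
    rw [hm] at hodd hsq
    refine ⟨hodd, hsq, ?_⟩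
    rw [← hm, Cfsg.Agent.Lib.Helper7.fc_kernel_card H hF]
    have h1 : H.index ≠ 1 := fun h => hF.2.1 (Subgroup.index_eq_one.1 h)
    have h0 : H.index ≠ 0 := Subgroup.index_ne_zero_of_finite
    omega
  · rintro ⟨hodd, ⟨n, hn⟩, hlt⟩
    have hnodd : Odd n := by
      apply Odd.of_dvd_nat hodd
      rw [hn]; exact Dvd.intro_left _ rfl
    obtain ⟨V, iV, fV, f, hcard, hfpf⟩ := h8_q8_module n hnodd
    let _ : DistribMulAction (QuaternionGroup 2) V := DistribMulAction.compHom V f
    have hfpf' : ∀ k : QuaternionGroup 2, k ≠ 1 → ∀ v : V, k • v = v → v = 0 :=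
      fun k hk v hv => hfpf k hk v hv
    have hVnt : Nontrivial V := by
      rw [← Finite.one_lt_card_iff_nontrivial, hcard, pow_two, ← hn]
      exact hlt
    obtain ⟨L, iL, fL, C, hC, ⟨e⟩, hker⟩ := h8_exists_frob_of_fpf_card (K := QuaternionGroup 2)
      (V := V) hfpf'
    refine ⟨L, iL, fL, C, hC, ⟨e.symm⟩, ?_⟩
    rw [hker, hcard, pow_two, ← hn]

end Cfsg.Agent.Lib.Helper8
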