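import Mathlib
import Cfsg.Prelude.Def_Solvable
import Cfsg.Prelude.Def_Transfer
import Cfsg.Agent.Lib.Helper8.Basic
import Cfsg.Agent.Lib.Helper8.Q8Aut
import Cfsg.Agent.Lib.Helper2.Frobenius
import Cfsg.Agent.Lib.Helper2.NPC

/-! Normal `p`-complements via sections: `G` has a normal `p`-complement iff every section with
trivial `p'`-core has an element whose order is the exponent. -/

set_option autoImplicit false

namespace Cfsg.Agent.Lib.Helper8

open scoped commutatorElement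

universe u

theorem h8_eq_one_of_mem_pgroup_of_coprime {G : Type u} [Group G] {p : ℕ} [Fact p.Prime]
    {Q : Subgroup G} (hQ : IsPGroup p Q) {x : G} (hx : x ∈ Q) {m : ℕ} (hm : m.Coprime p)
    (hxm : x ^ m = 1) : x = 1 := by
  obtain ⟨j, hj⟩ := hQ ⟨x, hx⟩
  have h1 : x ^ p ^ j = 1 := by simpa using congrArg Subtype.val hj
  have h2 : orderOf x ∣ Nat.gcd m (p ^ j) :=
    Nat.dvd_gcd (orderOf_dvd_of_pow_eq_one hxm) (orderOf_dvd_of_pow_eq_one h1)
  rw [(Nat.Coprime.pow_right j hm).gcd_eq_one, Nat.dvd_one] at h2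
  exact orderOf_eq_one_iff.1 h2

theorem h8_commutator_ne_of_pgroup {G : Type u} [Group G] [Finite G] {p : ℕ} [Fact p.Prime]
    {Q : Subgroup G} (hQ : IsPGroup p Q) (hQ1 : Q ≠ ⊥) : ⁅Q, Q⁆ ≠ Q := by
  intro h
  have hnil : Group.IsNilpotent ↥Q := hQ.isNilpotent
  have h1 : (⊤ : Subgroup ↥Q) ≤ ⁅(⊤ : Subgroup ↥Q), (⊤ : Subgroup ↥Q)⁆ := by
    have h2 : Subgroup.map Q.subtype ⁅(⊤ : Subgroup ↥Q), (⊤ : Subgroup ↥Q)⁆ =
        Subgroup.map Q.subtype ⊤ := by
      rw [Subgroup.map_commutator, ← MonoidHom.range_eq_map, Subgroup.range_subtype, h]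
    exact (Subgroup.map_injective Q.subtype_injective h2).ge
  have h3 := h8_eq_bot_of_le_commutator_top (⊤ : Subgroup ↥Q) h1
  apply hQ1
  have h4 := congrArg (Subgroup.map Q.subtype) h3
  rw [← MonoidHom.range_eq_map, Subgroup.range_subtype, Subgroup.map_bot] at h4
  exact h4

/-- A Frobenius-like group `V ⋊ ⟨t⟩` has trivial `p'`-core and no element of order the exponent. -/
theorem h8_frob_section {K : Type u} [Group K] [Finite K] (p q : ℕ) [Fact p.Prime] (hq : q.Prime)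
    (hqp : q ≠ p) (V : Subgroup K) [hVn : V.Normal] (hVp : IsPGroup p V)
    (hVab : ∀ a ∈ V, ∀ b ∈ V, a * b = b * a) (hV1 : V ≠ ⊥) (t : K)
    (ht : ∀ k : K, ∃ v ∈ V, ∃ i : ℕ, k = v * t ^ i) (htq : t ^ q = 1)
    (hfix : ∀ i : ℕ, ¬ q ∣ i → ∀ v ∈ V, t ^ i * v = v * t ^ i → v = 1) :
    Cfsg.pPrimeCore p K = ⊥ ∧ ¬ ∃ k : K, orderOf k = Monoid.exponent K := by
  have hp : p.Prime := Fact.out
  have hVord : ∀ v ∈ V, ∃ j, orderOf v = p ^ j := by
    intro v hv
    obtain ⟨j, hj⟩ := hVp ⟨v, hv⟩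
    have h1 : v ^ p ^ j = 1 := by simpa using congrArg Subtype.val hj
    obtain ⟨i, -, hi⟩ := (Nat.dvd_prime_pow hp).1 (orderOf_dvd_of_pow_eq_one h1)
    exact ⟨i, hi⟩
  have hfpf : ∀ x : K, x ∉ V → ∀ v ∈ V, x * v = v * x → v = 1 := by
    intro x hx v hv hxv
    obtain ⟨v₀, hv₀, i, rfl⟩ := ht x
    have hqi : ¬ q ∣ i := by
      rintro ⟨j, rfl⟩
      apply hx
      rw [pow_mul, htq, one_pow, mul_one]; exact hv₀
    apply hfix i hqi v hv
    have h1 : v₀ * (t ^ i * v) = v₀ * (v * t ^ i) := by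
      calc v₀ * (t ^ i * v) = v₀ * t ^ i * v := by group
        _ = v * (v₀ * t ^ i) := hxv
        _ = (v * v₀) * t ^ i := by group
        _ = (v₀ * v) * t ^ i := by rw [hVab v hv v₀ hv₀]
        _ = v₀ * (v * t ^ i) := by group
    exact mul_left_cancel h1
  have hpowq : ∀ k : K, k ^ q ∈ V := by
    intro k
    obtain ⟨v₀, hv₀, i, rfl⟩ := ht k
    have h1 : QuotientGroup.mk' V v₀ = 1 := (QuotientGroup.eq_one_iff v₀).2 hv₀
    have h2 : QuotientGroup.mk' V ((v₀ * t ^ i) ^ q) = 1 := by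
      rw [map_pow, map_mul, h1, one_mul, map_pow, ← pow_mul, mul_comm, pow_mul, ← map_pow, htq,
        map_one, one_pow]
    exact (QuotientGroup.eq_one_iff _).1 h2
  have hqdvd : ∀ x : K, x ∉ V → q ∣ orderOf x := by
    intro x hx
    by_contra hnd
    have hcop : q.Coprime (orderOf x) := (Nat.Prime.coprime_iff_not_dvd hq).2 hnd
    obtain ⟨m, hm⟩ := exists_pow_eq_self_of_coprime hcop
    apply hx
    rw [← hm]; exact V.pow_mem (hpowq x) m
  have htV : t ∉ V := by
    intro htV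
    apply hV1
    rw [Subgroup.eq_bot_iff_forall]
    intro v hv
    apply hfix 1 (fun h => hq.one_lt.ne' (Nat.dvd_one.1 h)) v hv
    rw [pow_one]; exact hVab t htV v hv
  obtain ⟨v₁, hv₁, hv₁1⟩ : ∃ v ∈ V, v ≠ 1 := by
    by_contra hcon
    push Not at hcon
    exact hV1 ((Subgroup.eq_bot_iff_forall _).2 hcon)
  have hpv : p ∣ orderOf v₁ := by
    obtain ⟨j, hj⟩ := hVord v₁ hv₁
    rcases Nat.eq_zero_or_pos j with h0 | h0
    · rw [h0, pow_zero, orderOf_eq_one_iff] at hj; exact absurd hj hv₁1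
    · rw [hj]; exact dvd_pow_self p h0.ne'
  constructor
  · unfold Cfsg.pPrimeCore
    rw [sSup_eq_bot]
    rintro N ⟨hNn, hNc⟩
    by_contra hN
    obtain ⟨x, hxN, hx1⟩ : ∃ x ∈ N, x ≠ 1 := by
      by_contra hcon
      push Not at hcon
      exact hN ((Subgroup.eq_bot_iff_forall _).2 hcon)
    have hNV : ∀ y, y ∈ N → y ∈ V → y = 1 := by
      intro y hyN hyV
      obtain ⟨j, hj⟩ := hVord y hyV
      have h1 : orderOf y ∣ Nat.card N := by
        have h0 := orderOf_dvd_natCard (⟨y, hyN⟩ : N)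
        rwa [Subgroup.orderOf_mk] at h0
      have h2 : (orderOf y).Coprime (orderOf y) := by
        have h3 : (orderOf y).Coprime (p ^ j) :=
          Nat.Coprime.pow_right j (Nat.Coprime.coprime_dvd_left h1 hNc)
        rwa [← hj] at h3
      rw [Nat.coprime_self] at h2
      exact orderOf_eq_one_iff.1 h2
    have hxV : x ∉ V := fun h => hx1 (hNV x hxN h)
    have hcen : ∀ v ∈ V, x * v = v * x := by
      intro v hv
      have h1 : x * v * x⁻¹ * v⁻¹ = 1 := by
        apply hNV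
        · have h0 : v * x⁻¹ * v⁻¹ ∈ N := hNn.conj_mem _ (N.inv_mem hxN) v
          have h2 : x * v * x⁻¹ * v⁻¹ = x * (v * x⁻¹ * v⁻¹) := by group
          rw [h2]; exact N.mul_mem hxN h0
        · exact V.mul_mem (hVn.conj_mem v hv x) (V.inv_mem hv)
      calc x * v = (x * v * x⁻¹ * v⁻¹) * v * x := by group
        _ = v * x := by rw [h1, one_mul]
    exact hv₁1 (hfpf x hxV v₁ hv₁ (hcen v₁ hv₁))
  · rintro ⟨k, hk⟩
    have h1 : q ∣ orderOf k := by
      rw [hk]; exact (hqdvd t htV).trans (Monoid.order_dvd_exponent t)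
    have hkV : k ∉ V := by
      intro hkV
      obtain ⟨j, hj⟩ := hVord k hkV
      rw [hj] at h1
      exact hqp ((Nat.prime_dvd_prime_iff_eq hq hp).1 (hq.dvd_of_dvd_pow h1))
    have h2 : k ^ q = 1 := by
      apply hfpf k hkV (k ^ q) (hpowq k)
      rw [← pow_succ', ← pow_succ]
    have h3 : p ∣ q := by
      have h4 : orderOf v₁ ∣ orderOf k := by rw [hk]; exact Monoid.order_dvd_exponent v₁
      exact (hpv.trans h4).trans (orderOf_dvd_of_pow_eq_one h2)
    exact hqp ((Nat.prime_dvd_prime_iff_eq hp hq).1 h3).symm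

theorem h8_exists_orderOf_eq_exponent_of_pGroup {K : Type u} [Group K] [Finite K] {p : ℕ}
    [Fact p.Prime] (hK : IsPGroup p K) : ∃ k : K, orderOf k = Monoid.exponent K := by
  have hp : p.Prime := Fact.out
  obtain ⟨k, hk⟩ := Finite.exists_max (fun x : K => orderOf x)
  refine ⟨k, Nat.dvd_antisymm (Monoid.order_dvd_exponent k) ?_⟩
  apply Monoid.exponent_dvd_of_forall_pow_eq_one
  intro x
  have hord : ∀ y : K, ∃ i, orderOf y = p ^ i := by
    intro y
    obtain ⟨j, hj⟩ := hK y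
    obtain ⟨i, -, hi⟩ := (Nat.dvd_prime_pow hp).1 (orderOf_dvd_of_pow_eq_one hj)
    exact ⟨i, hi⟩
  obtain ⟨i, hi⟩ := hord x
  obtain ⟨j, hj⟩ := hord k
  have hle : p ^ i ≤ p ^ j := by rw [← hi, ← hj]; exact hk x
  have hij : i ≤ j := (Nat.pow_le_pow_iff_right hp.one_lt).1 hle
  apply orderOf_dvd_iff_pow_eq_one.1
  rw [hi, hj]; exact pow_dvd_pow p hij

theorem h8_s4238_mp {G : Type u} [Group G] [Finite G] (p : ℕ) [Fact p.Prime]
    (hG : Cfsg.HasNormalPComplement p G) (H : Subgroup G) (N : Subgroup H) [N.Normal]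
    (hcore : Cfsg.pPrimeCore p (H ⧸ N) = ⊥) :
    ∃ k : H ⧸ N, orderOf k = Monoid.exponent (H ⧸ N) := by
  obtain ⟨K, hKn, hKc, a, ha⟩ := Cfsg.Agent.Lib.Helper2.hasNormalPComplement_iff.1 hG
  apply h8_exists_orderOf_eq_exponent_of_pGroup (p := p)
  have hKN : K.subgroupOf H ≤ N := by
    have hMn : ((K.subgroupOf H).map (QuotientGroup.mk' N)).Normal :=
      Subgroup.Normal.map inferInstance _ (QuotientGroup.mk'_surjective N)
    have hMc : (Nat.card ((K.subgroupOf H).map (QuotientGroup.mk' N))).Coprime p := by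
      have h1 : Nat.card ((K.subgroupOf H).map (QuotientGroup.mk' N)) ∣
          Nat.card (K.subgroupOf H) := Subgroup.card_map_dvd _ _
      have h2 : Nat.card (K.subgroupOf H) ∣ Nat.card K :=
        Subgroup.card_comap_dvd_of_injective K H.subtype H.subtype_injective
      exact Nat.Coprime.coprime_dvd_left (h1.trans h2) hKc
    have hle : (K.subgroupOf H).map (QuotientGroup.mk' N) ≤ Cfsg.pPrimeCore p (H ⧸ N) :=
      le_sSup ⟨hMn, hMc⟩
    rw [hcore, le_bot_iff] at hle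
    intro x hx
    have h3 : QuotientGroup.mk' N x ∈ (K.subgroupOf H).map (QuotientGroup.mk' N) :=
      Subgroup.mem_map_of_mem _ hx
    rw [hle, Subgroup.mem_bot] at h3
    exact (QuotientGroup.eq_one_iff x).1 h3
  intro k
  obtain ⟨h, rfl⟩ := QuotientGroup.mk'_surjective N k
  refine ⟨a, ?_⟩
  rw [← map_pow]
  apply (QuotientGroup.eq_one_iff _).2
  apply hKN
  rw [Subgroup.mem_subgroupOf, Subgroup.coe_pow, ← ha]
  exact Subgroup.pow_index_mem K (h : G)

theorem h8_s4238_mpr {G : Type u} [Group G] [Finite G] (p : ℕ) [Fact p.Prime]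
    (hsec : ∀ (H : Subgroup G) (N : Subgroup H) [N.Normal], Cfsg.pPrimeCore p (H ⧸ N) = ⊥ →
        ∃ k : H ⧸ N, orderOf k = Monoid.exponent (H ⧸ N)) :
    Cfsg.HasNormalPComplement p G := by
  have hp : p.Prime := Fact.out
  apply Cfsg.Agent.Lib.Helper2.frobenius
  have main : ∀ n : ℕ, ∀ (Q : Subgroup G) (g : G),
      Nat.card Q * (Nat.card G + 1) + orderOf g = n →
      IsPGroup p Q → g ∈ Subgroup.normalizer (Q : Set G) → (orderOf g).Coprime p →
      g ∈ Subgroup.centralizer (Q : Set G) := by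
    intro n
    induction n using Nat.strong_induction_on with
    | _ n ih =>
    intro Q g hn hQ hgN hgp
    by_contra hgC
    have hg1 : orderOf g ≠ 1 := by
      intro h
      rw [orderOf_eq_one_iff] at h
      apply hgC; rw [h]; exact Subgroup.one_mem _
    obtain ⟨q, hq, hqg⟩ := Nat.exists_prime_and_dvd hg1
    have hqp : q ≠ p := by
      rintro rfl
      exact hq.one_lt.ne' (Nat.Coprime.eq_one_of_dvd hgp.symm hqg)
    have hgord : 0 < orderOf g := orderOf_pos g
    obtain ⟨c, hcdef⟩ : ∃ c : G, c = g ^ q := ⟨_, rfl⟩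
    have hcN : c ∈ Subgroup.normalizer (Q : Set G) := by
      rw [hcdef]; exact Subgroup.pow_mem _ hgN q
    have hcord : orderOf c = orderOf g / q := by
      rw [hcdef]; exact orderOf_pow_of_dvd hq.ne_zero hqg
    have hclt : orderOf c < orderOf g := by
      rw [hcord]; exact Nat.div_lt_self hgord hq.one_lt
    have hccop : (orderOf c).Coprime p := by
      rw [hcdef]; exact Nat.Coprime.coprime_dvd_left (orderOf_pow_dvd q) hgp
    have hcC : c ∈ Subgroup.centralizer (Q : Set G) :=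
      ih _ (by rw [← hn]; omega) Q c rfl hQ hcN hccop
    have hcQ : ∀ u ∈ Q, u * c = c * u := fun u hu => Subgroup.mem_centralizer_iff.1 hcC u hu
    have hgc : g * c = c * g := by
      rw [hcdef, ← pow_succ', ← pow_succ]
    obtain ⟨w₀, hw₀Q, hw₀⟩ : ∃ w ∈ Q, ¬ (g * w = w * g) := by
      by_contra hcon
      push Not at hcon
      apply hgC
      rw [Subgroup.mem_centralizer_iff]
      intro h hh
      exact (hcon h hh).symm
    have hQ1 : Q ≠ ⊥ := by
      rintro rfl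
      rw [Subgroup.mem_bot] at hw₀Q
      apply hw₀; rw [hw₀Q, mul_one, one_mul]
    have hQ'le : ⁅Q, Q⁆ ≤ Q := by
      rw [Subgroup.commutator_le]
      intro a ha b hb
      rw [commutatorElement_def]
      exact Q.mul_mem (Q.mul_mem (Q.mul_mem ha hb) (Q.inv_mem ha)) (Q.inv_mem hb)
    have hQ'lt : Nat.card ↥⁅Q, Q⁆ < Nat.card Q :=
      Cfsg.Agent.Lib.Helper2.card_lt_card_of_lt
        (lt_of_le_of_ne hQ'le (h8_commutator_ne_of_pgroup hQ hQ1))
    have hgN' : g ∈ Subgroup.normalizer ((⁅Q, Q⁆ : Subgroup G) : Set G) := by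
      apply h8_mem_normalizer_of_map_conj_eq
      rw [Subgroup.map_commutator, h8_map_conj_eq_of_mem_normalizer hgN]
    have hQ'C : g ∈ Subgroup.centralizer ((⁅Q, Q⁆ : Subgroup G) : Set G) := by
      refine ih _ ?_ ⁅Q, Q⁆ g rfl (hQ.to_le hQ'le) hgN' hgp
      rw [← hn]
      nlinarith [hQ'lt]
    obtain ⟨D, hD⟩ : ∃ D : Subgroup G, D = Q ⊓ Subgroup.centralizer ({g} : Set G) := ⟨_, rfl⟩
    have hDmem : ∀ w, w ∈ D ↔ w ∈ Q ∧ g * w = w * g := by
      intro w
      rw [hD, Subgroup.mem_inf, Subgroup.mem_centralizer_iff]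
      constructor
      · rintro ⟨h1, h2⟩; exact ⟨h1, h2 g rfl⟩
      · rintro ⟨h1, h2⟩
        refine ⟨h1, fun h hh => ?_⟩
        rw [Set.mem_singleton_iff] at hh; rw [hh]; exact h2
    have hDQ : D ≤ Q := fun w hw => ((hDmem w).1 hw).1
    have hQ'D : ⁅Q, Q⁆ ≤ D := by
      intro w hw
      rw [hDmem]
      exact ⟨hQ'le hw, (Subgroup.mem_centralizer_iff.1 hQ'C w hw).symm⟩
    have hDconjQ : ∀ u ∈ Q, ∀ x ∈ D, u * x * u⁻¹ ∈ D := by
      intro u hu x hx
      have h1 : u * x * u⁻¹ = ⁅u, x⁆ * x := by rw [commutatorElement_def]; group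
      rw [h1]
      exact D.mul_mem (hQ'D (Subgroup.commutator_mem_commutator hu (hDQ hx))) hx
    have hpp : ∀ x ∈ Q, x ∈ Subgroup.zpowers g → x = 1 := by
      intro x hxQ hxg
      exact h8_eq_one_of_mem_pgroup_of_coprime hQ hxQ hgp
        (orderOf_dvd_iff_pow_eq_one.1 (orderOf_dvd_of_mem_zpowers hxg))
    have hcD : ∀ d ∈ D, Commute c d := fun d hd => (hcQ d (hDQ hd)).symm
    let N₀ : Subgroup G :=
      { carrier := {x | ∃ d ∈ D, ∃ j : ℤ, x = d * c ^ j}
        one_mem' := ⟨1, D.one_mem, 0, by simp⟩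
        mul_mem' := by
          rintro _ _ ⟨d, hd, j, rfl⟩ ⟨d', hd', j', rfl⟩
          refine ⟨d * d', D.mul_mem hd hd', j + j', ?_⟩
          have hc : Commute (c ^ j) d' := (hcD d' hd').zpow_left j
          rw [zpow_add]
          calc d * c ^ j * (d' * c ^ j') = d * (c ^ j * d') * c ^ j' := by group
            _ = d * (d' * c ^ j) * c ^ j' := by rw [hc.eq]
            _ = d * d' * (c ^ j * c ^ j') := by group
        inv_mem' := by
          rintro _ ⟨d, hd, j, rfl⟩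
          refine ⟨d⁻¹, D.inv_mem hd, -j, ?_⟩
          have hc : Commute (c ^ j) d := (hcD d hd).zpow_left j
          rw [mul_inv_rev, zpow_neg]
          exact hc.inv_inv.eq }
    have hN₀mem : ∀ x, x ∈ N₀ ↔ ∃ d ∈ D, ∃ j : ℤ, x = d * c ^ j := fun x => Iff.rfl
    have hDN₀ : ∀ d ∈ D, d ∈ N₀ := fun d hd => ⟨d, hd, 0, by simp⟩
    have hN₀Q : ∀ x ∈ N₀, x ∈ Q → x ∈ D := by
      rintro x ⟨d, hd, j, rfl⟩ hxQ
      have h1 : c ^ j ∈ Q := by
        have h0 : c ^ j = d⁻¹ * (d * c ^ j) := by group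
        rw [h0]; exact Q.mul_mem (Q.inv_mem (hDQ hd)) hxQ
      have h2 : c ^ j = 1 := hpp _ h1 (by
        rw [hcdef]; exact Subgroup.zpow_mem _ (Subgroup.pow_mem _ (Subgroup.mem_zpowers g) q) j)
      rw [h2, mul_one]; exact hd
    obtain ⟨H, hHdef⟩ : ∃ H : Subgroup G, H = Q ⊔ Subgroup.zpowers g := ⟨_, rfl⟩
    have hQH : Q ≤ H := by rw [hHdef]; exact le_sup_left
    have hgH : g ∈ H := by
      rw [hHdef]; exact (le_sup_right : Subgroup.zpowers g ≤ _) (Subgroup.mem_zpowers g)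
    have hHdecomp : ∀ h ∈ H, ∃ u ∈ Q, ∃ k : ℤ, h = u * g ^ k := by
      intro h hh
      rw [hHdef] at hh
      obtain ⟨u, hu, y, hy, huy⟩ := h8_mem_sup_of_le_normalizer (Subgroup.zpowers_le.2 hgN) hh
      obtain ⟨k, rfl⟩ := Subgroup.mem_zpowers_iff.1 hy
      exact ⟨u, hu, k, huy.symm⟩
    have hHQ : ∀ h ∈ H, ∀ x ∈ Q, h * x * h⁻¹ ∈ Q := by
      intro h hh x hx
      have h1 : H ≤ Subgroup.normalizer (Q : Set G) := by
        rw [hHdef]; exact sup_le Subgroup.le_normalizer (Subgroup.zpowers_le.2 hgN)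
      exact (Subgroup.mem_normalizer_iff.1 (h1 hh) x).1 hx
    have hconjN₀ : ∀ h ∈ H, ∀ x ∈ N₀, h * x * h⁻¹ ∈ N₀ := by
      rintro h hh x ⟨d, hd, j, rfl⟩
      obtain ⟨u, hu, k, rfl⟩ := hHdecomp h hh
      have hgd : Commute (g ^ k) d := (show Commute g d from ((hDmem d).1 hd).2).zpow_left k
      have hgcj : Commute (g ^ k) (c ^ j) :=
        ((show Commute g c from hgc).zpow_right j).zpow_left k
      have huc : Commute u (c ^ j) := (show Commute u c from hcQ u hu).zpow_right j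
      refine ⟨u * d * u⁻¹, hDconjQ u hu d hd, j, ?_⟩
      calc u * g ^ k * (d * c ^ j) * (u * g ^ k)⁻¹
          = u * (g ^ k * d) * c ^ j * (g ^ k)⁻¹ * u⁻¹ := by group
        _ = u * (d * g ^ k) * c ^ j * (g ^ k)⁻¹ * u⁻¹ := by rw [hgd.eq]
        _ = u * d * (g ^ k * c ^ j) * (g ^ k)⁻¹ * u⁻¹ := by group
        _ = u * d * (c ^ j * g ^ k) * (g ^ k)⁻¹ * u⁻¹ := by rw [hgcj.eq]
        _ = u * d * (c ^ j * u⁻¹) := by group
        _ = u * d * (u⁻¹ * c ^ j) := by rw [← huc.inv_left.eq]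
        _ = u * d * u⁻¹ * c ^ j := by group
    obtain ⟨N, hNdef⟩ : ∃ N : Subgroup ↥H, N = N₀.subgroupOf H := ⟨_, rfl⟩
    have hNmem : ∀ x : ↥H, x ∈ N ↔ (x : G) ∈ N₀ := by
      intro x; rw [hNdef, Subgroup.mem_subgroupOf]
    have hNn : N.Normal := by
      refine ⟨fun n hn h => ?_⟩
      rw [hNmem] at hn ⊢
      exact hconjN₀ h.1 h.2 n.1 hn
    obtain ⟨V, hVdef⟩ : ∃ V : Subgroup (↥H ⧸ N),
        V = (Q.subgroupOf H).map (QuotientGroup.mk' N) := ⟨_, rfl⟩
    have hVn : V.Normal := by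
      rw [hVdef]
      have h1 : (Q.subgroupOf H).Normal := by
        refine ⟨fun x hx h => ?_⟩
        rw [Subgroup.mem_subgroupOf] at hx ⊢
        exact hHQ h.1 h.2 x.1 hx
      exact Subgroup.Normal.map h1 _ (QuotientGroup.mk'_surjective N)
    have hVp : IsPGroup p V := by
      rw [hVdef]; exact (hQ.comap_subtype).map _
    have hVmem : ∀ v ∈ V, ∃ w : ↥H, (w : G) ∈ Q ∧ QuotientGroup.mk' N w = v := by
      intro v hv
      rw [hVdef] at hv
      obtain ⟨w, hw, rfl⟩ := Subgroup.mem_map.1 hv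
      exact ⟨w, Subgroup.mem_subgroupOf.1 hw, rfl⟩
    have hVab : ∀ a ∈ V, ∀ b ∈ V, a * b = b * a := by
      intro a ha b hb
      obtain ⟨x, hx, rfl⟩ := hVmem a ha
      obtain ⟨y, hy, rfl⟩ := hVmem b hb
      rw [← map_mul, ← map_mul]
      have h2 : (x * y)⁻¹ * (y * x) ∈ N := by
        rw [hNmem]
        apply hDN₀
        apply hQ'D
        have h1 : (((x * y)⁻¹ * (y * x) : ↥H) : G) = ⁅(y : G)⁻¹, (x : G)⁻¹⁆ := by
          rw [commutatorElement_def]
          simp only [Subgroup.coe_mul, Subgroup.coe_inv]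
          group
        rw [h1]
        exact Subgroup.commutator_mem_commutator (Q.inv_mem hy) (Q.inv_mem hx)
      exact QuotientGroup.eq.2 h2
    have hV1 : V ≠ ⊥ := by
      intro hV
      have h1 : QuotientGroup.mk' N ⟨w₀, hQH hw₀Q⟩ ∈ V := by
        rw [hVdef]
        exact Subgroup.mem_map_of_mem _ (by rw [Subgroup.mem_subgroupOf]; exact hw₀Q)
      rw [hV, Subgroup.mem_bot] at h1
      have h2 : (⟨w₀, hQH hw₀Q⟩ : ↥H) ∈ N := (QuotientGroup.eq_one_iff _).1 h1
      rw [hNmem] at h2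
      exact hw₀ ((hDmem w₀).1 (hN₀Q w₀ h2 hw₀Q)).2
    obtain ⟨t, htdef⟩ : ∃ t : ↥H ⧸ N, t = QuotientGroup.mk' N ⟨g, hgH⟩ := ⟨_, rfl⟩
    have ht : ∀ k : ↥H ⧸ N, ∃ v ∈ V, ∃ i : ℕ, k = v * t ^ i := by
      intro k
      obtain ⟨h, rfl⟩ := QuotientGroup.mk'_surjective N k
      obtain ⟨u, hu, y, hy, huy⟩ := h8_mem_sup_of_le_normalizer (Subgroup.zpowers_le.2 hgN)
        (show (h : G) ∈ Q ⊔ Subgroup.zpowers g by rw [← hHdef]; exact h.2)
      rw [← mem_powers_iff_mem_zpowers] at hy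
      obtain ⟨i, rfl⟩ := (Submonoid.mem_powers_iff _ _).1 hy
      refine ⟨QuotientGroup.mk' N ⟨u, hQH hu⟩, ?_, i, ?_⟩
      · rw [hVdef]
        exact Subgroup.mem_map_of_mem _ (by rw [Subgroup.mem_subgroupOf]; exact hu)
      · rw [htdef, ← map_pow, ← map_mul]
        congr 1
        apply Subtype.ext
        rw [Subgroup.coe_mul, Subgroup.coe_pow]
        exact huy.symm
    have htq : t ^ q = 1 := by
      rw [htdef, ← map_pow]
      apply (QuotientGroup.eq_one_iff _).2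
      rw [hNmem, Subgroup.coe_pow]
      exact ⟨1, D.one_mem, 1, by rw [one_mul, zpow_one, hcdef]⟩
    have hfix : ∀ i : ℕ, ¬ q ∣ i → ∀ v ∈ V, t ^ i * v = v * t ^ i → v = 1 := by
      intro i hqi v hv hcomm
      obtain ⟨w', hw', rfl⟩ := hVmem v hv
      have h1 : ((⟨g, hgH⟩ : ↥H) ^ i * w')⁻¹ * (w' * (⟨g, hgH⟩ : ↥H) ^ i) ∈ N := by
        apply QuotientGroup.eq.1
        have h0 := hcomm
        rw [htdef, ← map_pow, ← map_mul, ← map_mul] at h0
        exact h0
      rw [hNmem] at h1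
      simp only [Subgroup.coe_mul, Subgroup.coe_inv, Subgroup.coe_pow] at h1
      obtain ⟨w, hw⟩ : ∃ w : G, w = (w' : G) := ⟨_, rfl⟩
      rw [← hw] at h1 hw'
      obtain ⟨g', hg'⟩ : ∃ g' : G, g' = g ^ i := ⟨_, rfl⟩
      rw [← hg'] at h1
      have hg'N : g' ∈ Subgroup.normalizer (Q : Set G) := by
        rw [hg']; exact Subgroup.pow_mem _ hgN i
      have hyQ : (g' * w)⁻¹ * (w * g') ∈ Q := by
        have h2 : (g' * w)⁻¹ * (w * g') = w⁻¹ * (g'⁻¹ * w * g'⁻¹⁻¹) := by group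
        rw [h2]
        exact Q.mul_mem (Q.inv_mem hw')
          ((Subgroup.mem_normalizer_iff.1 (Subgroup.inv_mem _ hg'N) w).1 hw')
      have hyD := hN₀Q _ h1 hyQ
      obtain ⟨y, hy⟩ : ∃ y : G, y = (g' * w)⁻¹ * (w * g') := ⟨_, rfl⟩
      rw [← hy] at hyD hyQ
      have hwg : w * g' = g' * w * y := by rw [hy]; group
      have hyg' : Commute y g' := by
        rw [hg']; exact ((show Commute g y from ((hDmem y).1 hyD).2).symm).pow_right i
      have hiter : ∀ n : ℕ, w * g' ^ n = g' ^ n * w * y ^ n := by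
        intro n
        induction n with
        | zero => simp
        | succ n ihn =>
          calc w * g' ^ (n + 1) = (w * g' ^ n) * g' := by rw [pow_succ]; group
            _ = g' ^ n * w * y ^ n * g' := by rw [ihn]
            _ = g' ^ n * w * (y ^ n * g') := by group
            _ = g' ^ n * w * (g' * y ^ n) := by rw [(hyg'.pow_left n).eq]
            _ = g' ^ n * (w * g') * y ^ n := by group
            _ = g' ^ n * (g' * w * y) * y ^ n := by rw [hwg]
            _ = g' ^ (n + 1) * w * y ^ (n + 1) := by rw [pow_succ, pow_succ']; group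
      have hy1 : y = 1 := by
        have h3 := hiter (orderOf g')
        rw [pow_orderOf_eq_one, mul_one, one_mul] at h3
        have h4 : y ^ orderOf g' = 1 := by
          have h6 : w * 1 = w * y ^ orderOf g' := by rw [mul_one]; exact h3
          exact (mul_left_cancel h6).symm
        have h5 : (orderOf g').Coprime p := by
          rw [hg']; exact Nat.Coprime.coprime_dvd_left (orderOf_pow_dvd i) hgp
        exact h8_eq_one_of_mem_pgroup_of_coprime hQ hyQ h5 h4
      have hwg' : w * g' = g' * w := by rw [hwg, hy1, mul_one]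
      have hcop : Nat.Coprime i q := ((Nat.Prime.coprime_iff_not_dvd hq).2 hqi).symm
      have hb := Nat.gcd_eq_gcd_ab i q
      rw [hcop.gcd_eq_one] at hb
      have hgg : g = g' ^ (Nat.gcdA i q) * c ^ (Nat.gcdB i q) := by
        rw [hg', hcdef, ← zpow_natCast g i, ← zpow_natCast g q, ← zpow_mul, ← zpow_mul,
          ← zpow_add, ← hb]
        simp
      have hwg0 : Commute w g := by
        rw [hgg]
        exact ((show Commute w g' from hwg').zpow_right _).mul_right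
          ((show Commute w c from hcQ w hw').zpow_right _)
      have hwD : w ∈ D := (hDmem w).2 ⟨hw', hwg0.eq.symm⟩
      apply (QuotientGroup.eq_one_iff _).2
      rw [hNmem, ← hw]
      exact hDN₀ w hwD
    obtain ⟨hcore, hno⟩ := h8_frob_section p q hq hqp V hVp hVab hV1 t ht htq hfix
    exact hno (hsec H N hcore)
  intro Q hQ g hg hgp
  exact main _ Q g rfl hQ hg hgp

theorem h8_s4238 {G : Type u} [Group G] [Finite G] (p : ℕ) [Fact p.Prime] :
    Cfsg.HasNormalPComplement p G ↔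
      ∀ (H : Subgroup G) (N : Subgroup H) [N.Normal], Cfsg.pPrimeCore p (H ⧸ N) = ⊥ →
        ∃ k : H ⧸ N, orderOf k = Monoid.exponent (H ⧸ N) :=
  ⟨fun h H N _ hc => h8_s4238_mp p h H N hc, h8_s4238_mpr p⟩

end Cfsg.Agent.Lib.Helper8
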