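import Mathlib
import Cfsg.Agent.Lib.Helper8.ConjClass

set_option autoImplicit false

namespace Cfsg.Agent.Lib.Helper8

universe u

/-- the number of generators of a finite cyclic subgroup -/
theorem h8_card_zpowers_eq {G : Type u} [Group G] [Finite G] (x₀ : G) :
    Nat.card {x : G // Subgroup.zpowers x = Subgroup.zpowers x₀} = Nat.totient (orderOf x₀) := by
  classical
  have : Fintype (Subgroup.zpowers x₀) := Fintype.ofFinite _
  have h1 := IsCyclic.card_orderOf_eq_totient (α := Subgroup.zpowers x₀) (d := orderOf x₀)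
    (by rw [← Nat.card_eq_fintype_card, Nat.card_zpowers])
  rw [← h1, ← Fintype.card_subtype, ← Nat.card_eq_fintype_card]
  refine Nat.card_congr ?_
  exact
    { toFun := fun x => ⟨⟨x.1, by
          have h := Subgroup.mem_zpowers x.1
          rw [x.2] at h
          exact h⟩, by
        rw [Subgroup.orderOf_mk, ← Nat.card_zpowers, ← Nat.card_zpowers x₀, x.2]⟩
      invFun := fun c => ⟨c.1.1, by
        apply Subgroup.eq_of_le_of_card_ge
        · rw [Subgroup.zpowers_le]; exact c.1.2
        · rw [Nat.card_zpowers, Nat.card_zpowers, Subgroup.orderOf_coe, c.2]⟩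
      left_inv := fun x => rfl
      right_inv := fun c => rfl }

/-- `m`-torsion elements correspond bijectively modulo a central subgroup of order prime to `m`. -/
theorem h8_card_pow_eq_one_quotient {C : Type u} [Group C] [Finite C] (P : Subgroup C) [P.Normal]
    (hP : P ≤ Subgroup.center C) (m : ℕ) (hm : (Nat.card P).Coprime m) :
    Nat.card {z : C // z ^ m = 1} = Nat.card {q : C ⧸ P // q ^ m = 1} := by
  refine Nat.card_congr (Equiv.ofBijective
    (fun z => ⟨QuotientGroup.mk z.1, by rw [← QuotientGroup.mk_pow, z.2]; rfl⟩) ⟨?_, ?_⟩)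
  · rintro ⟨z, hz⟩ ⟨z', hz'⟩ h
    have h1 : (QuotientGroup.mk z : C ⧸ P) = QuotientGroup.mk z' := congrArg Subtype.val h
    rw [QuotientGroup.eq] at h1
    have hz'' : z' = z * (z⁻¹ * z') := by group
    have hucomm : Commute z (z⁻¹ * z') := Subgroup.mem_center_iff.1 (hP h1) z
    have h2 : (z⁻¹ * z') ^ m = 1 := by
      have h := hz'
      rw [hz'', hucomm.mul_pow, hz, one_mul] at h
      exact h
    have h3 : (z⁻¹ * z') ^ Nat.card P = 1 := by
      have h := pow_card_eq_one' (G := P) (x := ⟨z⁻¹ * z', h1⟩)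
      exact congrArg Subtype.val h
    have h4 : z⁻¹ * z' = 1 := by
      have h := pow_gcd_eq_one.2 ⟨h3, h2⟩
      rwa [hm.gcd_eq_one, pow_one] at h
    apply Subtype.ext
    show z = z'
    rw [hz'', h4, mul_one]
  · rintro ⟨q, hq⟩
    obtain ⟨z, rfl⟩ := QuotientGroup.mk_surjective q
    have h1 : z ^ m ∈ P := by
      rw [← QuotientGroup.eq_one_iff, QuotientGroup.mk_pow]; exact hq
    obtain ⟨v, hv⟩ := (powCoprime hm).surjective ((⟨z ^ m, h1⟩ : P)⁻¹)
    have hv' : (v : C) ^ m = (z ^ m)⁻¹ := congrArg Subtype.val hv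
    have hvc : Commute z (v : C) := Subgroup.mem_center_iff.1 (hP v.2) z
    refine ⟨⟨z * v, by rw [hvc.mul_pow, hv', mul_inv_cancel]⟩, ?_⟩
    apply Subtype.ext
    show (QuotientGroup.mk (z * (v : C)) : C ⧸ P) = QuotientGroup.mk z
    rw [QuotientGroup.mk_mul, (QuotientGroup.eq_one_iff (v : C)).2 v.2, mul_one]

/-- A class function whose value times the class size is always divisible by `m` has total sum
divisible by `m`. -/
theorem h8_dvd_sum_of_conj_invariant {G : Type u} [Group G] [Fintype G] (w : G → ℕ) (m : ℕ)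
    (hw : ∀ c y : G, w (c * y * c⁻¹) = w y)
    (h : ∀ y : G, m ∣ (Subgroup.centralizer {y}).index * w y) : m ∣ ∑ y : G, w y := by
  classical
  have : Fintype (ConjClasses G) := Fintype.ofFinite _
  rw [← Finset.sum_fiberwise Finset.univ (ConjClasses.mk : G → ConjClasses G) w]
  apply Finset.dvd_sum
  intro c _
  obtain ⟨y₀, rfl⟩ := ConjClasses.mk_surjective c
  have h1 : ∀ y ∈ Finset.univ.filter (fun y : G => ConjClasses.mk y = ConjClasses.mk y₀),
      w y = w y₀ := by
    intro y hy
    rw [Finset.mem_filter, ConjClasses.mk_eq_mk_iff_isConj, isConj_iff] at hy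
    obtain ⟨c, hc⟩ := hy.2
    rw [← hc, hw]
  rw [Finset.sum_congr rfl h1, Finset.sum_const, smul_eq_mul]
  have h2 : (Finset.univ.filter (fun y : G => ConjClasses.mk y = ConjClasses.mk y₀)).card =
      (Subgroup.centralizer {y₀}).index := by
    rw [← h8_ncard_conj_eq_index, ← Set.ncard_coe_finset]
    congr 1
    ext y
    simp only [Finset.coe_filter, Finset.mem_univ, true_and, Set.mem_ofPred_eq]
    rw [ConjClasses.mk_eq_mk_iff_isConj, isConj_comm]
  rw [h2]
  exact h y₀

/-- number-theoretic step -/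
theorem h8_pow_succ_dvd_of {p e m o : ℕ} (hp : p.Prime) (ho : o ≠ 0)
    (h1 : o ∣ p ^ (e + 1) * m) (h2 : ¬ o ∣ p ^ e * m) : p ^ (e + 1) ∣ o := by
  obtain ⟨j, o', ho', rfl⟩ := Nat.exists_eq_pow_mul_and_not_dvd ho p hp.ne_one
  by_cases hj : e + 1 ≤ j
  · exact (pow_dvd_pow p hj).trans (Dvd.intro _ rfl)
  · exfalso
    apply h2
    have hj' : j ≤ e := by omega
    have h3 : o' ∣ p ^ (e + 1) * m := (Dvd.intro_left _ rfl).trans h1
    have h4 : Nat.Coprime o' (p ^ (e + 1)) :=
      (((Nat.Prime.coprime_iff_not_dvd hp).2 ho').symm).pow_right _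
    exact Nat.mul_dvd_mul (pow_dvd_pow p hj') (h4.dvd_of_dvd_mul_left h3)

/-- The inductive step of the Isaacs–Robinson proof of Frobenius' theorem. -/
theorem h8_frobenius_step {G : Type u} [Group G] [Finite G]
    (IH : ∀ (H : Type u) [Group H] [Finite H], Nat.card H < Nat.card G →
      ∀ n, n ∣ Nat.card H → n ∣ Nat.card {g : H // g ^ n = 1})
    (p e m : ℕ) (hp : p.Prime) (hpm : ¬ p ∣ m) (hdiv : p ^ (e + 1) * m ∣ Nat.card G) :
    p ^ e * m ∣ Nat.card {x : G // x ^ (p ^ (e + 1) * m) = 1 ∧ x ^ (p ^ e * m) ≠ 1} := by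
  classical
  have : Fact p.Prime := ⟨hp⟩
  have hcop : Nat.Coprime (p ^ (e + 1)) m := ((Nat.Prime.coprime_iff_not_dvd hp).2 hpm).pow_left _
  have hcop' : Nat.Coprime (p ^ e) m := ((Nat.Prime.coprime_iff_not_dvd hp).2 hpm).pow_left _
  apply hcop'.mul_dvd_of_dvd_of_dvd
  · -- the `p`-part: count generators of cyclic subgroups
    have : Fintype (Subgroup G) := Fintype.ofFinite _
    rw [← Nat.card_congr (Equiv.sigmaFiberEquiv
      (fun x : {x : G // x ^ (p ^ (e + 1) * m) = 1 ∧ x ^ (p ^ e * m) ≠ 1} =>
        Subgroup.zpowers x.1)), Nat.card_sigma]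
    apply Finset.dvd_sum
    intro C _
    by_cases hne : Nonempty {x : {x : G // x ^ (p ^ (e + 1) * m) = 1 ∧ x ^ (p ^ e * m) ≠ 1} //
        Subgroup.zpowers x.1 = C}
    · obtain ⟨⟨⟨x₀, hx₀⟩, rfl⟩⟩ := hne
      have e1 : {x : {x : G // x ^ (p ^ (e + 1) * m) = 1 ∧ x ^ (p ^ e * m) ≠ 1} //
          Subgroup.zpowers x.1 = Subgroup.zpowers x₀} ≃
          {x : G // Subgroup.zpowers x = Subgroup.zpowers x₀} :=
        { toFun := fun x => ⟨x.1.1, x.2⟩
          invFun := fun x => ⟨⟨x.1, by
            have ho : orderOf x.1 = orderOf x₀ := by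
              rw [← Nat.card_zpowers, ← Nat.card_zpowers x₀, x.2]
            rw [← orderOf_dvd_iff_pow_eq_one, Ne, ← orderOf_dvd_iff_pow_eq_one, ho,
              orderOf_dvd_iff_pow_eq_one, orderOf_dvd_iff_pow_eq_one]
            exact hx₀⟩, x.2⟩
          left_inv := fun x => rfl
          right_inv := fun x => rfl }
      rw [Nat.card_congr e1, h8_card_zpowers_eq]
      have h1 : p ^ (e + 1) ∣ orderOf x₀ :=
        h8_pow_succ_dvd_of hp (orderOf_pos x₀).ne' (orderOf_dvd_iff_pow_eq_one.2 hx₀.1)
          (fun h => hx₀.2 (orderOf_dvd_iff_pow_eq_one.1 h))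
      exact (Dvd.intro _ (Nat.totient_prime_pow_succ hp e).symm).trans (Nat.totient_dvd_of_dvd h1)
    · rw [not_nonempty_iff] at hne
      rw [Nat.card_of_isEmpty]; exact dvd_zero _
  · -- the `p'`-part
    set q := p ^ (e + 1) with hq
    have hq2 : 2 ≤ q := by
      rw [hq]
      calc 2 ≤ p := hp.two_le
        _ = p ^ 1 := (pow_one p).symm
        _ ≤ p ^ (e + 1) := Nat.pow_le_pow_right hp.pos (by omega)
    obtain ⟨s, t, hst⟩ : ∃ s t : ℤ, t * (m : ℤ) + s * (q : ℤ) = 1 := by
      have h := Nat.gcd_eq_gcd_ab q m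
      rw [hcop.gcd_eq_one] at h
      refine ⟨Nat.gcdA q m, Nat.gcdB q m, ?_⟩
      rw [mul_comm, mul_comm (Nat.gcdA q m), add_comm]
      exact_mod_cast h.symm
    have ht : t * (m : ℤ) = 1 - s * (q : ℤ) := by linarith
    have hs : s * (q : ℤ) = 1 - t * (m : ℤ) := by linarith
    let P : G → G → Prop := fun y z => z ^ m = 1 ∧ z * y = y * z ∧ orderOf y = q
    -- the bijection between `X` and pairs
    have eXW : {x : G // x ^ (q * m) = 1 ∧ x ^ (p ^ e * m) ≠ 1} ≃ {w : G × G // P w.1 w.2} :=
      { toFun := fun x => ⟨(x.1 ^ (t * (m : ℤ)), x.1 ^ (s * (q : ℤ))), by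
          have hx1 : x.1 ^ (((q * m : ℕ) : ℤ)) = 1 := by rw [zpow_natCast]; exact x.2.1
          have hz : (x.1 ^ (s * (q : ℤ))) ^ m = 1 := by
            rw [← zpow_natCast, ← zpow_mul,
              show s * (q : ℤ) * (m : ℤ) = ((q * m : ℕ) : ℤ) * s by push_cast; ring,
              zpow_mul, hx1, one_zpow]
          have hy : (x.1 ^ (t * (m : ℤ))) ^ q = 1 := by
            rw [← zpow_natCast, ← zpow_mul,
              show t * (m : ℤ) * (q : ℤ) = ((q * m : ℕ) : ℤ) * t by push_cast; ring,
              zpow_mul, hx1, one_zpow]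
          have hcomm : Commute (x.1 ^ (t * (m : ℤ))) (x.1 ^ (s * (q : ℤ))) :=
            Commute.zpow_zpow_self _ _ _
          refine ⟨hz, hcomm.eq.symm, ?_⟩
          show orderOf (x.1 ^ (t * (m : ℤ))) = p ^ (e + 1)
          apply orderOf_eq_prime_pow
          · intro hcon
            apply x.2.2
            have hx : x.1 = x.1 ^ (t * (m : ℤ)) * x.1 ^ (s * (q : ℤ)) := by
              rw [← zpow_add, hst, zpow_one]
            rw [hx, hcomm.mul_pow, pow_mul, hcon, one_pow, one_mul, pow_mul', hz, one_pow]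
          · exact hy⟩
        invFun := fun w => ⟨w.1.1 * w.1.2, by
          obtain ⟨⟨y, z⟩, hz, hc, hy⟩ := w
          have hcomm : Commute y z := hc.symm
          have hyq : y ^ q = 1 := by rw [← hy]; exact pow_orderOf_eq_one y
          refine ⟨?_, ?_⟩
          · show (y * z) ^ (q * m) = 1
            rw [hcomm.mul_pow, pow_mul, hyq, one_pow, one_mul, mul_comm q m, pow_mul, hz, one_pow]
          · show (y * z) ^ (p ^ e * m) ≠ 1
            rw [hcomm.mul_pow, pow_mul' z, hz, one_pow, mul_one]
            intro hcon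
            have h1 : q ∣ p ^ e * m := by
              rw [← hy]; exact orderOf_dvd_iff_pow_eq_one.2 hcon
            rw [hq, pow_succ] at h1
            exact hpm (Nat.dvd_of_mul_dvd_mul_left (pow_pos hp.pos e) h1)⟩
        left_inv := by
          rintro ⟨x, hx⟩
          apply Subtype.ext
          show x ^ (t * (m : ℤ)) * x ^ (s * (q : ℤ)) = x
          rw [← zpow_add, hst, zpow_one]
        right_inv := by
          rintro ⟨⟨y, z⟩, hz, hc, hy⟩
          have hcomm : Commute y z := hc.symm
          have hyq : y ^ q = 1 := by rw [← hy]; exact pow_orderOf_eq_one y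
          have hzm : z ^ (m : ℤ) = 1 := by rw [zpow_natCast]; exact hz
          have hyq' : y ^ (q : ℤ) = 1 := by rw [zpow_natCast]; exact hyq
          apply Subtype.ext
          apply Prod.ext
          · show (y * z) ^ (t * (m : ℤ)) = y
            rw [hcomm.mul_zpow]
            have e1 : z ^ (t * (m : ℤ)) = 1 := by
              rw [mul_comm, zpow_mul, hzm, one_zpow]
            have e2 : y ^ (t * (m : ℤ)) = y := by
              rw [ht, zpow_sub, zpow_one, mul_comm s, zpow_mul, hyq', one_zpow, inv_one, mul_one]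
            rw [e1, e2, mul_one]
          · show (y * z) ^ (s * (q : ℤ)) = z
            rw [hcomm.mul_zpow]
            have e1 : y ^ (s * (q : ℤ)) = 1 := by
              rw [mul_comm, zpow_mul, hyq', one_zpow]
            have e2 : z ^ (s * (q : ℤ)) = z := by
              rw [hs, zpow_sub, zpow_one, mul_comm t, zpow_mul, hzm, one_zpow, inv_one, mul_one]
            rw [e1, e2, one_mul] }
    have : Fintype G := Fintype.ofFinite G
    rw [Nat.card_congr eXW, Nat.card_congr (Equiv.subtypeProdEquivSigmaSubtype P), Nat.card_sigma]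
    apply h8_dvd_sum_of_conj_invariant
    · -- invariance
      intro c y
      symm
      refine Nat.card_congr ((MulAut.conj c).toEquiv.subtypeEquiv (fun z => ?_))
      show (z ^ m = 1 ∧ z * y = y * z ∧ orderOf y = q) ↔
        ((c * z * c⁻¹) ^ m = 1 ∧ (c * z * c⁻¹) * (c * y * c⁻¹) = (c * y * c⁻¹) * (c * z * c⁻¹) ∧
          orderOf (c * y * c⁻¹) = q)
      have h1 : orderOf (c * y * c⁻¹) = orderOf y := (MulAut.conj c).orderOf_eq y
      rw [conj_pow, conj_eq_one_iff, conj_mul, conj_mul, h1, mul_left_inj, mul_right_inj]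
    · -- the divisibility for each class
      intro y
      by_cases hy : orderOf y = q
      · -- reduce to the centralizer modulo `⟨y⟩`
        set C := Subgroup.centralizer ({y} : Set G) with hC
        have hyC : y ∈ C := Subgroup.mem_centralizer_singleton_iff.2 rfl
        have e2 : {z : G // P y z} ≃ {z : C // z ^ m = 1} :=
          { toFun := fun z => ⟨⟨z.1, Subgroup.mem_centralizer_singleton_iff.2 z.2.2.1⟩,
              Subtype.ext z.2.1⟩
            invFun := fun z => ⟨z.1.1, congrArg Subtype.val z.2,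
              Subgroup.mem_centralizer_singleton_iff.1 z.1.2, hy⟩
            left_inv := fun z => rfl
            right_inv := fun z => rfl }
        have hPc : Subgroup.zpowers (⟨y, hyC⟩ : C) ≤ Subgroup.center C := by
          rw [Subgroup.zpowers_le, Subgroup.mem_center_iff]
          intro g
          exact Subtype.ext (Subgroup.mem_centralizer_singleton_iff.1 g.2)
        have hPn : (Subgroup.zpowers (⟨y, hyC⟩ : C)).Normal := by
          constructor
          intro n hn g
          have h1 := Subgroup.mem_center_iff.1 (hPc hn) g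
          rw [h1, mul_inv_cancel_right]
          exact hn
        have hPcard : Nat.card (Subgroup.zpowers (⟨y, hyC⟩ : C)) = q := by
          rw [Nat.card_zpowers, Subgroup.orderOf_mk, hy]
        have h3 := h8_card_pow_eq_one_quotient (Subgroup.zpowers (⟨y, hyC⟩ : C)) hPc m
          (by rw [hPcard]; exact hcop)
        have hcardC := Subgroup.card_eq_card_quotient_mul_card_subgroup
          (Subgroup.zpowers (⟨y, hyC⟩ : C))
        rw [hPcard] at hcardC
        set cq := Nat.card (C ⧸ Subgroup.zpowers (⟨y, hyC⟩ : C)) with hcq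
        have hcq0 : 0 < cq := Nat.card_pos
        have hlt : cq < Nat.card G := by
          have h4 : Nat.card C ≤ Nat.card G := Subgroup.card_le_card_group C
          nlinarith
        have e3 : {z : C ⧸ Subgroup.zpowers (⟨y, hyC⟩ : C) // z ^ m = 1} ≃
            {z : C ⧸ Subgroup.zpowers (⟨y, hyC⟩ : C) // z ^ (Nat.gcd m cq) = 1} :=
          Equiv.subtypeEquivRight (fun z => by
            constructor
            · intro hz
              exact pow_gcd_eq_one.2 ⟨hz, pow_card_eq_one'⟩
            · intro hz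
              exact (pow_gcd_eq_one.1 hz).1)
        have h5 := IH (C ⧸ Subgroup.zpowers (⟨y, hyC⟩ : C)) hlt (Nat.gcd m cq)
          (Nat.gcd_dvd_right _ _)
        rw [← Nat.card_congr e3, ← h3, ← Nat.card_congr e2] at h5
        have h6 : m ∣ C.index * cq := by
          have h7 := Subgroup.index_mul_card C
          rw [hcardC] at h7
          rw [← h7] at hdiv
          have h8 : q * m ∣ q * (C.index * cq) := by
            rw [show q * (C.index * cq) = C.index * (cq * q) by ring]
            exact hdiv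
          exact Nat.dvd_of_mul_dvd_mul_left (by omega) h8
        have h9 : m ∣ C.index * Nat.gcd m cq := by
          rw [← Nat.gcd_mul_left]
          exact Nat.dvd_gcd (Dvd.intro_left _ rfl) h6
        exact h9.trans (Nat.mul_dvd_mul_left _ h5)
      · have hemp : IsEmpty {z : G // P y z} := ⟨fun z => hy z.2.2.2⟩
        rw [Nat.card_of_isEmpty, mul_zero]
        exact dvd_zero _

/-- **Frobenius' theorem**: if `n` divides `|G|` then `n` divides the number of solutions of
`x ^ n = 1`. -/
theorem h8_frobenius_dvd_aux : ∀ (N : ℕ) (G : Type u) [Group G] [Finite G], Nat.card G = N →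
    ∀ n, n ∣ Nat.card G → n ∣ Nat.card {g : G // g ^ n = 1} := by
  intro N
  induction N using Nat.strong_induction_on with
  | _ N IH =>
  intro G _ _ hN
  have IH' : ∀ (H : Type u) [Group H] [Finite H], Nat.card H < Nat.card G →
      ∀ n, n ∣ Nat.card H → n ∣ Nat.card {g : H // g ^ n = 1} := by
    intro H _ _ hlt n hn
    exact IH (Nat.card H) (hN ▸ hlt) H rfl n hn
  have inner : ∀ k n, n * k = Nat.card G → n ∣ Nat.card {g : G // g ^ n = 1} := by
    intro k
    induction k using Nat.strong_induction_on with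
    | _ k IHk =>
    intro n hnk
    have hpos : 0 < Nat.card G := Nat.card_pos
    have hn0 : n ≠ 0 := by
      rintro rfl
      rw [zero_mul] at hnk
      omega
    rcases eq_or_ne k 1 with rfl | hk1
    · rw [mul_one] at hnk
      have h1 : Nat.card {g : G // g ^ n = 1} = Nat.card G :=
        Nat.card_congr (Equiv.subtypeUnivEquiv (fun g => by rw [hnk]; exact pow_card_eq_one'))
      rw [h1, hnk]
    · obtain ⟨p, hp, hpk⟩ := Nat.exists_prime_and_dvd hk1
      obtain ⟨k', rfl⟩ := hpk
      have hk'0 : k' ≠ 0 := by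
        rintro rfl
        rw [mul_zero, mul_zero] at hnk
        omega
      have hk'lt : k' < p * k' := by
        have := hp.two_le
        nlinarith [Nat.pos_of_ne_zero hk'0]
      have h1 : n * p ∣ Nat.card {g : G // g ^ (n * p) = 1} :=
        IHk k' hk'lt (n * p) (by rw [← hnk]; ring)
      obtain ⟨e, m, hpm, rfl⟩ := Nat.exists_eq_pow_mul_and_not_dvd hn0 p hp.ne_one
      have h2 : p ^ e * m ∣
          Nat.card {x : G // x ^ (p ^ (e + 1) * m) = 1 ∧ x ^ (p ^ e * m) ≠ 1} :=
        h8_frobenius_step IH' p e m hp hpm (by rw [← hnk]; exact ⟨k', by ring⟩)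
      have h3 : Nat.card {g : G // g ^ (p ^ e * m * p) = 1} =
          Nat.card {g : G // g ^ (p ^ e * m) = 1} +
          Nat.card {x : G // x ^ (p ^ (e + 1) * m) = 1 ∧ x ^ (p ^ e * m) ≠ 1} := by
        have e1 : {g : G | g ^ (p ^ e * m * p) = 1} = {g : G | g ^ (p ^ e * m) = 1} ∪
            {x : G | x ^ (p ^ (e + 1) * m) = 1 ∧ x ^ (p ^ e * m) ≠ 1} := by
          have hexp : p ^ e * m * p = p ^ (e + 1) * m := by ring
          ext g
          constructor
          · intro hg
            by_cases h : g ^ (p ^ e * m) = 1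
            · exact Or.inl h
            · exact Or.inr ⟨by rw [← hexp]; exact hg, h⟩
          · rintro (h | h)
            · show g ^ (p ^ e * m * p) = 1
              rw [pow_mul, h, one_pow]
            · show g ^ (p ^ e * m * p) = 1
              rw [hexp]; exact h.1
        have e2 : Disjoint {g : G | g ^ (p ^ e * m) = 1}
            {x : G | x ^ (p ^ (e + 1) * m) = 1 ∧ x ^ (p ^ e * m) ≠ 1} := by
          rw [Set.disjoint_left]
          intro g h1 h2
          exact h2.2 h1
        have e3 := Set.ncard_union_eq e2 (Set.toFinite _) (Set.toFinite _)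
        rw [← e1] at e3
        rw [← Nat.card_coe_set_eq, ← Nat.card_coe_set_eq, ← Nat.card_coe_set_eq] at e3
        exact e3
      rw [h3] at h1
      exact (Nat.dvd_add_left h2).1 ((Dvd.intro _ rfl).trans h1)
  intro n hn
  obtain ⟨k, hk⟩ := hn
  exact inner k n hk.symm

theorem h8_frobenius_dvd {G : Type u} [Group G] [Finite G] (n : ℕ) (hn : n ∣ Nat.card G) :
    n ∣ Nat.card {g : G // g ^ n = 1} :=
  h8_frobenius_dvd_aux (Nat.card G) G rfl n hn

end Cfsg.Agent.Lib.Helper8
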