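import Mathlib
import Cfsg.Prelude.Def_Local
import Cfsg.Agent.Lib.Helper8.Basic
import Cfsg.Agent.Lib.Helper8.FrobCenter
import Cfsg.Agent.Lib.Helper8.CNMax
import Cfsg.Agent.Lib.Helper8.SubgroupCount
import Cfsg.Agent.Lib.Helper8.OrderCube
import Cfsg.Agent.Lib.Helper8.FrobKernelSq
import Cfsg.Agent.Lib.Helper7.PCore
import Cfsg.Agent.Lib.Helper1.UniqueInv

set_option autoImplicit false
set_option linter.style.haveILetI false
universe u v

namespace Cfsg.Agent.Lib.Helper8

/-- all abelian subgroups cyclic: commuting elements of equal order generate the same subgroup -/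
theorem h8_mem_zpowers_of_abelian_cyclic {H : Type u} [Group H] [Finite H]
    (hab : ∀ B : Subgroup H, (∀ a ∈ B, ∀ b ∈ B, a * b = b * a) → IsCyclic B) (x y : H)
    (hxy : orderOf x = orderOf y) (hc : x * y = y * x) : y ∈ Subgroup.zpowers x := by
  obtain ⟨K, hK⟩ : ∃ K : Subgroup H, K = Subgroup.closure {x, y} := ⟨_, rfl⟩
  have hxK : x ∈ K := by rw [hK]; exact Subgroup.subset_closure (by simp)
  have hyK : y ∈ K := by rw [hK]; exact Subgroup.subset_closure (by simp)
  have hKc : ∀ a ∈ K, ∀ b ∈ K, a * b = b * a := by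
    have hcomm : ∀ a ∈ ({x, y} : Set H), ∀ b ∈ ({x, y} : Set H), a * b = b * a := by
      intro a ha b hb
      rcases ha with rfl | rfl <;> rcases hb with rfl | rfl
      · rfl
      · exact hc
      · exact hc.symm
      · rfl
    intro a ha b hb
    rw [hK] at ha hb
    have := (Subgroup.closureCommGroupOfComm hcomm).mul_comm ⟨a, ha⟩ ⟨b, hb⟩
    exact congrArg Subtype.val this
  haveI : IsCyclic K := hab K hKc
  have h1 : Nat.card (Subgroup.zpowers (⟨x, hxK⟩ : K)) =
      Nat.card (Subgroup.zpowers (⟨y, hyK⟩ : K)) := by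
    rw [Nat.card_zpowers, Nat.card_zpowers, Subgroup.orderOf_mk, Subgroup.orderOf_mk, hxy]
  have h2 := h8_cyclic_subgroup_eq_of_card_eq _ _ h1
  have h3 : (⟨y, hyK⟩ : K) ∈ Subgroup.zpowers (⟨x, hxK⟩ : K) := by
    rw [h2]; exact Subgroup.mem_zpowers _
  obtain ⟨k, hk⟩ := Subgroup.mem_zpowers_iff.1 h3
  rw [Subgroup.mem_zpowers_iff]
  refine ⟨k, ?_⟩
  have := congrArg Subtype.val hk
  simpa using this

theorem h8_comm_of_isCyclic {H : Type u} [Group H] [hH : IsCyclic H] (a b : H) :
    a * b = b * a := by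
  obtain ⟨g, hg⟩ := hH.exists_generator
  obtain ⟨i, rfl⟩ := Subgroup.mem_zpowers_iff.1 (hg a)
  obtain ⟨j, rfl⟩ := Subgroup.mem_zpowers_iff.1 (hg b)
  rw [← zpow_add, ← zpow_add, add_comm]

theorem h8_s4370_fwd {G : Type u} [Group G] [Finite G] (hG : Group.IsNilpotent G)
    (x₀ : G) (hx₀ : x₀ ∉ Subgroup.center G)
    (hcyc : ∀ x : G, x ∉ Subgroup.center G → IsCyclic (Subgroup.centralizer ({x} : Set G))) :
    ∃ (k m : ℕ), 1 ≤ k ∧ Odd m ∧
      Nonempty (G ≃* QuaternionGroup (2 ^ k) × Multiplicative (ZMod m)) := by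
  haveI := hG
  have h1 : ∃ (q : ℕ) (_ : Fact q.Prime) (Q : Sylow q G) (y : G),
      y ∈ Q ∧ y ∉ Subgroup.center G := by
    by_contra hcon
    have htop : Subgroup.center G = ⊤ := by
      apply h8_eq_top_of_sylows
      intro q hq
      obtain ⟨Q⟩ := (inferInstance : Nonempty (Sylow q G))
      refine ⟨Q, fun y hy => ?_⟩
      by_contra hyc
      exact hcon ⟨q, hq, Q, y, hy, hyc⟩
    exact hx₀ (by rw [htop]; exact Subgroup.mem_top _)
  obtain ⟨q, hq, Q, y, hyQ, hyc⟩ := h1
  have hqp := hq.out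
  haveI hCy : IsCyclic (Subgroup.centralizer ({y} : Set G)) := hcyc y hyc
  have hab : ∀ B : Subgroup G, B ≤ (Q : Subgroup G) → (∀ a ∈ B, ∀ b ∈ B, a * b = b * a) →
      IsCyclic B := by
    intro B hBQ hBc
    by_cases hB : ∃ b ∈ B, b ∉ Subgroup.center G
    · obtain ⟨b, hb, hbc⟩ := hB
      haveI := hcyc b hbc
      apply h8_isCyclic_of_le (K := Subgroup.centralizer ({b} : Set G))
      intro a ha
      rw [h8_mem_centralizer_singleton]
      exact hBc b hb a ha
    · push_neg at hB
      apply h8_isCyclic_of_le (K := Subgroup.centralizer ({y} : Set G))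
      intro a ha
      rw [h8_mem_centralizer_singleton]
      exact Subgroup.mem_center_iff.1 (hB a ha) y
  have hQna : ¬ ∀ a ∈ (Q : Subgroup G), ∀ b ∈ (Q : Subgroup G), a * b = b * a := by
    intro hQab
    apply hyc
    rw [Subgroup.mem_center_iff]
    intro k
    exact h8_nilp_sylow_center hG q Q y hyQ (fun x hx => hQab x hx y hyQ) k
  have habQ : ∀ B : Subgroup (Q : Subgroup G), (∀ a ∈ B, ∀ b ∈ B, a * b = b * a) →
      IsCyclic B := by
    intro B hBc
    have h2 : IsCyclic (B.map (Q : Subgroup G).subtype) := by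
      apply hab
      · rintro _ ⟨b, -, rfl⟩; exact b.2
      · rintro _ ⟨a, ha, rfl⟩ _ ⟨b, hb, rfl⟩
        have := hBc a ha b hb
        exact congrArg Subtype.val this
    exact (B.equivMapOfInjective _ (Subgroup.subtype_injective _)).isCyclic.2 h2
  have hQnc : ¬ IsCyclic (Q : Subgroup G) := by
    intro hcy
    apply hQna
    intro a ha b hb
    have := h8_comm_of_isCyclic (H := (Q : Subgroup G)) ⟨a, ha⟩ ⟨b, hb⟩
    exact congrArg Subtype.val this
  have hq2 : q = 2 := by
    by_contra hne
    have h3 : IsCyclic (⊤ : Subgroup (Q : Subgroup G)) := by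
      apply h8_cyclic_of_no_elab (H := (Q : Subgroup G)) _ q hne ⊤
        (Q.isPGroup'.to_subgroup _)
      intro p hp x y hx hy hxy
      exact h8_mem_zpowers_of_abelian_cyclic habQ x y (hx.trans hy.symm) hxy
    exact hQnc ((Subgroup.topEquiv (G := (Q : Subgroup G))).isCyclic.1 h3)
  subst hq2
  -- the Sylow 2-subgroup has a unique involution
  have hQnt : Nontrivial (Q : Subgroup G) := by
    refine ⟨⟨⟨y, hyQ⟩, 1, fun h => hyc ?_⟩⟩
    have h1 : y = 1 := congrArg Subtype.val h
    rw [h1]; exact Subgroup.one_mem _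
  haveI := hQnt
  haveI hZnt : Nontrivial (Subgroup.center (Q : Subgroup G)) :=
    IsPGroup.center_nontrivial Q.isPGroup'
  have hZ2 : 2 ∣ Nat.card (Subgroup.center (Q : Subgroup G)) := by
    rcases (Q.isPGroup'.to_subgroup (Subgroup.center (Q : Subgroup G))).card_eq_or_dvd with h | h
    · exact absurd h (Finite.one_lt_card).ne'
    · exact h
  obtain ⟨z, hz⟩ := exists_prime_orderOf_dvd_card' 2 hZ2
  have hzo : orderOf (z : (Q : Subgroup G)) = 2 := by rw [Subgroup.orderOf_coe]; exact hz
  have huniq : ∀ t : (Q : Subgroup G), orderOf t = 2 → t = (z : (Q : Subgroup G)) := by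
    intro t ht
    have hcomm : (z : (Q : Subgroup G)) * t = t * z := (Subgroup.mem_center_iff.1 z.2 t).symm
    have h4 := h8_mem_zpowers_of_abelian_cyclic habQ (z : (Q : Subgroup G)) t
      (hzo.trans ht.symm) hcomm
    obtain ⟨k, hk⟩ := Subgroup.mem_zpowers_iff.1 h4
    rw [← zpow_mod_orderOf, hzo] at hk
    push_cast at hk
    rcases Int.emod_two_eq_zero_or_one k with h | h
    · rw [h, zpow_zero] at hk
      rw [← hk, orderOf_one] at ht
      exact absurd ht (by norm_num)
    · rw [h, zpow_one] at hk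
      exact hk.symm
  rcases Cfsg.Agent.Lib.Helper1.ui_cyclic_or_quat Q.isPGroup' (z : (Q : Subgroup G)) hzo huniq
    with hcy | ⟨n, hn, ⟨e₁⟩⟩
  · exact absurd hcy hQnc
  obtain ⟨O, hO⟩ : ∃ O : Subgroup G, O = Cfsg.pPrimeCore 2 G := ⟨_, rfl⟩
  have hOcop : (Nat.card O).Coprime 2 := by
    rw [hO]; exact Cfsg.Agent.Lib.Helper7.pPrimeCore_coprime 2 G
  have hOP : ∀ o ∈ O, ∀ x ∈ (Q : Subgroup G), o * x = x * o := by
    intro o ho x hx
    apply h8_nilp_commute_coprime hG 2 Q o _ x hx
    have h5 : orderOf o ∣ Nat.card O := by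
      have := orderOf_dvd_natCard (⟨o, ho⟩ : O)
      rwa [Subgroup.orderOf_mk] at this
    exact Nat.Coprime.coprime_dvd_left h5 hOcop
  haveI hOcyc : IsCyclic O := by
    apply h8_isCyclic_of_le (K := Subgroup.centralizer ({y} : Set G))
    intro o ho
    rw [h8_mem_centralizer_singleton]
    exact (hOP o ho y hyQ).symm
  have hm : Odd (Nat.card O) := Nat.Coprime.odd_of_right hOcop
  have e₂ : O ≃* Multiplicative (ZMod (Nat.card O)) := (zmodCyclicMulEquiv hOcyc).symm
  have hcomm : ∀ (a : (Q : Subgroup G)) (b : O),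
      Commute ((Q : Subgroup G).subtype a) (O.subtype b) := by
    intro a b
    exact (hOP b b.2 a a.2).symm
  have hinj : Function.Injective
      (MonoidHom.noncommCoprod (Q : Subgroup G).subtype O.subtype hcomm) := by
    rw [MonoidHom.noncommCoprod_injective]
    refine ⟨Subgroup.subtype_injective _, Subgroup.subtype_injective _, ?_⟩
    rw [Subgroup.range_subtype, Subgroup.range_subtype, disjoint_iff]
    apply Subgroup.inf_eq_bot_of_coprime
    obtain ⟨j, hj⟩ := IsPGroup.iff_card.1 Q.isPGroup'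
    rw [hj]
    exact Nat.Coprime.pow_left j hOcop.symm
  have hsurj : Function.Surjective
      (MonoidHom.noncommCoprod (Q : Subgroup G).subtype O.subtype hcomm) := by
    rw [← MonoidHom.range_eq_top, MonoidHom.noncommCoprod_range, Subgroup.range_subtype,
      Subgroup.range_subtype]
    apply h8_eq_top_of_sylows
    intro r hr
    by_cases hr2 : r = 2
    · subst hr2
      exact ⟨Q, le_sup_left⟩
    · obtain ⟨R⟩ := (inferInstance : Nonempty (Sylow r G))
      refine ⟨R, le_trans ?_ le_sup_right⟩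
      rw [hO]
      apply Cfsg.Agent.Lib.Helper7.le_pPrimeCore inferInstance
      obtain ⟨j, hj⟩ := IsPGroup.iff_card.1 R.isPGroup'
      rw [hj]
      exact Nat.Coprime.pow_left j ((Nat.coprime_primes hr.out Nat.prime_two).2 hr2)
  exact ⟨n, Nat.card O, hn, hm,
    ⟨(MulEquiv.ofBijective _ ⟨hinj, hsurj⟩).symm.trans (MulEquiv.prodCongr e₁ e₂)⟩⟩

theorem h8_zmod_two_mul_eq_zero (N : ℕ) [NeZero N] (j : ZMod (2 * N)) (h : j + j = 0) :
    j = 0 ∨ j = (N : ZMod (2 * N)) := by
  have h1 : ((j.val + j.val : ℕ) : ZMod (2 * N)) = 0 := by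
    rw [Nat.cast_add, ZMod.natCast_zmod_val]; exact h
  rw [ZMod.natCast_eq_zero_iff] at h1
  have h2 : j.val < 2 * N := ZMod.val_lt j
  obtain ⟨t, ht⟩ := h1
  have h3 : j.val = N * t := by
    have : 2 * j.val = 2 * (N * t) := by rw [← mul_assoc, ← ht]; ring
    exact Nat.eq_of_mul_eq_mul_left (by norm_num) this
  have ht2 : t < 2 := by
    by_contra hcon
    push_neg at hcon
    have : N * 2 ≤ N * t := Nat.mul_le_mul_left N hcon
    omega
  interval_cases t
  · left
    rw [mul_zero] at h3
    exact (ZMod.val_eq_zero j).1 h3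
  · right
    rw [mul_one] at h3
    rw [← ZMod.natCast_zmod_val j, h3]

theorem h8_quat_cent (N : ℕ) [NeZero N] (q : QuaternionGroup N) :
    (∀ q' : QuaternionGroup N, q' * q = q * q') ∨
    ∃ g : QuaternionGroup N, orderOf g ∣ 4 * N ∧
      ∀ q' : QuaternionGroup N, q' * q = q * q' → q' ∈ Subgroup.zpowers g := by
  have hNN : (N : ZMod (2 * N)) + N = 0 := by
    have : ((2 * N : ℕ) : ZMod (2 * N)) = 0 := ZMod.natCast_self _
    rw [← this]; push_cast; ring
  cases q with
  | a i =>
    by_cases hi : i + i = 0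
    · left
      intro q'
      cases q' with
      | a j => rw [QuaternionGroup.a_mul_a, QuaternionGroup.a_mul_a, add_comm]
      | xa j =>
        rw [QuaternionGroup.xa_mul_a, QuaternionGroup.a_mul_xa]
        congr 1
        linear_combination hi
    · right
      refine ⟨QuaternionGroup.a 1, ?_, ?_⟩
      · rw [QuaternionGroup.orderOf_a_one]; exact ⟨2, by ring⟩
      · intro q' hq'
        cases q' with
        | a j =>
          rw [Subgroup.mem_zpowers_iff]
          refine ⟨(j.val : ℤ), ?_⟩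
          rw [zpow_natCast, QuaternionGroup.a_one_pow, ZMod.natCast_zmod_val]
        | xa j =>
          exfalso; apply hi
          rw [QuaternionGroup.xa_mul_a, QuaternionGroup.a_mul_xa] at hq'
          have h1 := QuaternionGroup.xa.inj hq'
          linear_combination h1
  | xa i =>
    right
    refine ⟨QuaternionGroup.xa i, ?_, ?_⟩
    · rw [QuaternionGroup.orderOf_xa]; exact ⟨N, by ring⟩
    · intro q' hq'
      cases q' with
      | a j =>
        rw [QuaternionGroup.xa_mul_a, QuaternionGroup.a_mul_xa] at hq'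
        have h1 := QuaternionGroup.xa.inj hq'
        have hj : j + j = 0 := by linear_combination -h1
        rcases h8_zmod_two_mul_eq_zero N j hj with rfl | rfl
        · rw [← QuaternionGroup.one_def]; exact Subgroup.one_mem _
        · rw [Subgroup.mem_zpowers_iff]
          refine ⟨2, ?_⟩
          have : (QuaternionGroup.xa i : QuaternionGroup N) ^ (2 : ℤ) =
              QuaternionGroup.xa i * QuaternionGroup.xa i := by
            rw [show (2 : ℤ) = ((2 : ℕ) : ℤ) from rfl, zpow_natCast, pow_two]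
          rw [this, QuaternionGroup.xa_mul_xa]
          congr 1
          ring
      | xa j =>
        rw [QuaternionGroup.xa_mul_xa, QuaternionGroup.xa_mul_xa] at hq'
        have h1 := QuaternionGroup.a.inj hq'
        have hj : (j - i) + (j - i) = 0 := by linear_combination -h1
        rcases h8_zmod_two_mul_eq_zero N (j - i) hj with h | h
        · have : j = i := sub_eq_zero.1 h
          rw [this]; exact Subgroup.mem_zpowers _
        · have hj' : j = i + N := by rw [← h]; ring
          rw [hj', Subgroup.mem_zpowers_iff]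
          refine ⟨3, ?_⟩
          have : (QuaternionGroup.xa i : QuaternionGroup N) ^ (3 : ℤ) =
              QuaternionGroup.xa i * QuaternionGroup.xa i * QuaternionGroup.xa i := by
            rw [show (3 : ℤ) = ((3 : ℕ) : ℤ) from rfl, zpow_natCast, pow_succ, pow_two]
          rw [this, QuaternionGroup.xa_mul_xa, QuaternionGroup.a_mul_xa]
          congr 1
          linear_combination -hNN

theorem h8_cyclic_of_prod_sub {Q : Type u} {C : Type v} [Group Q] [Group C] [Finite Q]
    [Finite C] [IsCyclic C]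
    (g : Q) (hcop : (orderOf g).Coprime (Nat.card C)) (S : Subgroup (Q × C))
    (hS : ∀ w ∈ S, w.1 ∈ Subgroup.zpowers g) : IsCyclic S := by
  obtain ⟨h, hh⟩ := IsCyclic.exists_generator (α := C)
  have hord : orderOf h = Nat.card C := orderOf_eq_card_of_forall_mem_zpowers hh
  obtain ⟨K, hK⟩ : ∃ K : Subgroup (Q × C), K = (Subgroup.zpowers g).prod ⊤ := ⟨_, rfl⟩
  have hKcard : Nat.card K = orderOf g * Nat.card C := by
    rw [hK, Nat.card_congr (Subgroup.prodEquiv _ _).toEquiv, Nat.card_prod, Nat.card_zpowers,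
      Subgroup.card_top]
  have hle : Subgroup.zpowers ((g, h) : Q × C) ≤ K := by
    rw [Subgroup.zpowers_le, hK, Subgroup.mem_prod]
    exact ⟨Subgroup.mem_zpowers g, Subgroup.mem_top _⟩
  have hcard : Nat.card (Subgroup.zpowers ((g, h) : Q × C)) = Nat.card K := by
    rw [Nat.card_zpowers, Prod.orderOf_mk, hKcard, hord]
    exact hcop.lcm_eq_mul
  have hKeq : Subgroup.zpowers ((g, h) : Q × C) = K :=
    Subgroup.eq_of_le_of_card_ge hle (le_of_eq hcard.symm)
  haveI : IsCyclic K := by rw [← hKeq]; infer_instance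
  apply h8_isCyclic_of_le (K := K)
  intro w hw
  rw [hK, Subgroup.mem_prod]
  exact ⟨hS w hw, Subgroup.mem_top _⟩

theorem h8_s4370_bwd_aux (k m : ℕ) (hm : Odd m)
    (w : QuaternionGroup (2 ^ k) × Multiplicative (ZMod m))
    (hw : w ∉ Subgroup.center (QuaternionGroup (2 ^ k) × Multiplicative (ZMod m))) :
    IsCyclic (Subgroup.centralizer
      ({w} : Set (QuaternionGroup (2 ^ k) × Multiplicative (ZMod m)))) := by
  haveI : NeZero (2 ^ k) := ⟨by positivity⟩
  haveI : NeZero m := ⟨by rintro rfl; simp at hm⟩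
  rcases h8_quat_cent (2 ^ k) w.1 with hcen | ⟨g, hg, hgc⟩
  · exfalso; apply hw
    rw [Subgroup.mem_center_iff]
    intro v
    apply Prod.ext
    · exact hcen v.1
    · exact mul_comm _ _
  · have hcop : (orderOf g).Coprime (Nat.card (Multiplicative (ZMod m))) := by
      have h1 : Nat.card (Multiplicative (ZMod m)) = m := by
        rw [Nat.card_congr Multiplicative.toAdd, Nat.card_zmod]
      rw [h1]
      have h2 : orderOf g ∣ 2 ^ (k + 2) := by
        have : 2 ^ (k + 2) = 4 * 2 ^ k := by ring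
        rw [this]; exact hg
      exact Nat.Coprime.coprime_dvd_left h2
        (Nat.Coprime.pow_left _ (Nat.coprime_two_left.2 hm))
    apply h8_cyclic_of_prod_sub g hcop
    intro v hv
    rw [h8_mem_centralizer_singleton] at hv
    apply hgc
    exact (congrArg Prod.fst hv).symm

theorem h8_cyclic_cent_of_equiv {G : Type u} {Γ : Type v} [Group G] [Group Γ] (e : G ≃* Γ)
    (x : G) (h : IsCyclic (Subgroup.centralizer ({e x} : Set Γ))) :
    IsCyclic (Subgroup.centralizer ({x} : Set G)) := by
  obtain ⟨⟨g', hg'⟩, hgen⟩ := h.exists_generator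
  have hg'' := hg'
  rw [h8_mem_centralizer_singleton] at hg''
  have hg : e.symm g' ∈ Subgroup.centralizer ({x} : Set G) := by
    rw [h8_mem_centralizer_singleton]
    apply e.injective
    rw [map_mul, map_mul, e.apply_symm_apply]
    exact hg''
  refine ⟨⟨⟨e.symm g', hg⟩, fun c => ?_⟩⟩
  have hc : e c.1 ∈ Subgroup.centralizer ({e x} : Set Γ) := by
    rw [h8_mem_centralizer_singleton, ← map_mul, ← map_mul]
    congr 1
    exact (h8_mem_centralizer_singleton _ _).1 c.2
  obtain ⟨j, hj⟩ := Subgroup.mem_zpowers_iff.1 (hgen ⟨e c.1, hc⟩)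
  refine ⟨j, Subtype.ext ?_⟩
  have h1 : g' ^ j = e c.1 := by
    have := congrArg Subtype.val hj
    simpa using this
  show ((⟨e.symm g', hg⟩ : Subgroup.centralizer ({x} : Set G)) ^ j).1 = c.1
  rw [Subgroup.coe_zpow]
  show (e.symm g') ^ j = c.1
  rw [← map_zpow, h1, e.symm_apply_apply]

theorem h8_s4370 {G : Type u} [Group G] [Finite G] (hG : Group.IsNilpotent G)
    (hna : ¬ IsMulCommutative G) :
    (∀ x : G, x ∉ Subgroup.center G → IsCyclic (Subgroup.centralizer ({x} : Set G))) ↔
      ∃ (k m : ℕ), 1 ≤ k ∧ Odd m ∧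
        Nonempty (G ≃* QuaternionGroup (2 ^ k) × Multiplicative (ZMod m)) := by
  constructor
  · intro hcyc
    have h1 : ∃ x₀ : G, x₀ ∉ Subgroup.center G := by
      by_contra hcon
      push_neg at hcon
      apply hna
      refine ⟨⟨fun a b => ?_⟩⟩
      exact (Subgroup.mem_center_iff.1 (hcon b) a)
    obtain ⟨x₀, hx₀⟩ := h1
    exact h8_s4370_fwd hG x₀ hx₀ hcyc
  · rintro ⟨k, m, hk, hm, ⟨e⟩⟩ x hx
    apply h8_cyclic_cent_of_equiv e x
    apply h8_s4370_bwd_aux k m hm
    intro hcen
    apply hx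
    rw [Subgroup.mem_center_iff] at hcen ⊢
    intro g
    apply e.injective
    rw [map_mul, map_mul]
    exact hcen (e g)

end Cfsg.Agent.Lib.Helper8
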