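import Mathlib
import Cfsg.Agent.Lib.Helper8.Basic
import Cfsg.Agent.Lib.Helper8.Irr
import Cfsg.Agent.Lib.Helper8.Invol
import Cfsg.Agent.Lib.Helper8.PElem
import Cfsg.Agent.Lib.Helper2.SZCyclic

set_option autoImplicit false

namespace Cfsg.Agent.Lib.Helper8

universe u

/-- odd-order elements are centralized by everything normalizing the cyclic group they generate -/
def h8_OddIrr (G : Type u) [Group G] : Prop :=
  ∀ x g : G, Odd (orderOf x) → g * x * g⁻¹ ∈ Subgroup.zpowers x → g * x = x * g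

theorem h8_oddIrr_of_normalizer_le {G : Type u} [Group G] [Finite G]
    (hirr : ∀ x : G, (∀ r : ℕ, r.Prime → r ∣ orderOf x → r ≠ 2) →
      Subgroup.normalizer ((Subgroup.zpowers x : Subgroup G) : Set G) ≤ Subgroup.centralizer {x}) :
    h8_OddIrr G := by
  intro x g hodd hconj
  have h1 := h8_mem_normalizer_zpowers_of_conj_mem hconj
  have h2 := hirr x (by
    rintro r _ hr rfl
    exact (Nat.not_even_iff_odd.2 hodd) (even_iff_two_dvd.2 hr)) h1
  exact Subgroup.mem_centralizer_singleton_iff.1 h2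

theorem h8_oddIrr_subgroup {G : Type u} [Group G] (h : h8_OddIrr G) (K : Subgroup G) :
    h8_OddIrr K := by
  intro x g hodd hconj
  obtain ⟨k, hk⟩ := Subgroup.mem_zpowers_iff.1 hconj
  have h1 : (g : G) * (x : G) * (g : G)⁻¹ ∈ Subgroup.zpowers (x : G) := by
    refine Subgroup.mem_zpowers_iff.2 ⟨k, ?_⟩
    have := congrArg Subtype.val hk
    simpa using this
  have h2 := h (x : G) (g : G) (by rw [Subgroup.orderOf_coe]; exact hodd) h1
  exact Subtype.ext h2

theorem h8_oddIrr_quotient {G : Type u} [Group G] [Finite G] (h : h8_OddIrr G) (N : Subgroup G)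
    [N.Normal] (hN : IsPGroup 2 N) : h8_OddIrr (G ⧸ N) := by
  intro xb gb hodd hconj
  have hp2 : Fact (Nat.Prime 2) := ⟨Nat.prime_two⟩
  obtain ⟨c, hc⟩ := IsPGroup.iff_card.1 hN
  have hcopb : (orderOf xb).Coprime (Nat.card N) := by
    rw [hc]
    exact (Nat.Coprime.pow_right c (Nat.coprime_two_right.2 hodd))
  obtain ⟨x, hx, hxb⟩ := h8_exists_lift_pow_eq_one N xb (orderOf xb) (pow_orderOf_eq_one xb) hcopb
  obtain ⟨g, rfl⟩ := QuotientGroup.mk_surjective gb
  obtain ⟨k, hk⟩ := Subgroup.mem_zpowers_iff.1 hconj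
  have hox : orderOf x = orderOf xb := by
    apply Nat.dvd_antisymm (orderOf_dvd_of_pow_eq_one hxb)
    rw [← hx]
    exact orderOf_map_dvd (QuotientGroup.mk' N) x
  -- w = x ^ k, v = g x g⁻¹
  have hmk : (QuotientGroup.mk (g * x * g⁻¹) : G ⧸ N) = QuotientGroup.mk (x ^ k) := by
    rw [QuotientGroup.mk_zpow, hx, hk, ← hx]
    rfl
  have how : orderOf (x ^ k) = orderOf xb := by
    apply Nat.dvd_antisymm
    · apply orderOf_dvd_of_pow_eq_one
      rw [← zpow_natCast, ← zpow_mul, mul_comm, zpow_mul, zpow_natCast, hxb, one_zpow]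
    · have h1 : orderOf ((QuotientGroup.mk' N) (x ^ k)) ∣ orderOf (x ^ k) :=
        orderOf_map_dvd (QuotientGroup.mk' N) (x ^ k)
      have h2 : (QuotientGroup.mk' N) (x ^ k) = (QuotientGroup.mk g : G ⧸ N) * xb *
          (QuotientGroup.mk g : G ⧸ N)⁻¹ := by
        show (QuotientGroup.mk (x ^ k) : G ⧸ N) = _
        rw [← hmk, ← hx]; rfl
      rw [h2, h8_orderOf_conj] at h1
      exact h1
  obtain ⟨n, hn, hnv⟩ := Cfsg.Agent.Lib.Helper2.sz_cyclic_normal N (x ^ k) (g * x * g⁻¹)
    (by rw [how]; exact hcopb) (QuotientGroup.eq.1 hmk)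
    (by
      rw [how, ← hox, ← h8_orderOf_conj g x]
      exact pow_orderOf_eq_one _)
  have h3 : (n * g) * x * (n * g)⁻¹ ∈ Subgroup.zpowers x := by
    have e : (n * g) * x * (n * g)⁻¹ = n * (g * x * g⁻¹) * n⁻¹ := by group
    rw [e, hnv]
    exact Subgroup.zpow_mem _ (Subgroup.mem_zpowers x) k
  have h4 := h x (n * g) (by rw [hox]; exact hodd) h3
  have h5 : (QuotientGroup.mk ((n * g) * x) : G ⧸ N) = QuotientGroup.mk (x * (n * g)) := by
    rw [h4]
  have hn1 : (QuotientGroup.mk n : G ⧸ N) = 1 := (QuotientGroup.eq_one_iff n).2 hn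
  rw [QuotientGroup.mk_mul, QuotientGroup.mk_mul, QuotientGroup.mk_mul, QuotientGroup.mk_mul, hn1,
    one_mul, hx] at h5
  exact h5

/-- two involutions lie in a common `2`-subgroup -/
theorem h8_oddIrr_involutions {G : Type u} [Group G] [Finite G] (h : h8_OddIrr G) {s t : G}
    (hs : s * s = 1) (ht : t * t = 1) : ∃ Q : Subgroup G, IsPGroup 2 Q ∧ s ∈ Q ∧ t ∈ Q := by
  have hsinv : s⁻¹ = s := inv_eq_of_mul_eq_one_left hs
  have htinv : t⁻¹ = t := inv_eq_of_mul_eq_one_left ht
  have hconj : t * (s * t) * t⁻¹ = (s * t)⁻¹ := by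
    rw [mul_inv_rev, hsinv, htinv]
    calc t * (s * t) * t = t * s * (t * t) := by group
      _ = t * s := by rw [ht, mul_one]
  obtain ⟨a, b, hb, hn⟩ := Nat.exists_eq_pow_mul_and_not_dvd (orderOf_pos (s * t)).ne' 2
    (by norm_num)
  have hbodd : Odd b := Nat.not_even_iff_odd.1 (fun he => hb (even_iff_two_dvd.1 he))
  have hub : ((s * t) ^ 2 ^ a) ^ b = 1 := by
    rw [← pow_mul, ← hn, pow_orderOf_eq_one]
  have huodd : Odd (orderOf ((s * t) ^ 2 ^ a)) :=
    Odd.of_dvd_nat hbodd (orderOf_dvd_of_pow_eq_one hub)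
  have hconju : t * ((s * t) ^ 2 ^ a) * t⁻¹ = ((s * t) ^ 2 ^ a)⁻¹ := by
    rw [← conj_pow, hconj, inv_pow]
  have hcomm := h ((s * t) ^ 2 ^ a) t huodd (by
    rw [hconju]; exact Subgroup.inv_mem _ (Subgroup.mem_zpowers _))
  have hu2 : ((s * t) ^ 2 ^ a) ^ 2 = 1 := by
    have e1 : ((s * t) ^ 2 ^ a)⁻¹ = (s * t) ^ 2 ^ a := by
      rw [← hconju, hcomm, mul_inv_cancel_right]
    rw [pow_two]
    nth_rewrite 1 [← e1]
    exact inv_mul_cancel _
  have hu1 : (s * t) ^ 2 ^ a = 1 := by
    have h1 : orderOf ((s * t) ^ 2 ^ a) ∣ 2 := orderOf_dvd_of_pow_eq_one hu2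
    rcases (Nat.dvd_prime Nat.prime_two).1 h1 with h2 | h2
    · exact orderOf_eq_one_iff.1 h2
    · rw [h2] at huodd
      exact absurd huodd (by decide)
  obtain ⟨j, _, hj⟩ := (Nat.dvd_prime_pow Nat.prime_two).1 (orderOf_dvd_of_pow_eq_one hu1)
  have hx2 : IsPGroup 2 (Subgroup.zpowers (s * t)) := h8_isPGroup_zpowers hj
  have ht2 : IsPGroup 2 (Subgroup.zpowers t) := by
    have h1 : orderOf t ∣ 2 := orderOf_dvd_of_pow_eq_one (by rw [pow_two]; exact ht)
    rcases (Nat.dvd_prime Nat.prime_two).1 h1 with h2 | h2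
    · exact h8_isPGroup_zpowers (p := 2) (k := 0) (by rw [h2]; rfl)
    · exact h8_isPGroup_zpowers (p := 2) (k := 1) (by rw [h2]; rfl)
  have htn : Subgroup.zpowers t ≤ Subgroup.normalizer ((Subgroup.zpowers (s * t) : Subgroup G) : Set G) := by
    rw [Subgroup.zpowers_le]
    apply h8_mem_normalizer_zpowers_of_conj_mem
    rw [hconj]
    exact Subgroup.inv_mem _ (Subgroup.mem_zpowers _)
  refine ⟨Subgroup.zpowers t ⊔ Subgroup.zpowers (s * t),
    IsPGroup.to_sup_of_normal_right' ht2 hx2 htn, ?_, ?_⟩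
  · have e : (s * t) * t⁻¹ = s := by group
    have h1 : (s * t) * t⁻¹ ∈ Subgroup.zpowers t ⊔ Subgroup.zpowers (s * t) :=
      Subgroup.mul_mem _ (Subgroup.mem_sup_right (Subgroup.mem_zpowers _))
        (Subgroup.inv_mem _ (Subgroup.mem_sup_left (Subgroup.mem_zpowers _)))
    rwa [e] at h1
  · exact Subgroup.mem_sup_left (Subgroup.mem_zpowers _)

theorem h8_oddIrr_sylow_normal_aux : ∀ (n : ℕ) (G : Type u) [Group G] [Finite G],
    Nat.card G = n → h8_OddIrr G → ∀ P : Sylow 2 G, (P : Subgroup G).Normal := by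
  intro n
  induction n using Nat.strong_induction_on with
  | _ n IH =>
  intro G _ _ hcard hG P
  have hp2 : Fact (Nat.Prime 2) := ⟨Nat.prime_two⟩
  by_contra hPn
  -- Step A: no nontrivial normal 2-subgroups
  have hA : ∀ N : Subgroup G, N.Normal → IsPGroup 2 N → N = ⊥ := by
    intro N hNn hN2
    by_contra hNbot
    have hlt : Nat.card (G ⧸ N) < n := by
      have h1 := Subgroup.card_eq_card_quotient_mul_card_subgroup N
      have h2 : 1 < Nat.card N := by
        by_contra hle
        exact hNbot (Subgroup.eq_bot_of_card_le (H := N) (by omega))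
      have h3 : 0 < Nat.card (G ⧸ N) := Nat.card_pos
      rw [hcard] at h1
      nlinarith
    have hQ := IH _ hlt (G ⧸ N) rfl (h8_oddIrr_quotient hG N hN2)
      (P.mapSurjective (QuotientGroup.mk'_surjective N))
    rw [Sylow.coe_mapSurjective] at hQ
    have hNP : N ≤ (P : Subgroup G) := by
      have hsup := IsPGroup.to_sup_of_normal_left hN2 P.isPGroup' (K := (P : Subgroup G))
      have := P.is_maximal' hsup le_sup_right
      rw [← this]; exact le_sup_left
    have h4 : (P : Subgroup G) =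
        ((P : Subgroup G).map (QuotientGroup.mk' N)).comap (QuotientGroup.mk' N) := by
      rw [Subgroup.comap_map_eq, QuotientGroup.ker_mk', sup_eq_left.2 hNP]
    apply hPn
    rw [h4]
    exact Subgroup.Normal.comap hQ _
  -- a pair of distinct Sylow subgroups with maximal intersection
  have hpair : {q : Sylow 2 G × Sylow 2 G | q.1 ≠ q.2}.Nonempty := by
    by_contra hemp
    rw [Set.not_nonempty_iff_eq_empty] at hemp
    have hsub : Subsingleton (Sylow 2 G) := ⟨fun S T => by
      by_contra hne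
      have : (S, T) ∈ {q : Sylow 2 G × Sylow 2 G | q.1 ≠ q.2} := hne
      rw [hemp] at this
      exact this⟩
    exact hPn (Sylow.normal_of_subsingleton P)
  obtain ⟨⟨S, T⟩, hST, hmax⟩ := Set.exists_max_image {q : Sylow 2 G × Sylow 2 G | q.1 ≠ q.2}
    (fun q => Nat.card ((q.1 : Subgroup G) ⊓ (q.2 : Subgroup G) : Subgroup G))
    (Set.toFinite _) hpair
  have hST' : S ≠ T := hST
  have hmax' : ∀ S' T' : Sylow 2 G, S' ≠ T' →
      Nat.card ((S' : Subgroup G) ⊓ (T' : Subgroup G) : Subgroup G) ≤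
        Nat.card ((S : Subgroup G) ⊓ (T : Subgroup G) : Subgroup G) :=
    fun S' T' hne => hmax (S', T') hne
  -- the maximal intersection is trivial
  have hD : (S : Subgroup G) ⊓ (T : Subgroup G) = ⊥ := by
    by_contra hDne
    have hD2 : IsPGroup 2 ((S : Subgroup G) ⊓ (T : Subgroup G) : Subgroup G) :=
      S.isPGroup'.to_le inf_le_left
    have hDnn : ¬ ((S : Subgroup G) ⊓ (T : Subgroup G)).Normal := fun hn => hDne (hA _ hn hD2)
    have hMtop : Subgroup.normalizer (((S : Subgroup G) ⊓ (T : Subgroup G) : Subgroup G) : Set G)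
        ≠ ⊤ := fun h => hDnn (Subgroup.normalizer_eq_top_iff.1 h)
    have hMlt : Nat.card (Subgroup.normalizer
        (((S : Subgroup G) ⊓ (T : Subgroup G) : Subgroup G) : Set G)) < n := by
      by_contra hle
      apply hMtop
      apply Subgroup.eq_top_of_card_eq
      have := Subgroup.card_le_card_group (Subgroup.normalizer
        (((S : Subgroup G) ⊓ (T : Subgroup G) : Subgroup G) : Set G))
      omega
    have hMirr := h8_oddIrr_subgroup hG (Subgroup.normalizer
      (((S : Subgroup G) ⊓ (T : Subgroup G) : Subgroup G) : Set G))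
    obtain ⟨R⟩ := (Sylow.nonempty : Nonempty (Sylow 2 (Subgroup.normalizer
      (((S : Subgroup G) ⊓ (T : Subgroup G) : Subgroup G) : Set G))))
    have hRn := IH _ hMlt _ rfl hMirr R
    have hR' : ∀ Q : Subgroup G, IsPGroup 2 Q →
        Q ≤ Subgroup.normalizer (((S : Subgroup G) ⊓ (T : Subgroup G) : Subgroup G) : Set G) →
        Q ≤ (R : Subgroup (Subgroup.normalizer
          (((S : Subgroup G) ⊓ (T : Subgroup G) : Subgroup G) : Set G))).map
            (Subgroup.subtype _) := by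
      intro Q hQ hQM x hx
      obtain ⟨k, hk⟩ := h8_exists_orderOf_eq_pow hQ hx
      have h1 : (⟨x, hQM hx⟩ : Subgroup.normalizer
          (((S : Subgroup G) ⊓ (T : Subgroup G) : Subgroup G) : Set G)) ∈
          (R : Subgroup (Subgroup.normalizer
            (((S : Subgroup G) ⊓ (T : Subgroup G) : Subgroup G) : Set G))) :=
        h8_mem_of_normal_sylow R hRn (k := k) (by rw [Subgroup.orderOf_mk]; exact hk)
      exact ⟨⟨x, hQM hx⟩, h1, rfl⟩
    obtain ⟨U, hU⟩ := (R.isPGroup'.map (Subgroup.subtype _)).exists_le_sylow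
    have key : ∀ S₁ : Sylow 2 G, (S : Subgroup G) ⊓ (T : Subgroup G) ≤ (S₁ : Subgroup G) →
        (S : Subgroup G) ⊓ (T : Subgroup G) ≠ (S₁ : Subgroup G) →
        (∀ U' : Sylow 2 G, S₁ ≠ U' →
          Nat.card ((S₁ : Subgroup G) ⊓ (U' : Subgroup G) : Subgroup G) ≤
            Nat.card ((S : Subgroup G) ⊓ (T : Subgroup G) : Subgroup G)) → S₁ = U := by
      intro S₁ hDS hne hmx
      by_contra hSU
      obtain ⟨x, hxS, hxN, hxD⟩ := h8_normalizer_growth S₁.isPGroup' hDS hne
      have h1 : (S₁ : Subgroup G) ⊓ Subgroup.normalizer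
          (((S : Subgroup G) ⊓ (T : Subgroup G) : Subgroup G) : Set G) ≤
          (S₁ : Subgroup G) ⊓ (U : Subgroup G) :=
        le_inf inf_le_left ((hR' _ (S₁.isPGroup'.to_le inf_le_left) inf_le_right).trans hU)
      have h2 : (S : Subgroup G) ⊓ (T : Subgroup G) ≤ (S₁ : Subgroup G) ⊓ (U : Subgroup G) :=
        (le_inf hDS Subgroup.le_normalizer).trans h1
      have h3 := hmx U hSU
      have h4 := Subgroup.eq_of_le_of_card_ge h2 h3
      apply hxD
      rw [h4]
      exact h1 ⟨hxS, hxN⟩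
    have hDS : (S : Subgroup G) ⊓ (T : Subgroup G) ≠ (S : Subgroup G) := by
      intro h
      have hle : (S : Subgroup G) ≤ (T : Subgroup G) := by rw [← h]; exact inf_le_right
      exact hST' (Sylow.ext (S.is_maximal' T.isPGroup' hle).symm)
    have hDT : (S : Subgroup G) ⊓ (T : Subgroup G) ≠ (T : Subgroup G) := by
      intro h
      have hle : (T : Subgroup G) ≤ (S : Subgroup G) := by rw [← h]; exact inf_le_left
      exact hST' (Sylow.ext (T.is_maximal' S.isPGroup' hle))
    have e1 := key S inf_le_left hDS (fun U' hne => hmax' S U' hne)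
    have e2 := key T inf_le_right hDT (fun U' hne => hmax' T U' hne)
    exact hST' (e1.trans e2.symm)
  have hTI : ∀ S' T' : Sylow 2 G, S' ≠ T' → (S' : Subgroup G) ⊓ (T' : Subgroup G) = ⊥ := by
    intro S' T' hne
    apply Subgroup.eq_bot_of_card_le
    have := hmax' S' T' hne
    rw [hD, Subgroup.card_bot] at this
    exact this
  have hinv : ∀ S' T' : Sylow 2 G, S' ≠ T' → ∃ s ∈ (S' : Subgroup G), orderOf s = 2 := by
    intro S' T' hne
    apply h8_exists_involution_of_even
    obtain ⟨k, hk⟩ := IsPGroup.iff_card.1 S'.isPGroup'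
    rcases Nat.eq_zero_or_pos k with rfl | hkpos
    · exfalso
      rw [pow_zero] at hk
      have hbot : (S' : Subgroup G) = ⊥ :=
        Subgroup.eq_bot_of_card_le (H := (S' : Subgroup G)) (le_of_eq hk)
      have hle : (S' : Subgroup G) ≤ (T' : Subgroup G) := by rw [hbot]; exact bot_le
      exact hne (Sylow.ext (S'.is_maximal' T'.isPGroup' hle).symm)
    · rw [hk]
      exact (Nat.even_pow.2 ⟨even_two, hkpos.ne'⟩)
  obtain ⟨s, hsS, hs2⟩ := hinv S T hST'
  obtain ⟨t, htT, ht2⟩ := hinv T S (Ne.symm hST')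
  have hss : s * s = 1 := by rw [← pow_two, ← hs2, pow_orderOf_eq_one]
  have htt : t * t = 1 := by rw [← pow_two, ← ht2, pow_orderOf_eq_one]
  obtain ⟨Q, hQ2, hsQ, htQ⟩ := h8_oddIrr_involutions hG hss htt
  obtain ⟨U, hU⟩ := hQ2.exists_le_sylow
  have hSU : S = U := by
    by_contra hne
    have h1 : s ∈ (S : Subgroup G) ⊓ (U : Subgroup G) := ⟨hsS, hU hsQ⟩
    rw [hTI S U hne, Subgroup.mem_bot] at h1
    rw [h1, orderOf_one] at hs2
    omega
  have hTU : T = U := by
    by_contra hne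
    have h1 : t ∈ (T : Subgroup G) ⊓ (U : Subgroup G) := ⟨htT, hU htQ⟩
    rw [hTI T U hne, Subgroup.mem_bot] at h1
    rw [h1, orderOf_one] at ht2
    omega
  exact hST' (hSU.trans hTU.symm)

/-- If every odd-order element is centralized by the normalizer of the cyclic group it generates,
the Sylow `2`-subgroups are normal. -/
theorem h8_oddIrr_sylow_normal {G : Type u} [Group G] [Finite G] (h : h8_OddIrr G)
    (P : Sylow 2 G) : (P : Subgroup G).Normal :=
  h8_oddIrr_sylow_normal_aux (Nat.card G) G rfl h P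

end Cfsg.Agent.Lib.Helper8
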