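import Mathlib
import Cfsg.Agent.Lib.Helper8.AbIdx
import Cfsg.Agent.Lib.Helper8.PGroupNormal

set_option autoImplicit false
set_option linter.style.haveILetI false
set_option linter.unusedSectionVars false
universe u

namespace Cfsg.Agent.Lib.Helper8

open scoped commutatorElement

section
variable {P : Type u} [Group P] [Finite P]

/-- a centralizer of index `p` of a noncentral element in a group of order `p^4` is abelian -/
theorem h8_p4_cent_comm {p : ℕ} [Fact p.Prime] (hP : Nat.card P = p ^ 4) {x : P}
    (hx : x ∉ Subgroup.center P) (hi : (Subgroup.centralizer ({x} : Set P)).index = p) :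
    ∀ a ∈ Subgroup.centralizer ({x} : Set P), ∀ b ∈ Subgroup.centralizer ({x} : Set P),
      a * b = b * a := by
  have hp : p.Prime := Fact.out
  have hG : IsPGroup p P := IsPGroup.of_card hP
  generalize hA : Subgroup.centralizer ({x} : Set P) = A at hi
  have hcardA : Nat.card A = p ^ 3 := by
    have h := Subgroup.card_mul_index A
    rw [hi, hP] at h
    exact Nat.eq_of_mul_eq_mul_right hp.pos (by rw [h]; ring)
  have hxA : x ∈ A := by rw [← hA]; exact Subgroup.mem_centralizer_singleton_iff.mpr rfl
  have hZA : Subgroup.center P ≤ A := by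
    intro z hz
    rw [← hA, Subgroup.mem_centralizer_singleton_iff]
    exact (Subgroup.mem_center_iff.mp hz x).symm
  have hxZ : (⟨x, hxA⟩ : A) ∈ Subgroup.center A := by
    rw [Subgroup.mem_center_iff]
    intro g
    apply Subtype.ext
    have hg : (g : P) ∈ Subgroup.centralizer ({x} : Set P) := by rw [hA]; exact g.2
    exact Subgroup.mem_centralizer_singleton_iff.mp hg
  have hle : (Subgroup.center P).subgroupOf A ≤ Subgroup.center A := by
    intro z hz
    rw [Subgroup.mem_subgroupOf] at hz
    rw [Subgroup.mem_center_iff]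
    intro g
    apply Subtype.ext
    exact Subgroup.mem_center_iff.mp hz g
  have hne : (Subgroup.center P).subgroupOf A ≠ Subgroup.center A := by
    intro h
    rw [← h, Subgroup.mem_subgroupOf] at hxZ
    exact hx hxZ
  haveI : Nontrivial P := by
    rw [← Finite.one_lt_card_iff_nontrivial, hP]
    exact Nat.one_lt_pow (by norm_num) hp.one_lt
  have hZnt : Nontrivial (Subgroup.center P) := hG.center_nontrivial
  have hc1 : Nat.card ((Subgroup.center P).subgroupOf A) = Nat.card (Subgroup.center P) :=
    Nat.card_congr (Subgroup.subgroupOfEquivOfLe hZA).toEquiv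
  obtain ⟨i, hi'⟩ := IsPGroup.iff_card.mp (hG.to_subgroup (Subgroup.center P))
  obtain ⟨j, hj⟩ := IsPGroup.iff_card.mp ((hG.to_subgroup A).to_subgroup (Subgroup.center A))
  have hi1 : 1 ≤ i := by
    by_contra h
    have h0 : i = 0 := by omega
    rw [h0, pow_zero] at hi'
    have := Finite.one_lt_card_iff_nontrivial.mpr hZnt
    omega
  have hlt : Nat.card ((Subgroup.center P).subgroupOf A) < Nat.card (Subgroup.center A) := by
    apply lt_of_le_of_ne (Subgroup.card_le_of_le hle)
    intro h
    exact hne (Subgroup.eq_of_le_of_card_ge hle h.ge)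
  rw [hc1, hi', hj] at hlt
  have hij : i < j := (Nat.pow_lt_pow_iff_right hp.one_lt).mp hlt
  have h3 := Subgroup.card_mul_index (Subgroup.center A)
  rw [hj, hcardA] at h3
  have hj3 : j ≤ 3 := (Nat.pow_dvd_pow_iff_le_right hp.one_lt).mp (Dvd.intro _ h3)
  have hidx : (Subgroup.center A).index = p ^ (3 - j) := by
    have e : p ^ j * (Subgroup.center A).index = p ^ j * p ^ (3 - j) := by
      rw [h3, ← pow_add]; congr 1; omega
    exact Nat.eq_of_mul_eq_mul_left (pow_pos hp.pos j) e
  haveI : IsCyclic (A ⧸ Subgroup.center A) := by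
    have hcard : Nat.card (A ⧸ Subgroup.center A) = p ^ (3 - j) := hidx
    rcases (show 3 - j = 0 ∨ 3 - j = 1 by omega) with h | h
    · rw [h, pow_zero] at hcard
      haveI := (Nat.card_eq_one_iff_unique.mp hcard).1
      exact isCyclic_of_subsingleton
    · rw [h, pow_one] at hcard
      exact isCyclic_of_prime_card (p := p) hcard
  intro a ha b hb
  have h := (MonoidHom.isMulCommutative_of_isCyclic_of_ker_le_center
    (QuotientGroup.mk' (Subgroup.center A)) (by rw [QuotientGroup.ker_mk'])).is_comm.comm
    (⟨a, ha⟩ : A) ⟨b, hb⟩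
  exact congrArg Subtype.val h

theorem h8_p4_key {p : ℕ} [Fact p.Prime] (hP : Nat.card P = p ^ 4) {x : P}
    (hx : x ∉ Subgroup.center P) (hi : (Subgroup.centralizer ({x} : Set P)).index = p) :
    p ^ 3 = Nat.card (Subgroup.center P) * Nat.card (commutator P) := by
  have hp : p.Prime := Fact.out
  have hG : IsPGroup p P := IsPGroup.of_card hP
  haveI := h8_normal_of_index_eq_prime hG _ hi
  have hcomm := h8_p4_cent_comm hP hx hi
  have hna : ∃ a b : P, a * b ≠ b * a := by
    by_contra h
    push Not at h
    exact hx (Subgroup.mem_center_iff.mpr fun g => h g x)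
  obtain ⟨-, h2⟩ := h8_abidx_card hp _ hcomm hi hna
  have h := Subgroup.card_mul_index (Subgroup.centralizer ({x} : Set P))
  rw [hi, hP] at h
  have h3 : Nat.card (Subgroup.centralizer ({x} : Set P)) = p ^ 3 :=
    Nat.eq_of_mul_eq_mul_right hp.pos (by rw [h]; ring)
  rw [← h3]; exact h2

theorem h8_s4584 (p : ℕ) [Fact p.Prime] (hP : Nat.card P = p ^ 4) :
    Nat.card (commutator P) = p ↔ (Subgroup.center P).index = p ^ 2 := by
  have hp : p.Prime := Fact.out
  have hG : IsPGroup p P := IsPGroup.of_card hP
  have hZi := Subgroup.card_mul_index (Subgroup.center P)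
  rw [hP] at hZi
  constructor
  · intro hc
    have hle := h8_normal_card_prime_le_center hG (commutator P) hc
    obtain ⟨x, hx⟩ : ∃ x : P, x ∉ Subgroup.center P := by
      by_contra h
      push Not at h
      have hbot : commutator P = ⊥ := by
        rw [eq_bot_iff, commutator_def, Subgroup.commutator_le]
        intro a _ b _
        rw [Subgroup.mem_bot, commutatorElement_def, Subgroup.mem_center_iff.mp (h b) a]
        group
      rw [hbot, Subgroup.card_bot] at hc
      exact hp.ne_one hc.symm
    have hi : (Subgroup.centralizer ({x} : Set P)).index = p := by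
      have hmem : ∀ y : P, ⁅y, x⁆ ∈ commutator P := by
        intro y
        rw [commutator_def]
        exact Subgroup.commutator_mem_commutator (Subgroup.mem_top y) (Subgroup.mem_top x)
      have hcen : ∀ y g : P, g * ⁅y, x⁆ = ⁅y, x⁆ * g :=
        fun y g => Subgroup.mem_center_iff.mp (hle (hmem y)) g
      let ψ : P →* commutator P := MonoidHom.mk' (fun y => ⟨⁅y, x⁆, hmem y⟩) (by
        intro y z
        apply Subtype.ext
        show ⁅y * z, x⁆ = ⁅y, x⁆ * ⁅z, x⁆
        calc ⁅y * z, x⁆ = y * ⁅z, x⁆ * y⁻¹ * ⁅y, x⁆ := by
              simp only [commutatorElement_def]; group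
          _ = ⁅z, x⁆ * y * y⁻¹ * ⁅y, x⁆ := by rw [hcen z y]
          _ = ⁅z, x⁆ * ⁅y, x⁆ := by group
          _ = ⁅y, x⁆ * ⁅z, x⁆ := hcen y _)
      have hker : ψ.ker = Subgroup.centralizer ({x} : Set P) := by
        ext y
        rw [MonoidHom.mem_ker, Subgroup.mem_centralizer_singleton_iff]
        constructor
        · intro h
          have h1 : ⁅y, x⁆ = 1 := congrArg Subtype.val h
          rw [commutatorElement_def] at h1
          calc y * x = (y * x * y⁻¹ * x⁻¹) * (x * y) := by group
            _ = x * y := by rw [h1, one_mul]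
        · intro h
          apply Subtype.ext
          show ⁅y, x⁆ = 1
          rw [commutatorElement_def, h]; group
      rw [← hker, Subgroup.index_ker]
      have hd : Nat.card ψ.range ∣ p := by
        rw [← hc]; exact Subgroup.card_subgroup_dvd_card _
      rcases (Nat.dvd_prime hp).mp hd with h1 | h1
      · exfalso
        rw [← Subgroup.index_ker, Subgroup.index_eq_one, hker] at h1
        apply hx
        rw [Subgroup.mem_center_iff]
        intro g
        have hg : g ∈ Subgroup.centralizer ({x} : Set P) := by rw [h1]; trivial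
        exact Subgroup.mem_centralizer_singleton_iff.mp hg
      · exact h1
    have hk := h8_p4_key hP hx hi
    rw [hc] at hk
    have hZ : Nat.card (Subgroup.center P) = p ^ 2 :=
      Nat.eq_of_mul_eq_mul_right hp.pos (by rw [← hk]; ring)
    rw [hZ] at hZi
    exact Nat.eq_of_mul_eq_mul_left (pow_pos hp.pos 2) (by rw [hZi]; ring)
  · intro hidx
    rw [hidx] at hZi
    have hZ : Nat.card (Subgroup.center P) = p ^ 2 :=
      Nat.eq_of_mul_eq_mul_right (pow_pos hp.pos 2) (by rw [hZi]; ring)
    obtain ⟨x, hx⟩ : ∃ x : P, x ∉ Subgroup.center P := by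
      by_contra h
      push Not at h
      have htop : Subgroup.center P = ⊤ := eq_top_iff.mpr fun g _ => h g
      rw [htop, Subgroup.index_top] at hidx
      have := Nat.one_lt_pow (n := 2) (by norm_num) hp.one_lt
      omega
    have hi : (Subgroup.centralizer ({x} : Set P)).index = p := by
      have hxA : x ∈ Subgroup.centralizer ({x} : Set P) :=
        Subgroup.mem_centralizer_singleton_iff.mpr rfl
      have hZA : Subgroup.center P ≤ Subgroup.centralizer ({x} : Set P) := by
        intro z hz
        rw [Subgroup.mem_centralizer_singleton_iff]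
        exact (Subgroup.mem_center_iff.mp hz x).symm
      have h1 := Subgroup.relIndex_mul_index hZA
      rw [hidx] at h1
      have hd : (Subgroup.centralizer ({x} : Set P)).index ∣ p ^ 2 := Dvd.intro_left _ h1
      obtain ⟨k, hk2, hk⟩ := (Nat.dvd_prime_pow hp).mp hd
      interval_cases k
      · exfalso
        rw [pow_zero, Subgroup.index_eq_one] at hk
        apply hx
        rw [Subgroup.mem_center_iff]
        intro g
        have hg : g ∈ Subgroup.centralizer ({x} : Set P) := by rw [hk]; trivial
        exact Subgroup.mem_centralizer_singleton_iff.mp hg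
      · simpa using hk
      · exfalso
        rw [hk] at h1
        have h4 : (Subgroup.center P).relIndex (Subgroup.centralizer ({x} : Set P)) = 1 :=
          Nat.eq_of_mul_eq_mul_right (pow_pos hp.pos 2) (by rw [h1, one_mul])
        exact hx (Subgroup.relIndex_eq_one.mp h4 hxA)
    have hk := h8_p4_key hP hx hi
    rw [hZ] at hk
    exact (Nat.eq_of_mul_eq_mul_left (pow_pos hp.pos 2) (by rw [← hk]; ring)).symm

end

end Cfsg.Agent.Lib.Helper8
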