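import Mathlib
import Cfsg.Agent.Lib.Helper8.P4

set_option autoImplicit false
set_option linter.style.haveILetI false
set_option linter.unusedSectionVars false
universe u

namespace Cfsg.Agent.Lib.Helper8

open scoped commutatorElement

section
variable {P : Type u} [Group P] [Finite P]

theorem h8_comm_of_card_pow_le_two {p : ℕ} [Fact p.Prime] {j : ℕ} (hj : j ≤ 2)
    (hP : Nat.card P = p ^ j) : ∀ a b : P, a * b = b * a := by
  interval_cases j
  · rw [pow_zero] at hP
    haveI := (Nat.card_eq_one_iff_unique.mp hP).1
    intro a b; exact Subsingleton.elim _ _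
  · rw [pow_one] at hP
    haveI := isCyclic_of_prime_card (p := p) hP
    intro a b
    exact (IsCyclic.isMulCommutative (α := P)).is_comm.comm a b
  · intro a b
    exact (IsPGroup.isMulCommutative_of_card_eq_prime_sq hP).is_comm.comm a b

theorem h8_p4b_class_le_one_of_comm [Group.IsNilpotent P] (h : ∀ a b : P, a * b = b * a) :
    Group.nilpotencyClass P ≤ 1 := by
  rw [← Subgroup.upperCentralSeries_eq_top_iff_nilpotencyClass_le, Subgroup.upperCentralSeries_one]
  exact eq_top_iff.mpr fun g _ => Subgroup.mem_center_iff.mpr fun x => h x g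

theorem h8_class_le_two_iff [Group.IsNilpotent P] :
    Group.nilpotencyClass P ≤ 2 ↔ commutator P ≤ Subgroup.center P := by
  rw [← Subgroup.upperCentralSeries_eq_top_iff_nilpotencyClass_le]
  constructor
  · intro h
    rw [commutator_def, Subgroup.commutator_le]
    intro a _ b _
    have ha : a ∈ Subgroup.upperCentralSeries P (1 + 1) := by rw [h]; trivial
    have := Subgroup.mem_upperCentralSeries_succ_iff.mp ha b
    rwa [Subgroup.upperCentralSeries_one] at this
  · intro h
    rw [eq_top_iff]
    intro a _
    show a ∈ Subgroup.upperCentralSeries P (1 + 1)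
    rw [Subgroup.mem_upperCentralSeries_succ_iff]
    intro b
    rw [Subgroup.upperCentralSeries_one]
    apply h
    rw [commutator_def]
    exact Subgroup.commutator_mem_commutator (Subgroup.mem_top a) (Subgroup.mem_top b)

theorem h8_comm_le_ucs2 [Group.IsNilpotent P] (h : Group.nilpotencyClass P ≤ 3) :
    commutator P ≤ Subgroup.upperCentralSeries P 2 := by
  rw [← Subgroup.upperCentralSeries_eq_top_iff_nilpotencyClass_le] at h
  rw [commutator_def, Subgroup.commutator_le]
  intro a _ b _
  have ha : a ∈ Subgroup.upperCentralSeries P (2 + 1) := by rw [h]; trivial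
  exact Subgroup.mem_upperCentralSeries_succ_iff.mp ha b

theorem h8_class_le_of_card (p : ℕ) [Fact p.Prime] : ∀ (n : ℕ) (Q : Type u) [Group Q] [Finite Q],
    Nat.card Q = p ^ n → Group.nilpotencyClass Q ≤ max 1 (n - 1) := by
  have hp : p.Prime := Fact.out
  intro n
  induction n using Nat.strong_induction_on with
  | _ n ih =>
    intro Q _ _ hQ
    have hG : IsPGroup p Q := IsPGroup.of_card hQ
    haveI : Group.IsNilpotent Q := hG.isNilpotent
    by_cases hn : n ≤ 2
    · exact (h8_p4b_class_le_one_of_comm (h8_comm_of_card_pow_le_two hn hQ)).trans (le_max_left _ _)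
    · haveI : Nontrivial Q := by
        rw [← Finite.one_lt_card_iff_nontrivial, hQ]
        exact Nat.one_lt_pow (by omega) hp.one_lt
      have hZnt : Nontrivial (Subgroup.center Q) := hG.center_nontrivial
      obtain ⟨i, hi⟩ := IsPGroup.iff_card.mp (hG.to_subgroup (Subgroup.center Q))
      have hi1 : 1 ≤ i := by
        by_contra h
        have h0 : i = 0 := by omega
        rw [h0, pow_zero] at hi
        have := Finite.one_lt_card_iff_nontrivial.mpr hZnt
        omega
      have h3 := Subgroup.card_mul_index (Subgroup.center Q)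
      rw [hi, hQ] at h3
      have hin : i ≤ n := (Nat.pow_dvd_pow_iff_le_right hp.one_lt).mp (Dvd.intro _ h3)
      have hidx : Nat.card (Q ⧸ Subgroup.center Q) = p ^ (n - i) := by
        have e : p ^ i * (Subgroup.center Q).index = p ^ i * p ^ (n - i) := by
          rw [h3, ← pow_add]; congr 1; omega
        exact Nat.eq_of_mul_eq_mul_left (pow_pos hp.pos i) e
      have h1 := ih (n - i) (by omega) (Q ⧸ Subgroup.center Q) hidx
      have h2 : Group.nilpotencyClass (Q ⧸ Subgroup.center Q) = Group.nilpotencyClass Q - 1 :=
        Group.nilpotencyClass_quotient_center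
      rw [h2] at h1
      have h4 : max 1 (n - i - 1) ≤ n - 2 := by
        apply max_le <;> omega
      have h5 : n - 1 ≤ max 1 (n - 1) := le_max_right _ _
      omega

/-- the second centre never has prime index -/
theorem h8_ucs2_index_ne_prime {p : ℕ} [Fact p.Prime] :
    (Subgroup.upperCentralSeries P 2).index ≠ p := by
  have hp : p.Prime := Fact.out
  intro h
  have hc : Subgroup.comap (QuotientGroup.mk' (Subgroup.center P))
      (Subgroup.upperCentralSeries (P ⧸ Subgroup.center P) 1) = Subgroup.upperCentralSeries P 2 :=
    Subgroup.comap_upperCentralSeries_quotient_center 1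
  have hi : (Subgroup.upperCentralSeries (P ⧸ Subgroup.center P) 1).index = p := by
    rw [← Subgroup.index_comap_of_surjective _ (QuotientGroup.mk'_surjective _), hc, h]
  rw [Subgroup.upperCentralSeries_one] at hi
  haveI : IsCyclic ((P ⧸ Subgroup.center P) ⧸ Subgroup.center (P ⧸ Subgroup.center P)) :=
    isCyclic_of_prime_card (p := p) hi
  have hcomm := (MonoidHom.isMulCommutative_of_isCyclic_of_ker_le_center
    (QuotientGroup.mk' (Subgroup.center (P ⧸ Subgroup.center P)))
    (by rw [QuotientGroup.ker_mk'])).is_comm.comm
  have htop : Subgroup.center (P ⧸ Subgroup.center P) = ⊤ :=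
    eq_top_iff.mpr fun g _ => Subgroup.mem_center_iff.mpr fun x => hcomm x g
  rw [htop, Subgroup.index_top] at hi
  exact hp.ne_one hi.symm

theorem h8_center_index_ne_prime {p : ℕ} [Fact p.Prime] :
    (Subgroup.center P).index ≠ p := by
  have hp : p.Prime := Fact.out
  intro hi
  haveI : IsCyclic (P ⧸ Subgroup.center P) := isCyclic_of_prime_card (p := p) hi
  have hcomm := (MonoidHom.isMulCommutative_of_isCyclic_of_ker_le_center
    (QuotientGroup.mk' (Subgroup.center P))
    (by rw [QuotientGroup.ker_mk'])).is_comm.comm
  have htop : Subgroup.center P = ⊤ :=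
    eq_top_iff.mpr fun g _ => Subgroup.mem_center_iff.mpr fun x => hcomm x g
  rw [htop, Subgroup.index_top] at hi
  exact hp.ne_one hi.symm

theorem h8_s4585 (p : ℕ) [Fact p.Prime] (hP : Nat.card P = p ^ 4) :
    (commutator P).index = p ^ 2 ↔ Group.nilpotencyClass P = 3 := by
  have hp : p.Prime := Fact.out
  have hG : IsPGroup p P := IsPGroup.of_card hP
  haveI : Group.IsNilpotent P := hG.isNilpotent
  have hle3 : Group.nilpotencyClass P ≤ 3 := by
    have := h8_class_le_of_card p 4 P hP
    simpa using this
  have hCi := Subgroup.card_mul_index (commutator P)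
  rw [hP] at hCi
  have hp2 : 1 < p ^ 2 := Nat.one_lt_pow (by norm_num) hp.one_lt
  constructor
  · intro hidx
    rw [hidx] at hCi
    have hC : Nat.card (commutator P) = p ^ 2 :=
      Nat.eq_of_mul_eq_mul_right (pow_pos hp.pos 2) (by rw [hCi]; ring)
    by_contra hne
    have h2 : Group.nilpotencyClass P ≤ 2 := by omega
    have hle := h8_class_le_two_iff.mp h2
    have hd : (Subgroup.center P).index ∣ p ^ 2 := by
      rw [← hidx]; exact Subgroup.index_dvd_of_le hle
    obtain ⟨k, hk2, hk⟩ := (Nat.dvd_prime_pow hp).mp hd
    interval_cases k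
    · rw [pow_zero, Subgroup.index_eq_one] at hk
      have hbot : commutator P = ⊥ := by
        rw [eq_bot_iff, commutator_def, Subgroup.commutator_le]
        intro a _ b _
        have hb : b ∈ Subgroup.center P := by rw [hk]; trivial
        rw [Subgroup.mem_bot, commutatorElement_def, Subgroup.mem_center_iff.mp hb a]
        group
      rw [hbot, Subgroup.card_bot] at hC
      omega
    · rw [pow_one] at hk
      exact h8_center_index_ne_prime hk
    · have := (h8_s4584 p hP).mpr hk
      rw [hC] at this
      have h3 : p ^ 2 = p * p := by ring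
      rw [h3] at this
      have hp1 := hp.one_lt
      have : p * p = p * 1 := by rw [mul_one]; exact this
      have := Nat.eq_of_mul_eq_mul_left hp.pos this
      omega
  · intro hcl
    have hnle : ¬ commutator P ≤ Subgroup.center P := by
      intro h
      have := h8_class_le_two_iff.mpr h
      omega
    have hle2 := h8_comm_le_ucs2 hle3
    have hne : Subgroup.upperCentralSeries P 2 ≠ ⊤ := by
      intro h
      have := Subgroup.upperCentralSeries_eq_top_iff_nilpotencyClass_le.mp h
      omega
    obtain ⟨k, hk⟩ := IsPGroup.iff_card.mp (hG.to_subgroup (commutator P))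
    obtain ⟨m, hm⟩ := IsPGroup.iff_card.mp (hG.to_subgroup (Subgroup.upperCentralSeries P 2))
    have hk0 : k ≠ 0 := by
      rintro rfl
      rw [pow_zero] at hk
      apply hnle
      rw [(Subgroup.card_eq_one).mp hk]
      exact bot_le
    have hk1 : k ≠ 1 := by
      rintro rfl
      rw [pow_one] at hk
      exact hnle (h8_normal_card_prime_le_center hG (commutator P) hk)
    have hZi := Subgroup.card_mul_index (Subgroup.upperCentralSeries P 2)
    rw [hm, hP] at hZi
    have hm4 : m ≤ 4 := (Nat.pow_dvd_pow_iff_le_right hp.one_lt).mp (Dvd.intro _ hZi)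
    have hidx : (Subgroup.upperCentralSeries P 2).index = p ^ (4 - m) := by
      have e : p ^ m * (Subgroup.upperCentralSeries P 2).index = p ^ m * p ^ (4 - m) := by
        rw [hZi, ← pow_add]; congr 1; omega
      exact Nat.eq_of_mul_eq_mul_left (pow_pos hp.pos m) e
    have hm4' : m ≠ 4 := by
      rintro rfl
      apply hne
      rw [← Subgroup.index_eq_one, hidx]; simp
    have hm3 : m ≠ 3 := by
      rintro rfl
      apply h8_ucs2_index_ne_prime (p := p) (P := P)
      rw [hidx]; simp
    have hkm : k ≤ m := by
      have := Subgroup.card_le_of_le hle2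
      rw [hk, hm] at this
      exact (Nat.pow_le_pow_iff_right hp.one_lt).mp this
    have hk2 : k = 2 := by omega
    rw [hk2] at hk
    rw [hk] at hCi
    exact Nat.eq_of_mul_eq_mul_left (pow_pos hp.pos 2) (by rw [hCi]; ring)

end

end Cfsg.Agent.Lib.Helper8
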