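import Mathlib
import Cfsg.Agent.Lib.Helper8.PSL2Cov

set_option autoImplicit false
set_option linter.style.haveILetI false
set_option linter.unusedSectionVars false
set_option linter.unusedVariables false

universe u

namespace Cfsg.Agent.Lib.Helper8

open Matrix

section
variable {F : Type u} [Field F]

local notation "SLF" => Matrix.SpecialLinearGroup (Fin 2) F
local notation "MF" => Matrix (Fin 2) (Fin 2) F
local notation "PSLF" => Matrix.ProjectiveSpecialLinearGroup (Fin 2) F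
local notation "πF" => QuotientGroup.mk' (Subgroup.center (Matrix.SpecialLinearGroup (Fin 2) F))

theorem h8_entry00 {x y z w : F} : (!![x, y; z, w] : MF) 0 0 = x := rfl
theorem h8_entry01 {x y z w : F} : (!![x, y; z, w] : MF) 0 1 = y := rfl
theorem h8_entry10 {x y z w : F} : (!![x, y; z, w] : MF) 1 0 = z := rfl
theorem h8_entry11 {x y z w : F} : (!![x, y; z, w] : MF) 1 1 = w := rfl

theorem h8negOne_eq_one_char2 [CharP F 2] : (h8negOne : SLF) = 1 := by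
  have h2 : (2 : F) = 0 := CharTwo.two_eq_zero
  apply Subtype.ext
  show (!![-1, 0; 0, -1] : MF) = ((1 : SLF) : MF)
  rw [Matrix.SpecialLinearGroup.coe_one, Matrix.one_fin_two]
  have h9 : (-1 : F) = 1 := by linear_combination -h2
  rw [h9]

/-- in characteristic 2, `SL₂ = T U T` for an anisotropic torus `T` and the unipotent group `U` -/
theorem h8_sl2_char2_TUT [Fintype F] [CharP F 2] (g₁ : SLF)
    (hnoroot : ∀ a : F, a * (Matrix.trace (g₁ : MF) - a) ≠ 1) (g : SLF) :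
    ∃ t₁ t₂ : SLF, t₁ * g₁ = g₁ * t₁ ∧ t₂ * g₁ = g₁ * t₂ ∧ ∃ x : F, g = t₁ * h8uni x * t₂ := by
  have h2 : (2 : F) = 0 := CharTwo.two_eq_zero
  have hsqrt : ∀ a : F, ∃ r : F, r * r = a := by
    intro a
    obtain ⟨r, hr⟩ := FiniteField.isSquare_of_char_two (ringChar.eq F 2) a
    exact ⟨r, hr.symm⟩
  obtain ⟨P, Q, R, S, hgm⟩ : ∃ P Q R S : F, (g₁ : MF) = !![P, Q; R, S] :=
    ⟨_, _, _, _, Matrix.eta_fin_two _⟩
  have hdet : P * S - Q * R = 1 := by
    have h0 := g₁.det_coe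
    rw [hgm, Matrix.det_fin_two_of] at h0; exact h0
  have hnr : ∀ a : F, a * (P + S - a) ≠ 1 := by
    intro a
    have h5 := hnoroot a
    rw [hgm, Matrix.trace_fin_two_of] at h5
    exact h5
  have hR : R ≠ 0 := by
    intro h
    apply hnr P
    rw [h] at hdet
    linear_combination hdet
  obtain ⟨n, hn⟩ : ∃ n : F, n * R = 1 := ⟨R⁻¹, inv_mul_cancel₀ hR⟩
  have haniso : ∀ v₁ v₂ : F, R * v₁ * v₁ + (S - P) * v₁ * v₂ - Q * v₂ * v₂ = 0 →
      v₁ = 0 ∧ v₂ = 0 := by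
    intro v₁ v₂ hB
    by_cases hv₂ : v₂ = 0
    · rw [hv₂] at hB
      have h5 : R * (v₁ * v₁) = 0 := by linear_combination hB
      rcases mul_eq_zero.mp h5 with h | h
      · exact absurd h hR
      · exact ⟨mul_self_eq_zero.mp h, hv₂⟩
    · exfalso
      obtain ⟨m, hm⟩ : ∃ m : F, m * v₂ = 1 := ⟨v₂⁻¹, inv_mul_cancel₀ hv₂⟩
      apply hnr (S + R * (v₁ * m))
      linear_combination hdet - R * m * m * hB + R * ((S - P) * v₁ * m - Q * (1 + m * v₂)) * hm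
  have htor : ∀ w₁ w₂ : F, R * w₁ * w₁ + (S - P) * w₁ * w₂ - Q * w₂ * w₂ = R →
      ∃ T : SLF, T * g₁ = g₁ * T ∧ (T : MF) 0 0 = w₁ ∧ (T : MF) 1 0 = w₂ := by
    intro w₁ w₂ hw
    have hdT : (!![w₁, w₂ * n * Q; w₂, w₁ + w₂ * n * (S - P)] : MF).det = 1 := by
      rw [Matrix.det_fin_two_of]
      linear_combination n * hw - (w₁ * w₁ - 1) * hn
    refine ⟨⟨_, hdT⟩, ?_, rfl, rfl⟩
    apply Subtype.ext
    show (!![w₁, w₂ * n * Q; w₂, w₁ + w₂ * n * (S - P)] : MF) * (g₁ : MF)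
      = (g₁ : MF) * (!![w₁, w₂ * n * Q; w₂, w₁ + w₂ * n * (S - P)] : MF)
    rw [hgm, Matrix.mul_fin_two, Matrix.mul_fin_two]
    refine h8_fin_two_congr ?_ ?_ ?_ ?_
    · linear_combination w₂ * Q * hn
    · ring
    · linear_combination w₂ * (S - P) * hn
    · linear_combination -(w₂ * Q) * hn
  obtain ⟨a, b, c, d, hGm⟩ : ∃ a b c d : F, (g : MF) = !![a, b; c, d] :=
    ⟨_, _, _, _, Matrix.eta_fin_two _⟩
  have hdetG : a * d - b * c = 1 := by
    have h0 := g.det_coe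
    rw [hGm, Matrix.det_fin_two_of] at h0; exact h0
  obtain ⟨ρ, hρ⟩ := hsqrt (R * a * a + (S - P) * a * c - Q * c * c - R)
  obtain ⟨κ, hκ⟩ := hsqrt (R * b * b + (S - P) * b * d - Q * d * d + Q)
  have hD : ∀ v₁ v₂ : F, R * (a * v₁ + b * v₂) * (a * v₁ + b * v₂)
      + (S - P) * (a * v₁ + b * v₂) * (c * v₁ + d * v₂)
      - Q * (c * v₁ + d * v₂) * (c * v₁ + d * v₂)
      - (R * v₁ * v₁ + (S - P) * v₁ * v₂ - Q * v₂ * v₂)
      = (ρ * v₁ + κ * v₂) * (ρ * v₁ + κ * v₂) := by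
    intro v₁ v₂
    linear_combination (-(v₁ * v₁)) * hρ - (v₂ * v₂) * hκ + (S - P) * v₁ * v₂ * hdetG
      + (R * a * b + (S - P) * b * c - Q * c * d - ρ * κ) * v₁ * v₂ * h2
  obtain ⟨v₁, v₂, hv0, hv⟩ : ∃ v₁ v₂ : F, ¬ (v₁ = 0 ∧ v₂ = 0) ∧ ρ * v₁ + κ * v₂ = 0 := by
    by_cases h0 : κ = 0 ∧ ρ = 0
    · exact ⟨1, 0, fun h => one_ne_zero h.1, by rw [h0.2]; ring⟩
    · refine ⟨κ, ρ, h0, ?_⟩
      linear_combination ρ * κ * h2
  obtain ⟨m₀, hm₀⟩ : ∃ m₀ : F, m₀ = R * v₁ * v₁ + (S - P) * v₁ * v₂ - Q * v₂ * v₂ := ⟨_, rfl⟩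
  have hm₀0 : m₀ ≠ 0 := by
    intro h
    rw [h] at hm₀
    exact hv0 (haniso v₁ v₂ hm₀.symm)
  obtain ⟨μ, hμ⟩ := hsqrt (R * m₀⁻¹)
  have hμm : μ * μ * m₀ = R := by rw [hμ]; field_simp
  have hBv : R * (μ * v₁) * (μ * v₁) + (S - P) * (μ * v₁) * (μ * v₂)
      - Q * (μ * v₂) * (μ * v₂) = R := by
    linear_combination hμm - μ * μ * hm₀
  have hBw : R * (a * (μ * v₁) + b * (μ * v₂)) * (a * (μ * v₁) + b * (μ * v₂))
      + (S - P) * (a * (μ * v₁) + b * (μ * v₂)) * (c * (μ * v₁) + d * (μ * v₂))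
      - Q * (c * (μ * v₁) + d * (μ * v₂)) * (c * (μ * v₁) + d * (μ * v₂)) = R := by
    have h5 := hD (μ * v₁) (μ * v₂)
    have h6 : ρ * (μ * v₁) + κ * (μ * v₂) = 0 := by linear_combination μ * hv
    rw [h6, mul_zero] at h5
    linear_combination h5 + hBv
  obtain ⟨Tv, hTv, hTv0, hTv1⟩ := htor (μ * v₁) (μ * v₂) hBv
  obtain ⟨Tw, hTw, hTw0, hTw1⟩ := htor _ _ hBw
  obtain ⟨u, hu⟩ : ∃ u : SLF, u = Tw⁻¹ * g * Tv := ⟨_, rfl⟩
  obtain ⟨e, f, hTvm⟩ : ∃ e f : F, (Tv : MF) = !![μ * v₁, e; μ * v₂, f] :=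
    ⟨(Tv : MF) 0 1, (Tv : MF) 1 1, by rw [← hTv0, ← hTv1]; exact Matrix.eta_fin_two _⟩
  obtain ⟨e', f', hTwm⟩ : ∃ e' f' : F, (Tw : MF)
      = !![a * (μ * v₁) + b * (μ * v₂), e'; c * (μ * v₁) + d * (μ * v₂), f'] :=
    ⟨(Tw : MF) 0 1, (Tw : MF) 1 1, by rw [← hTw0, ← hTw1]; exact Matrix.eta_fin_two _⟩
  have hdetw : (a * (μ * v₁) + b * (μ * v₂)) * f' - e' * (c * (μ * v₁) + d * (μ * v₂)) = 1 := by
    have h0 := Tw.det_coe
    rw [hTwm, Matrix.det_fin_two_of] at h0; exact h0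
  have h00 : (u : MF) 0 0 = 1 := by
    rw [hu, Matrix.SpecialLinearGroup.coe_mul, Matrix.SpecialLinearGroup.coe_mul,
      h8_sl2_coe_inv Tw _ _ _ _ hTwm, hGm, hTvm, Matrix.mul_fin_two, Matrix.mul_fin_two,
      h8_entry00]
    linear_combination hdetw
  have h10 : (u : MF) 1 0 = 0 := by
    rw [hu, Matrix.SpecialLinearGroup.coe_mul, Matrix.SpecialLinearGroup.coe_mul,
      h8_sl2_coe_inv Tw _ _ _ _ hTwm, hGm, hTvm, Matrix.mul_fin_two, Matrix.mul_fin_two,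
      h8_entry10]
    ring
  obtain ⟨x00, x01, x10, x11, hux⟩ : ∃ x00 x01 x10 x11 : F, (u : MF) = !![x00, x01; x10, x11] :=
    ⟨_, _, _, _, Matrix.eta_fin_two _⟩
  rw [hux] at h00 h10
  have h00' : x00 = 1 := h00
  have h10' : x10 = 0 := h10
  have hdetu : x00 * x11 - x01 * x10 = 1 := by
    have h0 := u.det_coe
    rw [hux, Matrix.det_fin_two_of] at h0; exact h0
  have h11' : x11 = 1 := by
    rw [h00', h10'] at hdetu
    linear_combination hdetu
  have hueq : u = h8uni x01 := by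
    apply Subtype.ext
    rw [hux, h8uni_val, h00', h10', h11']
  refine ⟨Tw, Tv⁻¹, hTw, ?_, x01, ?_⟩
  · calc Tv⁻¹ * g₁ = Tv⁻¹ * (g₁ * Tv) * Tv⁻¹ := by group
      _ = Tv⁻¹ * (Tv * g₁) * Tv⁻¹ := by rw [hTv]
      _ = g₁ * Tv⁻¹ := by group
  · rw [← hueq, hu]; group

/-- the unipotent subgroup as a homomorphism -/
def h8uniHom : Multiplicative F →* SLF where
  toFun x := h8uni (Multiplicative.toAdd x)
  map_one' := h8uni_zero
  map_mul' x y := (h8uni_mul _ _).symm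

theorem h8_s2503 [Fintype F] (h2 : 2 ∣ Fintype.card F) (h4 : 4 ≤ Fintype.card F) :
    ∃ A B : Subgroup PSLF, IsCyclic A ∧ Nat.card A = Fintype.card F + 1 ∧ IsMulCommutative B ∧
      (∀ b ∈ B, b * b = 1) ∧ Nat.card B = Fintype.card F ∧
      ∀ g : PSLF, ∃ a ∈ A, ∃ b ∈ B, ∃ c ∈ A, g = a * b * c := by
  classical
  have hchar : ringChar F = 2 :=
    FiniteField.even_card_iff_char_two.mpr (Nat.mod_eq_zero_of_dvd h2)
  haveI : CharP F 2 := ringChar.of_eq hchar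
  have h20 : (2 : F) = 0 := CharTwo.two_eq_zero
  have hπs : Function.Surjective πF := QuotientGroup.mk'_surjective _
  have hπi : Function.Injective πF := by
    rw [← MonoidHom.ker_eq_bot_iff, QuotientGroup.ker_mk', h8_sl2_center_char2]
  have hneg : (h8negOne : SLF) = 1 := h8negOne_eq_one_char2
  obtain ⟨g₁, hog⟩ := h8_sl2_exists_order_q_add_one (F := F)
  have ht0 : Matrix.trace (g₁ : MF) ≠ 0 := by
    intro h
    have h5 := h8_sl2_sq_of_trace_zero g₁ h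
    rw [hneg] at h5
    have h6 : g₁ ^ 2 = 1 := by rw [pow_two]; exact h5
    have h7 := Nat.le_of_dvd (by norm_num) (orderOf_dvd_of_pow_eq_one h6)
    omega
  have hreg : Matrix.trace (g₁ : MF) * Matrix.trace (g₁ : MF) ≠ 4 := by
    intro h
    apply ht0
    have h4' : (4 : F) = 0 := by linear_combination 2 * h20
    rw [h4'] at h
    exact mul_self_eq_zero.mp h
  have hle : Subgroup.zpowers g₁ ≤ Subgroup.centralizer ({g₁} : Set SLF) := by
    rw [Subgroup.zpowers_le, Subgroup.mem_centralizer_singleton_iff]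
  have hdvd : Fintype.card F + 1 ∣ Nat.card (Subgroup.centralizer ({g₁} : Set SLF)) := by
    have h5 := Subgroup.card_dvd_of_le hle
    rwa [Nat.card_zpowers, hog] at h5
  have hcardC : Nat.card (Subgroup.centralizer ({g₁} : Set SLF)) = Fintype.card F + 1 := by
    rcases h8_sl2_card_centralizer_regular g₁ hreg with h | h
    · exfalso
      rw [h] at hdvd
      have := Nat.le_of_dvd (by omega) hdvd
      omega
    · exact h
  have hCT : Subgroup.zpowers g₁ = Subgroup.centralizer ({g₁} : Set SLF) := by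
    apply Subgroup.eq_of_le_of_card_ge hle
    rw [Nat.card_zpowers, hog, hcardC]
  have hnoroot : ∀ a : F, a * (Matrix.trace (g₁ : MF) - a) ≠ 1 := by
    intro a ha
    have h5 := h8_sl2_card_centralizer_of_root g₁ hreg a ha
    rw [hcardC] at h5
    omega
  refine ⟨Subgroup.zpowers (πF g₁), (MonoidHom.comp πF h8uniHom).range, inferInstance, ?_, ?_, ?_, ?_, ?_⟩
  · rw [Nat.card_zpowers, h8_psl2_orderOf_of_two_eq h20 g₁, hog]
  · refine ⟨⟨?_⟩⟩
    rintro ⟨b₁, hb₁⟩ ⟨b₂, hb₂⟩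
    obtain ⟨x₁, rfl⟩ := hb₁
    obtain ⟨x₂, rfl⟩ := hb₂
    apply Subtype.ext
    show (MonoidHom.comp πF h8uniHom) x₁ * (MonoidHom.comp πF h8uniHom) x₂
      = (MonoidHom.comp πF h8uniHom) x₂ * (MonoidHom.comp πF h8uniHom) x₁
    rw [← map_mul, ← map_mul, mul_comm]
  · rintro b ⟨x, rfl⟩
    rw [← map_mul]
    have h5 : x * x = 1 := by
      apply Multiplicative.toAdd.injective
      show Multiplicative.toAdd x + Multiplicative.toAdd x = 0
      exact CharTwo.add_self_eq_zero _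
    rw [h5, map_one]
  · have hinj : Function.Injective (MonoidHom.comp πF h8uniHom) := by
      intro x y hxy
      have h5 : h8uni (Multiplicative.toAdd x) = h8uni (Multiplicative.toAdd y) := hπi hxy
      have h6 : ((h8uni (Multiplicative.toAdd x) : SLF) : MF) 0 1
          = ((h8uni (Multiplicative.toAdd y) : SLF) : MF) 0 1 := by rw [h5]
      rw [h8uni_val, h8uni_val, h8_entry01, h8_entry01] at h6
      exact Multiplicative.toAdd.injective h6
    rw [← Nat.card_congr (MonoidHom.ofInjective hinj).toEquiv,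
      Nat.card_congr Multiplicative.toAdd, Nat.card_eq_fintype_card]
  · intro g
    obtain ⟨G, rfl⟩ := hπs g
    obtain ⟨t₁, t₂, ht₁, ht₂, x, hG⟩ := h8_sl2_char2_TUT g₁ hnoroot G
    have hmem : ∀ t : SLF, t * g₁ = g₁ * t → πF t ∈ Subgroup.zpowers (πF g₁) := by
      intro t ht
      have h5 : t ∈ Subgroup.zpowers g₁ := by
        rw [hCT, Subgroup.mem_centralizer_singleton_iff]; exact ht
      obtain ⟨j, rfl⟩ := Subgroup.mem_zpowers_iff.mp h5
      rw [map_zpow]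
      exact Subgroup.zpow_mem _ (Subgroup.mem_zpowers _) j
    refine ⟨πF t₁, hmem t₁ ht₁, πF (h8uni x), ⟨Multiplicative.ofAdd x, rfl⟩, πF t₂,
      hmem t₂ ht₂, ?_⟩
    rw [hG, map_mul, map_mul]

end

end Cfsg.Agent.Lib.Helper8
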