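import Mathlib
import Cfsg.Agent.Lib.Helper8.SL2Torus

set_option autoImplicit false
set_option linter.style.haveILetI false
set_option linter.unusedSectionVars false
set_option linter.unusedVariables false

universe u

namespace Cfsg.Agent.Lib.Helper8

open Matrix

section
variable {F : Type u} [Field F]

local notation "SLF" => Matrix.SpecialLinearGroup (Fin 2) F
local notation "MF" => Matrix (Fin 2) (Fin 2) F
local notation "PSLF" => Matrix.ProjectiveSpecialLinearGroup (Fin 2) F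
local notation "πF" => QuotientGroup.mk' (Subgroup.center (Matrix.SpecialLinearGroup (Fin 2) F))

theorem h8_quad_root_cases (α β γ : F) (x₀ x : F)
    (h : α * x * x + β * x + γ = α * x₀ * x₀ + β * x₀ + γ) :
    x = x₀ ∨ α * (x + x₀) + β = 0 := by
  have h5 : (x - x₀) * (α * (x + x₀) + β) = 0 := by linear_combination h
  rcases mul_eq_zero.mp h5 with h | h
  · left; linear_combination h
  · right; exact h

/-- a quadratic polynomial over a field with at least four elements takes two values with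
different squares -/
theorem h8_quad_two_values [Fintype F] (h4 : 4 ≤ Fintype.card F) (α β γ : F) (hα : α ≠ 0) :
    ∃ x : F, (α * x * x + β * x + γ) * (α * x * x + β * x + γ) ≠ γ * γ := by
  classical
  by_contra hcon
  push Not at hcon
  have hcases : ∀ x : F, α * x * x + β * x + γ = γ ∨ α * x * x + β * x + γ = -γ := by
    intro x
    have h5 : (α * x * x + β * x + γ - γ) * (α * x * x + β * x + γ + γ) = 0 := by
      linear_combination hcon x
    rcases mul_eq_zero.mp h5 with h | h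
    · left; linear_combination h
    · right; linear_combination h
  obtain ⟨r, hr⟩ : ∃ r : F, α * r + β = 0 := ⟨-β * α⁻¹, by field_simp; ring⟩
  have hroot0 : ∀ x : F, α * x * x + β * x + γ = γ → x = 0 ∨ x = r := by
    intro x hx
    rcases h8_quad_root_cases α β γ 0 x (by rw [hx]; ring) with h | h
    · left; exact h
    · right
      have h6 : α * (x - r) = 0 := by linear_combination h - hr
      rcases mul_eq_zero.mp h6 with h7 | h7
      · exact absurd h7 hα
      · linear_combination h7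
  by_cases hall : ∀ x : F, α * x * x + β * x + γ = γ
  · have hmem : ∀ x : F, x ∈ ({0, r} : Finset F) := by
      intro x
      rcases hroot0 x (hall x) with h | h
      · rw [h]; exact Finset.mem_insert_self _ _
      · rw [h]; exact Finset.mem_insert_of_mem (Finset.mem_singleton_self _)
    have h5 : Fintype.card F ≤ 2 := by
      rw [← Finset.card_univ]
      exact le_trans (Finset.card_le_card (fun x _ => hmem x)) Finset.card_le_two
    omega
  · push Not at hall
    obtain ⟨x₁, hx₁⟩ := hall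
    have hx₁' : α * x₁ * x₁ + β * x₁ + γ = -γ := by
      rcases hcases x₁ with h | h
      · exact absurd h hx₁
      · exact h
    have hγ : γ ≠ -γ := by
      intro h
      apply hx₁
      rw [hx₁', ← h]
    have h2 : (2 : F) ≠ 0 := by
      intro h
      apply hγ
      linear_combination γ * h
    have hodd : Fintype.card F % 2 = 1 := by
      have hF : ringChar F ≠ 2 := by
        intro h0
        apply h2
        haveI : CharP F 2 := ringChar.of_eq h0
        exact CharTwo.two_eq_zero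
      by_contra hc
      exact hF (FiniteField.even_card_iff_char_two.mpr (by omega))
    have hroot1 : ∀ x : F, α * x * x + β * x + γ = -γ → x = x₁ ∨ x = r - x₁ := by
      intro x hx
      rcases h8_quad_root_cases α β γ x₁ x (by rw [hx, hx₁']) with h | h
      · left; exact h
      · right
        have h6 : α * (x + x₁ - r) = 0 := by linear_combination h - hr
        rcases mul_eq_zero.mp h6 with h7 | h7
        · exact absurd h7 hα
        · linear_combination h7
    have hmem : ∀ x : F, x ∈ ({0, r, x₁, r - x₁} : Finset F) := by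
      intro x
      simp only [Finset.mem_insert, Finset.mem_singleton]
      rcases hcases x with h | h
      · rcases hroot0 x h with h' | h'
        · left; exact h'
        · right; left; exact h'
      · rcases hroot1 x h with h' | h'
        · right; right; left; exact h'
        · right; right; right; exact h'
    have h5 : Fintype.card F ≤ 4 := by
      rw [← Finset.card_univ]
      exact le_trans (Finset.card_le_card (fun x _ => hmem x)) Finset.card_le_four
    omega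

/-- two products of conjugates of non-central elements with different squared traces -/
theorem h8_sl2_two_products [Fintype F] (h4 : 4 ≤ Fintype.card F) (A B : SLF)
    (hA1 : A ≠ 1) (hAn : A ≠ h8negOne) (hB1 : B ≠ 1) (hBn : B ≠ h8negOne) :
    ∃ U₁ V₁ U₂ V₂ : SLF,
      Matrix.trace (((U₁ * A * U₁⁻¹) * (V₁ * B * V₁⁻¹) : SLF) : MF)
        * Matrix.trace (((U₁ * A * U₁⁻¹) * (V₁ * B * V₁⁻¹) : SLF) : MF)
      ≠ Matrix.trace (((U₂ * A * U₂⁻¹) * (V₂ * B * V₂⁻¹) : SLF) : MF)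
        * Matrix.trace (((U₂ * A * U₂⁻¹) * (V₂ * B * V₂⁻¹) : SLF) : MF) := by
  obtain ⟨δ₁, hδ₁⟩ := h8_sl2_conj_some_twisted A hA1 hAn
  obtain ⟨C₁, hC₁⟩ := isConj_iff.mp hδ₁
  obtain ⟨δ₂, hδ₂⟩ := h8_sl2_conj_some_twisted B hB1 hBn
  obtain ⟨C₂, hC₂⟩ := isConj_iff.mp hδ₂
  obtain ⟨s, hs⟩ : ∃ s : F, s = Matrix.trace (A : MF) := ⟨_, rfl⟩
  obtain ⟨τ, hτ⟩ : ∃ τ : F, τ = Matrix.trace (B : MF) := ⟨_, rfl⟩
  rw [← hs] at hC₁
  rw [← hτ] at hC₂
  obtain ⟨ε₁, hε₁⟩ : ∃ ε₁ : F, ε₁ = ((δ₁⁻¹ : Fˣ) : F) := ⟨_, rfl⟩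
  obtain ⟨ε₂, hε₂⟩ : ∃ ε₂ : F, ε₂ = ((δ₂⁻¹ : Fˣ) : F) := ⟨_, rfl⟩
  have hkey : ∀ x : F,
      Matrix.trace (((h8uni x * C₁ * A * (h8uni x * C₁)⁻¹) * (C₂ * B * C₂⁻¹) : SLF) : MF)
      = (-((δ₁ : F) * δ₂)) * x * x + (s * δ₂ - δ₁ * τ) * x + (s * τ - ε₁ * δ₂ - δ₁ * ε₂) := by
    intro x
    have e1 : h8uni x * C₁ * A * (h8uni x * C₁)⁻¹
        = h8uni x * (C₁ * A * C₁⁻¹) * (h8uni x)⁻¹ := by group
    rw [e1, hC₁, hC₂, Matrix.SpecialLinearGroup.coe_mul, Matrix.SpecialLinearGroup.coe_mul,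
      Matrix.SpecialLinearGroup.coe_mul, h8_sl2_coe_inv (h8uni x) 1 x 0 1 (h8uni_val x),
      h8uni_val, h8compT_val, h8compT_val, ← hε₁, ← hε₂,
      Matrix.mul_fin_two, Matrix.mul_fin_two, Matrix.mul_fin_two, Matrix.trace_fin_two_of]
    ring
  obtain ⟨x, hx⟩ := h8_quad_two_values h4 (-((δ₁ : F) * δ₂)) (s * δ₂ - δ₁ * τ)
    (s * τ - ε₁ * δ₂ - δ₁ * ε₂) (neg_ne_zero.mpr (mul_ne_zero δ₁.ne_zero δ₂.ne_zero))
  refine ⟨h8uni x * C₁, C₂, h8uni 0 * C₁, C₂, ?_⟩
  rw [hkey x, hkey 0]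
  intro h
  apply hx
  rw [h]; ring

theorem h8_s2450 [Fintype F] (h4 : 4 ≤ Fintype.card F) (a b : PSLF) (ha : a ≠ 1) (hb : b ≠ 1)
    (c : PSLF) :
    {g : PSLF | ∃ u v : PSLF, g = (u * a * u⁻¹) * (v * b * v⁻¹)} ≠ {g | IsConj c g} := by
  intro heq
  have hπs : Function.Surjective πF := QuotientGroup.mk'_surjective _
  have hπn : πF (h8negOne : SLF) = 1 := (h8_psl2_mk_eq_one_iff _).mpr (Or.inr rfl)
  obtain ⟨A, rfl⟩ := hπs a
  obtain ⟨B, rfl⟩ := hπs b
  have hA1 : A ≠ 1 := by rintro rfl; exact ha (map_one _)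
  have hAn : A ≠ h8negOne := by rintro rfl; exact ha hπn
  have hB1 : B ≠ 1 := by rintro rfl; exact hb (map_one _)
  have hBn : B ≠ h8negOne := by rintro rfl; exact hb hπn
  obtain ⟨U₁, V₁, U₂, V₂, hne⟩ := h8_sl2_two_products h4 A B hA1 hAn hB1 hBn
  have h1 : πF ((U₁ * A * U₁⁻¹) * (V₁ * B * V₁⁻¹))
      ∈ {g : PSLF | ∃ u v : PSLF, g = (u * πF A * u⁻¹) * (v * πF B * v⁻¹)} :=
    ⟨πF U₁, πF V₁, by simp only [map_mul, map_inv]⟩
  have h3 : πF ((U₂ * A * U₂⁻¹) * (V₂ * B * V₂⁻¹))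
      ∈ {g : PSLF | ∃ u v : PSLF, g = (u * πF A * u⁻¹) * (v * πF B * v⁻¹)} :=
    ⟨πF U₂, πF V₂, by simp only [map_mul, map_inv]⟩
  rw [heq] at h1 h3
  have h1' : IsConj c (πF ((U₁ * A * U₁⁻¹) * (V₁ * B * V₁⁻¹))) := h1
  have h3' : IsConj c (πF ((U₂ * A * U₂⁻¹) * (V₂ * B * V₂⁻¹))) := h3
  have h5 : IsConj (πF ((U₁ * A * U₁⁻¹) * (V₁ * B * V₁⁻¹)))
      (πF ((U₂ * A * U₂⁻¹) * (V₂ * B * V₂⁻¹))) := h1'.symm.trans h3'
  obtain ⟨w, hw⟩ := isConj_iff.mp h5
  obtain ⟨W, rfl⟩ := hπs w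
  have h6 : πF (W * ((U₁ * A * U₁⁻¹) * (V₁ * B * V₁⁻¹)) * W⁻¹)
      = πF ((U₂ * A * U₂⁻¹) * (V₂ * B * V₂⁻¹)) := by
    rw [← hw]; simp only [map_mul, map_inv]
  apply hne
  rcases (h8_psl2_mk_eq_iff _ _).mp h6 with h | h
  · rw [h, h8_sl2_trace_conj]
  · rw [h, h8negOne_mul_trace, h8_sl2_trace_conj]; ring

end

end Cfsg.Agent.Lib.Helper8
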