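import Mathlib
import Cfsg.Agent.Lib.Helper8.SL2TorusN

set_option autoImplicit false
set_option linter.style.haveILetI false
set_option linter.unusedSectionVars false
set_option linter.unusedVariables false
set_option linter.unusedSimpArgs false

universe u

namespace Cfsg.Agent.Lib.Helper8

open Matrix

section
variable {F : Type u} [Field F]

local notation "SLF" => Matrix.SpecialLinearGroup (Fin 2) F
local notation "MF" => Matrix (Fin 2) (Fin 2) F

theorem h8_sl2_trace_zero_of_sq (h2 : (2 : F) ≠ 0) (X : SLF) (h : X * X = h8negOne) :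
    Matrix.trace (X : MF) = 0 := by
  obtain ⟨P, Q, R, S, hm⟩ : ∃ P Q R S : F, (X : MF) = !![P, Q; R, S] :=
    ⟨_, _, _, _, Matrix.eta_fin_two _⟩
  have hdet : P * S - Q * R = 1 := by
    have h0 := X.det_coe
    rw [hm, Matrix.det_fin_two_of] at h0; exact h0
  have h0 := congrArg Subtype.val h
  rw [Matrix.SpecialLinearGroup.coe_mul, hm, Matrix.mul_fin_two] at h0
  have h0' : !![P * P + Q * R, P * Q + Q * S; R * P + S * R, R * Q + S * S]
      = (!![-1, 0; 0, -1] : MF) := h0
  obtain ⟨e00, e01, e10, e11⟩ := h8_fin_two_inj h0'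
  rw [hm, Matrix.trace_fin_two_of]
  by_contra hne
  have hQ : Q = 0 := by
    have h5 : Q * (P + S) = 0 := by linear_combination e01
    rcases mul_eq_zero.mp h5 with h | h
    · exact h
    · exact absurd h hne
  have hR : R = 0 := by
    have h5 : R * (P + S) = 0 := by linear_combination e10
    rcases mul_eq_zero.mp h5 with h | h
    · exact h
    · exact absurd h hne
  rw [hQ, hR] at e00 e11 hdet
  have h5 : (P - S) * (P + S) = 0 := by linear_combination e00 - e11
  rcases mul_eq_zero.mp h5 with h | h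
  · have hPS : P = S := by linear_combination h
    rw [← hPS] at hdet
    apply h2
    linear_combination e00 - hdet
  · exact hne h

/-- the core of the Sylow 2-subgroup computation -/
theorem h8_s2431_aux [Fintype F] (hodd : Fintype.card F % 2 = 1) (h2 : (2 : F) ≠ 0) (p : ℕ)
    [Fact p.Prime] [CharP F p] (g₀ : SLF) (c k m : ℕ) (hc : orderOf g₀ = c)
    (hckm : c = 2 ^ k * m) (hm : ¬ 2 ∣ m) (hk : 2 ≤ k) (hpc : ¬ p ∣ c)
    (hreg : Matrix.trace (g₀ : MF) * Matrix.trace (g₀ : MF) ≠ 4)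
    (hCT : Subgroup.zpowers g₀ = Subgroup.centralizer ({g₀} : Set SLF))
    (P : Subgroup SLF) (hP : Nat.card P = 2 ^ (k + 1)) (hu : g₀ ^ m ∈ P) :
    Subgroup.centralizer (P : Set SLF) = Subgroup.center SLF ∧
    (3 ≤ k → Subgroup.normalizer (P : Set SLF) = P) ∧
    (k = 2 → Nat.card (Subgroup.normalizer (P : Set SLF)) = 3 * Nat.card P) := by
  classical
  obtain ⟨u, hudef⟩ : ∃ u : SLF, u = g₀ ^ m := ⟨_, rfl⟩
  rw [← hudef] at hu
  have hm0 : m ≠ 0 := by rintro rfl; exact hm (dvd_zero _)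
  have hou : orderOf u = 2 ^ k := by
    rw [hudef, orderOf_pow_of_dvd hm0 (by rw [hc, hckm]; exact dvd_mul_left _ _), hc, hckm]
    exact Nat.mul_div_cancel _ (Nat.pos_of_ne_zero hm0)
  have huT : u ∈ Subgroup.zpowers g₀ := by
    rw [hudef]; exact Subgroup.pow_mem _ (Subgroup.mem_zpowers g₀) m
  have h2k4 : 4 ≤ 2 ^ k := by
    calc 4 = 2 ^ 2 := by norm_num
      _ ≤ 2 ^ k := Nat.pow_le_pow_right (by norm_num) hk
  have hu1 : u ≠ 1 := by
    intro h; rw [h, orderOf_one] at hou; omega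
  have hun : u ≠ h8negOne := by
    intro h'
    have h5 : u ^ 2 = 1 := by rw [h', pow_two, h8negOne_mul_self]
    have h6 := Nat.le_of_dvd (by norm_num) (orderOf_dvd_of_pow_eq_one h5)
    omega
  have hregu : Matrix.trace (u : MF) * Matrix.trace (u : MF) ≠ 4 := by
    intro h
    rcases h8_torus_irregular h2 p g₀ c hc hpc u huT h with h' | h'
    · exact hu1 h'
    · exact hun h'
  have hnsu : (u : MF) 0 1 ≠ 0 ∨ (u : MF) 1 0 ≠ 0 ∨ (u : MF) 0 0 ≠ (u : MF) 1 1 := by
    apply h8_sl2_nonscalar_of_ne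
    · intro h; apply hu1; apply Subtype.ext; rw [h, Matrix.SpecialLinearGroup.coe_one]
    · intro h; apply hun; apply Subtype.ext; rw [h, h8negOne_val]
  have hug : u * g₀ = g₀ * u := by rw [hudef, ← pow_succ, ← pow_succ']
  have hTmem : ∀ y : SLF, y ∈ Subgroup.zpowers g₀ ↔ y * g₀ = g₀ * y := by
    intro y; rw [hCT, Subgroup.mem_centralizer_singleton_iff]
  have hCu : ∀ y : SLF, y * u = u * y → y ∈ Subgroup.zpowers g₀ := by
    intro y hy
    rw [hTmem]
    exact h8_sl2_comm_trans y u g₀ hnsu hy hug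
  have h2elt : ∀ y : SLF, y ∈ Subgroup.zpowers g₀ → ∀ a : ℕ, y ^ (2 ^ a) = 1 →
      y ∈ Subgroup.zpowers u := by
    intro y hy a hya
    obtain ⟨j, rfl⟩ := Subgroup.mem_zpowers_iff.mp hy
    have h5 : g₀ ^ (j * ((2 ^ a : ℕ) : ℤ)) = 1 := by
      rw [_root_.zpow_mul, _root_.zpow_natCast]; exact hya
    have h6 := orderOf_dvd_iff_zpow_eq_one.mpr h5
    rw [hc, hckm] at h6
    have h7 : (m : ℤ) ∣ j * ((2 ^ a : ℕ) : ℤ) :=
      dvd_trans (Int.natCast_dvd_natCast.mpr (dvd_mul_left m (2 ^ k))) h6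
    have hcop : IsCoprime (m : ℤ) ((2 ^ a : ℕ) : ℤ) := by
      rw [Nat.isCoprime_iff_coprime]
      exact Nat.Coprime.pow_right a ((Nat.Prime.coprime_iff_not_dvd Nat.prime_two).mpr hm).symm
    obtain ⟨i, rfl⟩ := hcop.dvd_of_dvd_mul_right h7
    rw [Subgroup.mem_zpowers_iff]
    exact ⟨i, by rw [hudef, ← _root_.zpow_natCast, ← _root_.zpow_mul]⟩
  have hPT : ∀ y : SLF, y ∈ P → y ∈ Subgroup.zpowers g₀ → y ∈ Subgroup.zpowers u := by
    intro y hyP hyT
    apply h2elt y hyT (k + 1)
    have h5 := pow_card_eq_one' (G := P) (x := ⟨y, hyP⟩)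
    rw [hP] at h5
    have h6 := congrArg Subtype.val h5
    simpa only [Subgroup.coe_pow, Subgroup.coe_one] using h6
  have huP : Subgroup.zpowers u ≤ P := by rw [Subgroup.zpowers_le]; exact hu
  have hnormP : ∀ y : SLF, y ∈ P → y * u * y⁻¹ ∈ Subgroup.zpowers u := by
    intro y hy
    have hrel : (Subgroup.zpowers u).relIndex P = 2 := by
      have h5 := Subgroup.relIndex_mul_relIndex (⊥ : Subgroup SLF) (Subgroup.zpowers u) P
        bot_le huP
      rw [Subgroup.relIndex_bot_left, Subgroup.relIndex_bot_left, Nat.card_zpowers, hou, hP,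
        pow_succ] at h5
      exact Nat.eq_of_mul_eq_mul_left (by positivity) h5
    haveI hN : ((Subgroup.zpowers u).subgroupOf P).Normal :=
      Subgroup.normal_of_index_eq_two hrel
    have h6 := hN.conj_mem ⟨u, hu⟩ (Subgroup.mem_subgroupOf.mpr (Subgroup.mem_zpowers u))
      ⟨y, hy⟩
    exact Subgroup.mem_subgroupOf.mp h6
  have hL1 : ∀ y : SLF, y * u * y⁻¹ ∈ Subgroup.zpowers u →
      (y * g₀ * y⁻¹ = g₀ ∨ y * g₀ * y⁻¹ = g₀⁻¹) := by
    intro y hy
    have h5 : y * u * y⁻¹ = u ∨ y * u * y⁻¹ = u⁻¹ := by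
      obtain ⟨j, hj⟩ := Subgroup.mem_zpowers_iff.mp hy
      have hcomm : (y * u * y⁻¹) * u = u * (y * u * y⁻¹) := by
        rw [← hj]; exact ((Commute.refl u).zpow_left j).eq
      exact h8_sl2_cent_same_trace h2 u _ hregu hcomm (h8_sl2_trace_conj y u)
    have h7 : (y * g₀ * y⁻¹) * (y * u * y⁻¹) = (y * u * y⁻¹) * (y * g₀ * y⁻¹) := by
      calc (y * g₀ * y⁻¹) * (y * u * y⁻¹) = y * (g₀ * u) * y⁻¹ := by group
        _ = y * (u * g₀) * y⁻¹ := by rw [hug]
        _ = (y * u * y⁻¹) * (y * g₀ * y⁻¹) := by group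
    have h6 : (y * g₀ * y⁻¹) * u = u * (y * g₀ * y⁻¹) := by
      rcases h5 with h | h
      · rw [h] at h7; exact h7
      · rw [h] at h7
        calc (y * g₀ * y⁻¹) * u = u * (u⁻¹ * (y * g₀ * y⁻¹)) * u := by group
          _ = u * ((y * g₀ * y⁻¹) * u⁻¹) * u := by rw [h7]
          _ = u * (y * g₀ * y⁻¹) := by group
    have h8 := hCu _ h6
    rw [hTmem] at h8
    exact h8_sl2_cent_same_trace h2 g₀ _ hreg h8 (h8_sl2_trace_conj y g₀)
  obtain ⟨w, hwP, hwu⟩ : ∃ w : SLF, w ∈ P ∧ w ∉ Subgroup.zpowers u := by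
    by_contra hcon
    push Not at hcon
    have h5 : P ≤ Subgroup.zpowers u := hcon
    have h6 := Subgroup.card_le_of_le h5
    rw [hP, Nat.card_zpowers, hou, pow_succ] at h6
    omega
  have hwT : w ∉ Subgroup.zpowers g₀ := fun h => hwu (hPT w hwP h)
  have hinvg : ∀ y : SLF, y ∈ P → y ∉ Subgroup.zpowers u → y * g₀ * y⁻¹ = g₀⁻¹ := by
    intro y hy hyu
    rcases hL1 y (hnormP y hy) with h | h
    · exfalso
      apply hyu
      apply hPT y hy
      rw [hTmem]
      calc y * g₀ = y * g₀ * y⁻¹ * y := by group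
        _ = g₀ * y := by rw [h]
    · exact h
  have hwg : w * g₀ * w⁻¹ = g₀⁻¹ := hinvg w hwP hwu
  have hwinv : ∀ t ∈ Subgroup.zpowers g₀, w * t * w⁻¹ = t⁻¹ := by
    intro t ht
    obtain ⟨j, rfl⟩ := Subgroup.mem_zpowers_iff.mp ht
    rw [← conj_zpow, hwg, _root_.inv_zpow]
  have hwinT : ∀ y : SLF, y * g₀ * y⁻¹ = g₀⁻¹ → w⁻¹ * y ∈ Subgroup.zpowers g₀ := by
    intro y h
    rw [hTmem]
    have h6 : w⁻¹ * g₀⁻¹ * w = g₀ := by
      calc w⁻¹ * g₀⁻¹ * w = w⁻¹ * (w * g₀ * w⁻¹) * w := by rw [hwg]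
        _ = g₀ := by group
    calc w⁻¹ * y * g₀ = w⁻¹ * (y * g₀ * y⁻¹) * y := by group
      _ = w⁻¹ * g₀⁻¹ * w * (w⁻¹ * y) := by rw [h]; group
      _ = g₀ * (w⁻¹ * y) := by rw [h6]
  have hneg_center : ∀ y : SLF, y * y = 1 → y ∈ Subgroup.center SLF := by
    intro y hy
    rcases h8_sl2_sq_one h2 y hy with h | h
    · rw [h]; exact Subgroup.one_mem _
    · rw [h]; exact h8negOne_mem_center
  have part1 : Subgroup.centralizer (P : Set SLF) = Subgroup.center SLF := by
    apply le_antisymm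
    · intro y hy
      rw [Subgroup.mem_centralizer_iff] at hy
      have h5 : y * u = u * y := (hy u hu).symm
      have h6 : y ∈ Subgroup.zpowers g₀ := hCu y h5
      have h7 : w * y = y * w := hy w hwP
      have h8 := hwinv y h6
      apply hneg_center
      have h9 : y = y⁻¹ := by
        calc y = y * w * w⁻¹ := by group
          _ = w * y * w⁻¹ := by rw [h7]
          _ = y⁻¹ := h8
      calc y * y = y * y⁻¹ := congrArg (fun z => y * z) h9
        _ = 1 := mul_inv_cancel y
    · exact Subgroup.center_le_centralizer _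
  have hPN : P ≤ Subgroup.normalizer (P : Set SLF) :=
    Subgroup.le_normalizer_iff.mpr
      (fun h hh k hk => P.mul_mem (P.mul_mem hh hk) (P.inv_mem hh))
  have hNmem : ∀ y : SLF, y ∈ Subgroup.normalizer (P : Set SLF) → ∀ n ∈ P, y * n * y⁻¹ ∈ P := by
    intro y hy n hn
    exact (Subgroup.mem_set_normalizer_iff.mp hy n).mp hn
  have hstarT : ∀ y : SLF, y ∈ Subgroup.normalizer (P : Set SLF) → y ∈ Subgroup.zpowers g₀ →
      y ∈ Subgroup.zpowers u := by
    intro y hy hyT
    have h5 := hNmem y hy w hwP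
    have h6 := hwinv y⁻¹ (Subgroup.inv_mem _ hyT)
    rw [inv_inv] at h6
    have h7 : y * w * y⁻¹ = y * y * w := by
      calc y * w * y⁻¹ = y * (w * y⁻¹ * w⁻¹) * w := by group
        _ = y * y * w := by rw [h6]
    rw [h7] at h5
    have h8 : y * y ∈ P := by
      have h9 := P.mul_mem h5 (P.inv_mem hwP)
      rwa [mul_inv_cancel_right] at h9
    have h9 : y * y ∈ Subgroup.zpowers u := hPT _ h8 (Subgroup.mul_mem _ hyT hyT)
    apply h2elt y hyT (k + 1)
    have h10 : (y * y) ^ (2 ^ k) = 1 := by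
      obtain ⟨i, hi⟩ := Subgroup.mem_zpowers_iff.mp h9
      rw [← hi, ← _root_.zpow_natCast, ← _root_.zpow_mul, mul_comm, _root_.zpow_mul,
        _root_.zpow_natCast, ← hou, pow_orderOf_eq_one, _root_.one_zpow]
    rw [pow_succ, pow_mul', pow_two]; exact h10
  have hstar : ∀ y : SLF, y ∈ Subgroup.normalizer (P : Set SLF) →
      y * u * y⁻¹ ∈ Subgroup.zpowers u → y ∈ P := by
    intro y hy hyu
    rcases hL1 y hyu with h | h
    · apply huP
      apply hstarT y hy
      rw [hTmem]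
      calc y * g₀ = y * g₀ * y⁻¹ * y := by group
        _ = g₀ * y := by rw [h]
    · have h5 := hwinT y h
      have h7 : w⁻¹ * y ∈ Subgroup.normalizer (P : Set SLF) :=
        Subgroup.mul_mem _ (Subgroup.inv_mem _ (hPN hwP)) hy
      have h8 := huP (hstarT _ h7 h5)
      have h9 := P.mul_mem hwP h8
      rwa [mul_inv_cancel_left] at h9
  have hsqout : ∀ z : SLF, z ∈ P → z ∉ Subgroup.zpowers u → z * z = h8negOne := by
    intro z hz hzu
    have hzT : z ∉ Subgroup.zpowers g₀ := fun h => hzu (hPT z hz h)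
    have h5 : z ∈ ((Subgroup.normalizer ((Subgroup.zpowers g₀ : Subgroup SLF) : Set SLF)
        : Subgroup SLF) : Set SLF) := by
      rw [h8_sl2_normalizer_zpowers h2 g₀ hreg]
      exact hL1 z (hnormP z hz)
    exact h8_torus_sq_outside h2 g₀ hreg hCT z h5 hzT
  have part2 : 3 ≤ k → Subgroup.normalizer (P : Set SLF) = P := by
    intro hk3
    apply le_antisymm
    · intro y hy
      apply hstar y hy
      by_contra hzu
      have hz := hNmem y hy u hu
      have h5 := hsqout _ hz hzu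
      have h7 : (y * u * y⁻¹) ^ (2 * 2) = 1 := by
        rw [pow_mul, pow_two (y * u * y⁻¹), h5, pow_two, h8negOne_mul_self]
      rw [conj_pow] at h7
      have h6 : u ^ (2 * 2) = 1 := by
        calc u ^ (2 * 2) = y⁻¹ * (y * u ^ (2 * 2) * y⁻¹) * y := by group
          _ = 1 := by rw [h7]; group
      have h8 := Nat.le_of_dvd (by norm_num) (orderOf_dvd_of_pow_eq_one h6)
      rw [hou] at h8
      have h9 : 8 ≤ 2 ^ k := by
        calc 8 = 2 ^ 3 := by norm_num
          _ ≤ 2 ^ k := Nat.pow_le_pow_right (by norm_num) hk3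
      omega
    · exact hPN
  have part3 : k = 2 → Nat.card (Subgroup.normalizer (P : Set SLF)) = 3 * Nat.card P := by
    intro hk2
    have hou4 : orderOf u = 4 := by rw [hou, hk2]; norm_num
    have huu : u * u = h8negOne := by
      have h5 : (u * u) * (u * u) = 1 := by
        have h6 := pow_orderOf_eq_one u
        rw [hou4] at h6
        calc (u * u) * (u * u) = u ^ 4 := by
              simp only [pow_succ, pow_zero, one_mul, mul_assoc]
          _ = 1 := h6
      rcases h8_sl2_sq_one h2 (u * u) h5 with h | h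
      · exfalso
        have h6 : u ^ 2 = 1 := by rw [pow_two]; exact h
        have h7 := Nat.le_of_dvd (by norm_num) (orderOf_dvd_of_pow_eq_one h6)
        omega
      · exact h
    have hww : w * w = h8negOne := hsqout w hwP hwu
    have hncomm : ∀ x : SLF, h8negOne * x = x * h8negOne :=
      fun x => (Subgroup.mem_center_iff.mp h8negOne_mem_center x).symm
    have huinv : u⁻¹ = h8negOne * u := by
      apply inv_eq_of_mul_eq_one_right
      calc u * (h8negOne * u) = h8negOne * (u * u) := by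
            rw [← mul_assoc, ← hncomm u, mul_assoc]
        _ = 1 := by rw [huu, h8negOne_mul_self]
    have hwu' : w * u = h8negOne * (u * w) := by
      have h5 := hwinv u huT
      calc w * u = w * u * w⁻¹ * w := by group
        _ = u⁻¹ * w := by rw [h5]
        _ = h8negOne * (u * w) := by rw [huinv, mul_assoc]
    have hUU : (u : MF) * (u : MF) = -1 := by
      rw [← Matrix.SpecialLinearGroup.coe_mul, huu, h8negOne_val]
    have hWW : (w : MF) * (w : MF) = -1 := by
      rw [← Matrix.SpecialLinearGroup.coe_mul, hww, h8negOne_val]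
    have hWU : (w : MF) * (u : MF) = -((u : MF) * (w : MF)) := by
      rw [← Matrix.SpecialLinearGroup.coe_mul, hwu', Matrix.SpecialLinearGroup.coe_mul,
        Matrix.SpecialLinearGroup.coe_mul, h8negOne_val, neg_one_mul]
    have hUU' : ∀ X : MF, (u : MF) * ((u : MF) * X) = -X := by
      intro X; rw [← mul_assoc, hUU, neg_one_mul]
    have hWW' : ∀ X : MF, (w : MF) * ((w : MF) * X) = -X := by
      intro X; rw [← mul_assoc, hWW, neg_one_mul]
    have hWU' : ∀ X : MF, (w : MF) * ((u : MF) * X) = -((u : MF) * ((w : MF) * X)) := by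
      intro X; rw [← mul_assoc, hWU, neg_mul, mul_assoc]
    obtain ⟨l, hl⟩ : ∃ l : F, l * 2 = 1 := ⟨2⁻¹, inv_mul_cancel₀ h2⟩
    have hdet1 : ∀ X : SLF, Matrix.trace (X : MF) = 0 → (1 + (X : MF)).det = 2 := by
      intro X hX
      obtain ⟨a, b, c', d, hm'⟩ : ∃ a b c' d : F, (X : MF) = !![a, b; c', d] :=
        ⟨_, _, _, _, Matrix.eta_fin_two _⟩
      have hdetX : a * d - b * c' = 1 := by
        have h0 := X.det_coe
        rw [hm', Matrix.det_fin_two_of] at h0; exact h0
      rw [hm', Matrix.trace_fin_two_of] at hX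
      have h5 : (1 : MF) + !![a, b; c', d] = !![1 + a, b; c', 1 + d] := by
        ext i j; fin_cases i <;> fin_cases j <;> simp
      rw [hm', h5, Matrix.det_fin_two_of]
      linear_combination hX + hdetX
    have htru : Matrix.trace (u : MF) = 0 := h8_sl2_trace_zero_of_sq h2 u huu
    have htrw : Matrix.trace (w : MF) = 0 := h8_sl2_trace_zero_of_sq h2 w hww
    have hdeth : (l • ((1 + (u : MF)) * (1 + (w : MF)))).det = 1 := by
      rw [Matrix.det_smul, Matrix.det_mul, hdet1 u htru, hdet1 w htrw, Fintype.card_fin]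
      linear_combination (l * 2 + 1) * hl
    obtain ⟨h, hh⟩ : ∃ h : SLF, (h : MF) = l • ((1 + (u : MF)) * (1 + (w : MF))) :=
      ⟨⟨_, hdeth⟩, rfl⟩
    have hhu : h * u = w * h := by
      apply Subtype.ext
      rw [Matrix.SpecialLinearGroup.coe_mul, Matrix.SpecialLinearGroup.coe_mul, hh,
        Matrix.smul_mul, Matrix.mul_smul]
      congr 1
      simp only [mul_add, add_mul, mul_one, one_mul, mul_assoc, hUU, hWW, hWU, hUU', hWU',
        mul_neg, neg_mul, neg_neg]
      abel
    have hhw : h * w = (u * w) * h := by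
      apply Subtype.ext
      rw [Matrix.SpecialLinearGroup.coe_mul, Matrix.SpecialLinearGroup.coe_mul,
        Matrix.SpecialLinearGroup.coe_mul, hh, Matrix.smul_mul, Matrix.mul_smul]
      congr 1
      simp only [mul_add, add_mul, mul_one, one_mul, mul_assoc, hUU, hWW, hWU, hUU', hWW', hWU',
        mul_neg, neg_mul, neg_neg]
      abel
    have hhuc : h * u * h⁻¹ = w := by rw [hhu, mul_inv_cancel_right]
    have hhwc : h * w * h⁻¹ = u * w := by rw [hhw, mul_inv_cancel_right]
    have hwuw : w * u * w = u := by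
      calc w * u * w = (w * u * w⁻¹) * (w * w) := by group
        _ = u⁻¹ * h8negOne := by rw [hwinv u huT, hww]
        _ = u := by rw [huinv, mul_assoc, ← hncomm u, ← mul_assoc, h8negOne_mul_self, one_mul]
    have hhuwc : h * (u * w) * h⁻¹ = u := by
      calc h * (u * w) * h⁻¹ = (h * u * h⁻¹) * (h * w * h⁻¹) := by group
        _ = w * (u * w) := by rw [hhuc, hhwc]
        _ = u := by rw [← mul_assoc, hwuw]
    have hiu : h⁻¹ * u * h⁻¹⁻¹ = u * w := by
      calc h⁻¹ * u * h⁻¹⁻¹ = h⁻¹ * (h * (u * w) * h⁻¹) * h⁻¹⁻¹ := by rw [hhuwc]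
        _ = u * w := by group
    have hiw : h⁻¹ * w * h⁻¹⁻¹ = u := by
      calc h⁻¹ * w * h⁻¹⁻¹ = h⁻¹ * (h * u * h⁻¹) * h⁻¹⁻¹ := by rw [hhuc]
        _ = u := by group
    have huwP : u * w ∈ P := P.mul_mem hu hwP
    have huwT : u * w ∉ Subgroup.zpowers g₀ := by
      intro h5
      apply hwT
      have h6 := Subgroup.mul_mem _ (Subgroup.inv_mem _ huT) h5
      rwa [inv_mul_cancel_left] at h6
    have hPelts : ∀ n : SLF, n ∈ P →
        n ∈ Subgroup.zpowers u ∨ ∃ t ∈ Subgroup.zpowers u, n = w * t := by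
      intro n hn
      by_cases hnu : n ∈ Subgroup.zpowers u
      · left; exact hnu
      · right
        refine ⟨w⁻¹ * n, ?_, by group⟩
        exact hPT _ (P.mul_mem (P.inv_mem hwP) hn) (hwinT n (hinvg n hn hnu))
    have hconjP : ∀ x : SLF, x * u * x⁻¹ ∈ P → x * w * x⁻¹ ∈ P →
        ∀ n ∈ P, x * n * x⁻¹ ∈ P := by
      intro x hxu hxw n hn
      have hpow : ∀ t ∈ Subgroup.zpowers u, x * t * x⁻¹ ∈ P := by
        intro t ht
        obtain ⟨i, rfl⟩ := Subgroup.mem_zpowers_iff.mp ht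
        rw [← conj_zpow]
        exact P.zpow_mem hxu i
      rcases hPelts n hn with h | ⟨t, ht, rfl⟩
      · exact hpow n h
      · have h5 : x * (w * t) * x⁻¹ = (x * w * x⁻¹) * (x * t * x⁻¹) := by group
        rw [h5]
        exact P.mul_mem hxw (hpow t ht)
    have hhN : h ∈ Subgroup.normalizer (P : Set SLF) := by
      rw [Subgroup.mem_set_normalizer_iff]
      intro n
      constructor
      · intro hn
        exact hconjP h (by rw [hhuc]; exact hwP) (by rw [hhwc]; exact huwP) n hn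
      · intro hn
        have h7 := hconjP h⁻¹ (by rw [hiu]; exact huwP) (by rw [hiw]; exact hu) _ hn
        have h8 : h⁻¹ * (h * n * h⁻¹) * h⁻¹⁻¹ = n := by group
        rwa [h8] at h7
    have hhP : h ∉ P := by
      intro h5
      have h6 := hnormP h h5
      rw [hhuc] at h6
      exact hwu h6
    have hhhP : h * h ∉ P := by
      intro h5
      have h6 := hnormP (h * h) h5
      have h7 : h * h * u * (h * h)⁻¹ = u * w := by
        calc h * h * u * (h * h)⁻¹ = h * (h * u * h⁻¹) * h⁻¹ := by group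
          _ = u * w := by rw [hhuc, hhwc]
      rw [h7] at h6
      apply huwT
      obtain ⟨i, hi⟩ := Subgroup.mem_zpowers_iff.mp h6
      rw [← hi]
      exact Subgroup.zpow_mem _ huT i
    have hcen : ∀ (j : ℤ) (x : SLF), x * u ^ (2 * j) * x⁻¹ = u ^ (2 * j) := by
      intro j x
      rw [_root_.zpow_mul, zpow_two, huu, ← conj_zpow, h8negOne_conj]
    have hiwu : (h * h)⁻¹ * (w * u) * (h * h)⁻¹⁻¹ = u⁻¹ := by
      calc (h * h)⁻¹ * (w * u) * (h * h)⁻¹⁻¹
          = (h * h)⁻¹ * (h8negOne * (u * w)) * (h * h)⁻¹⁻¹ := by rw [hwu']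
        _ = ((h * h)⁻¹ * h8negOne * (h * h)⁻¹⁻¹) * ((h * h)⁻¹ * (u * w) * (h * h)⁻¹⁻¹) := by
            group
        _ = h8negOne * ((h * h)⁻¹ * (h * (h * u * h⁻¹) * h⁻¹) * (h * h)⁻¹⁻¹) := by
            rw [h8negOne_conj, hhuc, hhwc]
        _ = h8negOne * u := by group
        _ = u⁻¹ := huinv.symm
    have hset : ((Subgroup.normalizer (P : Set SLF) : Subgroup SLF) : Set SLF)
        = ((P : Set SLF) ∪ (fun x => h * x) '' (P : Set SLF))
          ∪ (fun x => h * h * x) '' (P : Set SLF) := by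
      ext y
      constructor
      · intro hy
        have hy' : y ∈ Subgroup.normalizer (P : Set SLF) := hy
        have hz := hNmem y hy' u hu
        rcases hPelts _ hz with h5 | ⟨t, ht, h5⟩
        · left; left; exact hstar y hy' h5
        · obtain ⟨i, rfl⟩ := Subgroup.mem_zpowers_iff.mp ht
          rcases Int.even_or_odd' i with ⟨j, hj | hj⟩
          · left; right
            have hmemN : h⁻¹ * y ∈ Subgroup.normalizer (P : Set SLF) :=
              Subgroup.mul_mem _ (Subgroup.inv_mem _ hhN) hy'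
            have hconj : (h⁻¹ * y) * u * (h⁻¹ * y)⁻¹ ∈ Subgroup.zpowers u := by
              have h6 : (h⁻¹ * y) * u * (h⁻¹ * y)⁻¹ = u * u ^ (2 * j) := by
                calc (h⁻¹ * y) * u * (h⁻¹ * y)⁻¹ = h⁻¹ * (y * u * y⁻¹) * h⁻¹⁻¹ := by group
                  _ = h⁻¹ * (w * u ^ (2 * j)) * h⁻¹⁻¹ := by rw [h5, hj]
                  _ = (h⁻¹ * w * h⁻¹⁻¹) * (h⁻¹ * u ^ (2 * j) * h⁻¹⁻¹) := by group
                  _ = u * u ^ (2 * j) := by rw [hiw, hcen]
              rw [h6]
              exact Subgroup.mul_mem _ (Subgroup.mem_zpowers u)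
                (Subgroup.zpow_mem _ (Subgroup.mem_zpowers u) _)
            exact ⟨h⁻¹ * y, hstar _ hmemN hconj, mul_inv_cancel_left h y⟩
          · right
            have hmemN : (h * h)⁻¹ * y ∈ Subgroup.normalizer (P : Set SLF) :=
              Subgroup.mul_mem _ (Subgroup.inv_mem _ (Subgroup.mul_mem _ hhN hhN)) hy'
            have hconj : ((h * h)⁻¹ * y) * u * ((h * h)⁻¹ * y)⁻¹ ∈ Subgroup.zpowers u := by
              have h6 : ((h * h)⁻¹ * y) * u * ((h * h)⁻¹ * y)⁻¹ = u⁻¹ * u ^ (2 * j) := by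
                calc ((h * h)⁻¹ * y) * u * ((h * h)⁻¹ * y)⁻¹
                    = (h * h)⁻¹ * (y * u * y⁻¹) * (h * h)⁻¹⁻¹ := by group
                  _ = (h * h)⁻¹ * (w * u ^ (2 * j + 1)) * (h * h)⁻¹⁻¹ := by rw [h5, hj]
                  _ = ((h * h)⁻¹ * (w * u) * (h * h)⁻¹⁻¹)
                      * ((h * h)⁻¹ * u ^ (2 * j) * (h * h)⁻¹⁻¹) := by group
                  _ = u⁻¹ * u ^ (2 * j) := by rw [hiwu, hcen]
              rw [h6]
              exact Subgroup.mul_mem _ (Subgroup.inv_mem _ (Subgroup.mem_zpowers u))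
                (Subgroup.zpow_mem _ (Subgroup.mem_zpowers u) _)
            exact ⟨(h * h)⁻¹ * y, hstar _ hmemN hconj, mul_inv_cancel_left (h * h) y⟩
      · rintro ((hy | ⟨x, hx, rfl⟩) | ⟨x, hx, rfl⟩)
        · exact hPN hy
        · exact Subgroup.mul_mem _ hhN (hPN hx)
        · exact Subgroup.mul_mem _ (Subgroup.mul_mem _ hhN hhN) (hPN hx)
    have hd1 : Disjoint (P : Set SLF) ((fun x => h * x) '' (P : Set SLF)) := by
      rw [Set.disjoint_left]
      rintro y hy ⟨x, hx, rfl⟩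
      apply hhP
      have h5 := P.mul_mem hy (P.inv_mem hx)
      rwa [mul_inv_cancel_right] at h5
    have hd2 : Disjoint ((P : Set SLF) ∪ (fun x => h * x) '' (P : Set SLF))
        ((fun x => h * h * x) '' (P : Set SLF)) := by
      rw [Set.disjoint_left]
      rintro y (hy | ⟨x', hx', hxy⟩) ⟨x, hx, rfl⟩
      · apply hhhP
        have h5 := P.mul_mem hy (P.inv_mem hx)
        rwa [mul_inv_cancel_right] at h5
      · apply hhP
        have h6 : h * x' = h * (h * x) := by rw [← mul_assoc]; exact hxy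
        have h7 := mul_left_cancel h6
        have h5 : h = x' * x⁻¹ := by rw [h7]; group
        rw [h5]; exact P.mul_mem hx' (P.inv_mem hx)
    have e0 : Nat.card (Subgroup.normalizer (P : Set SLF))
        = ((Subgroup.normalizer (P : Set SLF) : Subgroup SLF) : Set SLF).ncard :=
      Nat.card_coe_set_eq _
    have e1 : Nat.card P = (P : Set SLF).ncard := Nat.card_coe_set_eq _
    rw [e0, hset, Set.ncard_union_eq hd2 (Set.toFinite _) (Set.toFinite _),
      Set.ncard_union_eq hd1 (Set.toFinite _) (Set.toFinite _),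
      Set.ncard_image_of_injective _ (mul_right_injective h),
      Set.ncard_image_of_injective _ (mul_right_injective (h * h)), e1]
    ring
  exact ⟨part1, part2, part3⟩

theorem h8_s2431 [Fintype F] (hodd : Odd (Fintype.card F)) (S : Sylow 2 SLF) :
    Subgroup.centralizer ((S : Subgroup SLF) : Set SLF) = Subgroup.center SLF ∧
    ((Fintype.card F % 8 = 1 ∨ Fintype.card F % 8 = 7) →
      Subgroup.normalizer ((S : Subgroup SLF) : Set SLF) = (S : Subgroup SLF)) ∧
    ((Fintype.card F % 8 = 3 ∨ Fintype.card F % 8 = 5) →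
      Nat.card (Subgroup.normalizer ((S : Subgroup SLF) : Set SLF)) = 3 * Nat.card S) := by
  classical
  have hodd' : Fintype.card F % 2 = 1 := Nat.odd_iff.mp hodd
  have hF : ringChar F ≠ 2 := by
    intro h0
    have := FiniteField.even_card_iff_char_two.mp h0
    omega
  have h2 : (2 : F) ≠ 0 := Ring.two_ne_zero hF
  obtain ⟨p, hp⟩ := CharP.exists F
  haveI := hp
  haveI : Fact p.Prime := ⟨CharP.char_is_prime F p⟩
  have hpp := (Fact.out : p.Prime)
  have hpq : p ∣ Fintype.card F := by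
    obtain ⟨n, _, hn⟩ := FiniteField.card F p
    rw [hn]
    exact dvd_pow_self p n.ne_zero
  obtain ⟨q, hq⟩ : ∃ q, q = Fintype.card F := ⟨_, rfl⟩
  have hodd0 := hodd'
  rw [← hq] at hodd' hpq ⊢
  have hq3 : 3 ≤ q := by
    have := Fintype.one_lt_card (α := F)
    omega
  obtain ⟨c, c', g₀', hcc, hc4, hc'2, hog', hcq, hc8⟩ : ∃ (c c' : ℕ) (g₀' : SLF),
      c * c' = q ^ 2 - 1 ∧ c % 4 = 0 ∧ c' % 4 = 2 ∧ orderOf g₀' = c ∧ (c = q - 1 ∨ c = q + 1)
        ∧ (c % 8 = 0 ↔ (q % 8 = 1 ∨ q % 8 = 7)) := by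
    obtain ⟨n, hn⟩ : ∃ n, q = n + 1 := ⟨q - 1, by omega⟩
    by_cases h41 : q % 4 = 1
    · obtain ⟨a₀, ha₀⟩ := IsCyclic.exists_ofOrder_eq_natCard (α := Fˣ)
      refine ⟨q - 1, q + 1, h8dgHom a₀, ?_, by omega, by omega, ?_, Or.inl rfl, by omega⟩
      · rw [hn, Nat.add_sub_cancel]; symm; apply Nat.sub_eq_of_eq_add; ring
      · rw [orderOf_injective h8dgHom h8dgHom_injective, ha₀, Nat.card_units,
          Nat.card_eq_fintype_card, hq]
    · obtain ⟨g₁, hg₁⟩ := h8_sl2_exists_order_q_add_one (F := F)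
      refine ⟨q + 1, q - 1, g₁, ?_, by omega, by omega, by rw [hg₁, hq], Or.inr rfl, by omega⟩
      rw [hn, Nat.add_sub_cancel]; symm; apply Nat.sub_eq_of_eq_add; ring
  have hc0 : c ≠ 0 := by rcases hcq with h | h <;> omega
  have hc4' : 4 ≤ c := by omega
  have hpc : ¬ p ∣ c := by
    intro h
    have h5 : p ∣ 1 := by
      rcases hcq with h' | h'
      · rw [h'] at h
        have h6 := Nat.dvd_sub hpq h
        rwa [show q - (q - 1) = 1 by omega] at h6
      · rw [h'] at h
        have h6 := Nat.dvd_sub h hpq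
        rwa [show q + 1 - q = 1 by omega] at h6
    exact hpp.one_lt.ne' (Nat.dvd_one.mp h5)
  obtain ⟨k, m, hm, hkm⟩ := Nat.exists_eq_pow_mul_and_not_dvd hc0 2 (by norm_num)
  have hk : 2 ≤ k := by
    by_contra hcon
    have hk1 : k = 0 ∨ k = 1 := by omega
    rcases hk1 with rfl | rfl
    · rw [pow_zero, one_mul] at hkm; omega
    · rw [pow_one] at hkm; omega
  obtain ⟨m', hm'⟩ : ∃ m', c' = 2 * m' := ⟨c' / 2, by omega⟩
  have hm'odd : ¬ 2 ∣ m' := by omega
  have hcardG : Nat.card SLF = 2 ^ (k + 1) * (m * m' * q) := by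
    rw [h8_card_SL2, ← hq, ← hcc, hkm, hm']; ring
  have hw : ¬ 2 ∣ m * m' * q := by
    intro h0
    rcases (Nat.Prime.dvd_mul Nat.prime_two).mp h0 with h | h
    · rcases (Nat.Prime.dvd_mul Nat.prime_two).mp h with h | h
      · exact hm h
      · exact hm'odd h
    · omega
  have hcardS : Nat.card S = 2 ^ (k + 1) := h8_sylow_card_of_factor' 2 S (k + 1) _ hw hcardG
  have hm0 : m ≠ 0 := by rintro rfl; exact hm (dvd_zero _)
  have hu₀ : orderOf (g₀' ^ m) = 2 ^ k := by
    rw [orderOf_pow_of_dvd hm0 (by rw [hog', hkm]; exact dvd_mul_left _ _), hog', hkm]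
    exact Nat.mul_div_cancel _ (Nat.pos_of_ne_zero hm0)
  have hH : IsPGroup 2 (Subgroup.zpowers (g₀' ^ m)) :=
    IsPGroup.of_card (n := k) (by rw [Nat.card_zpowers, hu₀])
  obtain ⟨x, hx⟩ := h8_exists_conj_mem_sylow' 2 S _ hH
  obtain ⟨g₀, hg₀def⟩ : ∃ g₀ : SLF, g₀ = x * g₀' * x⁻¹ := ⟨_, rfl⟩
  have hog : orderOf g₀ = c := by
    rw [← hog']
    have hs : x * g₀' = g₀ * x := by rw [hg₀def]; group
    exact (SemiconjBy.orderOf_eq x (show SemiconjBy x g₀' g₀ from hs)).symm
  have huS : g₀ ^ m ∈ (S : Subgroup SLF) := by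
    rw [hg₀def, conj_pow]
    exact hx _ (Subgroup.mem_zpowers _)
  have hreg : Matrix.trace (g₀ : MF) * Matrix.trace (g₀ : MF) ≠ 4 := by
    intro ht
    have h5 := h8_sl2_pow_two_p_of_irregular p g₀ ht
    have h6 := orderOf_dvd_of_pow_eq_one h5
    rw [hog] at h6
    have hcop : Nat.Coprime c p := ((Nat.Prime.coprime_iff_not_dvd hpp).mpr hpc).symm
    have h7 : c ∣ 2 := hcop.dvd_of_dvd_mul_right h6
    have := Nat.le_of_dvd (by norm_num) h7
    omega
  have hle : Subgroup.zpowers g₀ ≤ Subgroup.centralizer ({g₀} : Set SLF) := by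
    rw [Subgroup.zpowers_le, Subgroup.mem_centralizer_singleton_iff]
  have hdvd : c ∣ Nat.card (Subgroup.centralizer ({g₀} : Set SLF)) := by
    have h5 := Subgroup.card_dvd_of_le hle
    rwa [Nat.card_zpowers, hog] at h5
  have hcardC : Nat.card (Subgroup.centralizer ({g₀} : Set SLF)) = c := by
    rcases h8_sl2_card_centralizer_regular g₀ hreg with h | h
    · rw [h, ← hq] at hdvd ⊢
      rcases hcq with h5 | h5
      · exact h5.symm
      · exfalso
        rw [h5] at hdvd
        have := Nat.le_of_dvd (by omega) hdvd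
        omega
    · rw [h, ← hq] at hdvd ⊢
      rcases hcq with h5 | h5
      · exfalso
        rw [h5] at hdvd
        have h6 := Nat.dvd_sub hdvd (dvd_refl (q - 1))
        rw [show q + 1 - (q - 1) = 2 by omega] at h6
        have := Nat.le_of_dvd (by norm_num) h6
        omega
      · exact h5.symm
  have hCT : Subgroup.zpowers g₀ = Subgroup.centralizer ({g₀} : Set SLF) := by
    apply Subgroup.eq_of_le_of_card_ge hle
    rw [Nat.card_zpowers, hog, hcardC]
  obtain ⟨p1, p2, p3⟩ := h8_s2431_aux hodd0 h2 p g₀ c k m hog hkm hm hk hpc hreg hCT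
    (S : Subgroup SLF) hcardS huS
  refine ⟨p1, ?_, ?_⟩
  · intro h8
    apply p2
    by_contra hcon
    have hk2 : k = 2 := by omega
    rw [hk2] at hkm
    have h9 := hc8.mpr h8
    norm_num at hkm
    omega
  · intro h8
    apply p3
    by_contra hcon
    have hk3 : 3 ≤ k := by omega
    have h9 : 2 ^ 3 ∣ 2 ^ k := Nat.pow_dvd_pow 2 hk3
    have h10 : 8 ∣ c := by
      rw [hkm]
      exact Dvd.dvd.mul_right (by norm_num at h9 ⊢; exact h9) m
    have h11 : c % 8 = 0 := Nat.mod_eq_zero_of_dvd h10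
    have h12 := hc8.mp h11
    omega

end

end Cfsg.Agent.Lib.Helper8
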