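import Mathlib
import Cfsg.Agent.Lib.Helper9.Schmidt
import Cfsg.Agent.Lib.Helper8.OddNormalizing

set_option autoImplicit false
universe u
namespace Cfsg.Agent.Lib.Helper8

open scoped Pointwise

theorem h8_s4071_mpr {G : Type u} [Group G] [Finite G] (x : G) (A : Subgroup G) (p : ℕ)
    (hp : p.Prime) (hAn : A.Normal) (hAc : IsMulCommutative A) (k : ℕ) (hx : orderOf x = p ^ k)
    (hcompl : (Subgroup.zpowers x).IsComplement' A) (hxp : x ^ p ∈ Subgroup.center G)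
    (hfpf : ∀ a : G, a ∈ A → a ≠ 1 → x * a * x⁻¹ ≠ a)
    (H : Subgroup G) (hH : ¬ IsMulCommutative H) : Subgroup.normalizer (H : Set G) = H := by
  have hAcomm : ∀ a ∈ A, ∀ b ∈ A, a * b = b * a := fun a ha b hb =>
    congrArg Subtype.val (hAc.is_comm.comm ⟨a, ha⟩ ⟨b, hb⟩)
  have hmk : ∀ a ∈ A, (QuotientGroup.mk' A a) = 1 := fun a ha => (QuotientGroup.eq_one_iff a).2 ha
  have hdec : ∀ g : G, ∃ i : ℕ, ∃ a ∈ A, g = x ^ i * a := by
    intro g
    obtain ⟨⟨u, a⟩, hua, -⟩ := Subgroup.isComplement_iff_existsUnique.1 hcompl g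
    have hu := u.2
    rw [SetLike.mem_coe, ← mem_powers_iff_mem_zpowers, Submonoid.mem_powers_iff] at hu
    obtain ⟨i, hi⟩ := hu
    exact ⟨i, a.1, a.2, by rw [hi]; exact hua.symm⟩
  have hcentral : ∀ i : ℕ, p ∣ i → x ^ i ∈ Subgroup.center G := by
    rintro i ⟨j, rfl⟩
    rw [pow_mul]
    exact Subgroup.pow_mem _ hxp j
  have hex : ∃ h ∈ H, ∃ i : ℕ, ∃ a ∈ A, h = x ^ i * a ∧ ¬ p ∣ i := by
    by_contra hno
    push Not at hno
    apply hH
    refine ⟨⟨fun h₁ h₂ => ?_⟩⟩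
    obtain ⟨i, a, ha, e1⟩ := hdec h₁.1
    obtain ⟨j, b, hb, e2⟩ := hdec h₂.1
    have hi := hno h₁.1 h₁.2 i a ha e1
    have hj := hno h₂.1 h₂.2 j b hb e2
    have ci := Subgroup.mem_center_iff.1 (hcentral i hi)
    have cj := Subgroup.mem_center_iff.1 (hcentral j hj)
    apply Subtype.ext
    show h₁.1 * h₂.1 = h₂.1 * h₁.1
    rw [e1, e2]
    have e3 : x ^ i * a * (x ^ j * b) = x ^ i * x ^ j * (a * b) := by
      rw [mul_assoc, ← mul_assoc a, cj a]; group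
    have e4 : x ^ j * b * (x ^ i * a) = x ^ j * x ^ i * (b * a) := by
      rw [mul_assoc, ← mul_assoc b, ci b]; group
    rw [e3, e4, hAcomm a ha b hb, ← pow_add, ← pow_add, add_comm]
  obtain ⟨h, hhH, i, a, haA, hh, hpi⟩ := hex
  have hcop : Nat.Coprime i (orderOf x) := by
    rw [hx]
    exact Nat.Coprime.pow_right k ((Nat.Prime.coprime_iff_not_dvd hp).2 hpi).symm
  obtain ⟨m, hm⟩ := exists_pow_eq_self_of_coprime hcop
  -- h' = h ^ m = x * a₁
  obtain ⟨h', hh'⟩ : ∃ h', h' = h ^ m := ⟨_, rfl⟩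
  have hh'H : h' ∈ H := by rw [hh']; exact H.pow_mem hhH m
  have hmkh' : QuotientGroup.mk' A h' = QuotientGroup.mk' A x := by
    rw [hh', hh, map_pow, map_mul, hmk a haA, mul_one, ← map_pow, hm]
  have ha₁ : x⁻¹ * h' ∈ A := by
    rw [← QuotientGroup.eq]; exact hmkh'.symm
  have hconj : ∀ b ∈ A, h' * b * h'⁻¹ = x * b * x⁻¹ := by
    intro b hb
    have e : h' = x * (x⁻¹ * h') := by group
    have e2 : x * (x⁻¹ * h') * b * (x * (x⁻¹ * h'))⁻¹ =
        x * ((x⁻¹ * h') * b * (x⁻¹ * h')⁻¹) * x⁻¹ := by group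
    rw [e, e2, hAcomm _ ha₁ b hb, mul_assoc b, mul_inv_cancel, mul_one]
  have hfpf' : ∀ b ∈ A, b ≠ 1 → h' * b * h'⁻¹ ≠ b := by
    intro b hb hb1
    rw [hconj b hb]; exact hfpf b hb hb1
  have hcinj : ∀ a b : G, a ∈ A → b ∈ A →
      a * (h' * a⁻¹ * h'⁻¹) = b * (h' * b⁻¹ * h'⁻¹) → a = b := by
    intro a b ha hb hab
    by_contra hne
    have h1 : a⁻¹ * b ∈ A := A.mul_mem (A.inv_mem ha) hb
    have h2 : a⁻¹ * b ≠ 1 := by
      intro h
      apply hne
      have : b = a * (a⁻¹ * b) := by group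
      rw [this, h, mul_one]
    apply hfpf' _ h1 h2
    have e1 : h' * (a⁻¹ * b) * h'⁻¹ = (h' * a⁻¹ * h'⁻¹) * (h' * b⁻¹ * h'⁻¹)⁻¹ := by group
    have e2 : h' * a⁻¹ * h'⁻¹ = a⁻¹ * (b * (h' * b⁻¹ * h'⁻¹)) := by
      rw [← hab]; group
    rw [e1, e2]; group
  apply le_antisymm ?_ Subgroup.le_normalizer
  intro g hg
  obtain ⟨j, a', ha', hg'⟩ := hdec g
  have ha₂ : (h' ^ j)⁻¹ * g ∈ A := by
    have this : QuotientGroup.mk' A (h' ^ j) = QuotientGroup.mk' A g := by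
      rw [map_pow, hmkh', hg', map_mul, hmk a' ha', mul_one, map_pow]
    exact QuotientGroup.eq.1 this
  have hn₂ : (h' ^ j)⁻¹ * g ∈ Subgroup.normalizer (H : Set G) :=
    mul_mem (inv_mem (pow_mem (Subgroup.le_normalizer hh'H) j)) hg
  suffices key : ∀ a ∈ A, a ∈ Subgroup.normalizer (H : Set G) → a ∈ H by
    have h3 := key _ ha₂ hn₂
    have e : g = h' ^ j * ((h' ^ j)⁻¹ * g) := by group
    rw [e]; exact H.mul_mem (H.pow_mem hh'H j) h3
  intro a haA haN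
  let c : ↥(H ⊓ A) → ↥(H ⊓ A) := fun b => ⟨b.1 * (h' * b.1⁻¹ * h'⁻¹),
    ⟨H.mul_mem b.2.1 (H.mul_mem (H.mul_mem hh'H (H.inv_mem b.2.1)) (H.inv_mem hh'H)),
      A.mul_mem b.2.2 (hAn.conj_mem _ (A.inv_mem b.2.2) h')⟩⟩
  have hcinj' : Function.Injective c := fun b₁ b₂ h =>
    Subtype.ext (hcinj _ _ b₁.2.2 b₂.2.2 (congrArg Subtype.val h))
  have hcsurj := Finite.surjective_of_injective hcinj'
  have hca : a * (h' * a⁻¹ * h'⁻¹) ∈ H ⊓ A := by
    refine ⟨?_, A.mul_mem haA (hAn.conj_mem _ (A.inv_mem haA) h')⟩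
    have h1 : a * h' * a⁻¹ ∈ H := (Subgroup.mem_normalizer_iff.1 haN h').1 hh'H
    have e : a * (h' * a⁻¹ * h'⁻¹) = (a * h' * a⁻¹) * h'⁻¹ := by group
    rw [e]; exact H.mul_mem h1 (H.inv_mem hh'H)
  obtain ⟨b, hb⟩ := hcsurj ⟨_, hca⟩
  have h4 := hcinj b.1 a b.2.2 haA (congrArg Subtype.val hb)
  rw [← h4]; exact b.2.1

theorem h8_fix_comm_trivial {G : Type u} [Group G] (x b b' : G)
    (hb : b = b' * (x * b'⁻¹ * x⁻¹)) (hfix : x * b * x⁻¹ = b) (i : ℕ) :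
    x ^ i * b' * (x ^ i)⁻¹ = (b⁻¹) ^ i * b' := by
  induction i with
  | zero => simp
  | succ i ih =>
    have e1 : x * b' * x⁻¹ = b⁻¹ * b' := by
      rw [hb]; group
    have e2 : x * b⁻¹ * x⁻¹ = b⁻¹ := by
      have : x * b⁻¹ * x⁻¹ = (x * b * x⁻¹)⁻¹ := by group
      rw [this, hfix]
    have e3 : x ^ (i + 1) * b' * (x ^ (i + 1))⁻¹ = x * (x ^ i * b' * (x ^ i)⁻¹) * x⁻¹ := by
      rw [pow_succ']; group
    rw [e3, ih]
    have e4 : x * ((b⁻¹) ^ i * b') * x⁻¹ = (x * b⁻¹ * x⁻¹) ^ i * (x * b' * x⁻¹) := by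
      rw [conj_pow]; group
    rw [e4, e2, e1, pow_succ, mul_assoc]

theorem h8_s4071_mp {G : Type u} [Group G] [Finite G] [Group.IsSolvable G]
    (hnn : ¬ Group.IsNilpotent G)
    (hself : ∀ H : Subgroup G, ¬ IsMulCommutative H → Subgroup.normalizer (H : Set G) = H) :
    ∃ (x : G) (A : Subgroup G) (p : ℕ), p.Prime ∧ A.Normal ∧ IsMulCommutative A ∧
      (∃ k : ℕ, orderOf x = p ^ k) ∧
      ¬ p ∣ Nat.card A ∧ (Subgroup.zpowers x).IsComplement' A ∧ x ^ p ∈ Subgroup.center G ∧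
      ∀ a : G, a ∈ A → a ≠ 1 → x * a * x⁻¹ ≠ a := by
  have hnt : Nontrivial G := by
    by_contra h
    rw [not_nontrivial_iff_subsingleton] at h
    exact hnn inferInstance
  obtain ⟨M, hMn, hMp⟩ := Cfsg.Agent.Lib.Helper9.exists_normal_prime_index G
  obtain ⟨p, hp_def⟩ : ∃ p, p = M.index := ⟨_, rfl⟩
  rw [← hp_def] at hMp
  have hpF : Fact p.Prime := ⟨hMp⟩
  have hMc : IsMulCommutative M := by
    by_contra hM
    have h1 := hself M hM
    have h2 : M = ⊤ := by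
      rw [eq_top_iff]
      intro g _
      rw [← h1]
      exact Subgroup.mem_normalizer_iff.2 (fun h => ⟨fun hh => hMn.conj_mem h hh g, fun hh => by
        have := hMn.conj_mem _ hh g⁻¹
        simpa [mul_assoc] using this⟩)
    rw [h2, Subgroup.index_top] at hp_def
    rw [hp_def] at hMp
    exact Nat.not_prime_one hMp
  have hMcomm : ∀ a ∈ M, ∀ b ∈ M, a * b = b * a := fun a ha b hb =>
    congrArg Subtype.val (hMc.is_comm.comm ⟨a, ha⟩ ⟨b, hb⟩)
  obtain ⟨t, n, hpn, hcard⟩ :=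
    Nat.exists_eq_pow_mul_and_not_dvd (Nat.card_pos (α := G)).ne' p hMp.ne_one
  obtain ⟨A, hAmem⟩ : ∃ A : Subgroup G, ∀ g, g ∈ A ↔ g ∈ M ∧ g ^ n = 1 := by
    refine ⟨{ carrier := {g | g ∈ M ∧ g ^ n = 1}
              one_mem' := ⟨M.one_mem, one_pow n⟩
              mul_mem' := ?_
              inv_mem' := ?_ }, fun g => Iff.rfl⟩
    · rintro a b ⟨ha, ha'⟩ ⟨hb, hb'⟩
      refine ⟨M.mul_mem ha hb, ?_⟩
      rw [(show Commute a b from hMcomm a ha b hb).mul_pow, ha', hb', one_mul]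
    · rintro a ⟨ha, ha'⟩
      exact ⟨M.inv_mem ha, by rw [inv_pow, ha', inv_one]⟩
  have hAM : A ≤ M := fun g hg => ((hAmem g).1 hg).1
  have hAn : A.Normal := by
    constructor
    intro a ha g
    have ha' := (hAmem a).1 ha
    refine (hAmem _).2 ⟨hMn.conj_mem a ha'.1 g, ?_⟩
    rw [conj_pow, ha'.2, mul_one, mul_inv_cancel]
  have hAcomm : ∀ a ∈ A, ∀ b ∈ A, a * b = b * a := fun a ha b hb =>
    hMcomm a (hAM ha) b (hAM hb)
  have hAc : IsMulCommutative A := ⟨⟨fun a b => Subtype.ext (hAcomm a.1 a.2 b.1 b.2)⟩⟩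
  have hpA : ¬ p ∣ Nat.card A := by
    intro hdvd
    obtain ⟨a, ha⟩ := exists_prime_orderOf_dvd_card' p hdvd
    have h1 : a ^ n = 1 := Subtype.ext (by rw [Subgroup.coe_pow]; exact ((hAmem _).1 a.2).2)
    have h2 := orderOf_dvd_of_pow_eq_one h1
    rw [ha] at h2
    exact hpn h2
  have hpowM : ∀ g : G, g ^ p ∈ M := by
    intro g
    have h1 : (QuotientGroup.mk' M g) ^ p = 1 := by
      have := pow_card_eq_one' (G := G ⧸ M) (x := QuotientGroup.mk' M g)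
      rwa [← Subgroup.index_eq_card, ← hp_def] at this
    rw [← map_pow] at h1
    exact (QuotientGroup.eq_one_iff _).1 h1
  have hpowA : ∀ g : G, g ^ (p ^ (t + 1)) ∈ A := by
    intro g
    refine (hAmem _).2 ⟨?_, ?_⟩
    · rw [pow_succ', pow_mul]
      exact M.pow_mem (hpowM g) _
    · rw [← pow_mul, pow_succ, mul_assoc, mul_comm p, ← mul_assoc, ← hcard, pow_mul,
        pow_card_eq_one', one_pow]
  have hQA : IsPGroup p (G ⧸ A) := by
    intro g'
    obtain ⟨g, rfl⟩ := QuotientGroup.mk_surjective g'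
    refine ⟨t + 1, ?_⟩
    rw [← QuotientGroup.mk_pow]
    exact (QuotientGroup.eq_one_iff _).2 (hpowA g)
  obtain ⟨s, hs⟩ := IsPGroup.iff_card.1 hQA
  have hidx : Nat.card A * p ^ s = Nat.card G := by
    rw [← hs, ← Subgroup.index_eq_card]; exact A.card_mul_index
  obtain ⟨Q, hQ⟩ := Sylow.exists_subgroup_card_pow_prime p (n := s) (G := G)
    ⟨Nat.card A, by rw [← hidx, mul_comm]⟩
  have hcompl : Q.IsComplement' A := by
    apply Subgroup.isComplement'_of_coprime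
    · rw [hQ, mul_comm]; exact hidx
    · rw [hQ]; exact Nat.Coprime.pow_left s ((Nat.Prime.coprime_iff_not_dvd hMp).2 hpA)
  have hdisj : ∀ g, g ∈ Q → g ∈ A → g = 1 := fun g h1 h2 =>
    Subgroup.disjoint_def.1 hcompl.disjoint h1 h2
  have hdec : ∀ g : G, ∃ q ∈ Q, ∃ a ∈ A, g = q * a := by
    intro g
    obtain ⟨⟨u, a⟩, hua, -⟩ := Subgroup.isComplement_iff_existsUnique.1 hcompl g
    exact ⟨u.1, u.2, a.1, a.2, hua.symm⟩
  have hex : ∃ x ∈ Q, ∃ a₀ ∈ A, x * a₀ ≠ a₀ * x := by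
    by_contra hno
    push Not at hno
    apply hnn
    have hAZ : A ≤ Subgroup.center G := by
      intro a ha
      rw [Subgroup.mem_center_iff]
      intro g
      obtain ⟨q, hq, a', ha', rfl⟩ := hdec g
      calc q * a' * a = q * (a' * a) := by rw [mul_assoc]
        _ = q * (a * a') := by rw [hAcomm a' ha' a ha]
        _ = (q * a) * a' := by rw [mul_assoc]
        _ = (a * q) * a' := by rw [hno q hq a ha]
        _ = a * (q * a') := by rw [mul_assoc]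
    have hZ : IsPGroup p (G ⧸ Subgroup.center G) := by
      intro g'
      obtain ⟨g, rfl⟩ := QuotientGroup.mk_surjective g'
      refine ⟨t + 1, ?_⟩
      rw [← QuotientGroup.mk_pow]
      exact (QuotientGroup.eq_one_iff _).2 (hAZ (hpowA g))
    have := hZ.isNilpotent
    exact Group.of_quotient_center_nilpotent this
  obtain ⟨x, hxQ, a₀, ha₀, hxa₀⟩ := hex
  have hzQ : Subgroup.zpowers x ≤ Q := Subgroup.zpowers_le.2 hxQ
  have hQx : Q = Subgroup.zpowers x := by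
    by_contra hne
    have hHnc : ¬ IsMulCommutative (A ⊔ Subgroup.zpowers x : Subgroup G) := by
      intro hc
      apply hxa₀
      exact congrArg Subtype.val (hc.is_comm.comm
        ⟨x, (le_sup_right : Subgroup.zpowers x ≤ A ⊔ Subgroup.zpowers x) (Subgroup.mem_zpowers x)⟩
        ⟨a₀, (le_sup_left : A ≤ A ⊔ Subgroup.zpowers x) ha₀⟩)
    have hHN := hself _ hHnc
    have hQnil : Group.IsNilpotent Q := (IsPGroup.of_card hQ).isNilpotent
    have hZlt : (Subgroup.zpowers x).subgroupOf Q < ⊤ := by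
      rw [lt_top_iff_ne_top]
      intro h
      rw [Subgroup.subgroupOf_eq_top] at h
      exact hne (le_antisymm h hzQ)
    have hnc := Group.normalizerCondition_of_isNilpotent (G := Q) _ hZlt
    obtain ⟨y, hyN, hyZ⟩ := SetLike.exists_of_lt hnc
    have h1 : y.1 * x * y.1⁻¹ ∈ Subgroup.zpowers x := by
      have := (Subgroup.mem_normalizer_iff.1 hyN ⟨x, hxQ⟩).1
        (Subgroup.mem_subgroupOf.2 (Subgroup.mem_zpowers x))
      exact Subgroup.mem_subgroupOf.1 this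
    have hconjH : ∀ h ∈ (A ⊔ Subgroup.zpowers x : Subgroup G),
        y.1 * h * y.1⁻¹ ∈ (A ⊔ Subgroup.zpowers x : Subgroup G) := by
      have hle : (A ⊔ Subgroup.zpowers x : Subgroup G) ≤
          (A ⊔ Subgroup.zpowers x : Subgroup G).comap (MulAut.conj y.1).toMonoidHom := by
        apply sup_le
        · intro a ha
          exact Subgroup.mem_comap.2
            ((le_sup_left : A ≤ A ⊔ Subgroup.zpowers x) (hAn.conj_mem a ha y.1))
        · apply Subgroup.zpowers_le.2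
          exact Subgroup.mem_comap.2
            ((le_sup_right : Subgroup.zpowers x ≤ A ⊔ Subgroup.zpowers x) h1)
      intro h hh
      exact Subgroup.mem_comap.1 (hle hh)
    have hyNH : y.1 ∈ Subgroup.normalizer ((A ⊔ Subgroup.zpowers x : Subgroup G) : Set G) :=
      Subgroup.mem_normalizer_iff.2 (fun h => (h8_conj_mem_iff y.1 _ hconjH h).symm)
    rw [hHN] at hyNH
    have hyS : y.1 ∈ ((A ⊔ Subgroup.zpowers x : Subgroup G) : Set G) := hyNH
    rw [Subgroup.normal_mul] at hyS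
    obtain ⟨a, ha, z, hz, haz⟩ := Set.mem_mul.1 hyS
    have ha1 : a = 1 := by
      apply hdisj a _ ha
      have : a = y.1 * z⁻¹ := by rw [← haz]; group
      rw [this]
      exact Q.mul_mem y.2 (Q.inv_mem (hzQ hz))
    apply hyZ
    rw [Subgroup.mem_subgroupOf, ← haz, ha1, one_mul]
    exact hz
  subst hQx
  have hord : orderOf x = p ^ s := by
    rw [← hQ, Nat.card_zpowers]
  have hxpM : x ^ p ∈ M := hpowM x
  have hxpc : x ^ p ∈ Subgroup.center G := by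
    rw [Subgroup.mem_center_iff]
    intro g
    obtain ⟨q, hq, a, ha, rfl⟩ := hdec g
    obtain ⟨j, rfl⟩ := Subgroup.mem_zpowers_iff.1 hq
    have c1 : x ^ j * x ^ p = x ^ p * x ^ j := (((Commute.refl x).zpow_left j).pow_right p).eq
    have c2 : a * x ^ p = x ^ p * a := hMcomm a (hAM ha) _ hxpM
    calc x ^ j * a * x ^ p = x ^ j * (a * x ^ p) := by rw [mul_assoc]
      _ = x ^ j * (x ^ p * a) := by rw [c2]
      _ = (x ^ j * x ^ p) * a := by rw [mul_assoc]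
      _ = (x ^ p * x ^ j) * a := by rw [c1]
      _ = x ^ p * (x ^ j * a) := by rw [mul_assoc]
  have hfpf : ∀ a : G, a ∈ A → a ≠ 1 → x * a * x⁻¹ ≠ a := by
    intro a ha ha1 hfix
    obtain ⟨K, hKmem⟩ : ∃ K : Subgroup G, ∀ c, c ∈ K ↔ ∃ b ∈ A, c = b * (x * b⁻¹ * x⁻¹) := by
      refine ⟨{ carrier := {c | ∃ b ∈ A, c = b * (x * b⁻¹ * x⁻¹)}
                one_mem' := ⟨1, A.one_mem, by group⟩
                mul_mem' := ?_
                inv_mem' := ?_ }, fun c => Iff.rfl⟩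
      · rintro _ _ ⟨b₁, hb₁, rfl⟩ ⟨b₂, hb₂, rfl⟩
        refine ⟨b₁ * b₂, A.mul_mem hb₁ hb₂, ?_⟩
        have hc₁ : x * b₁⁻¹ * x⁻¹ ∈ A := hAn.conj_mem _ (A.inv_mem hb₁) x
        have hc₂ : x * b₂⁻¹ * x⁻¹ ∈ A := hAn.conj_mem _ (A.inv_mem hb₂) x
        have e := hAcomm _ hc₁ _ (A.mul_mem hb₂ hc₂)
        calc b₁ * (x * b₁⁻¹ * x⁻¹) * (b₂ * (x * b₂⁻¹ * x⁻¹))
            = b₁ * ((x * b₁⁻¹ * x⁻¹) * (b₂ * (x * b₂⁻¹ * x⁻¹))) := by rw [mul_assoc]
          _ = b₁ * ((b₂ * (x * b₂⁻¹ * x⁻¹)) * (x * b₁⁻¹ * x⁻¹)) := by rw [e]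
          _ = b₁ * b₂ * (x * (b₁ * b₂)⁻¹ * x⁻¹) := by group
      · rintro _ ⟨b, hb, rfl⟩
        refine ⟨b⁻¹, A.inv_mem hb, ?_⟩
        have hc : x * b * x⁻¹ ∈ A := hAn.conj_mem _ hb x
        have e := hAcomm _ hc _ (A.inv_mem hb)
        calc (b * (x * b⁻¹ * x⁻¹))⁻¹ = (x * b * x⁻¹) * b⁻¹ := by group
          _ = b⁻¹ * (x * b * x⁻¹) := e
          _ = b⁻¹ * (x * b⁻¹⁻¹ * x⁻¹) := by rw [inv_inv]
    have hKA : K ≤ A := by
      intro c hc
      obtain ⟨b, hb, rfl⟩ := (hKmem c).1 hc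
      exact A.mul_mem hb (hAn.conj_mem _ (A.inv_mem hb) x)
    have hKx : ∀ c ∈ K, x * c * x⁻¹ ∈ K := by
      intro c hc
      obtain ⟨b, hb, rfl⟩ := (hKmem c).1 hc
      exact (hKmem _).2 ⟨x * b * x⁻¹, hAn.conj_mem _ hb x, by group⟩
    have hKfix : ∀ c ∈ K, x * c * x⁻¹ = c → c = 1 := by
      intro c hc hcfix
      obtain ⟨b, hb, hcb⟩ := (hKmem c).1 hc
      have h1 := h8_fix_comm_trivial x c b hcb hcfix (orderOf x)
      rw [pow_orderOf_eq_one, one_mul, inv_one, mul_one] at h1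
      have h2 : c⁻¹ ^ orderOf x = 1 := by
        have : c⁻¹ ^ orderOf x * b = 1 * b := by rw [one_mul]; exact h1.symm
        exact mul_right_cancel this
      have h3 : c ^ orderOf x = 1 := by rwa [inv_pow, inv_eq_one] at h2
      have h4 : c ^ Nat.card A = 1 :=
        orderOf_dvd_iff_pow_eq_one.1 (A.orderOf_dvd_natCard (hKA hc))
      have h5 := pow_gcd_eq_one.2 ⟨h3, h4⟩
      rw [hord] at h5
      have h6 : Nat.gcd (p ^ s) (Nat.card A) = 1 :=
        Nat.Coprime.pow_left s ((Nat.Prime.coprime_iff_not_dvd hMp).2 hpA)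
      rwa [h6, pow_one] at h5
    have hzN : Subgroup.zpowers x ≤ Subgroup.normalizer (K : Set G) := by
      apply Subgroup.zpowers_le.2
      exact Subgroup.mem_normalizer_iff.2 (fun c => (h8_conj_mem_iff x K hKx c).symm)
    have hHnc : ¬ IsMulCommutative (Subgroup.zpowers x ⊔ K : Subgroup G) := by
      intro hc
      have hk₀ : a₀ * (x * a₀⁻¹ * x⁻¹) ∈ K := (hKmem _).2 ⟨a₀, ha₀, rfl⟩
      have e := congrArg Subtype.val (hc.is_comm.comm
        ⟨x, (le_sup_left : Subgroup.zpowers x ≤ Subgroup.zpowers x ⊔ K) (Subgroup.mem_zpowers x)⟩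
        ⟨_, (le_sup_right : K ≤ Subgroup.zpowers x ⊔ K) hk₀⟩)
      have e' : x * (a₀ * (x * a₀⁻¹ * x⁻¹)) = (a₀ * (x * a₀⁻¹ * x⁻¹)) * x := e
      have h1 : x * (a₀ * (x * a₀⁻¹ * x⁻¹)) * x⁻¹ = a₀ * (x * a₀⁻¹ * x⁻¹) := by
        rw [e']; group
      have h2 := hKfix _ hk₀ h1
      apply hxa₀
      have : x * a₀ = (a₀ * (x * a₀⁻¹ * x⁻¹))⁻¹ * a₀ * x := by group
      rw [this, h2, inv_one, one_mul]
    have hHN := hself _ hHnc
    have hacent : ∀ g : G, a * g * a⁻¹ = g := by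
      intro g
      obtain ⟨q, hq, a', ha', rfl⟩ := hdec g
      obtain ⟨j, rfl⟩ := Subgroup.mem_zpowers_iff.1 hq
      have c0 : x * a = a * x := by
        have : x * a = (x * a * x⁻¹) * x := by group
        rw [this, hfix]
      have c1 : a * x ^ j = x ^ j * a := ((Commute.zpow_left (show Commute x a from c0) j).eq).symm
      have c2 : a * a' = a' * a := hAcomm a ha a' ha'
      calc a * (x ^ j * a') * a⁻¹ = (a * x ^ j) * a' * a⁻¹ := by group
        _ = (x ^ j * a) * a' * a⁻¹ := by rw [c1]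
        _ = x ^ j * (a * a') * a⁻¹ := by group
        _ = x ^ j * (a' * a) * a⁻¹ := by rw [c2]
        _ = x ^ j * a' := by group
    have haN : a ∈ Subgroup.normalizer ((Subgroup.zpowers x ⊔ K : Subgroup G) : Set G) :=
      Subgroup.mem_normalizer_iff.2 (fun h => by rw [hacent h])
    rw [hHN] at haN
    have haS : a ∈ ((Subgroup.zpowers x ⊔ K : Subgroup G) : Set G) := haN
    rw [Subgroup.coe_mul_of_left_le_normalizer_right _ _ hzN] at haS
    obtain ⟨z, hz, c, hc, hzc⟩ := Set.mem_mul.1 haS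
    have hz1 : z = 1 := by
      apply hdisj z hz
      have : z = a * c⁻¹ := by rw [← hzc]; group
      rw [this]
      exact A.mul_mem ha (A.inv_mem (hKA hc))
    rw [hz1, one_mul] at hzc
    apply ha1
    rw [← hzc]
    apply hKfix c hc
    rw [hzc]; exact hfix
  exact ⟨x, A, p, hMp, hAn, hAc, ⟨s, hord⟩, hpA, hcompl, hxpc, hfpf⟩

theorem h8_s4071 {G : Type u} [Group G] [Finite G] [Group.IsSolvable G]
    (hnn : ¬ Group.IsNilpotent G) :
    (∀ H : Subgroup G, ¬ IsMulCommutative H → Subgroup.normalizer (H : Set G) = H) ↔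
    ∃ (x : G) (A : Subgroup G) (p : ℕ), p.Prime ∧ A.Normal ∧ IsMulCommutative A ∧
      (∃ k : ℕ, orderOf x = p ^ k) ∧
      ¬ p ∣ Nat.card A ∧ (Subgroup.zpowers x).IsComplement' A ∧ x ^ p ∈ Subgroup.center G ∧
      ∀ a : G, a ∈ A → a ≠ 1 → x * a * x⁻¹ ≠ a :=
  ⟨h8_s4071_mp hnn, fun ⟨x, A, p, hp, hAn, hAc, ⟨k, hx⟩, _, hcompl, hxp, hfpf⟩ H hH =>
    h8_s4071_mpr x A p hp hAn hAc k hx hcompl hxp hfpf H hH⟩

end Cfsg.Agent.Lib.Helper8
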