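import Mathlib

/-! Splitting of `p^2 : SL_2(p)` via the central involution. -/

set_option autoImplicit false

namespace Cfsg.Agent.Lib.Helper8

universe u v

theorem h8_conj_comm_of_card_prime {N : Type u} [Group N] {p : ℕ} [Fact p.Prime] (K : Subgroup N)
    [K.Normal] (hK : Nat.card K = p) (g h : N) :
    ∀ x ∈ K, (g * h) * x * (g * h)⁻¹ = (h * g) * x * (h * g)⁻¹ := by
  have hp : p.Prime := Fact.out
  have hfin : Finite K := Nat.finite_of_card_ne_zero (by rw [hK]; exact hp.ne_zero)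
  obtain ⟨z₀, hz₀K, hz₀1⟩ : ∃ z₀ ∈ K, z₀ ≠ 1 := by
    by_contra hcon
    push Not at hcon
    have : K = ⊥ := (Subgroup.eq_bot_iff_forall K).2 hcon
    rw [this, Subgroup.card_bot] at hK
    exact hp.one_lt.ne hK
  have ho : orderOf z₀ = p := by
    have h1 : orderOf z₀ ∣ p := by
      have h2 : orderOf (⟨z₀, hz₀K⟩ : K) ∣ Nat.card K := orderOf_dvd_natCard _
      rw [hK] at h2
      rwa [← Subgroup.orderOf_coe] at h2
    rcases (Nat.dvd_prime hp).1 h1 with h2 | h2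
    · exact absurd (orderOf_eq_one_iff.1 h2) hz₀1
    · exact h2
  have hKz : Subgroup.zpowers z₀ = K :=
    Subgroup.eq_of_le_of_card_ge (Subgroup.zpowers_le.2 hz₀K) (by rw [Nat.card_zpowers, ho, hK])
  have hn : (Subgroup.zpowers z₀).Normal := by rw [hKz]; infer_instance
  obtain ⟨i, hi⟩ := Subgroup.mem_zpowers_iff.1 (hn.conj_mem z₀ (Subgroup.mem_zpowers z₀) g)
  obtain ⟨j, hj⟩ := Subgroup.mem_zpowers_iff.1 (hn.conj_mem z₀ (Subgroup.mem_zpowers z₀) h)
  have h1 : (g * h) * z₀ * (g * h)⁻¹ = z₀ ^ (i * j) := by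
    calc (g * h) * z₀ * (g * h)⁻¹ = g * (h * z₀ * h⁻¹) * g⁻¹ := by group
      _ = g * z₀ ^ j * g⁻¹ := by rw [hj]
      _ = (g * z₀ * g⁻¹) ^ j := conj_zpow.symm
      _ = z₀ ^ (i * j) := by rw [← hi, ← zpow_mul]
  have h2 : (h * g) * z₀ * (h * g)⁻¹ = z₀ ^ (i * j) := by
    calc (h * g) * z₀ * (h * g)⁻¹ = h * (g * z₀ * g⁻¹) * h⁻¹ := by group
      _ = h * z₀ ^ i * h⁻¹ := by rw [hi]
      _ = (h * z₀ * h⁻¹) ^ i := conj_zpow.symm
      _ = z₀ ^ (i * j) := by rw [← hj, ← zpow_mul, mul_comm]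
  intro x hx
  rw [← hKz] at hx
  obtain ⟨k, rfl⟩ := Subgroup.mem_zpowers_iff.1 hx
  rw [← conj_zpow, ← conj_zpow, h1, h2]

theorem h8_split_inversion {N : Type u} [Group N] [Finite N] {p : ℕ} [Fact p.Prime] (hp : p ≠ 2)
    (A : Subgroup N) [hAn : A.Normal] (hAcomm : ∀ x ∈ A, ∀ y ∈ A, x * y = y * x)
    (hAcard : Nat.card A = p ^ 2) (hAexp : ∀ x ∈ A, x ^ p = 1)
    (hAself : Subgroup.centralizer (A : Set N) = A)
    (t : N) (ht2 : t ^ 2 = 1) (htA : t ∉ A) (htc : ∀ g : N, g * t * g⁻¹ * t⁻¹ ∈ A)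
    (hna : ∃ g h : N, (h * g)⁻¹ * (g * h) ∉ A) :
    ∃ U : Subgroup N, A ⊓ U = ⊥ ∧ A ⊔ U = ⊤ := by
  have hpp : p.Prime := Fact.out
  have hodd : Odd p := hpp.odd_of_ne_two hp
  obtain ⟨m, hm⟩ := hodd
  have hsq : ∀ x ∈ A, (x ^ (m + 1)) ^ 2 = x := by
    intro x hx
    rw [← pow_mul]
    have : (m + 1) * 2 = p + 1 := by omega
    rw [this, pow_succ, hAexp x hx, one_mul]
  have hsq1 : ∀ x ∈ A, x * x = 1 → x = 1 := by
    intro x hx hxx
    have h1 := hsq x hx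
    rw [← pow_mul, mul_comm, pow_mul, pow_two, hxx, one_pow] at h1
    exact h1.symm
  have htt : t * t = 1 := by rw [← pow_two]; exact ht2
  have htinv : t⁻¹ = t := inv_eq_of_mul_eq_one_left htt
  have hττ : ∀ x : N, t * (t * x * t⁻¹) * t⁻¹ = x := by
    intro x
    calc t * (t * x * t⁻¹) * t⁻¹ = (t * t) * x * (t * t)⁻¹ := by group
      _ = x := by rw [htt]; group
  have hτA : ∀ x ∈ A, t * x * t⁻¹ ∈ A := fun x hx => hAn.conj_mem x hx t
  have hKI : ∀ (g : N), ∀ x ∈ A, t * (g * x * g⁻¹) * t⁻¹ = g * (t * x * t⁻¹) * g⁻¹ := by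
    intro g x hx
    obtain ⟨a, ha⟩ : ∃ a, a = g⁻¹ * t * g * t⁻¹ := ⟨_, rfl⟩
    have haA : a ∈ A := by
      have := htc g⁻¹
      rw [inv_inv] at this
      rw [ha]; exact this
    have h1 : t * g = g * a * t := by rw [ha]; group
    have h2 : a * (t * x * t⁻¹) = (t * x * t⁻¹) * a := hAcomm a haA _ (hτA x hx)
    calc t * (g * x * g⁻¹) * t⁻¹ = (t * g) * x * (t * g)⁻¹ := by group
      _ = (g * a * t) * x * (g * a * t)⁻¹ := by rw [h1]
      _ = g * (a * (t * x * t⁻¹)) * a⁻¹ * g⁻¹ := by group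
      _ = g * ((t * x * t⁻¹) * a) * a⁻¹ * g⁻¹ := by rw [h2]
      _ = g * (t * x * t⁻¹) * g⁻¹ := by group
  -- the main claim: t inverts A
  have hinv : ∀ x ∈ A, t * x * t⁻¹ = x⁻¹ := by
    by_contra hcon
    push Not at hcon
    obtain ⟨x₀, hx₀A, hx₀⟩ := hcon
    obtain ⟨Z, hZ⟩ : ∃ Z : Subgroup N, ∀ x, x ∈ Z ↔ x ∈ A ∧ t * x * t⁻¹ = x :=
      ⟨{ carrier := {x | x ∈ A ∧ t * x * t⁻¹ = x}
         one_mem' := ⟨A.one_mem, by group⟩
         mul_mem' := by
           rintro x y ⟨hx, hx'⟩ ⟨hy, hy'⟩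
           refine ⟨A.mul_mem hx hy, ?_⟩
           calc t * (x * y) * t⁻¹ = (t * x * t⁻¹) * (t * y * t⁻¹) := by group
             _ = x * y := by rw [hx', hy']
         inv_mem' := by
           rintro x ⟨hx, hx'⟩
           refine ⟨A.inv_mem hx, ?_⟩
           calc t * x⁻¹ * t⁻¹ = (t * x * t⁻¹)⁻¹ := by group
             _ = x⁻¹ := by rw [hx'] }, fun x => Iff.rfl⟩
    obtain ⟨D, hD⟩ : ∃ D : Subgroup N, ∀ x, x ∈ D ↔ x ∈ A ∧ t * x * t⁻¹ = x⁻¹ :=
      ⟨{ carrier := {x | x ∈ A ∧ t * x * t⁻¹ = x⁻¹}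
         one_mem' := ⟨A.one_mem, by group⟩
         mul_mem' := by
           rintro x y ⟨hx, hx'⟩ ⟨hy, hy'⟩
           refine ⟨A.mul_mem hx hy, ?_⟩
           calc t * (x * y) * t⁻¹ = (t * x * t⁻¹) * (t * y * t⁻¹) := by group
             _ = x⁻¹ * y⁻¹ := by rw [hx', hy']
             _ = y⁻¹ * x⁻¹ := hAcomm _ (A.inv_mem hx) _ (A.inv_mem hy)
             _ = (x * y)⁻¹ := by group
         inv_mem' := by
           rintro x ⟨hx, hx'⟩
           refine ⟨A.inv_mem hx, ?_⟩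
           calc t * x⁻¹ * t⁻¹ = (t * x * t⁻¹)⁻¹ := by group
             _ = x⁻¹⁻¹ := by rw [hx'] }, fun x => Iff.rfl⟩
    have hZA : Z ≤ A := fun x hx => ((hZ x).1 hx).1
    have hDA : D ≤ A := fun x hx => ((hD x).1 hx).1
    have hZn : Z.Normal := by
      refine ⟨fun x hx g => ?_⟩
      obtain ⟨hxA, hx'⟩ := (hZ x).1 hx
      exact (hZ _).2 ⟨hAn.conj_mem x hxA g, by rw [hKI g x hxA, hx']⟩
    have hDn : D.Normal := by
      refine ⟨fun x hx g => ?_⟩
      obtain ⟨hxA, hx'⟩ := (hD x).1 hx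
      exact (hD _).2 ⟨hAn.conj_mem x hxA g, by rw [hKI g x hxA, hx']; group⟩
    have hZD : ∀ x, x ∈ Z → x ∈ D → x = 1 := by
      intro x hxZ hxD
      obtain ⟨hxA, h1⟩ := (hZ x).1 hxZ
      obtain ⟨-, h2⟩ := (hD x).1 hxD
      have h3 : x = x⁻¹ := h1.symm.trans h2
      exact hsq1 x hxA (by nth_rewrite 1 [h3]; exact inv_mul_cancel x)
    -- decomposition
    have hdec : ∀ x ∈ A, ∃ u ∈ Z, ∃ v ∈ D, x = u * v := by
      intro x hx
      have hτx := hτA x hx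
      have hc : x * (t * x * t⁻¹) = (t * x * t⁻¹) * x := hAcomm x hx _ hτx
      refine ⟨(x * (t * x * t⁻¹)) ^ (m + 1), ?_, (x * (t * x * t⁻¹)⁻¹) ^ (m + 1), ?_, ?_⟩
      · apply Z.pow_mem
        refine (hZ _).2 ⟨A.mul_mem hx hτx, ?_⟩
        calc t * (x * (t * x * t⁻¹)) * t⁻¹ = (t * x * t⁻¹) * (t * (t * x * t⁻¹) * t⁻¹) := by group
          _ = (t * x * t⁻¹) * x := by rw [hττ]
          _ = x * (t * x * t⁻¹) := hc.symm
      · apply D.pow_mem
        refine (hD _).2 ⟨A.mul_mem hx (A.inv_mem hτx), ?_⟩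
        calc t * (x * (t * x * t⁻¹)⁻¹) * t⁻¹
            = (t * x * t⁻¹) * (t * (t * x * t⁻¹) * t⁻¹)⁻¹ := by group
          _ = (t * x * t⁻¹) * x⁻¹ := by rw [hττ]
          _ = x⁻¹ * (t * x * t⁻¹) := hAcomm _ hτx _ (A.inv_mem hx)
          _ = (x * (t * x * t⁻¹)⁻¹)⁻¹ := by
            rw [mul_inv_rev, inv_inv]
            exact (hAcomm _ hτx _ (A.inv_mem hx)).symm
      · have hcomm : Commute (x * (t * x * t⁻¹)) (x * (t * x * t⁻¹)⁻¹) :=
          hAcomm _ (A.mul_mem hx hτx) _ (A.mul_mem hx (A.inv_mem hτx))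
        rw [← hcomm.mul_pow]
        have h1 : x * (t * x * t⁻¹) * (x * (t * x * t⁻¹)⁻¹) = x ^ 2 := by
          calc x * (t * x * t⁻¹) * (x * (t * x * t⁻¹)⁻¹)
              = x * ((t * x * t⁻¹) * x) * (t * x * t⁻¹)⁻¹ := by group
            _ = x * (x * (t * x * t⁻¹)) * (t * x * t⁻¹)⁻¹ := by rw [hc]
            _ = x ^ 2 := by rw [pow_two]; group
        rw [h1, ← pow_mul, mul_comm, pow_mul]
        exact (hsq x hx).symm
    -- Z ≠ ⊥
    have hZ1 : Z ≠ ⊥ := by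
      intro h
      apply hx₀
      have hτx := hτA x₀ hx₀A
      have h1 : x₀ * (t * x₀ * t⁻¹) ∈ Z := by
        refine (hZ _).2 ⟨A.mul_mem hx₀A hτx, ?_⟩
        calc t * (x₀ * (t * x₀ * t⁻¹)) * t⁻¹
            = (t * x₀ * t⁻¹) * (t * (t * x₀ * t⁻¹) * t⁻¹) := by group
          _ = (t * x₀ * t⁻¹) * x₀ := by rw [hττ]
          _ = x₀ * (t * x₀ * t⁻¹) := (hAcomm x₀ hx₀A _ hτx).symm
      rw [h, Subgroup.mem_bot] at h1
      exact (eq_inv_of_mul_eq_one_right h1)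
    have hZneA : Z ≠ A := by
      intro h
      apply htA
      rw [← hAself, Subgroup.mem_centralizer_iff]
      intro x hx
      have hx' : x ∈ Z := by rw [h]; exact hx
      have h1 := ((hZ x).1 hx').2
      calc x * t = (t * x * t⁻¹) * t := by rw [h1]
        _ = t * x := by group
    have hcardZ : Nat.card Z = p := by
      obtain ⟨j, hj2, hj⟩ := (Nat.dvd_prime_pow hpp).1
        (show Nat.card Z ∣ p ^ 2 by rw [← hAcard]; exact Subgroup.card_dvd_of_le hZA)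
      rcases (by omega : j = 0 ∨ j = 1 ∨ j = 2) with rfl | rfl | rfl
      · rw [pow_zero] at hj; exact absurd (Subgroup.card_eq_one.1 hj) hZ1
      · rw [hj, pow_one]
      · exact absurd (Subgroup.eq_of_le_of_card_ge hZA (by rw [hj, hAcard])) hZneA
    have hD1 : D ≠ ⊥ := by
      intro h
      apply hZneA
      apply le_antisymm hZA
      intro x hx
      obtain ⟨u, hu, v, hv, rfl⟩ := hdec x hx
      rw [h, Subgroup.mem_bot] at hv
      rw [hv, mul_one]; exact hu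
    have hDneA : D ≠ A := by
      intro h
      apply hZ1
      rw [Subgroup.eq_bot_iff_forall]
      intro x hx
      exact hZD x hx (by rw [h]; exact hZA hx)
    have hcardD : Nat.card D = p := by
      obtain ⟨j, hj2, hj⟩ := (Nat.dvd_prime_pow hpp).1
        (show Nat.card D ∣ p ^ 2 by rw [← hAcard]; exact Subgroup.card_dvd_of_le hDA)
      rcases (by omega : j = 0 ∨ j = 1 ∨ j = 2) with rfl | rfl | rfl
      · rw [pow_zero] at hj; exact absurd (Subgroup.card_eq_one.1 hj) hD1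
      · rw [hj, pow_one]
      · exact absurd (Subgroup.eq_of_le_of_card_ge hDA (by rw [hj, hAcard])) hDneA
    obtain ⟨g, h, hgh⟩ := hna
    apply hgh
    rw [← hAself, Subgroup.mem_centralizer_iff]
    have hcen : ∀ (K : Subgroup N), K.Normal → Nat.card K = p → ∀ x ∈ K,
        x * ((h * g)⁻¹ * (g * h)) = (h * g)⁻¹ * (g * h) * x := by
      intro K hKn hKc x hx
      have h1 := h8_conj_comm_of_card_prime K hKc g h x hx
      calc x * ((h * g)⁻¹ * (g * h))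
          = (h * g)⁻¹ * ((h * g) * x * (h * g)⁻¹) * (g * h) := by group
        _ = (h * g)⁻¹ * ((g * h) * x * (g * h)⁻¹) * (g * h) := by rw [h1]
        _ = (h * g)⁻¹ * (g * h) * x := by group
    intro x hx
    obtain ⟨u, hu, v, hv, rfl⟩ := hdec x hx
    have h1 := hcen Z hZn hcardZ u hu
    have h2 := hcen D hDn hcardD v hv
    calc u * v * ((h * g)⁻¹ * (g * h)) = u * (v * ((h * g)⁻¹ * (g * h))) := by group
      _ = u * ((h * g)⁻¹ * (g * h) * v) := by rw [h2]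
      _ = (u * ((h * g)⁻¹ * (g * h))) * v := by group
      _ = ((h * g)⁻¹ * (g * h) * u) * v := by rw [h1]
      _ = (h * g)⁻¹ * (g * h) * (u * v) := by group
  refine ⟨Subgroup.centralizer ({t} : Set N), ?_, ?_⟩
  · rw [Subgroup.eq_bot_iff_forall]
    intro x hx
    obtain ⟨hxA, hxC⟩ := Subgroup.mem_inf.1 hx
    have h1 : t * x = x * t := Subgroup.mem_centralizer_iff.1 hxC t rfl
    have h2 : t * x * t⁻¹ = x := by rw [h1]; group
    have h3 : x = x⁻¹ := h2.symm.trans (hinv x hxA)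
    exact hsq1 x hxA (by nth_rewrite 1 [h3]; exact inv_mul_cancel x)
  · rw [eq_top_iff]
    intro g _
    obtain ⟨a, ha⟩ : ∃ a, a = g * t * g⁻¹ * t⁻¹ := ⟨_, rfl⟩
    have haA : a ∈ A := by rw [ha]; exact htc g
    obtain ⟨b, hb⟩ : ∃ b, b = a ^ (m + 1) := ⟨_, rfl⟩
    have hbA : b ∈ A := by rw [hb]; exact A.pow_mem haA _
    have hb2 : b * b = a := by rw [← pow_two, hb]; exact hsq a haA
    have hbt : t * b * t⁻¹ = b⁻¹ := hinv b hbA
    have hmem : b⁻¹ * g ∈ Subgroup.centralizer ({t} : Set N) := by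
      rw [Subgroup.mem_centralizer_iff]
      intro y hy
      rw [Set.mem_singleton_iff] at hy
      rw [hy]
      have h1 : g * t = a * t * g := by rw [ha]; group
      have h2 : t * b⁻¹ = b * t := by
        calc t * b⁻¹ = (t * b * t⁻¹)⁻¹ * t := by group
          _ = b * t := by rw [hbt, inv_inv]
      calc t * (b⁻¹ * g) = (t * b⁻¹) * g := by group
        _ = b * t * g := by rw [h2]
        _ = b⁻¹ * (b * b) * t * g := by group
        _ = b⁻¹ * (a * t * g) := by rw [hb2]; group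
        _ = b⁻¹ * g * t := by rw [← h1]; group
    have hg : g = b * (b⁻¹ * g) := by group
    rw [hg]
    exact Subgroup.mul_mem_sup hbA hmem

theorem h8_s3075 {N : Type u} [Group N] [Finite N] {p : ℕ} [Fact p.Prime] (hp : p ≠ 2)
    (A : Subgroup N) [A.Normal] (hAcomm : IsMulCommutative A) (hAcard : Nat.card A = p ^ 2)
    (hAexp : Monoid.exponent ↥A = p)
    (hAself : Subgroup.centralizer (A : Set N) = A)
    {F : Type v} [Field F] [Fintype F] (hF : Fintype.card F = p)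
    (e : N ⧸ A ≃* Matrix.SpecialLinearGroup (Fin 2) F) :
    ∃ U : Subgroup N, A ⊓ U = ⊥ ∧ A ⊔ U = ⊤ := by
  have hpp : p.Prime := Fact.out
  have hodd : Odd p := hpp.odd_of_ne_two hp
  have h2F : (1 : F) + 1 ≠ 0 := by
    intro h
    have h1 : addOrderOf (1 : F) ∣ 2 :=
      addOrderOf_dvd_of_nsmul_eq_zero (by rw [two_nsmul]; exact h)
    have h2 : addOrderOf (1 : F) ∣ p := by rw [← hF]; exact addOrderOf_dvd_card
    have h3 : addOrderOf (1 : F) ∣ 1 := by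
      have := Nat.dvd_gcd h1 h2
      rwa [Nat.Coprime.gcd_eq_one ((Nat.coprime_primes Nat.prime_two hpp).2 (Ne.symm hp))] at this
    exact one_ne_zero (AddMonoid.addOrderOf_eq_one_iff.1 (Nat.dvd_one.1 h3))
  obtain ⟨s, hs⟩ : ∃ s : Matrix.SpecialLinearGroup (Fin 2) F, s.1 = -1 :=
    ⟨⟨-1, by simp [Matrix.det_neg]⟩, rfl⟩
  have hs1 : s ≠ 1 := by
    intro h
    have h1 : s.1 0 0 = (1 : Matrix.SpecialLinearGroup (Fin 2) F).1 0 0 := by rw [h]
    rw [hs] at h1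
    simp at h1
    apply h2F
    linear_combination (-1 : F) * h1
  have hss : s * s = 1 := by
    apply Subtype.ext
    rw [Matrix.SpecialLinearGroup.coe_mul, hs]; simp
  have hsc : ∀ g : Matrix.SpecialLinearGroup (Fin 2) F, g * s = s * g := by
    intro g
    apply Subtype.ext
    rw [Matrix.SpecialLinearGroup.coe_mul, Matrix.SpecialLinearGroup.coe_mul, hs]; simp
  obtain ⟨σ, hσ⟩ : ∃ σ : N ⧸ A, σ = e.symm s := ⟨_, rfl⟩
  have hσ1 : σ ≠ 1 := by
    intro h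
    apply hs1
    have := congrArg e h
    rwa [hσ, e.apply_symm_apply, map_one] at this
  have hσσ : σ * σ = 1 := by rw [hσ, ← map_mul, hss, map_one]
  have hσc : ∀ y : N ⧸ A, y * σ = σ * y := by
    intro y
    apply e.injective
    rw [map_mul, map_mul, hσ, e.apply_symm_apply]
    exact hsc (e y)
  obtain ⟨t₀, ht₀⟩ := QuotientGroup.mk'_surjective A σ
  obtain ⟨m, hm⟩ := hodd
  have hσp : σ ^ p = σ := by
    rw [hm, pow_succ, pow_mul, pow_two, hσσ, one_pow, one_mul]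
  have hAe : ∀ x ∈ A, x ^ p = 1 := by
    intro x hx
    have h1 : (⟨x, hx⟩ : A) ^ p = 1 := by rw [← hAexp]; exact Monoid.pow_exponent_eq_one _
    simpa using congrArg Subtype.val h1
  have hAc : ∀ x ∈ A, ∀ y ∈ A, x * y = y * x := by
    intro x hx y hy
    have := hAcomm.is_comm.comm ⟨x, hx⟩ ⟨y, hy⟩
    exact congrArg Subtype.val this
  have ht : QuotientGroup.mk' A (t₀ ^ p) = σ := by rw [map_pow, ht₀, hσp]
  have ht2 : (t₀ ^ p) ^ 2 = 1 := by
    have h1 : t₀ ^ 2 ∈ A := by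
      apply (QuotientGroup.eq_one_iff _).1
      have : QuotientGroup.mk' A (t₀ ^ 2) = 1 := by rw [map_pow, ht₀, pow_two, hσσ]
      exact this
    rw [← pow_mul, mul_comm, pow_mul]
    exact hAe _ h1
  have htA : t₀ ^ p ∉ A := by
    intro h
    apply hσ1
    rw [← ht]
    exact (QuotientGroup.eq_one_iff _).2 h
  have htc : ∀ g : N, g * t₀ ^ p * g⁻¹ * (t₀ ^ p)⁻¹ ∈ A := by
    intro g
    apply (QuotientGroup.eq_one_iff _).1
    have : QuotientGroup.mk' A (g * t₀ ^ p * g⁻¹ * (t₀ ^ p)⁻¹) = 1 := by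
      rw [map_mul, map_mul, map_mul, map_inv, map_inv, ht, hσc]; group
    exact this
  have hna : ∃ g h : N, (h * g)⁻¹ * (g * h) ∉ A := by
    obtain ⟨u₁, hu₁⟩ : ∃ u₁ : Matrix.SpecialLinearGroup (Fin 2) F, u₁.1 = !![1, 1; 0, 1] :=
      ⟨⟨!![1, 1; 0, 1], by simp [Matrix.det_fin_two]⟩, rfl⟩
    obtain ⟨u₂, hu₂⟩ : ∃ u₂ : Matrix.SpecialLinearGroup (Fin 2) F, u₂.1 = !![1, 0; 1, 1] :=
      ⟨⟨!![1, 0; 1, 1], by simp [Matrix.det_fin_two]⟩, rfl⟩
    obtain ⟨g, hg⟩ := QuotientGroup.mk'_surjective A (e.symm u₁)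
    obtain ⟨h, hh⟩ := QuotientGroup.mk'_surjective A (e.symm u₂)
    refine ⟨g, h, fun hmem => ?_⟩
    have h1 : QuotientGroup.mk' A (h * g) = QuotientGroup.mk' A (g * h) := QuotientGroup.eq.2 hmem
    rw [map_mul, map_mul, hg, hh, ← map_mul, ← map_mul] at h1
    have h2 : u₂ * u₁ = u₁ * u₂ := e.symm.injective h1
    have h3 : (u₂ * u₁).1 0 0 = (u₁ * u₂).1 0 0 := by rw [h2]
    rw [Matrix.SpecialLinearGroup.coe_mul, Matrix.SpecialLinearGroup.coe_mul, hu₁, hu₂] at h3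
    simp [Matrix.mul_apply, Fin.sum_univ_two] at h3
  exact h8_split_inversion hp A hAc hAcard hAe hAself (t₀ ^ p) ht2 htA htc hna

end Cfsg.Agent.Lib.Helper8
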