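import Mathlib
import Cfsg.Agent.Lib.Helper8.ThreePrimes

set_option autoImplicit false

universe u

namespace Cfsg.Agent.Lib.Helper8

/-- An element of order `n` in a quotient lifts to an element of order `n`. -/
theorem h8_lift_order {G : Type*} [Group G] [Finite G] (N : Subgroup G) [N.Normal] (n : ℕ)
    (y : G ⧸ N) (h : orderOf y = n) : ∃ x : G, orderOf x = n := by
  obtain ⟨x, rfl⟩ := QuotientGroup.mk'_surjective N y
  have h1 : orderOf (QuotientGroup.mk' N x) ∣ orderOf x := orderOf_map_dvd _ x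
  rw [h] at h1
  obtain ⟨m, hm⟩ := h1
  have hpos : 0 < orderOf x := orderOf_pos x
  have hm0 : m ≠ 0 := by
    intro h0; rw [h0, mul_zero] at hm; omega
  refine ⟨x ^ m, ?_⟩
  rw [orderOf_pow_of_dvd hm0 (Dvd.intro_left n hm.symm), hm]
  exact Nat.mul_div_cancel _ (Nat.pos_of_ne_zero hm0)

theorem h8_dvd_of_dvd_pow_mul {q l k m c : ℕ} (hq : q.Prime) (hl : l.Prime) (hql : q ≠ l)
    (hc : l ^ k * m = c) (h : q ∣ c) : q ∣ m := by
  rw [← hc] at h
  rcases (Nat.Prime.dvd_mul hq).1 h with h1 | h1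
  · exact absurd ((Nat.prime_dvd_prime_iff_eq hq hl).1 (hq.dvd_of_dvd_pow h1)) hql
  · exact h1

/-- Minimal normal subgroup data inside a solvable normal subgroup. -/
theorem h8_exists_normal_pgroup {G : Type u} [Group G] [Finite G] (K : Subgroup G) [K.Normal]
    (hK : Group.IsSolvable K) (hK1 : K ≠ ⊥) :
    ∃ (N : Subgroup G) (l k : ℕ), l.Prime ∧ N.Normal ∧ N ≤ K ∧ Nat.card N = l ^ k ∧ k ≠ 0 := by
  have hKn : (⊤ : Subgroup G) ≤ Subgroup.normalizer (K : Set G) := by
    rw [Subgroup.normalizer_eq_top_iff.2 inferInstance]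
  obtain ⟨N, l, hl, hNK, hN1, -, hNn, hNp⟩ := h8_exists_inv_pgroup (⊤ : Subgroup G) K hKn hK hK1
  have hlf : Fact l.Prime := ⟨hl⟩
  obtain ⟨k, hk⟩ := IsPGroup.iff_card.1 hNp
  refine ⟨N, l, k, hl, Subgroup.normalizer_eq_top_iff.1 (top_le_iff.1 hNn), hNK, hk, ?_⟩
  intro h0
  rw [h0, pow_zero] at hk
  exact hN1 (Subgroup.card_eq_one.1 hk)

theorem h8_two_primes_series : ∀ (n : ℕ) {G : Type u} [Group G] [Finite G] (_ : Nat.card G = n)
    (K : Subgroup G) [K.Normal] (_ : Group.IsSolvable K)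
    (s t : ℕ) (_ : s.Prime) (_ : t.Prime) (_ : s ≠ t) (_ : s ∣ Nat.card K) (_ : t ∣ Nat.card G),
    (∃ x : G, orderOf x = s * t) ∨ ∃ M : Subgroup G, M.Normal ∧
      ((s ∣ Nat.card M ∧ t ∣ M.index) ∨ (t ∣ Nat.card M ∧ s ∣ M.index)) := by
  intro n
  induction n using Nat.strong_induction_on with
  | _ n ih =>
    intro G _ _ hn K _ hK s t hs ht hst hsK htG
    have hK1 : K ≠ ⊥ := by
      intro h
      rw [h, Subgroup.card_bot] at hsK
      exact hs.one_lt.ne' (Nat.dvd_one.1 hsK)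
    obtain ⟨N, l, k, hl, hNn, hNK, hNc, hk0⟩ := h8_exists_normal_pgroup K hK hK1
    have hNi : Nat.card N * N.index = Nat.card G := N.card_mul_index
    rw [hNc] at hNi
    have hsG : s ∣ Nat.card G := hsK.trans (Subgroup.card_subgroup_dvd_card K)
    by_cases hls : l = s
    · right
      refine ⟨N, hNn, Or.inl ⟨?_, ?_⟩⟩
      · rw [hNc, hls]; exact dvd_pow_self s hk0
      · exact h8_dvd_of_dvd_pow_mul ht hl (by rw [hls]; exact hst.symm) hNi htG
    by_cases hlt : l = t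
    · right
      refine ⟨N, hNn, Or.inr ⟨?_, ?_⟩⟩
      · rw [hNc, hlt]; exact dvd_pow_self t hk0
      · exact h8_dvd_of_dvd_pow_mul hs hl (by rw [hlt]; exact hst) hNi hsG
    -- pass to the quotient
    have hKc : Nat.card N * Nat.card (K.map (QuotientGroup.mk' N)) = Nat.card K :=
      Helper7.card_map_mk'_of_le N K hNK
    rw [hNc] at hKc
    have hsK' : s ∣ Nat.card (K.map (QuotientGroup.mk' N)) :=
      h8_dvd_of_dvd_pow_mul hs hl (Ne.symm hls) hKc hsK
    have htG' : t ∣ Nat.card (G ⧸ N) := by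
      rw [← Subgroup.index_eq_card]
      exact h8_dvd_of_dvd_pow_mul ht hl (Ne.symm hlt) hNi htG
    have hlt' : Nat.card (G ⧸ N) < n := by
      rw [← hn, ← Subgroup.index_eq_card, ← hNi]
      have h1 : 1 < l ^ k := Nat.one_lt_pow hk0 hl.one_lt
      have h2 : 0 < N.index := Nat.pos_of_ne_zero (Subgroup.index_ne_zero_of_finite)
      nlinarith
    have hK'n : (K.map (QuotientGroup.mk' N)).Normal :=
      Subgroup.Normal.map inferInstance _ (QuotientGroup.mk'_surjective N)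
    have hK's : Group.IsSolvable (K.map (QuotientGroup.mk' N)) :=
      Group.isSolvable_of_surjective (MonoidHom.subgroupMap_surjective (QuotientGroup.mk' N) K)
    rcases ih _ hlt' rfl (K.map (QuotientGroup.mk' N)) hK's s t hs ht hst hsK' htG' with
      ⟨y, hy⟩ | ⟨M', hM'n, hM'⟩
    · exact Or.inl (h8_lift_order N _ y hy)
    · right
      have hc : Nat.card (M'.comap (QuotientGroup.mk' N)) = Nat.card N * Nat.card M' :=
        Helper7.card_comap_mk' N M'
      have hi : (M'.comap (QuotientGroup.mk' N)).index = M'.index :=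
        Subgroup.index_comap_of_surjective M' (QuotientGroup.mk'_surjective N)
      refine ⟨M'.comap (QuotientGroup.mk' N), hM'n.comap _, ?_⟩
      rw [hc, hi]
      rcases hM' with ⟨h1, h2⟩ | ⟨h1, h2⟩
      · exact Or.inl ⟨Dvd.dvd.mul_left h1 _, h2⟩
      · exact Or.inr ⟨Dvd.dvd.mul_left h1 _, h2⟩

theorem h8_three_core {G : Type u} [Group G] [Finite G] (K : Subgroup G) [K.Normal]
    (hK : Group.IsSolvable K) (A : Subgroup G) [A.Normal] (l a b : ℕ) (hl : l.Prime)
    (ha : a.Prime) (hb : b.Prime) (hla : l ≠ a) (hlb : l ≠ b) (hab : a ≠ b)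
    (hlA : l ∣ Nat.card A) (haK : a ∣ Nat.card (K.map (QuotientGroup.mk' A)))
    (hbG : b ∣ A.index) :
    (∃ x : G, orderOf x = l * a) ∨ (∃ x : G, orderOf x = l * b) ∨ (∃ x : G, orderOf x = a * b) := by
  have hK'n : (K.map (QuotientGroup.mk' A)).Normal :=
    Subgroup.Normal.map inferInstance _ (QuotientGroup.mk'_surjective A)
  have hK's : Group.IsSolvable (K.map (QuotientGroup.mk' A)) :=
    Group.isSolvable_of_surjective (MonoidHom.subgroupMap_surjective (QuotientGroup.mk' A) K)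
  have hbG' : b ∣ Nat.card (G ⧸ A) := by rw [← Subgroup.index_eq_card]; exact hbG
  rcases h8_two_primes_series _ rfl (K.map (QuotientGroup.mk' A)) hK's a b ha hb hab haK hbG' with
    ⟨y, hy⟩ | ⟨M', hM'n, hM'⟩
  · exact Or.inr (Or.inr (h8_lift_order A _ y hy))
  · have hc : Nat.card (M'.comap (QuotientGroup.mk' A)) = Nat.card A * Nat.card M' :=
      Helper7.card_comap_mk' A M'
    have hi : (M'.comap (QuotientGroup.mk' A)).index = M'.index :=
      Subgroup.index_comap_of_surjective M' (QuotientGroup.mk'_surjective A)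
    have hMn : (M'.comap (QuotientGroup.mk' A)).Normal := hM'n.comap _
    have hAM : A ≤ M'.comap (QuotientGroup.mk' A) := Helper7.le_comap_mk' A M'
    have h1 : Nat.card (M'.comap (QuotientGroup.mk' A)) / Nat.card A = Nat.card M' := by
      rw [hc]; exact Nat.mul_div_cancel_left _ Nat.card_pos
    have h2 : Nat.card G / Nat.card (M'.comap (QuotientGroup.mk' A)) = M'.index := by
      rw [← hi, ← (M'.comap (QuotientGroup.mk' A)).card_mul_index]
      exact Nat.mul_div_cancel_left _ Nat.card_pos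
    rcases hM' with ⟨h3, h4⟩ | ⟨h3, h4⟩
    · exact h8_s3634 A (M'.comap (QuotientGroup.mk' A)) hAM l a b hl ha hb hla hlb hab hlA
        (by rw [h1]; exact h3) (by rw [h2]; exact h4)
    · rcases h8_s3634 A (M'.comap (QuotientGroup.mk' A)) hAM l b a hl hb ha hlb hla hab.symm hlA
        (by rw [h1]; exact h3) (by rw [h2]; exact h4) with h5 | h5 | ⟨x, hx⟩
      · exact Or.inr (Or.inl h5)
      · exact Or.inl h5
      · exact Or.inr (Or.inr ⟨x, by rw [hx, mul_comm]⟩)

theorem h8_three_solv : ∀ (n : ℕ) {G : Type u} [Group G] [Finite G] (_ : Nat.card G = n)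
    (K : Subgroup G) [K.Normal] (_ : Group.IsSolvable K)
    (r s t : ℕ) (_ : r.Prime) (_ : s.Prime) (_ : t.Prime) (_ : r ≠ s) (_ : r ≠ t) (_ : s ≠ t)
    (_ : r ∣ Nat.card K) (_ : s ∣ Nat.card K) (_ : t ∣ Nat.card G),
    (∃ x : G, orderOf x = r * s) ∨ (∃ x : G, orderOf x = r * t) ∨ (∃ x : G, orderOf x = s * t) := by
  intro n
  induction n using Nat.strong_induction_on with
  | _ n ih =>
    intro G _ _ hn K _ hK r s t hr hs ht hrs hrt hst hrK hsK htG
    have hK1 : K ≠ ⊥ := by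
      intro h
      rw [h, Subgroup.card_bot] at hsK
      exact hs.one_lt.ne' (Nat.dvd_one.1 hsK)
    obtain ⟨N, l, k, hl, hNn, hNK, hNc, hk0⟩ := h8_exists_normal_pgroup K hK hK1
    have hNi : Nat.card N * N.index = Nat.card G := N.card_mul_index
    have hKc : Nat.card N * Nat.card (K.map (QuotientGroup.mk' N)) = Nat.card K :=
      Helper7.card_map_mk'_of_le N K hNK
    have hlN : l ∣ Nat.card N := by rw [hNc]; exact dvd_pow_self l hk0
    rw [hNc] at hNi hKc
    have hsG : s ∣ Nat.card G := hsK.trans (Subgroup.card_subgroup_dvd_card K)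
    have hrG : r ∣ Nat.card G := hrK.trans (Subgroup.card_subgroup_dvd_card K)
    by_cases hlr : l = r
    · subst hlr
      exact h8_three_core K hK N l s t hl hs ht hrs hrt hst hlN
        (h8_dvd_of_dvd_pow_mul hs hl (Ne.symm hrs) hKc hsK)
        (h8_dvd_of_dvd_pow_mul ht hl (Ne.symm hrt) hNi htG)
    by_cases hls : l = s
    · subst hls
      rcases h8_three_core K hK N l r t hl hr ht (Ne.symm hrs) hst hrt hlN
        (h8_dvd_of_dvd_pow_mul hr hl hrs hKc hrK)
        (h8_dvd_of_dvd_pow_mul ht hl (Ne.symm hst) hNi htG) with ⟨x, hx⟩ | h5 | h5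
      · exact Or.inl ⟨x, by rw [hx, mul_comm]⟩
      · exact Or.inr (Or.inr h5)
      · exact Or.inr (Or.inl h5)
    by_cases hlt : l = t
    · subst hlt
      rcases h8_three_core K hK N l r s hl hr hs (Ne.symm hrt) (Ne.symm hst) hrs hlN
        (h8_dvd_of_dvd_pow_mul hr hl hrt hKc hrK)
        (h8_dvd_of_dvd_pow_mul hs hl hst hNi hsG) with ⟨x, hx⟩ | ⟨x, hx⟩ | h5
      · exact Or.inr (Or.inl ⟨x, by rw [hx, mul_comm]⟩)
      · exact Or.inr (Or.inr ⟨x, by rw [hx, mul_comm]⟩)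
      · exact Or.inl h5
    -- pass to the quotient
    have hrK' : r ∣ Nat.card (K.map (QuotientGroup.mk' N)) :=
      h8_dvd_of_dvd_pow_mul hr hl (Ne.symm hlr) hKc hrK
    have hsK' : s ∣ Nat.card (K.map (QuotientGroup.mk' N)) :=
      h8_dvd_of_dvd_pow_mul hs hl (Ne.symm hls) hKc hsK
    have htG' : t ∣ Nat.card (G ⧸ N) := by
      rw [← Subgroup.index_eq_card]
      exact h8_dvd_of_dvd_pow_mul ht hl (Ne.symm hlt) hNi htG
    have hlt' : Nat.card (G ⧸ N) < n := by
      rw [← hn, ← Subgroup.index_eq_card, ← hNi]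
      have h1 : 1 < l ^ k := Nat.one_lt_pow hk0 hl.one_lt
      have h2 : 0 < N.index := Nat.pos_of_ne_zero (Subgroup.index_ne_zero_of_finite)
      nlinarith
    have hK'n : (K.map (QuotientGroup.mk' N)).Normal :=
      Subgroup.Normal.map inferInstance _ (QuotientGroup.mk'_surjective N)
    have hK's : Group.IsSolvable (K.map (QuotientGroup.mk' N)) :=
      Group.isSolvable_of_surjective (MonoidHom.subgroupMap_surjective (QuotientGroup.mk' N) K)
    rcases ih _ hlt' rfl (K.map (QuotientGroup.mk' N)) hK's r s t hr hs ht hrs hrt hst hrK' hsK'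
      htG' with ⟨y, hy⟩ | ⟨y, hy⟩ | ⟨y, hy⟩
    · exact Or.inl (h8_lift_order N _ y hy)
    · exact Or.inr (Or.inl (h8_lift_order N _ y hy))
    · exact Or.inr (Or.inr (h8_lift_order N _ y hy))

theorem h8_s3633 {G : Type u} [Group G] [Finite G] (ρ : Finset ℕ) (hρ : 3 ≤ ρ.card)
    (hc : ((∀ r ∈ ρ, r.Prime ∧ r ∣ Nat.card G) ∧
      (∀ r ∈ ρ, ∀ s ∈ ρ, r ≠ s → ¬ ∃ x : G, orderOf x = r * s)))
    (K : Subgroup G) [K.Normal] (hK : Group.IsSolvable ↥K) :
    (∀ r ∈ ρ, ∀ s ∈ ρ, r ∣ Nat.card ↥K → s ∣ Nat.card ↥K → r = s) ∧ ¬ Group.IsSolvable G := by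
  obtain ⟨hc1, hc2⟩ := hc
  obtain ⟨a, ha, b, hb, c, hc', hab, hac, hbc⟩ := Finset.two_lt_card.1 hρ
  constructor
  · intro r hr s hs hrK hsK
    by_contra hrs
    have h3 : (a ≠ r ∧ a ≠ s) ∨ (b ≠ r ∧ b ≠ s) ∨ (c ≠ r ∧ c ≠ s) := by omega
    obtain ⟨t, ht, htr, hts⟩ : ∃ t ∈ ρ, t ≠ r ∧ t ≠ s := by
      rcases h3 with h | h | h
      · exact ⟨a, ha, h⟩
      · exact ⟨b, hb, h⟩
      · exact ⟨c, hc', h⟩
    rcases h8_three_solv _ rfl K hK r s t (hc1 r hr).1 (hc1 s hs).1 (hc1 t ht).1 hrs (Ne.symm htr)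
      (Ne.symm hts) hrK hsK (hc1 t ht).2 with h | h | h
    · exact hc2 r hr s hs hrs h
    · exact hc2 r hr t ht (Ne.symm htr) h
    · exact hc2 s hs t ht (Ne.symm hts) h
  · intro hG
    have hT : Group.IsSolvable (⊤ : Subgroup G) := inferInstance
    have hcard : Nat.card (⊤ : Subgroup G) = Nat.card G := Subgroup.card_top
    rcases h8_three_solv _ rfl (⊤ : Subgroup G) hT a b c (hc1 a ha).1 (hc1 b hb).1 (hc1 c hc').1
      hab hac hbc (by rw [hcard]; exact (hc1 a ha).2) (by rw [hcard]; exact (hc1 b hb).2)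
      (hc1 c hc').2 with h | h | h
    · exact hc2 a ha b hb hab h
    · exact hc2 a ha c hc' hac h
    · exact hc2 b hb c hc' hbc h

end Cfsg.Agent.Lib.Helper8
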