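import Mathlib.GroupTheory.Transfer
import Mathlib.GroupTheory.Abelianization.Defs

set_option autoImplicit false

namespace Cfsg.Agent.Lib.Helper8

open MonoidHom Subgroup MulAction

variable {G : Type*} [Group G]

/-- transfer evaluated at `g ∈ H` when all conjugates of powers of `g` landing in `H` have
the same image as the power itself -/
theorem h8_transfer_eq_pow_of_congr {H : Subgroup G} [H.FiniteIndex] {A : Type*} [CommGroup A]
    (ϕ : H →* A) (g : G) (hg : g ∈ H)
    (key : ∀ (k : ℕ) (g₀ : G) (hk : g₀⁻¹ * g ^ k * g₀ ∈ H),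
      ϕ ⟨g₀⁻¹ * g ^ k * g₀, hk⟩ = ϕ ⟨g, hg⟩ ^ k) :
    transfer ϕ g = ϕ ⟨g, hg⟩ ^ H.index := by
  classical
  letI := H.fintypeQuotientOfFiniteIndex
  rw [transfer_eq_prod_quotient_orbitRel_zpowers_quot]
  have : ∀ q : Quotient (orbitRel (zpowers g) (G ⧸ H)),
      ϕ ⟨q.out.out⁻¹ * g ^ Function.minimalPeriod (g • ·) q.out * q.out.out,
          QuotientGroup.out_conj_pow_minimalPeriod_mem H g q.out⟩ =
        ϕ ⟨g, hg⟩ ^ Function.minimalPeriod (g • ·) q.out := fun q => key _ _ _
  rw [Finset.prod_congr rfl (fun q _ => this q), Finset.prod_pow_eq_pow_sum,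
    ← index_eq_sum_minimalPeriod H g]

/-- a group without subgroups of index 2 has no nontrivial homomorphism to a finite 2-group -/
theorem h8_hom_to_two_group_trivial [Finite G] (hG : ∀ H : Subgroup G, H.index ≠ 2)
    {A : Type*} [Group A] [Finite A] (hA : IsPGroup 2 A) (f : G →* A) (g : G) : f g = 1 := by
  by_contra hne
  have hR : IsPGroup 2 f.range := hA.to_subgroup _
  obtain ⟨n, hn⟩ := IsPGroup.iff_card.1 hR
  have hn0 : n ≠ 0 := by
    rintro rfl
    have h1 : Nat.card f.range = 1 := by simpa using hn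
    have h2 := (Subgroup.card_eq_one).1 h1
    have h3 : f g ∈ f.range := ⟨g, rfl⟩
    rw [h2, Subgroup.mem_bot] at h3
    exact hne h3
  haveI : Fact (Nat.Prime 2) := ⟨Nat.prime_two⟩
  obtain ⟨K, hK⟩ := Sylow.exists_subgroup_card_pow_prime (G := f.range) 2 (n := n - 1)
    (by rw [hn]; exact pow_dvd_pow 2 (Nat.sub_le n 1))
  have hidx : K.index = 2 := by
    have h1 := K.card_mul_index
    rw [hK, hn] at h1
    have e : 2 ^ n = 2 ^ (n - 1) * 2 := by
      rw [← pow_succ]; congr 1; omega
    rw [e] at h1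
    exact Nat.eq_of_mul_eq_mul_left (by positivity) h1
  have h2 := Subgroup.index_comap_of_surjective K f.rangeRestrict_surjective
  exact hG _ (h2.trans hidx)

end Cfsg.Agent.Lib.Helper8
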