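import Mathlib
import Cfsg.Agent.Lib.Helper8.SL2Syl2

set_option autoImplicit false
set_option linter.style.haveILetI false
set_option linter.unusedSectionVars false
set_option linter.unusedVariables false

universe u

namespace Cfsg.Agent.Lib.Helper8

open Matrix

theorem h8_mem_sup_of_commute {G : Type*} [Group G] (L₁ L₂ : Subgroup G)
    (hc : ∀ x ∈ L₁, ∀ y ∈ L₂, x * y = y * x) (y : G) (hy : y ∈ L₁ ⊔ L₂) :
    ∃ y₁ ∈ L₁, ∃ y₂ ∈ L₂, y = y₁ * y₂ := by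
  let K : Subgroup G :=
    { carrier := {y | ∃ y₁ ∈ L₁, ∃ y₂ ∈ L₂, y = y₁ * y₂}
      mul_mem' := by
        rintro a b ⟨a₁, ha₁, a₂, ha₂, rfl⟩ ⟨b₁, hb₁, b₂, hb₂, rfl⟩
        refine ⟨a₁ * b₁, L₁.mul_mem ha₁ hb₁, a₂ * b₂, L₂.mul_mem ha₂ hb₂, ?_⟩
        calc a₁ * a₂ * (b₁ * b₂) = a₁ * (a₂ * b₁) * b₂ := by group
          _ = a₁ * (b₁ * a₂) * b₂ := by rw [hc b₁ hb₁ a₂ ha₂]
          _ = a₁ * b₁ * (a₂ * b₂) := by group
      one_mem' := ⟨1, L₁.one_mem, 1, L₂.one_mem, by group⟩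
      inv_mem' := by
        rintro a ⟨a₁, ha₁, a₂, ha₂, rfl⟩
        refine ⟨a₁⁻¹, L₁.inv_mem ha₁, a₂⁻¹, L₂.inv_mem ha₂, ?_⟩
        rw [_root_.mul_inv_rev, hc a₁⁻¹ (L₁.inv_mem ha₁) a₂⁻¹ (L₂.inv_mem ha₂)] }
  have h1 : L₁ ⊔ L₂ ≤ K :=
    sup_le (fun a ha => ⟨a, ha, 1, L₂.one_mem, by group⟩)
      (fun a ha => ⟨1, L₁.one_mem, a, ha, by group⟩)
  exact h1 hy

section
variable {F : Type u} [Field F]

local notation "SLF" => Matrix.SpecialLinearGroup (Fin 2) F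
local notation "MF" => Matrix (Fin 2) (Fin 2) F

/-- the facts about a subgroup isomorphic to `SL₂(q)`, `q` odd, used for involutions -/
theorem h8_sl2iso_facts {G : Type*} [Group G] [Fintype F] (hF : Odd (Fintype.card F))
    (L : Subgroup G) (e : ↥L ≃* SLF) :
    ∃ z ∈ L, z ≠ 1 ∧ z * z = 1 ∧ (∀ y ∈ L, y * y = 1 → y = 1 ∨ y = z) ∧
      ∃ x ∈ L, x * x = z ∧ ∀ y ∈ L, y * y = z → ∃ g ∈ L, g * x * g⁻¹ = y := by
  have hodd' : Fintype.card F % 2 = 1 := Nat.odd_iff.mp hF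
  have hFc : ringChar F ≠ 2 := by
    intro h0
    have := FiniteField.even_card_iff_char_two.mp h0
    omega
  have h2 : (2 : F) ≠ 0 := Ring.two_ne_zero hFc
  obtain ⟨A, hA⟩ : ∃ A : SLF, (A : MF) = !![0, 1; -1, 0] :=
    ⟨⟨!![0, 1; -1, 0], by rw [Matrix.det_fin_two_of]; ring⟩, rfl⟩
  have hAA : A * A = h8negOne := by
    apply Subtype.ext
    rw [Matrix.SpecialLinearGroup.coe_mul, hA, Matrix.mul_fin_two]
    show _ = (!![-1, 0; 0, -1] : MF)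
    refine h8_fin_two_congr ?_ ?_ ?_ ?_ <;> ring
  have htrA : Matrix.trace (A : MF) = 0 := by rw [hA, Matrix.trace_fin_two_of]; ring
  have hregA : Matrix.trace (A : MF) * Matrix.trace (A : MF) ≠ 4 := by
    rw [htrA, mul_zero]
    intro h
    apply h2
    have h5 : (2 : F) * 2 = 0 := by linear_combination -h
    exact mul_self_eq_zero.mp h5
  refine ⟨((e.symm h8negOne : L) : G), (e.symm h8negOne).2, ?_, ?_, ?_,
    ((e.symm A : L) : G), (e.symm A).2, ?_, ?_⟩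
  · intro h
    have h5 : e.symm h8negOne = 1 := Subtype.ext h
    have h6 : (h8negOne : SLF) = 1 := by
      have h7 := congrArg e h5
      rwa [MulEquiv.apply_symm_apply, map_one] at h7
    exact h8negOne_ne_one h2 h6
  · have h5 : e.symm h8negOne * e.symm h8negOne = 1 := by
      rw [← map_mul, h8negOne_mul_self, map_one]
    exact congrArg Subtype.val h5
  · intro y hy hyy
    have h5 : e ⟨y, hy⟩ * e ⟨y, hy⟩ = 1 := by
      rw [← map_mul]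
      have h7 : (⟨y, hy⟩ : L) * ⟨y, hy⟩ = 1 := Subtype.ext hyy
      rw [h7, map_one]
    rcases h8_sl2_sq_one h2 _ h5 with h | h
    · left
      have h6 : (⟨y, hy⟩ : L) = 1 := by
        have h7 := congrArg e.symm h
        rwa [MulEquiv.symm_apply_apply, map_one] at h7
      exact congrArg Subtype.val h6
    · right
      have h6 : (⟨y, hy⟩ : L) = e.symm h8negOne := by
        have h7 := congrArg e.symm h
        rwa [MulEquiv.symm_apply_apply] at h7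
      exact congrArg Subtype.val h6
  · have h5 : e.symm A * e.symm A = e.symm h8negOne := by rw [← map_mul, hAA]
    exact congrArg Subtype.val h5
  · intro y hy hyy
    have h5 : e ⟨y, hy⟩ * e ⟨y, hy⟩ = h8negOne := by
      rw [← map_mul]
      have h7 : (⟨y, hy⟩ : L) * ⟨y, hy⟩ = e.symm h8negOne := Subtype.ext hyy
      rw [h7, MulEquiv.apply_symm_apply]
    have htr : Matrix.trace ((e ⟨y, hy⟩ : SLF) : MF) = Matrix.trace (A : MF) := by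
      rw [htrA]; exact h8_sl2_trace_zero_of_sq h2 _ h5
    have hmem : e ⟨y, hy⟩ ∈ {h : SLF | IsConj A h} := by
      rw [h8_sl2_odd_class_set hodd' h2 A hregA]; exact htr
    obtain ⟨C, hC⟩ := isConj_iff.mp hmem
    refine ⟨((e.symm C : L) : G), (e.symm C).2, ?_⟩
    have h6 : e.symm C * e.symm A * (e.symm C)⁻¹ = ⟨y, hy⟩ := by
      rw [← map_inv, ← map_mul, ← map_mul, hC, MulEquiv.symm_apply_apply]
    exact congrArg Subtype.val h6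

end

theorem h8_s3209 {G : Type*} [Group G] [Finite G]
    {F₁ : Type*} [Field F₁] [Fintype F₁] {F₂ : Type*} [Field F₂] [Fintype F₂]
    (hF₁ : Odd (Fintype.card F₁)) (hF₂ : Odd (Fintype.card F₂)) (L₁ L₂ : Subgroup G)
    (e₁ : ↥L₁ ≃* Matrix.SpecialLinearGroup (Fin 2) F₁)
    (e₂ : ↥L₂ ≃* Matrix.SpecialLinearGroup (Fin 2) F₂)
    (hc : ∀ x ∈ L₁, ∀ y ∈ L₂, x * y = y * x) (j : G) (hj : orderOf j = 2)
    (hm : L₁ ⊓ L₂ = Subgroup.zpowers j) :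
    ∃ x ∈ L₁ ⊔ L₂, orderOf x = 2 ∧ x ≠ j ∧
      ∀ y ∈ L₁ ⊔ L₂, orderOf y = 2 → y = j ∨ ∃ g ∈ L₁ ⊔ L₂, g * x * g⁻¹ = y := by
  classical
  obtain ⟨z₁, hz₁L, hz₁1, hz₁z, hu₁, x₁, hx₁L, hx₁z, hconj₁⟩ := h8_sl2iso_facts hF₁ L₁ e₁
  obtain ⟨z₂, hz₂L, hz₂1, hz₂z, hu₂, x₂, hx₂L, hx₂z, hconj₂⟩ := h8_sl2iso_facts hF₂ L₂ e₂
  have hjmem : j ∈ L₁ ⊓ L₂ := by rw [hm]; exact Subgroup.mem_zpowers j
  have hj1 : j ≠ 1 := by
    rintro rfl
    rw [orderOf_one] at hj; omega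
  have hjj : j * j = 1 := by rw [← pow_two, ← hj]; exact pow_orderOf_eq_one j
  have hjz₁ : j = z₁ := by
    rcases hu₁ j hjmem.1 hjj with h | h
    · exact absurd h hj1
    · exact h
  have hjz₂ : j = z₂ := by
    rcases hu₂ j hjmem.2 hjj with h | h
    · exact absurd h hj1
    · exact h
  rw [← hjz₁] at hx₁z hconj₁ hu₁
  rw [← hjz₂] at hx₂z hconj₂ hu₂
  have hint : ∀ t : G, t ∈ L₁ → t ∈ L₂ → t = 1 ∨ t = j := by
    intro t h1 h2'
    have h5 : t ∈ Subgroup.zpowers j := by rw [← hm]; exact ⟨h1, h2'⟩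
    obtain ⟨i, rfl⟩ := Subgroup.mem_zpowers_iff.mp h5
    apply hu₁ _ h1
    rw [← _root_.zpow_add, ← two_mul, _root_.zpow_mul, zpow_two, hjj, _root_.one_zpow]
  have hx₁n : x₁ ∉ L₂ := by
    intro h6
    rcases hint x₁ hx₁L h6 with h7 | h7
    · rw [h7, one_mul] at hx₁z; exact hj1 hx₁z.symm
    · rw [h7, hjj] at hx₁z; exact hj1 hx₁z.symm
  refine ⟨x₁ * x₂, Subgroup.mul_mem _ (Subgroup.mem_sup_left hx₁L) (Subgroup.mem_sup_right hx₂L),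
    ?_, ?_, ?_⟩
  · have hxx : (x₁ * x₂) * (x₁ * x₂) = 1 := by
      calc (x₁ * x₂) * (x₁ * x₂) = x₁ * (x₂ * x₁) * x₂ := by group
        _ = x₁ * (x₁ * x₂) * x₂ := by rw [hc x₁ hx₁L x₂ hx₂L]
        _ = (x₁ * x₁) * (x₂ * x₂) := by group
        _ = 1 := by rw [hx₁z, hx₂z, hjj]
    have hne : x₁ * x₂ ≠ 1 := by
      intro h
      apply hx₁n
      have h5 : x₁ = x₂⁻¹ := eq_inv_of_mul_eq_one_left h
      rw [h5]; exact L₂.inv_mem hx₂L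
    exact orderOf_eq_prime (by rw [pow_two]; exact hxx) hne
  · intro h
    apply hx₁n
    have h5 : x₁ = j * x₂⁻¹ := by rw [← h]; group
    rw [h5]; exact L₂.mul_mem hjmem.2 (L₂.inv_mem hx₂L)
  · intro y hy hoy
    obtain ⟨y₁, hy₁, y₂, hy₂, rfl⟩ := h8_mem_sup_of_commute L₁ L₂ hc y hy
    have hyy : (y₁ * y₂) * (y₁ * y₂) = 1 := by
      rw [← pow_two, ← hoy]; exact pow_orderOf_eq_one _
    have h5 : (y₁ * y₁) * (y₂ * y₂) = 1 := by
      calc (y₁ * y₁) * (y₂ * y₂) = y₁ * (y₁ * y₂) * y₂ := by group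
        _ = y₁ * (y₂ * y₁) * y₂ := by rw [hc y₁ hy₁ y₂ hy₂]
        _ = (y₁ * y₂) * (y₁ * y₂) := by group
        _ = 1 := hyy
    have h6 : y₁ * y₁ = (y₂ * y₂)⁻¹ := eq_inv_of_mul_eq_one_left h5
    have h7 : y₁ * y₁ ∈ L₂ := by rw [h6]; exact L₂.inv_mem (L₂.mul_mem hy₂ hy₂)
    rcases hint (y₁ * y₁) (L₁.mul_mem hy₁ hy₁) h7 with h8 | h8
    · left
      have h9 : y₂ * y₂ = 1 := by rw [h8, one_mul] at h5; exact h5
      rcases hu₁ y₁ hy₁ h8 with ha | ha <;> rcases hu₂ y₂ hy₂ h9 with hb | hb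
      · exfalso; rw [ha, hb, one_mul, orderOf_one] at hoy; omega
      · rw [ha, hb, one_mul]
      · rw [ha, hb, mul_one]
      · exfalso; rw [ha, hb, hjj, orderOf_one] at hoy; omega
    · right
      have h9 : y₂ * y₂ = j := by
        rw [h8] at h5
        have h10 : y₂ * y₂ = j⁻¹ := eq_inv_of_mul_eq_one_right h5
        rw [h10]; exact inv_eq_of_mul_eq_one_left hjj
      obtain ⟨g₁, hg₁, hgy₁⟩ := hconj₁ y₁ hy₁ h8
      obtain ⟨g₂, hg₂, hgy₂⟩ := hconj₂ y₂ hy₂ h9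
      refine ⟨g₁ * g₂,
        Subgroup.mul_mem _ (Subgroup.mem_sup_left hg₁) (Subgroup.mem_sup_right hg₂), ?_⟩
      rw [← hgy₁, ← hgy₂]
      calc g₁ * g₂ * (x₁ * x₂) * (g₁ * g₂)⁻¹ = g₁ * (g₂ * x₁) * x₂ * g₂⁻¹ * g₁⁻¹ := by group
        _ = g₁ * (x₁ * g₂) * x₂ * g₂⁻¹ * g₁⁻¹ := by rw [hc x₁ hx₁L g₂ hg₂]
        _ = g₁ * x₁ * ((g₂ * x₂ * g₂⁻¹) * g₁⁻¹) := by group
        _ = g₁ * x₁ * (g₁⁻¹ * (g₂ * x₂ * g₂⁻¹)) := by
            rw [hc g₁⁻¹ (L₁.inv_mem hg₁) (g₂ * x₂ * g₂⁻¹)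
              (L₂.mul_mem (L₂.mul_mem hg₂ hx₂L) (L₂.inv_mem hg₂))]
        _ = g₁ * x₁ * g₁⁻¹ * (g₂ * x₂ * g₂⁻¹) := by group

end Cfsg.Agent.Lib.Helper8
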